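import Cfsg.Agent.H65.AlDefs
import Mathlib.GroupTheory.Perm.ViaEmbedding

/-! Transport of permutations along an injection, and local frames of the model. -/

set_option autoImplicit false
set_option linter.unusedSectionVars false

namespace Cfsg.Agent.H65.Alt

open Subgroup Equiv Cfsg.Agent.H49 Cfsg.Agent.ALT

section tr
variable {X Y : Type*} [Fintype X] [DecidableEq X] [Fintype Y] [DecidableEq Y] {v : Y → X}
  (hv : Function.Injective v)

/-- transport of permutations along an injection -/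
noncomputable def m0T : Perm Y →* Perm X := Perm.viaEmbeddingHom ⟨v, hv⟩

theorem m0_ap (σ : Perm Y) (i : Y) : m0T hv σ (v i) = v (σ i) :=
  Perm.viaEmbedding_apply σ ⟨v, hv⟩ i

theorem m0_out (σ : Perm Y) {x : X} (hx : ∀ i, v i ≠ x) : m0T hv σ x = x :=
  Perm.viaEmbedding_apply_of_notMem σ ⟨v, hv⟩ x fun ⟨i, e⟩ => hx i e

theorem m0_inj : Function.Injective (m0T hv) := Perm.viaEmbeddingHom_injective _

theorem m0_eq {w : Perm X} {ξ : Perm Y} (h : ∀ i, w (v i) = v (ξ i))
    (h' : ∀ x, (∀ i, v i ≠ x) → w x = x) : w = m0T hv ξ := by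
  ext x : 1
  by_cases e : ∃ l, v l = x
  · obtain ⟨l, rfl⟩ := e
    rw [m0_ap, h]
  · push Not at e
    rw [m0_out hv _ e, h' x e]

theorem m0_swap (i j : Y) : m0T hv (swap i j) = swap (v i) (v j) :=
  (m0_eq hv (fun l => hv.swap_apply i j l) fun _ h =>
    swap_apply_of_ne_of_ne (h i).symm (h j).symm).symm

theorem m0_sign (σ : Perm Y) : Perm.sign (m0T hv σ) = Perm.sign σ := by
  induction σ using Perm.swap_induction_on with
  | one => simp
  | swap_mul f x y h ih =>
    rw [map_mul, map_mul, map_mul, ih, m0_swap, Perm.sign_swap h, Perm.sign_swap (hv.ne h)]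

theorem m0_conj {w : Perm X} {ξ : Perm Y} (h : ∀ i, w (v i) = v (ξ i)) (σ : Perm Y) :
    w * m0T hv σ * w⁻¹ = m0T hv (ξ * σ * ξ⁻¹) := by
  have h1 : ∀ i, w⁻¹ (v i) = v (ξ⁻¹ i) := fun i => by rw [Perm.inv_eq_iff_eq, h]; simp
  refine m0_eq hv (fun i => ?_) fun x hx => ?_
  · rw [Perm.mul_apply, Perm.mul_apply, h1, m0_ap, h]; rfl
  · rw [Perm.mul_apply, Perm.mul_apply, m0_out hv _ fun i e => hx (ξ i) (by rw [← h, e]; simp)]
    simp

theorem m0_card (σ : Perm Y) : (m0T hv σ).support.card = σ.support.card := by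
  rw [← Finset.card_map ⟨v, hv⟩]
  congr 1
  ext x
  by_cases e : ∃ l, v l = x
  · obtain ⟨l, rfl⟩ := e
    simp [m0_ap, hv.eq_iff]
  · push Not at e
    simp [m0_out hv _ e, e]

/-- the transported even permutation -/
noncomputable def m0A (σ : Perm Y) (h : Perm.sign σ = 1) : alternatingGroup X :=
  ⟨m0T hv σ, Perm.mem_alternatingGroup.2 ((m0_sign hv σ).trans h)⟩

theorem m0_fx {w : alternatingGroup X} {ξ : Perm Y} (h : ∀ i, w.1 (v i) = v (ξ i)) {σ : Perm Y}
    (hσ : Perm.sign σ = 1) (e : ξ * σ * ξ⁻¹ = σ) : Fx (m0A hv σ hσ) w :=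
  fx_symm (Subtype.ext ((m0_conj hv h σ).trans (congrArg _ e)))

include hv in
/-- restriction to an invariant subset -/
theorem m0_res {H : Type*} [Group H] (φ : H →* Perm X) (h : ∀ g i, ∃ j, φ g (v i) = v j) :
    ∃ r : H →* Perm Y, ∀ g i, φ g (v i) = v (r g i) := by
  choose f hf using h
  let _ : MulAction H Y :=
    { smul := f
      one_smul := fun i => hv (by show v (f 1 i) = _; rw [← hf, map_one]; rfl)
      mul_smul := fun a b i => hv (by
        show v (f (a * b) i) = v (f a (f b i))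
        rw [← hf, ← hf, ← hf, map_mul]; rfl) }
  exact ⟨MulAction.toPermHom H Y, hf⟩

end tr

variable {ι : Type*} [Fintype ι] [DecidableEq ι] {q : ℕ}

/-- the `j`-th block -/
def fr4 (q : ℕ) (j : ι) (x : ZMod 4) : Pt ι q := Sum.inl (j, x)

theorem fr4_inj (j : ι) : Function.Injective (fr4 q j) := fun _ _ e => by simpa [fr4] using e

/-- the `j`-th block and two points of the tail -/
def fr6 (q : ℕ) (j : ι) : ZMod 4 ⊕ Fin 2 → Pt ι q :=
  Sum.map (fun x => (j, x)) (Fin.castLE (Nat.le_add_left 2 q))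

theorem fr6_inj (j : ι) : Function.Injective (fr6 q j) :=
  Function.Injective.sumMap (fun _ _ e => by simpa using e) (Fin.castLE_injective _)

/-- the action on the frame -/
def lc (u : D8) (ε : ℤˣ) : Perm (ZMod 4 ⊕ Fin 2) :=
  Perm.sumCongr (ALT.rho u) (if ε = 1 then 1 else swap 0 1)

theorem th_fr6 (d : ι → D8) (j : ι) (p : ZMod 4 ⊕ Fin 2) :
    (thA ι q d).1 (fr6 q j p) = fr6 q j (lc (d j) (Perm.sign (blk d)) p) := by
  rcases p with x | y
  · rfl
  · refine (thP_inr d _).trans (congrArg Sum.inr ?_)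
    show _ = Fin.castLE _ ((if Perm.sign (blk d) = 1 then 1 else swap 0 1 : Perm (Fin 2)) y)
    split_ifs
    · rfl
    · exact (Fin.castLE_injective (Nat.le_add_left 2 q)).swap_apply 0 1 y

theorem sign_single (j : ι) (u : D8) :
    Perm.sign (blk (Pi.mulSingle j u : ι → D8)) = Perm.sign (ALT.rho u) := by
  rw [sign_blk, Finset.prod_eq_single j (fun l _ h => by simp [h]) (by simp)]
  simp

theorem at1_inl (j : ι) (u : D8) (x : ZMod 4) :
    (at1 (thA ι q) j u).1 (Sum.inl (j, x)) = Sum.inl (j, act u x) := by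
  rw [at1, coe_thA, thP_inl, Pi.mulSingle_eq_same]

theorem at1_inl_ne {j l : ι} (h : l ≠ j) (u : D8) (x : ZMod 4) :
    (at1 (thA ι q) j u).1 (Sum.inl (l, x)) = Sum.inl (l, x) := by
  rw [at1, coe_thA, thP_inl, Pi.mulSingle_eq_of_ne h, act_one]

theorem at1_fr6 (j : ι) (u : D8) :
    (at1 (thA ι q) j u).1 = m0T (fr6_inj j) (lc u (Perm.sign (ALT.rho u))) := by
  refine m0_eq _ (fun p => ?_) ?_
  · rw [at1, th_fr6, sign_single, Pi.mulSingle_eq_same]
  · rintro (⟨l, x⟩ | y) h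
    · exact at1_inl_ne (fun e => h (Sum.inl x) (by rw [e]; rfl)) u x
    · rw [at1, coe_thA, thP_inr, swap_apply_of_ne_of_ne (fun e => h (Sum.inr 0) (by rw [e]; rfl))
        fun e => h (Sum.inr 1) (by rw [e]; rfl), ite_self]

theorem at1_fr4 (j : ι) {u : D8} (hu : u ∈ V0) :
    (at1 (thA ι q) j u).1 = m0T (fr4_inj j) (ALT.rho u) := by
  refine m0_eq _ (at1_inl j u) ?_
  rintro (⟨l, x⟩ | y) h
  · exact at1_inl_ne (fun e => h x (by rw [e]; rfl)) u x
  · rw [at1, coe_thA, thP_inr, sign_single, if_pos (sign_V0 u hu)]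

/-- conjugation of `Vⱼ` by an element acting on the `j`-th block -/
theorem conj_at1 {j : ι} {h : alternatingGroup (Pt ι q)} {u : D8}
    (hu : ∀ x, h.1 (Sum.inl (j, x)) = Sum.inl (j, act u x)) {w : D8} (hw : w ∈ V0) :
    h * at1 (thA ι q) j w * h⁻¹ = at1 (thA ι q) j (u * w * u⁻¹) := Subtype.ext (by
  rw [at1_fr4 j (V0_conj u w hw), map_mul ALT.rho, map_mul ALT.rho, map_inv ALT.rho,
    ← m0_conj (fr4_inj j) (w := h.1) (ξ := ALT.rho u) hu, ← at1_fr4 j hw]
  rfl)

end Cfsg.Agent.H65.Alt
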