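import Cfsg.Agent.H65.AlMod0

set_option autoImplicit false
set_option linter.unusedSectionVars false

namespace Cfsg.Agent.H65.Alt

open Subgroup Equiv Cfsg.Agent.H49 Cfsg.Agent.ALT
open Cfsg.Agent.SAN (An Four KK NN cA)

variable {ι : Type*} [Fintype ι] [DecidableEq ι] {q : ℕ}

/-- the points moved by `z_s` -/
def mb_v (q : ℕ) (s : Finset ι) (p : s × ZMod 4) : Pt ι q := Sum.inl (p.1.1, p.2)

theorem mb_v_inj (s : Finset ι) : Function.Injective (mb_v q s) := fun a b e => by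
  simp only [mb_v, Sum.inl.injEq, Prod.mk.injEq] at e
  exact Prod.ext (Subtype.ext e.1) e.2

theorem mb_moved {s : Finset ι} {p : Pt ι q} : (zs (thA ι q) s).1 p ≠ p ↔ ∃ j, p = mb_v q s j := by
  constructor
  · rcases p with ⟨l, x⟩ | y
    · intro h
      rw [zs_inl] at h
      exact ⟨(⟨l, by_contra fun e => h (by rw [if_neg e])⟩, x), rfl⟩
    · exact fun h => absurd (zs_inr s y) h
  · rintro ⟨⟨l, x⟩, rfl⟩ e
    rw [mb_v, zs_inl, if_pos l.2] at e
    exact (by decide : ∀ x : ZMod 4, x + 2 ≠ x) x (by simpa using e)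

theorem mb_res (s : Finset ι) : ∃ r : 𝒞[zs (thA ι q) s] →* Perm (s × ZMod 4),
    ∀ (g : 𝒞[zs (thA ι q) s]) (d : ι → D8), g.1 = thA ι q d → r g = blk fun i : s => d i := by
  obtain ⟨r, hr⟩ := m0_res (mb_v_inj (q := q) s)
    ((alternatingGroup _).subtype.comp 𝒞[zs (thA ι q) s].subtype) fun g i => mb_moved.1 fun e =>
      mb_moved.2 ⟨i, rfl⟩ (g.1.1.injective ((fx_coe.1 (fx_iff_mem.2 g.2) _).trans e))
  refine ⟨r, fun g d e => Equiv.ext fun p => mb_v_inj (q := q) s ?_⟩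
  rw [← hr]
  show g.1.1 _ = _
  rw [e]
  rfl

theorem mb_single {s : Finset ι} {i : ι} (hi : i ∈ s) (u : D8) :
    (fun l : s => (Pi.mulSingle i u : ι → D8) l) = Pi.mulSingle ⟨i, hi⟩ u := by
  funext l
  by_cases e : l = ⟨i, hi⟩
  · subst e; simp
  · rw [Pi.mulSingle_eq_of_ne e, Pi.mulSingle_eq_of_ne fun e' => e (Subtype.ext e')]

theorem mb_K {G : Type*} [Group G] [Finite G] {H : Subgroup G} (ε : H →* ℤˣ) {s : Finset ι}
    (hs : s.Nonempty) {b : ι → G} (hb : ∀ i, b i ∈ H) (h : ∀ i ∈ s, ε ⟨b i, hb i⟩ = -1) :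
    ∃ K : Subgroup G, K ≤ H ∧ K.relIndex H = 2 ∧ ∀ i ∈ s, b i ∉ K := by
  obtain ⟨j, hj⟩ := hs
  refine ⟨ε.ker.map H.subtype, map_subtype_le _, ?_, fun i hi e => ?_⟩
  · rw [relIndex, subgroupOf, comap_map_eq_self_of_injective H.subtype_injective]
    exact H18.index_ker_of_neg (h j hj)
  · have := (mem_map_iff_mem H.subtype_injective (x := ⟨b i, hb i⟩)).1 e
    exact absurd ((h i hi).symm.trans this) (by decide)

/-- two blocks -/
def mb_fr (q : ℕ) (i j : ι) : ZMod 4 ⊕ ZMod 4 → Pt ι q := Sum.elim (fr4 q i) (fr4 q j)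

theorem mb_fr_inj {i j : ι} (h : i ≠ j) : Function.Injective (mb_fr q i j) :=
  Function.Injective.sumElim (fr4_inj i) (fr4_inj j) fun a b e => h (by simpa [fr4] using congrArg (Sum.map Prod.fst id) e)

theorem mb_th (i j : ι) (d : ι → D8) (p : ZMod 4 ⊕ ZMod 4) : (thA ι q d).1 (mb_fr q i j p) =
    mb_fr q i j (Perm.sumCongr (ALT.rho (d i)) (ALT.rho (d j)) p) := by
  rcases p with x | x <;> rfl

theorem mb_eq {i j : ι} (h : i ≠ j) {d : ι → D8} (h1 : ∀ l, l ≠ i → l ≠ j → d l = 1)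
    (h2 : Perm.sign (blk d) = 1) :
    (thA ι q d).1 = m0T (mb_fr_inj h) (Perm.sumCongr (ALT.rho (d i)) (ALT.rho (d j))) := by
  refine m0_eq _ (mb_th i j d) ?_
  rintro (⟨l, x⟩ | y) h3
  · rw [coe_thA, thP_inl, h1 l (fun e => h3 (Sum.inl x) (by rw [e]; rfl))
      fun e => h3 (Sum.inr x) (by rw [e]; rfl), act_one]
  · rw [coe_thA, thP_inr, if_pos h2]

/-- the element exchanging the pairs -/
def mb_σ : Perm (ZMod 4 ⊕ ZMod 4) := swap (.inl 0) (.inr 1) * swap (.inl 2) (.inr 3)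

theorem modB {s : Finset ι} (hs : s.Nonempty) : KB (thA ι q) s := by
  obtain ⟨r, hr⟩ := mb_res (q := q) s
  have m : ∀ i u, at1 (thA ι q) i u ∈ 𝒞[zs (thA ι q) s] := fun i u => fx_iff_mem.1 (fx_map_zs _ s)
  refine ⟨?_, mb_K (Perm.sign.comp r) hs (fun i => m i e0) fun i hi => ?_, fun i hi h d h1 h2 l hl => ?_,
    fun i hi j hj hij => ?_⟩
  · obtain ⟨ε, hε⟩ := exists_sign_pairs (ι := s)
    have e : r ⟨_, self_mem_cent1 _⟩ = aa s := by
      rw [hr _ _ rfl, aa]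
      exact congrArg _ (funext fun i => if_pos i.2)
    refine mb_K (ε.comp (r.codRestrict _ fun g => mem_centralizer_singleton_iff.2 ?_)) hs
      (fun i => m i v0) fun i hi => hε ⟨i, hi⟩ _ ?_
    · rw [← e, ← map_mul, ← map_mul]
      exact congrArg _ (Subtype.ext (mem_cent1.1 g.2))
    · exact (hr _ _ rfl).trans (congrArg _ (mb_single hi v0))
  · rw [MonoidHom.comp_apply, hr _ _ rfl, mb_single hi, sign_blk_e]
  · have k : ∀ p, (zz (thA ι q) i).1 p = p ∨ (zz (thA ι q) i).1 p = (zs (thA ι q) s).1 p := by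
      rw [zz, ← zs_singleton]
      rintro (⟨l, x⟩ | y)
      · by_cases e : l = i <;> simp [zs_inl, e, hi]
      · exact Or.inl (zs_inr _ y)
    refine (by decide : ∀ u : D8, (∀ x, act u x = x ∨ act u x = x + 2) → u ∈ E0) _ fun x => ?_
    have e1 : h.1 ((zz (thA ι q) i).1 (h.1⁻¹ (Sum.inl (l, x)))) = Sum.inl (l, act (d l) x) :=
      congrArg (fun g : alternatingGroup (Pt ι q) => g.1 (Sum.inl (l, x))) h2
    rcases k (h.1⁻¹ (Sum.inl (l, x))) with e | e <;> rw [e] at e1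
    · exact Or.inl (by simpa using e1.symm)
    · rw [fx_coe.1 h1] at e1
      exact Or.inr (by simpa [zs_inl, hl] using e1.symm)
  · have hσ : Perm.sign mb_σ = 1 := by decide
    refine ⟨m0A (mb_fr_inj hij) mb_σ hσ, m0_fx _ (mb_th i j _) hσ (by rw [if_pos hi, if_pos hj]; decide),
      Subtype.ext ?_⟩
    have e1 := mb_eq (q := q) hij (d := Pi.mulSingle i z0) (fun l h _ => Pi.mulSingle_eq_of_ne h _)
      (by rw [sign_single]; decide)
    have e2 := mb_eq (q := q) hij (d := Pi.mulSingle i e0 * Pi.mulSingle j e0) (fun l h h' => by simp [h, h'])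
      (by rw [map_mul, map_mul, sign_blk_e, sign_blk_e]; decide)
    rw [ee, ee, at1, at1, ← map_mul, e2]
    show m0T _ _ * (thA ι q _).1 * (m0T _ _)⁻¹ = _
    rw [e1, ← map_inv, ← map_mul, ← map_mul]
    simp only [Pi.mul_apply, Pi.mulSingle_eq_same, Pi.mulSingle_eq_of_ne hij, Pi.mulSingle_eq_of_ne hij.symm]
    exact congrArg _ (by decide)

end Cfsg.Agent.H65.Alt
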