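import Cfsg.Agent.H65.AlMod0

set_option autoImplicit false
set_option linter.unusedSectionVars false

namespace Cfsg.Agent.H65.Alt

open Subgroup Equiv Cfsg.Agent.H49 Cfsg.Agent.ALT
open Cfsg.Agent.SAN (An Four KK NN cA)

section gen
variable {X : Type*} [Fintype X] [DecidableEq X] {z : Perm X} {B : X → Prop}

/-- permutations commuting with `z` and fixing `B` pointwise -/
def mc_R (z : Perm X) (B : X → Prop) : Subgroup (Perm X) where
  carrier := {r | (∀ x, r (z x) = z (r x)) ∧ ∀ x, B x → r x = x}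
  one_mem' := ⟨fun _ => rfl, fun _ _ => rfl⟩
  mul_mem' := fun {a b} ha hb => ⟨fun x => by rw [Perm.mul_apply, Perm.mul_apply, hb.1, ha.1],
    fun x hx => by rw [Perm.mul_apply, hb.2 x hx, ha.2 x hx]⟩
  inv_mem' := fun {a} ha => ⟨fun x => by rw [Perm.inv_eq_iff_eq, ha.1]; simp,
    fun x hx => by rw [Perm.inv_eq_iff_eq, ha.2 x hx]⟩

/-- the generators -/
def mc_g (z : Perm X) (p p' : X) : Perm X :=
  if z p = p ∨ p' = z p then swap p p' else swap p p' * swap (z p) (z p')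

theorem mc_nB {r : Perm X} (hr : r ∈ mc_R z B) {p : X} (hp : ¬ B p) : ¬ B (r p) := fun h =>
  hp (r.injective (hr.2 _ h) ▸ h)

theorem mc_fix {r : Perm X} (hr : r ∈ mc_R z B) (p : X) : z (r p) = r p ↔ z p = p := by
  rw [← hr.1, r.injective.eq_iff]

variable (hz : ∀ x, z (z x) = x) (hB : ∀ x, B x → B (z x))
include hz hB

theorem mc_spec {p p' : X} (hp : ¬ B p) (hp' : ¬ B p') (h : z p = p ↔ z p' = p') :
    mc_g z p p' ∈ mc_R z B ∧ mc_g z p p' p = p' ∧
      ∀ x, x ≠ p → x ≠ z p → x ≠ p' → x ≠ z p' → mc_g z p p' x = x := by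
  have h1 := hz p; have h2 := hz p'
  have k : ∀ x, x ≠ p → x ≠ z p → x ≠ p' → x ≠ z p' → mc_g z p p' x = x := fun x _ _ _ _ => by
    unfold mc_g
    split_ifs <;> simp only [Perm.mul_apply, swap_apply_def] <;> grind only
  refine ⟨⟨fun x => ?_, fun x hx => ?_⟩, ?_, k⟩
  · have := hz x
    unfold mc_g
    split_ifs <;> simp only [Perm.mul_apply, swap_apply_def] <;> grind (splits := 30) only
  · have := hB x hx; have := hz x
    exact k x (by grind only) (by grind only) (by grind only) (by grind only)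
  · unfold mc_g
    split_ifs <;> simp only [Perm.mul_apply, swap_apply_def] <;> grind only

theorem mc_ind {M : Perm X → Prop} (h1 : M 1) (hm : ∀ a b, M a → M b → M (a * b))
    (hg : ∀ p p', ¬ B p → ¬ B p' → p' ≠ p → (z p = p ↔ z p' = p') → M (mc_g z p p')) :
    ∀ σ ∈ mc_R z B, M σ := by
  intro σ
  induction e : σ.support.card using Nat.strong_induction_on generalizing σ with
  | _ k ih =>
  intro hσ
  by_cases h0 : σ = 1
  · rwa [h0]
  obtain ⟨p, hp⟩ : ∃ p, σ p ≠ p := by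
    by_contra h
    push Not at h
    exact h0 (Equiv.ext h)
  have b1 : ¬ B p := fun h => hp (hσ.2 p h)
  obtain ⟨g1, g2, g3⟩ := mc_spec hz hB b1 (mc_nB hσ b1) (mc_fix hσ p).symm
  rw [← mul_inv_cancel_left (mc_g z p (σ p)) σ]
  refine hm _ _ (hg _ _ b1 (mc_nB hσ b1) hp (mc_fix hσ p).symm)
    (ih _ (e ▸ Finset.card_lt_card ⟨fun x hx => ?_, fun h => ?_⟩) _ rfl (mul_mem (inv_mem g1) hσ))
  · rw [Perm.mem_support] at hx ⊢
    refine fun e => hx ?_
    have := hσ.1 p; have := hσ.1 (σ p); have := hz p; have := hz (σ p)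
    have i1 : σ (σ p) ≠ σ p := σ.injective.ne hp
    rw [Perm.mul_apply, e, Perm.inv_eq_iff_eq, g3 x (by grind only) (by grind only) (by grind only)
      (by grind only)]
  · exact Perm.mem_support.1 (h (Perm.mem_support.2 hp)) (by rw [Perm.mul_apply, Perm.inv_eq_iff_eq, g2])

/-- double transitivity -/
theorem mc_two {a b p p' : X} (ha : ¬ B a) (hb : ¬ B b) (hp : ¬ B p) (hp' : ¬ B p') (ab : b ≠ a)
    (ab' : b ≠ z a) (pp : p' ≠ p) (pp' : p' ≠ z p) (e1 : z a = a ↔ z p = p) (e2 : z b = b ↔ z p' = p') :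
    ∃ r ∈ mc_R z B, r a = p ∧ r b = p' ∧ ∀ x, x ≠ a → x ≠ z a → x ≠ b → x ≠ z b → x ≠ p → x ≠ z p →
      x ≠ p' → x ≠ z p' → r x = x := by
  obtain ⟨g1, g2, g3⟩ := mc_spec hz hB ha hp e1
  generalize mc_g z a p = g at g1 g2 g3
  obtain ⟨k1, k2, k3⟩ := mc_spec hz hB (mc_nB g1 hb) hp' ((mc_fix g1 b).trans e2)
  have i := fun x y => g.injective.eq_iff (a := x) (b := y)
  have := i b a; have := i b (z a); have := g1.1 a; have := g1.1 b; have := hz p; have := hz p'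
  have := hz (g b)
  refine ⟨_, mul_mem k1 g1, by
    rw [Perm.mul_apply, g2, k3 p (by grind only) (by grind only) (by grind only) (by grind only)],
    k2, fun x _ _ _ _ _ _ _ _ => ?_⟩
  have := i x b; have := i x (z b)
  have := g3 x ‹_› ‹_› ‹_› ‹_›
  rw [Perm.mul_apply, this, k3 x (by grind only) (by grind only) (by grind only) (by grind only)]

theorem mc_gen {N : Subgroup (Perm X)} (ev : ∀ σ ∈ N, Perm.sign σ = 1)
    (hN : ∀ r ∈ mc_R z B, Perm.sign r = 1 → ∀ σ ∈ N, r * σ * r⁻¹ ∈ N) {a b P P' : X}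
    (za : z a = a) (zb : z b = b) (ab : b ≠ a) (ha : ¬ B a) (hb : ¬ B b) (hP : ¬ B P) (hP' : ¬ B P')
    (zP : z P ≠ P) (zP' : z P' ≠ P') (n1 : P' ≠ P) (n2 : P' ≠ z P)
    (h1 : swap P P' * swap (z P) (z P') ∈ N) (h2 : swap P (z P) * swap a b ∈ N) :
    ∀ σ ∈ mc_R z B, Perm.sign σ = 1 → σ ∈ N := by
  have tR : swap a b ∈ mc_R z B := by
    simpa [mc_g, za] using (mc_spec hz hB ha hb (by simp [za, zb])).1
  let C : Perm X → Prop := fun σ => ∀ r ∈ mc_R z B, r * σ * r⁻¹ ∈ N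
  have Cm : ∀ σ σ', C σ → C σ' → C (σ * σ') := fun σ σ' h h' r hr => by
    rw [← conj_mul]; exact mul_mem (h r hr) (h' r hr)
  have Cc : ∀ σ, C σ → ∀ r ∈ mc_R z B, C (r * σ * r⁻¹) := fun σ h r hr r' hr' => by
    simpa [mul_assoc] using h _ (mul_mem hr' hr)
  have C0 : ∀ σ ∈ N, swap a b * σ * (swap a b)⁻¹ = σ → C σ := fun σ h e r hr => by
    rcases Int.units_eq_one_or (Perm.sign r) with s | s
    · exact hN r hr s σ h
    · have := hN _ (mul_mem hr tR) (by rw [map_mul, s, Perm.sign_swap ab.symm]; decide) σ h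
      rwa [show r * swap a b * σ * (r * swap a b)⁻¹ = r * (swap a b * σ * (swap a b)⁻¹) * r⁻¹ by group,
        e] at this
  have cs : ∀ (r : Perm X) x y x' y', r * (swap x y * swap x' y') * r⁻¹ =
      swap (r x) (r y) * swap (r x') (r y') := fun r x y x' y' => by
    rw [← conj_mul, ← swap_apply_apply, ← swap_apply_apply]
  have := hz P; have := hz P'
  have C1 := C0 _ h1 (by rw [cs]; simp only [swap_apply_def]; grind only)
  have C2 := C0 _ h2 (by
    rw [cs, swap_apply_left, swap_apply_right, swap_comm b a, swap_apply_of_ne_of_ne (by grind only)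
      (by grind only), swap_apply_of_ne_of_ne (by grind only) (by grind only)])
  have tt : ∀ σ : Perm X, σ * swap a b * swap a b = σ := fun σ => by rw [mul_assoc, swap_mul_self, mul_one]
  have key := mc_ind hz hB (M := fun σ => C σ ∨ C (σ * swap a b))
    (Or.inl fun r _ => by simp) (fun σ σ' h h' => ?_) fun p p' b1 b2 ne e => ?_
  · intro σ hσ s
    rcases key σ hσ with h | h
    · simpa using h 1 (one_mem _)
    · have := ev _ (by simpa using h 1 (one_mem _) : σ * swap a b ∈ N)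
      rw [map_mul, s, Perm.sign_swap ab.symm] at this
      exact absurd this (by decide)
  · rcases h with h | h <;> rcases h' with h' | h'
    · exact Or.inl (Cm _ _ h h')
    · exact Or.inr (by simpa [mul_assoc] using Cm _ _ h h')
    · exact Or.inr (by simpa [mul_assoc] using Cm _ _ h (Cc _ h' _ tR))
    · exact Or.inl (by simpa [mul_assoc] using Cm _ _ h (Cc _ h' _ tR))
  · unfold mc_g
    split_ifs with c
    · refine Or.inr ?_
      by_cases c1 : z p = p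
      · obtain ⟨r, r1, r2, r3, r4⟩ := mc_two hz hB ha hb b1 b2 ab (by rwa [za]) ne (by rwa [c1])
          (by simp [za, c1]) (by simp [zb, e.1 c1])
        have := Cc _ C2 r r1
        rw [cs, r2, r3, r4 P, r4 (z P)] at this
        · have k := Cm _ _ (fun r hr => by simpa [mul_assoc] using inv_mem (this r hr) :
            C (swap p p' * swap P (z P))) C2
          rwa [mul_assoc, ← mul_assoc (swap P _), swap_mul_self, one_mul] at k
        all_goals grind only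
      · obtain ⟨g1, g2, g3⟩ := mc_spec hz hB hP b1 (by simp [zP, c1])
        have := Cc _ C2 _ g1
        have := hz p
        rw [cs, g1.1, g2, g3 a, g3 b, ← c.resolve_left c1] at *
        · assumption
        all_goals grind only
    · push Not at c
      obtain ⟨r, r1, r2, r3, -⟩ := mc_two hz hB hP hP' b1 b2 n1 n2 ne c.2 (by simp [zP, c.1])
        (by simp [zP', ← e, c.1])
      have := Cc _ C1 r r1
      rw [cs, r1.1, r1.1, r2, r3] at this
      exact Or.inl this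

end gen

variable {ι : Type*} [Fintype ι] [DecidableEq ι] {q : ℕ}

/-- the `i`-th block -/
def mc_B (q : ℕ) (i : ι) (p : Pt ι q) : Prop := ∃ x, p = Sum.inl (i, x)

theorem mc_in4 {G : Type*} [Group G] {θ : (ι → D8) →* G} {i : ι} {u : G} :
    In4 (zz θ i) (vv θ i) u ↔ ∃ w ∈ V0, u = at1 θ i w := by
  have e : at1 θ i 1 = 1 := by simp [at1]
  constructor
  · rintro (rfl | rfl | rfl | rfl)
    exacts [⟨1, by decide, e.symm⟩, ⟨z0, by decide, rfl⟩, ⟨v0, by decide, rfl⟩,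
      ⟨v0 * z0, by decide, (at1_mul _ _ _).symm⟩]
  · rintro ⟨w, rfl | rfl | rfl | rfl, rfl⟩
    exacts [Or.inl e, Or.inr (Or.inl rfl), Or.inr (Or.inr (Or.inl rfl)),
      Or.inr (Or.inr (Or.inr (at1_mul _ _ _)))]

theorem mc_hv {s : Finset ι} {i : ι} {h : alternatingGroup (Pt ι q)}
    (hr : h.1 ∈ mc_R (zs (thA ι q) s).1 (mc_B q i)) : HV (thA ι q) s i h := by
  have k : ∀ w ∈ V0, Fx h (at1 (thA ι q) i w) := fun w hw => by
    rw [Fx, conj_at1 (u := 1) (fun x => by rw [act_one]; exact hr.2 _ ⟨x, rfl⟩) hw]; simp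
  exact ⟨fx_coe.2 hr.1, k _ (by decide), k _ (by decide)⟩

theorem mc_hv4 {s : Finset ι} {i : ι} {w : D8} (hw : w ∈ V0) : HV (thA ι q) s i (at1 (thA ι q) i w) :=
  ⟨fx_map_zs _ _, fx_map_zz _ _, fx_iff.2 (VV_comm _ (at1_mem hw) _ (at1_mem (by decide)))⟩

theorem mc_dec {s : Finset ι} {i : ι} {h : alternatingGroup (Pt ι q)} (hh : HV (thA ι q) s i h) :
    ∃ w ∈ V0, ((at1 (thA ι q) i w)⁻¹ * h).1 ∈ mc_R (zs (thA ι q) s).1 (mc_B q i) := by
  obtain ⟨u, hu⟩ := exists_act (w := h.1) (fx_coe.1 hh.2.1)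
  have h1 := hh.2.2
  rw [Fx, conj_at1 hu (by decide)] at h1
  refine ⟨u, (by decide : ∀ u : D8, v0 = u * v0 * u⁻¹ → u ∈ V0) u (at1_inj thA_inj (by decide) h1.symm).2,
    fx_coe.1 (fx_mul (fx_inv (fx_map_zs _ _)) hh.1), ?_⟩
  rintro _ ⟨x, rfl⟩
  show (at1 (thA ι q) i u).1⁻¹ (h.1 _) = _
  rw [hu, Perm.inv_eq_iff_eq, at1_inl]

theorem mc_supp (I : Finset ι) : (zs (thA ι q) I).1.support.card = 4 * I.card := by
  have : (zs (thA ι q) I).1.support = (I ×ˢ Finset.univ).map Function.Embedding.inl := by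
    ext (⟨l, x⟩ | y)
    · by_cases e : l ∈ I <;> simp [zs_inl, e, show (2 : ZMod 4) ≠ 0 by decide]
    · simp [zs_inr]
  rw [this, Finset.card_map, Finset.card_product, mul_comm]
  rfl

theorem mc_frame (q : ℕ) (i : ι) : ∃ v : Fin (4 * Fintype.card ι + q + 2 - 4) → Pt ι q,
    Function.Injective v ∧ ∀ p, (∀ k, v k ≠ p) ↔ mc_B q i p := by
  classical
  have c : Fintype.card {p // mc_B q i p} = 4 :=
    (Fintype.card_congr (Equiv.ofBijective (fun x : ZMod 4 => (⟨Sum.inl (i, x), x, rfl⟩ : {p // mc_B q i p}))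
      ⟨fun a b e => by simpa using congrArg Subtype.val e, fun ⟨_, x, e⟩ => ⟨x, Subtype.ext e.symm⟩⟩)).symm
  let β : Fin (4 * Fintype.card ι + q + 2 - 4) ≃ {p // ¬ mc_B q i p} := Fintype.equivOfCardEq (by
    rw [Fintype.card_subtype_compl, c]
    simp [mul_comm, add_assoc])
  refine ⟨fun k => β k, Subtype.val_injective.comp β.injective, fun p => ⟨fun h => by_contra fun e =>
    h (β.symm ⟨p, e⟩) (by simp), fun h k e => (β k).2 (by rw [show (β k : Pt ι q) = p from e]; exact h)⟩⟩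

theorem mc_ex {n : ℕ} {i : ι} {v : Fin n → Pt ι q} (hv : Function.Injective v)
    (hB : ∀ p, (∀ k, v k ≠ p) ↔ mc_B q i p) (w : alternatingGroup (Pt ι q))
    (hw : ∀ p, mc_B q i p → w.1 p = p) : ∃ ξ : An n, w.1 = m0T hv ξ := by
  obtain ⟨r, hr⟩ := m0_res hv (mc_R 1 (mc_B q i)).subtype fun g k => by
    by_contra h
    push Not at h
    exact mc_nB g.2 (fun e => (hB _).2 e k rfl) ((hB _).1 fun l => (h l).symm)
  have e : w.1 = m0T hv (r ⟨w.1, fun _ => rfl, hw⟩) :=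
    m0_eq hv (hr ⟨w.1, fun _ => rfl, hw⟩) fun p hp => hw p ((hB p).1 hp)
  exact ⟨⟨_, Perm.mem_alternatingGroup.2 (by rw [← m0_sign hv, ← e]; exact w.2)⟩, e⟩

theorem mc_quo {n : ℕ} {s : Finset ι} {i : ι} (hi : i ∈ s) {v : Fin n → Pt ι q} (hv : Function.Injective v)
    (hB : ∀ p, (∀ k, v k ≠ p) ↔ mc_B q i p) :
    ∃ (α : An n) (ψ : 𝒞[α] →* alternatingGroup (Pt ι q)), α * α = 1 ∧
    (α : Perm (Fin n)).support.card = 4 * (s.card - 1) ∧ Function.Injective ψ ∧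
    (∀ x, In4 (zz (thA ι q) i) (vv (thA ι q) i) (ψ x) → x = 1) ∧
    ∀ h, HV (thA ι q) s i h ↔ ∃ u x, In4 (zz (thA ι q) i) (vv (thA ι q) i) u ∧ h = u * ψ x := by
  have ex := mc_ex hv hB
  obtain ⟨α, hα⟩ := ex (zs (thA ι q) (s.erase i)) (by rintro _ ⟨x, rfl⟩; simp [zs_inl])
  let ψ : 𝒞[α] →* alternatingGroup (Pt ι q) :=
    ((m0T hv).comp ((alternatingGroup _).subtype.comp 𝒞[α].subtype)).codRestrict _ fun x =>
      Perm.mem_alternatingGroup.2 ((m0_sign hv _).trans x.1.2)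
  have fB : ∀ x p, mc_B q i p → (ψ x).1 p = p := fun x p hp => m0_out hv _ ((hB p).2 hp)
  have ψi : Function.Injective ψ := fun a b e =>
    Subtype.ext (Subtype.ext (m0_inj hv (congrArg Subtype.val e)))
  refine ⟨α, ψ, Subtype.ext (m0_inj hv ?_), ?_, ψi, fun x hx => ?_, fun h => ⟨fun hh => ?_, ?_⟩⟩
  · rw [Subgroup.coe_mul, map_mul, ← hα, ← Subgroup.coe_mul, zs_sq]
    exact (map_one _).symm
  · rw [← m0_card hv, ← hα, mc_supp, Finset.card_erase_of_mem hi]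
  · obtain ⟨w, hw, e⟩ := mc_in4.1 hx
    refine ψi (by_contra fun h0 => ?_)
    have := fB x _ ⟨0, rfl⟩
    rw [e, at1_inl] at this
    exact act_V0 w hw (fun e1 => h0 (by rw [e, e1, map_one]; simp [at1])) 0 (by simpa using this)
  · obtain ⟨w, hw, hr⟩ := mc_dec hh
    obtain ⟨ξ, hξ⟩ := ex _ hr.2
    have h1 := mc_hv hr
    have h2 := h1.1
    rw [zs_erase hi] at h2
    have h3 := congrArg Subtype.val (fx_iff.1 (fx_cancel h2 h1.2.1))
    rw [Subgroup.coe_mul, Subgroup.coe_mul _ (zs _ _), hξ, hα, ← map_mul, ← map_mul] at h3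
    exact ⟨_, ⟨ξ, mem_cent1.2 (Subtype.ext (m0_inj hv h3))⟩, mc_in4.2 ⟨w, hw, rfl⟩,
      inv_mul_eq_iff_eq_mul.1 (Subtype.ext hξ)⟩
  · rintro ⟨u, x, hu, rfl⟩
    obtain ⟨w, hw, rfl⟩ := mc_in4.1 hu
    have h0 : HV (thA ι q) ∅ i (ψ x) := mc_hv ⟨fun p => by rw [zs_empty]; rfl, fB x⟩
    have h1 : Fx (ψ x) (zs (thA ι q) (s.erase i)) := fx_iff.2 (Subtype.ext (by
      rw [Subgroup.coe_mul, Subgroup.coe_mul _ (zs _ _), hα, show (ψ x).1 = m0T hv x.1.1 from rfl,
        ← map_mul, ← map_mul, ← Subgroup.coe_mul, ← Subgroup.coe_mul, mem_cent1.1 x.2]))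
    obtain ⟨a1, a2, a3⟩ := mc_hv4 (q := q) (s := s) (i := i) hw
    exact ⟨fx_mul a1 (zs_erase (θ := thA ι q) hi ▸ h0.2.1.mul h1), fx_mul a2 h0.2.1, fx_mul a3 h0.2.2⟩

theorem mc_gen2 {s : Finset ι} {i : ι} (h2 : 2 ≤ s.card) {N : Subgroup (alternatingGroup (Pt ι q))}
    (hN : ∀ h, HV (thA ι q) s i h → h ∈ 𝒩(N)) (hz : zz (thA ι q) i ∈ N) (hv : vv (thA ι q) i ∈ N)
    (hd : ∀ d, d i = 1 → thA ι q d ∈ N) {h : alternatingGroup (Pt ι q)} (hh : HV (thA ι q) s i h) :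
    h ∈ N := by
  obtain ⟨j, hj, ji⟩ := Finset.exists_mem_ne h2 i
  obtain ⟨w, hw, hr⟩ := mc_dec hh
  have hw' : at1 (thA ι q) i w ∈ N := by
    rcases (mc_in4 (θ := thA ι q) (i := i)).2 ⟨w, hw, rfl⟩ with e | e | e | e <;> rw [e]
    exacts [one_mem _, hz, hv, mul_mem hv hz]
  have nB : ∀ x, ¬ mc_B q i (Sum.inl (j, x)) := fun x ⟨y, e⟩ => ji (by simpa using congrArg (Sum.map Prod.fst id) e)
  have z1 : (zs (thA ι q) s).1 (Sum.inl (j, 1)) = Sum.inl (j, 3) := by rw [zs_inl, if_pos hj]; rfl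
  have z2 : (zs (thA ι q) s).1 (Sum.inl (j, 2)) = Sum.inl (j, 0) := by rw [zs_inl, if_pos hj]; rfl
  have ne : ∀ x y : ZMod 4, x ≠ y → (Sum.inl (j, x) : Pt ι q) ≠ Sum.inl (j, y) := fun x y h e =>
    h (by simpa using e)
  obtain ⟨g, hg, e⟩ := mc_gen (N := N.map (alternatingGroup _).subtype) (z := (zs (thA ι q) s).1)
    (B := mc_B q i) (fun p => congrArg (fun g : alternatingGroup (Pt ι q) => g.1 p) (zs_sq (θ := thA ι q) s))
    (by rintro _ ⟨x, rfl⟩; exact ⟨_, zs_inl s i x⟩) (by rintro _ ⟨g, -, rfl⟩; exact g.2)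
    (by
      rintro r hr hs _ ⟨g, hg, rfl⟩
      exact ⟨_, conj_mem_of_norm le_rfl (hN ⟨r, Perm.mem_alternatingGroup.2 hs⟩ (mc_hv hr)) hg, rfl⟩)
    (a := Sum.inr 0) (b := Sum.inr 1) (P := Sum.inl (j, 1)) (P' := Sum.inl (j, 2)) (zs_inr _ _) (zs_inr _ _)
    (by simp) (fun ⟨_, e⟩ => by simp at e) (fun ⟨_, e⟩ => by simp at e) (nB _) (nB _)
    (z1 ▸ ne _ _ (by decide)) (z2 ▸ ne _ _ (by decide)) (ne _ _ (by decide)) (z1 ▸ ne _ _ (by decide))
    ⟨_, hd (Pi.mulSingle j v0) (Pi.mulSingle_eq_of_ne ji.symm _), by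
      rw [z1, z2]
      refine (at1_fr4 j (by decide)).trans ?_
      rw [show ALT.rho v0 = swap 1 2 * swap 3 0 by decide, map_mul, m0_swap, m0_swap]
      rfl⟩
    ⟨_, hd (Pi.mulSingle j e0) (Pi.mulSingle_eq_of_ne ji.symm _), by
      rw [z1]
      refine (at1_fr6 j _).trans ?_
      rw [show lc e0 (Perm.sign (ALT.rho e0)) = swap (.inl 1) (.inl 3) * swap (.inr 0) (.inr 1) by decide,
        map_mul, m0_swap, m0_swap]
      rfl⟩ _ hr ((at1 (thA ι q) i w)⁻¹ * h).2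
  rw [← mul_inv_cancel_left (at1 (thA ι q) i w) h, ← Subtype.ext e]
  exact mul_mem hw' hg

theorem modC (s : Finset ι) : KC (4 * Fintype.card ι + q + 2) (thA ι q) s :=
  ⟨fun i hi => let ⟨_, hv, hB⟩ := mc_frame q i; mc_quo hi hv hB,
    fun _ _ h2 _ hN hz hv hd _ hh => mc_gen2 h2 hN hz hv hd hh⟩

end Cfsg.Agent.H65.Alt
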