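import Cfsg.Agent.H65.AlDefs

set_option autoImplicit false
set_option linter.unusedSectionVars false

namespace Cfsg.Agent.H65.Alt

open Subgroup Equiv Cfsg.Agent.H49 Cfsg.Agent.ALT
open Cfsg.Agent.SAN (An Four KK NN cA)

variable {G : Type*} [Group G] [Finite G] {ι : Type*} [Fintype ι] [DecidableEq ι]
  {θ : (ι → D8) →* G} {s : Finset ι} {m : ℕ} {i : ι}

section span
variable {A : Type*} [Group A] [Finite A] {θ : (ι → D8) →* A} {ψ : A →* G}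

theorem tr_at1 (i : ι) (u : D8) : at1 (ψ.comp θ) i u = ψ (at1 θ i u) := rfl

theorem tr_zs (I : Finset ι) : zs (ψ.comp θ) I = ψ (zs θ I) := rfl

variable (hψ : Function.Injective ψ)
include hψ

theorem tr_cj {x y w : A} : ψ x * ψ y * (ψ x)⁻¹ = ψ w ↔ x * y * x⁻¹ = w := by
  rw [← map_inv, ← map_mul, ← map_mul, hψ.eq_iff]

theorem tr_fx {x y : A} : Fx (ψ x) (ψ y) ↔ Fx x y := tr_cj hψ

theorem tr_rot {ν c : A} : Rot (ψ.comp θ) i (ψ ν) (ψ c) ↔ Rot θ i ν c := by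
  have e : ∀ d, Fx (ψ ν) (ψ.comp θ d * zz (ψ.comp θ) i) ↔ Fx ν (θ d * zz θ i) := fun d => by
    rw [← tr_fx hψ, map_mul]; rfl
  have e' : ψ ν * ψ c * (ψ ν)⁻¹ = ψ c * zz (ψ.comp θ) i ↔ ν * c * ν⁻¹ = c * zz θ i := by
    rw [← tr_cj hψ, map_mul]; rfl
  exact ⟨fun h => ⟨⟨(tr_cj hψ).1 h.r1, e'.1 h.r2⟩, fun l hl => (tr_fx hψ).1 (h.fz l hl),
      fun d hd => (h.fx d hd).imp (tr_fx hψ).1 (e d).1⟩,
    fun h => ⟨⟨(tr_cj hψ).2 h.r1, e'.2 h.r2⟩, fun l hl => (tr_fx hψ).2 (h.fz l hl),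
      fun d hd => (h.fx d hd).imp (tr_fx hψ).2 (e d).2⟩⟩

theorem tr_in4 {u : A} : In4 (zz (ψ.comp θ) i) (vv (ψ.comp θ) i) (ψ u) ↔ In4 (zz θ i) (vv θ i) u := by
  simp only [In4, zz, vv, tr_at1, ← map_mul, hψ.eq_iff, map_eq_one_iff ψ hψ]

omit hψ in
theorem tr_in4' {g : G} (h : In4 (zz (ψ.comp θ) i) (vv (ψ.comp θ) i) g) : ∃ u, ψ u = g := by
  rcases h with rfl | rfl | rfl | rfl
  exacts [⟨1, map_one _⟩, ⟨_, rfl⟩, ⟨_, rfl⟩, ⟨_, map_mul _ _ _⟩]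

theorem tr_hv {h : A} : HV (ψ.comp θ) s i (ψ h) ↔ HV θ s i h :=
  and_congr (tr_fx hψ) (and_congr (tr_fx hψ) (tr_fx hψ))

variable {G' : Type*} [Group G'] [Finite G'] {χ : A →* G'} (hχ : Function.Injective χ)
  (r1 : ψ.range = 𝒞[ψ (zs θ s)]) (r2 : χ.range = 𝒞[χ (zs θ s)])
include hχ r1 r2

theorem tr_span (h : KG m (ψ.comp θ) s) : KG m (χ.comp θ) s := by
  have e1 : ∀ g, Fx g (zs (ψ.comp θ) s) → ∃ y, ψ y = g := fun g hg => r1.ge (fx_iff_mem.1 hg)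
  have e2 : ∀ g, Fx g (zs (χ.comp θ) s) → ∃ y, χ y = g := fun g hg => r2.ge (fx_iff_mem.1 hg)
  have cj : ∀ {x y w}, ψ x * ψ y * (ψ x)⁻¹ = ψ w ↔ χ x * χ y * (χ x)⁻¹ = χ w :=
    (tr_cj hψ).trans (tr_cj hχ).symm
  have fx : ∀ {x y}, Fx (ψ x) (ψ y) ↔ Fx (χ x) (χ y) := cj
  have hv : ∀ {i x}, HV (ψ.comp θ) s i (ψ x) ↔ HV (χ.comp θ) s i (χ x) := (tr_hv hψ).trans (tr_hv hχ).symm
  have i4 : ∀ {i x}, In4 (zz (ψ.comp θ) i) (vv (ψ.comp θ) i) (ψ x) ↔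
      In4 (zz (χ.comp θ) i) (vv (χ.comp θ) i) (χ x) := (tr_in4 hψ).trans (tr_in4 hχ).symm
  have eK : ∀ b : ι → A, (∃ K : Subgroup G, K ≤ 𝒞[ψ (zs θ s)] ∧ K.relIndex 𝒞[ψ (zs θ s)] = 2 ∧
      ∀ i ∈ s, ψ (b i) ∉ K) → ∃ K : Subgroup G', K ≤ 𝒞[χ (zs θ s)] ∧ K.relIndex 𝒞[χ (zs θ s)] = 2 ∧
      ∀ i ∈ s, χ (b i) ∉ K := fun b ⟨K, _, k2, k3⟩ =>
    ⟨(K.comap ψ).map χ, (map_le_range _ _).trans r2.le, by
      rw [← r2, ← index_comap, comap_map_eq_self_of_injective hχ, index_comap, r1, k2],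
      fun i hi e => k3 i hi ((mem_map_iff_mem hχ).1 e)⟩
  refine { js := ⟨hχ.comp (Function.Injective.of_comp (f := ψ) h.js.1), fun P hP hJ x hx hz => ?_⟩
           cJ := fun x hx => ?_, nv := fun i g h1 h2 => ?_, perm := fun π hπ => ?_
           rho := fun j hj => ?_, mu := fun j hj => ?_, eV := eK _ h.eV, eE := eK _ h.eE
           supp := fun i hi g d h1 h2 => ?_, pair := fun i hi j hj hij => ?_, quo := fun i hi => ?_
           gen := fun i hi h2 N hN n1 n2 n3 g hg => ?_, ne := h.ne, card := h.card }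
  · obtain ⟨y, rfl⟩ := e2 x (fx_zs_of fun i _ => hz i)
    obtain ⟨d, hd⟩ := h.js.2 ((P.comap χ).map ψ) ((hP.comap_of_injective χ hχ).map ψ)
      (by rintro _ ⟨d, rfl⟩; exact ⟨θ d, hJ ⟨d, rfl⟩, rfl⟩) (ψ y) ⟨y, hx, rfl⟩ fun i => cj.2 (hz i)
    exact ⟨d, congrArg χ (hψ hd)⟩
  · obtain ⟨y, rfl⟩ := e2 x (hx _)
    obtain ⟨I, hI⟩ := h.cJ (ψ y) fun d => fx.2 (hx d)
    exact ⟨I, congrArg χ (hψ hI)⟩
  · obtain ⟨y, rfl⟩ := e2 g h1
    refine (h.nv i (ψ y) (fx.2 h1) (fx.2 h2)).imp fx.1 fun e => ?_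
    exact (cj.1 (e.trans (map_mul ψ _ _).symm)).trans (map_mul χ _ _)
  · obtain ⟨g, hg⟩ := h.perm π hπ
    obtain ⟨y, rfl⟩ := e1 g ((hg _).trans (congrArg _ (funext fun i => by
      simp only [Function.comp_apply, ← hπ (π.symm i), apply_symm_apply])))
    exact ⟨χ y, fun d => cj.1 (hg d)⟩
  · obtain ⟨g, h1, h2⟩ := h.rho j hj
    obtain ⟨y, rfl⟩ := e1 g (h1.fzs hj)
    exact ⟨χ y, (tr_rot hχ).2 ((tr_rot hψ).1 h1), fun d hd => fx.1 (h2 d hd)⟩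
  · obtain ⟨g, h1, h2⟩ := h.mu j hj
    obtain ⟨y, rfl⟩ := e1 g (h1.fzs hj)
    refine ⟨χ y, (tr_rot hχ).2 ((tr_rot hψ).1 h1), fun l hl => ⟨fx.1 (h2 l hl).1, ?_⟩⟩
    have := (h2 l hl).2
    rw [ee, zz, tr_at1, tr_at1, ← map_mul] at this ⊢
    exact fx.1 this
  · obtain ⟨y, rfl⟩ := e2 g h1
    exact h.supp i hi (ψ y) d (fx.2 h1) (cj.2 h2)
  · obtain ⟨g, h1, h2⟩ := h.pair i hi j hj hij
    obtain ⟨y, rfl⟩ := e1 g h1
    exact ⟨χ y, fx.1 h1, (cj.1 (h2.trans (map_mul ψ _ _).symm)).trans (map_mul χ _ _)⟩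
  · obtain ⟨α, f, a1, a2, a3, a4, a5⟩ := h.quo i hi
    let f' : 𝒞[α] →* A := (MonoidHom.ofInjective hψ).symm.toMonoidHom.comp
      (f.codRestrict ψ.range fun x => e1 _ ((a5 _).2 ⟨1, x, Or.inl rfl, (one_mul _).symm⟩).1)
    have e : ∀ x, ψ (f' x) = f x := fun x => MonoidHom.apply_ofInjective_symm hψ _
    refine ⟨α, χ.comp f', a1, a2, fun x y e' => a3 (by rw [← e, ← e, hχ e']),
      fun x hx => a4 x (e x ▸ i4.2 hx), fun g => ⟨fun hg => ?_, ?_⟩⟩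
    · obtain ⟨y, rfl⟩ := e2 g hg.1
      obtain ⟨u, x, hu, e'⟩ := (a5 _).1 (hv.2 hg)
      obtain ⟨u, rfl⟩ := tr_in4' hu
      rw [← e, ← map_mul] at e'
      exact ⟨_, x, i4.1 hu, by rw [hψ e', map_mul]; rfl⟩
    · rintro ⟨u, x, hu, rfl⟩
      obtain ⟨u, rfl⟩ := tr_in4' hu
      rw [MonoidHom.comp_apply, ← map_mul]
      exact hv.1 ((a5 _).2 ⟨_, x, i4.2 hu, by rw [map_mul, e]⟩)
  · obtain ⟨y, rfl⟩ := e2 g hg.1
    refine (mem_map_iff_mem hψ (K := N.comap χ)).1 (h.gen i hi h2 ((N.comap χ).map ψ) (fun g hg => ?_) ⟨_, n1, rfl⟩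
      ⟨_, n2, rfl⟩ (fun d hd => ⟨_, n3 d hd, rfl⟩) _ (hv.2 hg))
    obtain ⟨y, rfl⟩ := e1 g hg.1
    refine mem_norm_of_cj_le fun x hx => ?_
    obtain ⟨_, ⟨x', hx', rfl⟩, rfl⟩ := mem_cj'.1 hx
    refine ⟨y * x' * y⁻¹, ?_, by simp⟩
    simpa using conj_mem_of_norm le_rfl (hN _ (hv.1 hg)) hx'

end span

/-- transport along an embedding of `H = C(z_s)` onto the centraliser of the image of `z_s` -/
theorem KG.tr (h : KG m θ s) {G' : Type*} [Group G'] [Finite G'] (φ : 𝒞[zs θ s] →* G')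
    (hφ : Function.Injective φ) (hr : φ.range = 𝒞[φ ⟨zs θ s, self_mem_cent1 _⟩]) :
    KG m (φ.comp (θ.codRestrict 𝒞[zs θ s] fun d => fx_iff_mem.1 (fx_map_zs d s))) s :=
  tr_span (ψ := 𝒞[zs θ s].subtype) Subtype.val_injective hφ (range_subtype _) hr h

theorem KG.twist (h : KG m θ s) : ∃ θ' : (ι → D8) →* G, KG m θ' s ∧ (∀ I, zs θ' I = zs θ I) ∧
    ∀ i ∈ s, vv θ' i = vv θ i * zs θ s := by
  classical
  obtain ⟨K, -, k2, k3⟩ := h.eV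
  have mm : ∀ a b : 𝒞[zs θ s], (a : G) * b ∈ K ↔ ((a : G) ∈ K ↔ (b : G) ∈ K) := fun a b =>
    mul_mem_iff_of_index_two (H := K.subgroupOf _) k2
  have zK : ∀ I, zs θ I ∈ K := fun I => by
    induction I using Finset.induction_on with
    | empty => rw [zs_empty]; exact one_mem _
    | insert i I hi ih =>
      rw [zs_insert hi, show z0 = v0 * e0 * (v0 * e0) by decide, at1_mul]
      exact mul_mem ((mm ⟨_, fx_iff_mem.1 (fx_map_zs _ s)⟩ ⟨_, fx_iff_mem.1 (fx_map_zs _ s)⟩).2 Iff.rfl) ih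
  have zz : zs θ s * zs θ s = 1 := zs_sq s
  let φ : 𝒞[zs θ s] →* G := MonoidHom.mk' (fun a => if (a : G) ∈ K then a else a * zs θ s) fun a b => by
    have c := mem_cent1.1 b.2
    simp only [Subgroup.coe_mul, mm]
    by_cases ha : (a : G) ∈ K <;> by_cases hb : (b : G) ∈ K <;> simp only [ha, hb, if_true, if_false,
      iff_true, iff_false, not_true, not_false_iff, mul_assoc]
    · rw [c]
    · rw [c, ← mul_assoc (zs θ s), zz, one_mul]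
  have p1 : ∀ a : 𝒞[zs θ s], (a : G) ∈ K → φ a = a := fun a ha => if_pos ha
  have p2 : ∀ a : 𝒞[zs θ s], (a : G) ∉ K → φ a = a * zs θ s := fun a ha => if_neg ha
  refine ⟨_, h.tr φ ((injective_iff_map_eq_one φ).2 fun a e => ?_) ?_,
    fun I => p1 ⟨_, fx_iff_mem.1 (fx_map_zs _ s)⟩ (zK I),
    fun i hi => p2 ⟨_, fx_iff_mem.1 (fx_map_zs _ s)⟩ (k3 i hi)⟩
  · by_cases ha : (a : G) ∈ K
    · exact Subtype.ext ((p1 a ha).symm.trans e)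
    · rw [p2 a ha, mul_eq_one_iff_eq_inv] at e
      exact absurd (e ▸ inv_mem (zK s)) ha
  · rw [p1 _ (zK s)]
    refine le_antisymm ?_ fun g hg => ?_
    · rintro _ ⟨a, rfl⟩
      by_cases ha : (a : G) ∈ K
      · rw [p1 a ha]; exact a.2
      · rw [p2 a ha]; exact mul_mem a.2 (self_mem_cent1 _)
    · by_cases ha : g ∈ K
      · exact ⟨⟨g, hg⟩, p1 _ ha⟩
      · refine ⟨⟨g * zs θ s, mul_mem hg (self_mem_cent1 _)⟩,
          (p2 _ fun e => ha ((mul_mem_cancel_right (zK s)).1 e)).trans ?_⟩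
        rw [mul_assoc, zz, mul_one]

/-- the centre of `H` -/
theorem KG.center (h : KG m θ s) {y : G} (y1 : y ≠ 1) (hy : ∀ g, Fx g (zs θ s) → Fx g y) :
    y = zs θ s := by
  obtain ⟨I, rfl⟩ := h.cJ y fun d => fx_symm (hy _ (fx_map_zs d s))
  have h1 : I ⊆ s := fun j hj => by_contra fun e => by
    obtain ⟨ρ, r, -⟩ := h.rho j e
    exact r.notMem h.js.1 (hy _ (r.fzs e)) hj
  obtain ⟨a, ha⟩ : I.Nonempty := Finset.nonempty_iff_ne_empty.2 fun e => y1 (by rw [e, zs_empty])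
  refine congrArg _ (Finset.Subset.antisymm h1 fun b hb => ?_)
  have hπ : ∀ i, swap a b i ∈ s ↔ i ∈ s := fun i => by
    have := h1 ha
    rw [swap_apply_def]
    grind
  obtain ⟨g, hg⟩ := h.perm (swap a b) hπ
  have := congrFun (h.js.1 ((hg _).symm.trans (hy g ((hg _).trans (congrArg _ (funext fun i => by
    simp only [Function.comp_apply, symm_swap, hπ])))))) b
  by_contra e
  simp [ha, e, z0_ne] at this

end Cfsg.Agent.H65.Alt
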