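import Cfsg.Agent.H65.AlModA
import Cfsg.Agent.H65.AlModB
import Cfsg.Agent.H65.AlModC
import Cfsg.Agent.H65.AlTr

set_option autoImplicit false
set_option linter.unusedSectionVars false

namespace Cfsg.Agent.H65.Alt

open Subgroup Equiv Cfsg.Agent.H49 Cfsg.Agent.ALT
open Cfsg.Agent.SAN (An Four KK NN cA)

variable {G : Type*} [Group G] [Finite G]

theorem kg_model {n q : ℕ} (zt : An (4 * n + q + 2)) (hq : q ≤ 1) (hzt : orderOf zt = 2) :
    ∃ (s : Finset (Fin n)) (Φ : alternatingGroup (Pt (Fin n) q) ≃* An (4 * n + q + 2)), s.Nonempty ∧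
      Φ (zs (thA (Fin n) q) s) = zt := by
  have h2 : zt ^ 2 = 1 := orderOf_dvd_iff_pow_eq_one.1 hzt.dvd
  have h2' : zt.1 ^ 2 = 1 := congrArg Subtype.val h2
  obtain ⟨k, hk⟩ := four_dvd_support (pow_two zt.1 ▸ h2') zt.2
  have h3 := zt.1.support.card_le_univ
  rw [hk, Fintype.card_fin] at h3
  obtain ⟨s, -, hs⟩ := Finset.exists_subset_card_eq (s := (Finset.univ : Finset (Fin n))) (n := k)
    (by simp; omega)
  let β : Pt (Fin n) q ≃ Fin (4 * n + q + 2) := Fintype.equivOfCardEq (by simp [mul_comm, add_assoc])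
  obtain ⟨g, hg⟩ := isConj_iff.1 (isConj_of_card_support (a := β.permCongrHom (zs (thA (Fin n) q) s).1)
    (by rw [← map_pow, pow_two, ← Subgroup.coe_mul, zs_sq]; exact map_one _) h2'
    ((card_support_permCongr β _).trans (by rw [mc_supp, hs, hk])))
  refine ⟨s, (β.trans g).altCongrHom, Finset.card_pos.1 (Nat.pos_of_ne_zero fun e => ?_),
    Subtype.ext (Eq.trans (Equiv.ext fun x => ?_) hg)⟩
  · rw [← hs, e, Finset.card_eq_zero, Perm.support_eq_empty_iff] at hk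
    rw [show zt = 1 from Subtype.ext hk, orderOf_one] at hzt
    omega
  · simp [Perm.inv_def]

theorem exists_kg {m : ℕ} (hmod : m % 4 = 2 ∨ m % 4 = 3) {zt : An m} (hzt : orderOf zt = 2) {z : G}
    (hz : orderOf z = 2) (e : 𝒞[z] ≃* 𝒞[zt]) :
    ∃ (n : ℕ) (θ : (Fin n → D8) →* G) (s : Finset (Fin n)), KG m θ s ∧ zs θ s = z := by
  obtain ⟨n, q, hq, rfl⟩ : ∃ n q, q ≤ 1 ∧ m = 4 * n + q + 2 := ⟨m / 4, m % 4 - 2, by omega, by omega⟩
  obtain ⟨s, Φ, hs, rfl⟩ := kg_model zt hq hzt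
  have h : KG (4 * n + q + 2) (thA (Fin n) q) s :=
    { toKA := modA hq hs, toKB := modB hs, toKC := by simpa using modC (ι := Fin n) (q := q) s
      ne := hs, card := by rw [Fintype.card_fin]; omega }
  have c : ∀ x, Φ x ∈ 𝒞[Φ (zs (thA (Fin n) q) s)] ↔ x ∈ 𝒞[zs (thA (Fin n) q) s] := fun x => by
    rw [mem_cent1, mem_cent1, ← map_mul, ← map_mul, Φ.injective.eq_iff]
  let e' : 𝒞[zs (thA (Fin n) q) s] →* 𝒞[z] := e.symm.toMonoidHom.comp
    ((Φ.toMonoidHom.comp (Subgroup.subtype _)).codRestrict _ fun x => (c _).2 x.2)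
  have i : Function.Injective e' := fun a b h =>
    Subtype.ext (Φ.injective (congrArg Subtype.val (e.symm.injective h)))
  have su : Function.Surjective e' := fun y =>
    ⟨⟨Φ.symm (e y), (c _).1 (by simp)⟩, e.symm_apply_eq.2 (Subtype.ext (Φ.apply_symm_apply _))⟩
  obtain ⟨y, hy⟩ := su ⟨z, self_mem_cent1 z⟩
  have e1 : y = ⟨_, self_mem_cent1 _⟩ := Subtype.ext (h.center (fun e1 => ?_) fun g hg => ?_)
  · have e2 : (𝒞[z].subtype.comp e') ⟨_, self_mem_cent1 _⟩ = z := by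
      rw [← e1]; exact congrArg Subtype.val hy
    refine ⟨n, _, s, h.tr (𝒞[z].subtype.comp e') (Subtype.val_injective.comp i) ?_, e2⟩
    rw [e2, MonoidHom.range_comp, MonoidHom.range_eq_top.2 su, ← MonoidHom.range_eq_map, range_subtype]
  · rw [show y = 1 from Subtype.ext e1, map_one] at hy
    rw [← show (1 : G) = z from congrArg Subtype.val hy, orderOf_one] at hz
    omega
  · refine fx_iff.2 (congrArg Subtype.val (i (a₁ := ⟨g, fx_iff_mem.1 hg⟩ * y) (a₂ := y * ⟨g, fx_iff_mem.1 hg⟩) ?_))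
    rw [map_mul, map_mul, hy]
    exact Subtype.ext (mem_cent1.1 (e' _).2)

end Cfsg.Agent.H65.Alt
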