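import Cfsg.Agent.H65.AlSd
import Cfsg.Agent.H42.ZStar

set_option autoImplicit false
set_option linter.unusedSectionVars false

namespace Cfsg.Agent.H65.Alt

open Subgroup Equiv Cfsg.Agent.H49 Cfsg.Agent.ALT
open Cfsg.Agent.SAN (An Four KK NN cA)

variable {G : Type*} [Group G] [Finite G] {d : ℕ} {t v : G} {f : An d →* G}

theorem lift_inv {X : Type*} [Group X] [Finite X] {N : Subgroup X} [hN : N.Normal] {x : X} (xx : x * x = 1)
    (h : ∀ n ∈ N, Fx x n → n = 1) {n : X} (hn : n ∈ N) : x * n * x⁻¹ = n⁻¹ := by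
  let φ : N → N := fun a => ⟨a⁻¹ * (x * a * x⁻¹), mul_mem (inv_mem a.2) (hN.conj_mem _ a.2 x)⟩
  have : Function.Injective φ := fun a b e => by
    have e1 : (a : X)⁻¹ * (x * a * x⁻¹) = (b : X)⁻¹ * (x * b * x⁻¹) := congrArg Subtype.val e
    refine Subtype.ext (mul_inv_eq_one.1 (h _ (mul_mem a.2 (inv_mem b.2)) ?_))
    calc x * (a * (b : X)⁻¹) * x⁻¹ = a * ((a : X)⁻¹ * (x * a * x⁻¹)) * (x * b * x⁻¹)⁻¹ := by group
      _ = _ := by rw [e1]; group
  obtain ⟨a, ha⟩ := Finite.surjective_of_injective this ⟨n, hn⟩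
  obtain rfl : (a : X)⁻¹ * (x * a * x⁻¹) = n := congrArg Subtype.val ha
  calc _ = x * (a : X)⁻¹ * x⁻¹ * ((x * x) * a * (x * x)⁻¹) := by group
    _ = _ := by rw [xx]; group

theorem lift_odd {y w : G} (hy : Odd (orderOf y)) (h : Fx (y * y) w) : Fx y w := by
  obtain ⟨k, hk⟩ := hy
  have := fx_pow h (k + 1)
  rwa [← pow_two, ← pow_mul, show 2 * (k + 1) = orderOf y + 1 by omega, pow_succ, pow_orderOf_eq_one,
    one_mul] at this

theorem lift_sq {y w : G} (tt : t * t = 1) (h1 : Fx y t) (h : Fx y w ∨ y * w * y⁻¹ = w * t) :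
    Fx (y * y) w := by
  rcases h with e | e
  · exact fx_mul e e
  · rw [Fx, ← conj_conj', e, ← conj_mul, e, h1, mul_assoc, tt, mul_one]

theorem lift_one {X : Type*} [Group X] {N : Subgroup X} (hN : Odd (Nat.card N)) {x : X} (hx : x ∈ N)
    (xx : x * x = 1) : x = 1 :=
  orderOf_eq_one_iff.1 (Nat.eq_one_of_dvd_coprimes (Nat.coprime_two_left.2 hN)
    (orderOf_dvd_of_pow_eq_one (by rwa [pow_two])) (N.orderOf_dvd_natCard hx))

theorem SD.lift1 (h : SD t v f) (nf : ∀ a, a * a = 1 → a ≠ 1 → ¬ IsConj t (t * f a)) {c : G} (hc : Fx c t)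
    (h1 : Fx (c * v * c⁻¹) v) : Fx c v ∨ c * v * c⁻¹ = v * t := by
  obtain ⟨ρ, hρ, r⟩ := h.rhoK
  have h4 : 4 ≤ d := le_trans (by norm_num) h.d6
  have vt : Fx v t := fx_iff.2 h.uv.symm
  obtain ⟨u, a, hu, e⟩ := (h.cv (c * v * c⁻¹)).1 ⟨fx_mul (fx_mul hc vt) (fx_inv hc), h1⟩
  have c1 : IsConj t (u * f a) := (isConj_iff.2 ⟨_, r.r1⟩).trans (isConj_iff.2 ⟨_, e⟩)
  have ta : f a * t = t * f a := fx_iff.1 (h.cv.fx a).1
  have c2 : IsConj t (u * t * f a) := (isConj_iff.2 ⟨_, (r.inv h.uu).r1⟩).trans (isConj_iff.2 ⟨c, by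
    rw [← conj_mul, e, hc, mul_assoc, ta, mul_assoc]⟩)
  by_cases a1 : a = 1
  · rw [a1, map_one, mul_one] at e
    rcases hu with rfl | rfl | rfl | rfl
    · exact absurd (conj_eq_one_iff.1 e) h.v1
    · exact absurd (mul_left_cancel (mul_right_cancel (hc.trans e.symm))) h.ne
    · exact Or.inl e
    · exact Or.inr e
  have aa : a * a = 1 := (h.cv.uniq h.toFour h.inj h4 (hu.mul h.toFour hu) (Or.inl rfl) (by
    have : u * f a * (u * f a) = 1 := by rw [← e, conj_mul, h.vv]; group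
    rw [map_one, mul_one, ← this, map_mul, mul_assoc u (f a), ← mul_assoc (f a),
      SAN.mem_KK.1 (h.cv.mem_KK hu)]
    group)).2
  have ra : Fx ρ (f a) := fx_iff.2 (SAN.mem_KK.1 hρ a).symm
  have k1 : IsConj (t * f a) (v * f a) := isConj_iff.2 ⟨ρ, by rw [← conj_mul, r.r1, ra]⟩
  have k2 : IsConj (v * t * f a) (t * f a) := isConj_iff.2 ⟨ρ, by rw [← conj_mul, r.r3 h.uu, ra]⟩
  refine (nf a aa a1 ?_).elim
  rcases hu with rfl | rfl | rfl | rfl
  · rwa [one_mul] at c2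
  · exact c1
  · exact c1.trans k1.symm
  · exact c1.trans k2

theorem SD.lift2 (h : SD t v f) (nf : ∀ a, a * a = 1 → a ≠ 1 → ¬ IsConj t (t * f a)) {a₀ : An d}
    (a1 : a₀ ≠ 1) (aa : a₀ * a₀ = 1) {c y : G} (hc : Fx c t)
    (hy : c * v * c⁻¹ = y) : y * v * y⁻¹ ≠ v * t := fun h1 => by
  have h5 : 5 ≤ d := le_trans (by norm_num) h.d6
  have vt : Fx v t := fx_iff.2 h.uv.symm
  have yt : Fx y t := hy ▸ fx_mul (fx_mul hc vt) (fx_inv hc)
  have yy : y * y = 1 := by rw [← hy, conj_mul, h.vv]; group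
  have yN := h.cv.norm h.toFour h5 (g := y) (Or.inr (Or.inl yt)) (Or.inr (Or.inr (Or.inr h1)))
  have yi : y⁻¹ = y := inv_eq_of_mul_eq_one_right yy
  let H : Subgroup G := ⟨⟨⟨{g | g ∈ f.range ∨ g * y ∈ f.range}, fun {a b} ha hb => by
    rcases ha with ha | ha <;> rcases hb with hb | hb
    · exact Or.inl (mul_mem ha hb)
    · exact Or.inr (by rw [mul_assoc]; exact mul_mem ha hb)
    · exact Or.inr (by convert mul_mem ha (SAN.conj_mem_range (inv_mem yN) hb) using 1; group)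
    · have := mul_mem ha (SAN.conj_mem_range (inv_mem yN) hb)
      rw [show a * y * (y⁻¹ * (b * y) * y⁻¹⁻¹) = a * b * (y * y) by group, yy, mul_one] at this
      exact Or.inl this⟩,
    Or.inl (one_mem _)⟩, fun {a} ha => ha.imp inv_mem fun ha => by
      simpa [mul_assoc, yi, yy, ← mul_assoc y y] using inv_mem (SAN.conj_mem_range yN ha)⟩
  have yH : y ∈ H := Or.inr (yy ▸ one_mem _)
  by_cases iso : IsIsolatedInvolution (⟨y, yH⟩ : H)
  · obtain ⟨N, hN, ho, k⟩ := H42.zstar iso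
    let j : An d →* H := f.codRestrict H fun a => Or.inl ⟨a, rfl⟩
    rcases alternatingGroup.normal_subgroup_eq_bot_or_eq_top (N := N.comap j) (by simpa using h5) with e | e
    · refine h.ni y (SAN.mem_KK.2 fun a => ?_) yt h1
      obtain ⟨b, hb⟩ := mul_mem (SAN.conj_mem_range yN ⟨a, rfl⟩) (inv_mem (⟨a, rfl⟩ : f a ∈ f.range))
      have : b ∈ N.comap j := by
        rw [mem_comap, show j b = ⟨y, yH⟩ * j a * (⟨y, yH⟩ : H)⁻¹ * (j a)⁻¹ from Subtype.ext hb]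
        exact k _
      rw [e, mem_bot] at this
      rw [this, map_one] at hb
      exact (fx_iff.1 (mul_inv_eq_one.1 hb.symm)).symm
    · exact a1 (h.inj ((congrArg Subtype.val (lift_one ho (show j a₀ ∈ N from (e ▸ mem_top a₀ : a₀ ∈ N.comap j))
        (by rw [← map_mul, aa, map_one]))).trans (map_one f).symm))
  have y1 : y ≠ 1 := fun e => h.v1 (conj_eq_one_iff.1 (hy.trans e))
  rw [IsIsolatedInvolution, not_and, not_forall] at iso
  obtain ⟨g, hg⟩ := iso (by rw [← orderOf_coe]; exact orderOf_eq_two_iff.2 ⟨yy, y1⟩)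
  rw [Classical.not_imp] at hg
  obtain ⟨l, hl, e⟩ : ∃ l ∈ f.range, l * y * l⁻¹ = g * y * (g : G)⁻¹ := by
    rcases g.2 with e | e
    · exact ⟨g, e, rfl⟩
    · exact ⟨_, e, by group⟩
  have c1 : Fx (l * y * l⁻¹) y := fx_iff.2 (e ▸ (congrArg Subtype.val hg.1.eq).symm)
  have c2 : l * y * l⁻¹ ≠ y := fun e' => hg.2 (Subtype.ext (e.symm.trans e'))
  obtain ⟨a, rfl⟩ := hl
  have e1 : c⁻¹ * f a * c * v * (c⁻¹ * f a * c)⁻¹ = c⁻¹ * (f a * y * (f a)⁻¹) * c⁻¹⁻¹ := by rw [← hy]; group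
  rcases h.lift1 nf (c := c⁻¹ * f a * c) (fx_mul (fx_mul (fx_inv hc) (h.cv.fx a).1) hc) (by
    rw [e1, ← conj_inv_of hy]; exact fx_conj.2 c1) with e2 | e2
  · exact c2 (by rw [← conj_inv_of (e1.symm.trans e2), ← hy]; group)
  · obtain ⟨b, hb⟩ := mul_mem (inv_mem (SAN.conj_mem_range yN ⟨a⁻¹, rfl⟩)) (⟨a⁻¹, rfl⟩ : f a⁻¹ ∈ f.range)
    have e3 : f a * y * (f a)⁻¹ = y * t := by
      rw [← conj_inv_of (e1.symm.trans e2), ← conj_mul, inv_inv, hy, hc]
    have e4 : f b = t := by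
      rw [hb, map_inv, ← mul_left_cancel_iff (a := y), ← e3, yi]
      simp [mul_assoc, yi, ← mul_assoc y y, yy]
    have b1 : b = 1 := h.cv.one h.inj (by omega) (e4 ▸ h.cv.mem_KK (Or.inr (Or.inl rfl)))
    exact h.u1 (by rw [← e4, b1, map_one])

theorem SD.lift (h : SD t v f) (nf : ∀ a, a * a = 1 → a ≠ 1 → ¬ IsConj t (t * f a)) {a₀ : An d}
    (a1 : a₀ ≠ 1) (aa : a₀ * a₀ = 1)
    (odd : ∀ y, Odd (orderOf y) → Fx y t → Fx y (f a₀) → Fx y v) {g : G} (hg : Fx g t) :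
    Fx g v ∨ g * v * g⁻¹ = v * t := by
  have h5 : 5 ≤ d := le_trans (by norm_num) h.d6
  let T : Subgroup 𝒞[t] := ⟨⟨⟨{x | (x : G) = 1 ∨ (x : G) = t}, fun {a b} ha hb => by
    rcases ha with ha | ha <;> rcases hb with hb | hb <;>
      simp only [Set.mem_ofPred_eq, Subgroup.coe_mul, ha, hb, h.uu, mul_one, one_mul, true_or, or_true]⟩, Or.inl rfl⟩,
    fun {a} ha => ha.imp (by simp) fun ha => by simp [ha, inv_eq_of_mul_eq_one_right h.uu]⟩
  have mT : ∀ x : 𝒞[t], x ∈ T ↔ (x : G) = 1 ∨ (x : G) = t := fun x => Iff.rfl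
  have : T.Normal := ⟨fun x hx g => hx.imp (fun e => by simp [e]) fun e => by
    simpa [e, Fx] using fx_iff_mem.2 g.2⟩
  let π := QuotientGroup.mk' T
  have cm : ∀ x y : 𝒞[t], Fx (π x) (π y) → Fx (x : G) y ∨ (x : G) * y * (x : G)⁻¹ = y * t := fun x y e => by
    rw [Fx, ← map_inv, ← map_mul, ← map_mul, eq_comm] at e
    exact ((mT _).1 (QuotientGroup.eq.1 e)).imp (fun e => (inv_mul_eq_one.1 e).symm)
      fun e => inv_mul_eq_iff_eq_mul.1 e
  let v' : 𝒞[t] := ⟨v, mem_cent1.2 h.uv.symm⟩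
  obtain ⟨N, hN, ho, k⟩ := H42.zstar (z := π v') ⟨orderOf_eq_two_iff.2 ⟨by
    rw [← map_mul, show v' * v' = 1 from Subtype.ext h.vv, map_one], fun e =>
      ((mT _).1 ((QuotientGroup.eq_one_iff _).1 e)).elim h.v1 h.ne.symm⟩, fun x c => by
    obtain ⟨x, rfl⟩ := QuotientGroup.mk'_surjective T x
    rw [← map_inv, ← map_mul, ← map_mul] at c ⊢
    have := (cm _ _ (fx_iff.2 c.eq.symm)).resolve_right (h.lift2 nf a1 aa (fx_iff_mem.2 x.2) rfl)
    rw [eq_comm]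
    exact QuotientGroup.eq.2 ((mT _).2 ((h.lift1 nf (fx_iff_mem.2 x.2) this).imp
      (fun e => inv_mul_eq_one.2 e.symm) fun e => inv_mul_eq_iff_eq_mul.2 e))⟩
  let j : An d →* 𝒞[t] := f.codRestrict _ fun a => fx_iff_mem.1 (h.cv.fx a).1
  have j1 : ∀ a, π (j a) = 1 → a = 1 := fun a e => h.cv.one h.inj (by omega) (h.cv.mem_KK
    (((mT _).1 ((QuotientGroup.eq_one_iff _).1 e)).imp id Or.inl))
  have jj : π (j a₀) * π (j a₀) = 1 := by rw [← map_mul, ← map_mul, aa, map_one, map_one]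
  have e0 : N.comap (π.comp j) = ⊥ :=
    (alternatingGroup.normal_subgroup_eq_bot_or_eq_top (by simpa using h5)).resolve_right fun e =>
      a1 (j1 _ (lift_one ho (show π (j a₀) ∈ N from (e ▸ mem_top a₀ : a₀ ∈ N.comap (π.comp j))) jj))
  have k0 : ∀ n ∈ N, Fx (π (j a₀)) n → n = 1 := fun n hn e => by
    obtain ⟨x, rfl, hx⟩ : ∃ x, π x = n ∧ Odd (orderOf (x : G)) := by
      obtain ⟨x, rfl⟩ := QuotientGroup.mk'_surjective T n
      obtain ⟨m, hm⟩ := ho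
      have e1 : π x ^ (2 * m + 1) = 1 := by
        rw [← hm]; exact orderOf_dvd_iff_pow_eq_one.1 (N.orderOf_dvd_natCard hn)
      refine ⟨(x * x) ^ (m + 1), ?_, Odd.of_dvd_nat ⟨m, rfl⟩ (orderOf_dvd_of_pow_eq_one ?_)⟩
      · rw [← pow_two, ← pow_mul, map_pow, show 2 * (m + 1) = 2 * m + 1 + 1 by ring, pow_succ, e1, one_mul]
      · rw [← map_pow] at e1
        have e2 : ((x : G) ^ (2 * m + 1)) ^ 2 = 1 := by
          rcases (mT _).1 ((QuotientGroup.eq_one_iff _).1 e1) with e | e <;> rw [Subgroup.coe_pow] at e <;>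
            simp [e, pow_two, h.uu]
        rw [Subgroup.coe_pow, Subgroup.coe_mul, ← pow_two, ← pow_mul, ← pow_mul,
          show 2 * ((m + 1) * (2 * m + 1)) = (2 * m + 1) * (2 * (m + 1)) by ring, pow_mul, pow_mul, e2, one_pow]
    have xt : Fx (x : G) t := fx_iff_mem.2 x.2
    have xv := odd x hx xt (lift_odd hx (lift_sq h.uu xt (cm _ _ (fx_symm e))))
    obtain ⟨a, ha⟩ : (x : G) ∈ f.range := by
      obtain ⟨k, hk⟩ := hx
      have := pow_mem (h.cv.sq_mem h.toFour ⟨xt, xv⟩) (k + 1)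
      rwa [← pow_two, ← pow_mul, show 2 * (k + 1) = orderOf (x : G) + 1 by omega, pow_succ,
        pow_orderOf_eq_one, one_mul] at this
    obtain rfl : j a = x := Subtype.ext ha
    rw [show a = 1 from mem_bot.1 (e0 ▸ hn), map_one, map_one]
  have : (𝒞(N).comap (π.comp j)).Normal := inferInstance
  have e1 : a₀ ∈ 𝒞(N).comap (π.comp j) := by
    rcases alternatingGroup.normal_subgroup_eq_bot_or_eq_top (N := 𝒞(N).comap (π.comp j))
      (by simpa using h5) with e | e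
    · refine absurd (h.cv.one h.inj (by omega) (SAN.mem_KK.2 fun b => ?_)) a1
      have : a₀ * (b * a₀ * b⁻¹) ∈ 𝒞(N).comap (π.comp j) := fun n hn => (fx_iff.1 (by
        have e2 := lift_inv jj k0 (hN.conj_mem n hn (π (j b))⁻¹)
        have e3 := lift_inv jj k0 (inv_mem hn)
        simp only [MonoidHom.comp_apply, map_mul, map_inv]
        rw [Fx, ← conj_conj', show π (j b) * π (j a₀) * (π (j b))⁻¹ * n * (π (j b) * π (j a₀) * (π (j b))⁻¹)⁻¹ =
          π (j b) * (π (j a₀) * ((π (j b))⁻¹ * n * (π (j b))⁻¹⁻¹) * (π (j a₀))⁻¹) * (π (j b))⁻¹ by group, e2]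
        exact Eq.trans (by group) (e3.trans (inv_inv n)))).symm
      rw [e, mem_bot] at this
      rw [← map_mul, ← map_mul, ← mul_inv_eq_iff_eq_mul.1 (mul_left_cancel (this.trans aa.symm))]
    · exact e ▸ mem_top _
  have := k0 _ (k (π ⟨g, fx_iff_mem.1 hg⟩)) (fx_iff.2 (e1 _ (k _)).symm)
  exact cm ⟨g, fx_iff_mem.1 hg⟩ v' (fx_symm (mul_inv_eq_one.1 this))

end Cfsg.Agent.H65.Alt
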