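import Cfsg.Agent.H65.AlMod0

set_option autoImplicit false
set_option linter.unusedSectionVars false

namespace Cfsg.Agent.H65.Alt

open Subgroup Equiv Cfsg.Agent.H49 Cfsg.Agent.ALT
open Cfsg.Agent.SAN (An Four KK NN cA)

variable {ι : Type*} [Fintype ι] [DecidableEq ι] {q : ℕ}

theorem ma_F {x : alternatingGroup (Pt ι q)} (h : ∀ i, Fx x (zz (thA ι q) i)) :
    ∃ (d : ι → D8) (τ : Perm (Fin (q + 2))), (∀ i y, x.1 (Sum.inl (i, y)) = Sum.inl (i, act (d i) y)) ∧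
      ((thA ι q d)⁻¹ * x).1 = Perm.sumCongr 1 τ ∧ Perm.sign τ = 1 := by
  choose d hd using fun i => exists_act (w := x.1) (fx_coe.1 (h i))
  have h1 : ∀ p, ((thA ι q d)⁻¹ * x).1 (Sum.inl p) = Sum.inl p := fun ⟨i, y⟩ => by
    show (thP ι q d)⁻¹ (x.1 _) = _
    rw [hd, Perm.inv_eq_iff_eq, thP_inl]
  obtain ⟨⟨w, τ⟩, e⟩ := Perm.mem_sumCongrHom_range_of_perm_mapsTo_inl (σ := ((thA ι q d)⁻¹ * x).1) (by
    rintro _ ⟨p, rfl⟩
    exact ⟨p, (h1 p).symm⟩)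
  have e1 : w = 1 := Equiv.ext fun p => Sum.inl_injective (by rw [← e] at h1; exact h1 p)
  rw [e1, Perm.sumCongrHom_apply] at e
  refine ⟨d, τ, hd, e.symm, ?_⟩
  have := Perm.mem_alternatingGroup.1 ((thA ι q d)⁻¹ * x).2
  simpa [← e, Perm.sign_sumCongr] using this

theorem ma_tail (hq : q ≤ 1) (τ : Perm (Fin (q + 2))) (h : Perm.sign τ = 1) :
    τ ^ 3 = 1 ∧ ((∀ y, τ (swap 0 1 y) = swap 0 1 (τ y)) → τ = 1) := by
  revert τ
  interval_cases q <;> decide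

theorem ma_js (hq : q ≤ 1) : JS (thA ι q) := JS.of_three thA_inj fun x hx => by
  obtain ⟨d, τ, -, e, hτ⟩ := ma_F hx
  refine ⟨d, Subtype.ext ?_⟩
  have : Perm.sumCongr 1 τ = Perm.sumCongrHom (ι × ZMod 4) _ (1, τ) := rfl
  rw [Subgroup.coe_pow, e, this, ← map_pow, Prod.pow_mk, one_pow, (ma_tail hq τ hτ).1]
  exact map_one (Perm.sumCongrHom _ _)

theorem ma_cJ (hq : q ≤ 1) (j : ι) {x : alternatingGroup (Pt ι q)} (h : ∀ d, Fx x (thA ι q d)) :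
    ∃ I, x = zs (thA ι q) I := by
  obtain ⟨d, τ, h1, e, hτ⟩ := ma_F fun i => h _
  have cd : ∀ i, d i = 1 ∨ d i = z0 := fun i =>
    (by decide : ∀ u : D8, (∀ v, u * v = v * u) → u = 1 ∨ u = z0) _ fun v => act_inj _ _ fun y => by
      have := fx_coe.1 (h (Pi.mulSingle i v)) (Sum.inl (i, y))
      simpa [coe_thA, thP_inl, h1, act_mul] using this
  refine ⟨_, Eq.trans ?_ (eq_zs cd)⟩
  have h2 : Fx ((thA ι q d)⁻¹ * x) (ee (thA ι q) j) :=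
    fx_mul (fx_inv (eq_zs (θ := thA ι q) cd ▸ fx_symm (fx_map_zs _ _))) (h _)
  have h3 : τ = 1 := (ma_tail hq τ hτ).2 fun y => by
    have := fx_coe.1 h2 (Sum.inr y)
    rw [e] at this
    simpa [at1, coe_thA, thP_inr, sign_blk_e] using this
  rw [h3, Perm.sumCongr_one] at e
  exact (inv_mul_eq_one.1 (Subtype.ext e)).symm

theorem ma_perm (π : Perm ι) : ∃ h : alternatingGroup (Pt ι q), ∀ d,
    h * thA ι q d * h⁻¹ = thA ι q (d ∘ π.symm) := by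
  let g : Perm (ι × ZMod 4) := prodCongr π (Equiv.refl _)
  refine ⟨⟨Perm.sumCongr g (sg (ta_sq q) (Perm.sign g)), Perm.mem_alternatingGroup.2 (by
    rw [Perm.sign_sumCongr, sign_sg _ (sign_ta q), Int.units_mul_self])⟩, fun d => ?_⟩
  refine mul_inv_eq_iff_eq_mul.2 (Subtype.ext ?_)
  show Perm.sumCongr g _ * thP ι q d = thP ι q _ * Perm.sumCongr g _
  rw [thP_eq, thP_eq, Perm.sumCongr_mul, Perm.sumCongr_mul, ← map_mul, ← map_mul, ← map_mul, ← map_mul,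
    conj_blk]

/-- a rotation inside the frame -/
theorem ma_r3 (j : ι) {σ : Perm (ZMod 4 ⊕ Fin 2)} (hσ : Perm.sign σ = 1) {c : D8}
    (h1 : σ * lc z0 (Perm.sign (ALT.rho z0)) * σ⁻¹ = lc c (Perm.sign (ALT.rho c)))
    (h2 : σ * lc c (Perm.sign (ALT.rho c)) * σ⁻¹ = lc (c * z0) (Perm.sign (ALT.rho (c * z0)))) :
    R3 (m0A (fr6_inj j) σ hσ) (zz (thA ι q) j) (at1 (thA ι q) j c) := by
  have k : ∀ a b, σ * lc a (Perm.sign (ALT.rho a)) * σ⁻¹ = lc b (Perm.sign (ALT.rho b)) →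
      m0A (fr6_inj j) σ hσ * at1 (thA ι q) j a * (m0A (fr6_inj j) σ hσ)⁻¹ = at1 (thA ι q) j b :=
    fun a b e => Subtype.ext (by
      rw [at1_fr6 j b, ← e, map_mul, map_mul, map_inv, ← at1_fr6]; rfl)
  exact ⟨k _ _ h1, by rw [← at1_mul]; exact k _ _ h2⟩

theorem ma_fx (j : ι) {σ : Perm (ZMod 4 ⊕ Fin 2)} (hσ : Perm.sign σ = 1) (d : ι → D8) {u : D8} {ε : ℤˣ}
    (h1 : d j = u) (h2 : Perm.sign (blk d) = ε) (e : lc u ε * σ * (lc u ε)⁻¹ = σ) :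
    Fx (m0A (fr6_inj j) σ hσ) (thA ι q d) :=
  m0_fx _ (fun p => by rw [th_fr6, h1, h2]) hσ e

/-- the rotation of `V` -/
def ma_ρ : Perm (ZMod 4 ⊕ Fin 2) := swap (.inl 1) (.inl 2) * swap (.inl 2) (.inl 3)

/-- the rotation of `E` -/
def ma_μ : Perm (ZMod 4 ⊕ Fin 2) :=
  swap (.inl 0) (.inl 1) * swap (.inl 1) (.inr 0) * (swap (.inl 2) (.inl 3) * swap (.inl 3) (.inr 1))

theorem ma_rho (j : ι) : ∃ ρ, Rot (thA ι q) j ρ (vv (thA ι q) j) ∧ ∀ d, d j = 1 → Fx ρ (thA ι q d) := by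
  have hσ : Perm.sign ma_ρ = 1 := by decide
  have k : ∀ d, d j = 1 → Fx (m0A (fr6_inj j) ma_ρ hσ) (thA ι q d) := fun d hd => by
    rcases Int.units_eq_one_or (Perm.sign (blk d)) with e | e <;> exact ma_fx j hσ d hd e (by decide)
  exact ⟨_, ⟨ma_r3 j hσ (by decide) (by decide), fun l hl => k _ (Pi.mulSingle_eq_of_ne hl.symm _),
    fun d hd => Or.inl (k d hd)⟩, k⟩

theorem ma_mu (j : ι) : ∃ μ, Rot (thA ι q) j μ (ee (thA ι q) j) ∧
    ∀ l, l ≠ j → Fx μ (vv (thA ι q) l) ∧ Fx μ (ee (thA ι q) l * zz (thA ι q) j) := by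
  have hσ : Perm.sign ma_μ = 1 := by decide
  have k1 : ∀ d, d j = 1 → Perm.sign (blk d) = 1 → Fx (m0A (fr6_inj j) ma_μ hσ) (thA ι q d) :=
    fun d hd e => ma_fx j hσ d hd e (by decide)
  have k2 : ∀ d, d j = 1 → Perm.sign (blk d) = -1 →
      Fx (m0A (fr6_inj j) ma_μ hσ) (thA ι q d * zz (thA ι q) j) := fun d hd e => by
    rw [zz, at1, ← map_mul]
    exact ma_fx j hσ _ (u := z0) (ε := -1) (by simp [hd])
      (by rw [map_mul, map_mul, e, sign_single, sign_V0 _ (by decide), mul_one]) (by decide)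
  refine ⟨_, ⟨ma_r3 j hσ (by decide) (by decide), fun l hl => k1 _ (Pi.mulSingle_eq_of_ne hl.symm _)
    (by rw [sign_single]; decide), fun d hd => (Int.units_eq_one_or _).imp (k1 d hd) (k2 d hd)⟩,
    fun l hl => ⟨k1 _ (Pi.mulSingle_eq_of_ne hl.symm _) (by rw [sign_single]; decide),
      k2 _ (Pi.mulSingle_eq_of_ne hl.symm _) (sign_blk_e l)⟩⟩

theorem modA (hq : q ≤ 1) {s : Finset ι} (hs : s.Nonempty) : KA (thA ι q) s := by
  obtain ⟨j, -⟩ := hs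
  refine ⟨ma_js hq, fun x => ma_cJ hq j, fun i h _ h2 => ?_, fun π _ => ma_perm π, fun j _ => ma_rho j,
    fun j _ => ma_mu j⟩
  obtain ⟨u, hu⟩ := exists_act (w := h.1) (fx_coe.1 h2)
  rw [Fx, conj_at1 hu (by decide), ← at1_mul]
  exact ((by decide : ∀ u : D8, u * v0 * u⁻¹ = v0 ∨ u * v0 * u⁻¹ = v0 * z0) u).imp (congrArg _) (congrArg _)

end Cfsg.Agent.H65.Alt
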