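import Cfsg.Agent.H65.AlDefs

set_option autoImplicit false
set_option linter.unusedSectionVars false

namespace Cfsg.Agent.H65.Alt

open Subgroup Equiv Cfsg.Agent.H49 Cfsg.Agent.ALT
open Cfsg.Agent.SAN (An Four KK NN cA)

variable {G : Type*} [Group G] [Finite G] {ι : Type*} [Fintype ι] [DecidableEq ι]
  {θ : (ι → D8) →* G} {s : Finset ι} {m : ℕ} {i : ι}

theorem nu1_norm {Q : Subgroup G} (hQ : Q ≤ θ.range) (hz : ∀ I, zs θ I ∈ Q) : θ.range ≤ 𝒩(Q) := by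
  rintro _ ⟨d, rfl⟩
  refine H42.mem_normalizer_of_conj_mem fun q hq => ?_
  obtain ⟨d', rfl⟩ := hQ hq
  have := mul_mem (hz (Finset.univ.filter fun l => (d * d' * d⁻¹ * d'⁻¹) l = z0)) hq
  rwa [← eq_zs (d := d * d' * d⁻¹ * d'⁻¹) fun l => d8_comm (d l) (d' l), ← map_mul, inv_mul_cancel_right, map_mul, map_mul,
    map_inv] at this

/-- the centraliser in `J` of a four-group of the `i`-th factor -/
def QQ (θ : (ι → D8) →* G) (i : ι) (B : Subgroup D8) : Subgroup G :=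
  (B.comap (Pi.evalMonoidHom _ i)).map θ

theorem mem_QQ {B : Subgroup D8} {x : G} : x ∈ QQ θ i B ↔ ∃ d, d i ∈ B ∧ θ d = x := Iff.rfl

theorem QQ_le {B : Subgroup D8} : QQ θ i B ≤ θ.range := map_le_range _ _

theorem zs_mem_QQ {B : Subgroup D8} (h : z0 ∈ B) (I : Finset ι) : zs θ I ∈ QQ θ i B :=
  ⟨_, by show (if i ∈ I then z0 else 1) ∈ B; split_ifs <;> simp [h], rfl⟩

theorem one_mem_QQ {B : Subgroup D8} {d : ι → D8} (h : d i = 1) : θ d ∈ QQ θ i B :=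
  mem_QQ.2 ⟨d, h ▸ one_mem B, rfl⟩

theorem nu1_act (a : D8) {B : Subgroup D8} {n q : G} (hn : n ∈ 𝒩(QQ θ i B)) (hq : q ∈ QQ θ i B) :
    Fx (n * at1 θ i a * n⁻¹) q ∨
      n * at1 θ i a * n⁻¹ * q * (n * at1 θ i a * n⁻¹)⁻¹ = q * (n * zz θ i * n⁻¹) := by
  obtain ⟨d, -, hd⟩ := mem_QQ.1 (conj_mem_of_norm le_rfl (inv_mem hn) hq)
  obtain rfl : q = n * θ d * n⁻¹ := by rw [hd]; group
  have : Fx (at1 θ i a) (θ d) ∨ at1 θ i a * θ d * (at1 θ i a)⁻¹ = θ d * zz θ i := by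
    have k : ∀ x y : D8, x * y * x⁻¹ = y ∨ x * y * x⁻¹ = y * z0 := by decide
    simp only [Fx, at1, ← map_inv, ← map_mul]
    refine (k a (d i)).imp (fun e => congrArg θ (funext fun l => ?_)) fun e => congrArg θ (funext fun l => ?_)
    all_goals
      by_cases hl : l = i
      · subst hl; simpa using e
      · simp [hl]
  refine this.imp fx_conj.2 fun e => ?_
  rw [conj_mul (a := θ d), ← e]; group

theorem nu1_cen {B : Subgroup D8} {n q : G} (hn : n ∈ 𝒩(QQ θ i B)) (hq : q ∈ QQ θ i B) :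
    Fx q (n * zz θ i * n⁻¹) := by
  obtain ⟨d, -, hd⟩ := mem_QQ.1 (conj_mem_of_norm le_rfl (inv_mem hn) hq)
  obtain rfl : q = n * θ d * n⁻¹ := by rw [hd]; group
  exact fx_conj.2 (fx_map_zz d i)

theorem nu1_fz (a : D8) {B : Subgroup D8} {n : G} (hn : n ∈ 𝒩(QQ θ i B)) {l : ι} (hl : l ≠ i) :
    Fx (n * at1 θ i a * n⁻¹) (zz θ l) := by
  have hx : at1 θ l (v0 * e0) ∈ QQ θ i B := one_mem_QQ (by simp [hl.symm])
  have e : zz θ l = at1 θ l (v0 * e0) * at1 θ l (v0 * e0) := by rw [← at1_mul]; rfl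
  rw [e]
  rcases nu1_act a hn hx with f | f
  · exact f.mul f
  · rw [Fx, ← conj_mul, f, mul_assoc, ← mul_assoc (n * _ * _), ← fx_iff.1 (nu1_cen hn hx), mul_assoc,
      conj_mul, zz_sq]
    group

theorem nu1_move (h : JS θ) {H : Subgroup G} (hN : 𝒩(θ.range) ≤ H) (hZ : ∀ g, (∀ l, Fx g (zz θ l)) → g ∈ H)
    {a : D8} {B : Subgroup D8} (h3 : ∀ u, u ∈ B ∨ u * a⁻¹ ∈ B) {n : G} (hn : n ∈ 𝒩(QQ θ i B))
    (hH : n ∉ H) : ¬ Fx (n * at1 θ i a * n⁻¹) (zz θ i) := fun f => by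
  have hJ : θ.range ≤ ⨅ l, 𝒞[zz θ l] := le_iInf fun l => by
    rintro _ ⟨d, rfl⟩; exact fx_iff_mem.1 (fx_map_zz d l)
  obtain ⟨c, hc, e⟩ := h.frattini hJ (g := n) fun x hx => by
    obtain ⟨_, ⟨d, rfl⟩, rfl⟩ := mem_cj'.1 hx
    rcases h3 (d i) with e | e
    · exact hJ (QQ_le (conj_mem_of_norm le_rfl hn ⟨d, e, rfl⟩))
    · have : θ d * (at1 θ i a)⁻¹ ∈ QQ θ i B :=
        mem_QQ.2 ⟨d * (Pi.mulSingle i a)⁻¹, by simpa using e, by rw [map_mul, map_inv]; rfl⟩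
      rw [← inv_mul_cancel_right (θ d) (at1 θ i a), ← conj_mul]
      refine mul_mem (hJ (QQ_le (conj_mem_of_norm le_rfl hn this))) (mem_iInf.2 fun l => fx_iff_mem.1 ?_)
      by_cases hl : l = i
      · rwa [hl]
      · exact nu1_fz a hn hl
  exact hH (by simpa using mul_mem (inv_mem (hZ c fun l => fx_iff_mem.2 (mem_iInf.1 hc l))) (hN e))

theorem nu1_rot (h : JS θ) {H : Subgroup G} (hN : 𝒩(θ.range) ≤ H) (hZ : ∀ g, (∀ l, Fx g (zz θ l)) → g ∈ H)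
    {a b : D8} {B : Subgroup D8} (h0 : z0 ∈ B) (h3 : ∀ u, u ∈ B ∨ u * a⁻¹ ∈ B)
    (h4 : ∀ u ∈ B, a * u ≠ u * a → u * b⁻¹ = 1 ∨ u * b⁻¹ = z0) {n : G} (hn : n ∈ 𝒩(QQ θ i B))
    (hH : n ∉ H) : ∃ ν I, Rot θ i ν (at1 θ i b * zs θ I) := by
  have tQ : zz θ i ∈ QQ θ i B := by rw [zz, ← zs_singleton]; exact zs_mem_QQ h0 _
  have cQ := conj_mem_of_norm le_rfl hn tQ
  have e1 := (nu1_act a hn tQ).resolve_left (nu1_move h hN hZ h3 hn hH)
  have m2 : ¬ Fx (at1 θ i a) (n * zz θ i * n⁻¹) := fun f =>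
    nu1_move h hN hZ h3 (inv_mem hn) (fun e => hH (by simpa using inv_mem e)) (by
      have := (fx_conj (g := n⁻¹)).2 f
      convert this using 1; group)
  have e2 := (nu1_act a (one_mem _) cQ).resolve_left (by simpa using m2)
  simp only [one_mul, inv_one, mul_one] at e2
  have e3 : Fx (n * at1 θ i a * n⁻¹) (n * zz θ i * n⁻¹) := fx_conj.2 (fx_map_zz _ i)
  have ct : zz θ i * (n * zz θ i * n⁻¹) = n * zz θ i * n⁻¹ * zz θ i := fx_iff.1 (nu1_cen hn tQ)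
  have cc : n * zz θ i * n⁻¹ * (n * zz θ i * n⁻¹) = 1 := by rw [conj_mul, zz_sq]; group
  have fa : Fx (at1 θ i a) (zz θ i) := fx_map_zz _ i
  obtain ⟨d, hd, ed⟩ := mem_QQ.1 cQ
  have e4 : n * zz θ i * n⁻¹ = at1 θ i b *
      zs θ (Finset.univ.filter fun l => ((Pi.mulSingle i b)⁻¹ * d : ι → D8) l = z0) := by
    rw [← eq_zs, at1, ← map_mul, mul_inv_cancel_left, ed]
    intro l
    by_cases hl : l = i
    · subst hl
      have k : ∀ u b : D8, u * b⁻¹ = 1 ∨ u * b⁻¹ = z0 → b⁻¹ * u = 1 ∨ b⁻¹ * u = z0 := by decide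
      simpa using k _ _ (h4 _ hd fun e => m2 (by
        rw [← ed, fx_iff, at1, ← map_mul, ← map_mul]
        refine congrArg θ (funext fun j => ?_)
        by_cases hj : j = l
        · subst hj; simpa using e
        · simp [hj]))
    · have k : ∀ u : D8, (∀ y, y * u = u * y) → u = 1 ∨ u = z0 := by decide
      simpa [hl] using k (d l) fun y => by
        have := fx_iff.1 (nu1_cen hn (one_mem_QQ (d := Pi.mulSingle l y) (by simp [Ne.symm hl])))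
        rw [← ed, ← map_mul, ← map_mul] at this
        simpa using congrFun (h.1 this) l
  have cc' : ∀ x y z : G, x * y * z * (x * y)⁻¹ = x * (y * z * y⁻¹) * x⁻¹ := fun x y z => by group
  suffices r : Rot θ i (at1 θ i a * (n * at1 θ i a * n⁻¹)) (n * zz θ i * n⁻¹) from ⟨_, _, e4 ▸ r⟩
  refine ⟨⟨?_, ?_⟩, fun l hl => fx_mul (fx_map_zz _ l) (nu1_fz a hn hl), fun x hx => ?_⟩
  · rw [cc', e1, ← conj_mul, fa, e2, ← mul_assoc, ct, mul_assoc, zz_sq, mul_one]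
  · rw [cc', e3, e2]
  · have f1 := fx_symm (fx_at1 (θ := θ) hx a)
    refine (nu1_act a hn (one_mem_QQ hx)).imp (fx_mul f1) fun e => fx_mul (f1.mul fa) ?_
    rw [Fx, ← conj_mul, e, e1, ct, mul_assoc, ← mul_assoc (n * _ * _), cc, one_mul]

theorem nu1_main (h : JS θ) (h2 : No2 G) (hN : 𝒩(θ.range) ≤ 𝒞[zs θ s]) {K : Subgroup G}
    (hK : K ≤ 𝒞[zs θ s]) (hi : K.relIndex 𝒞[zs θ s] = 2) {b : D8} (hb : at1 θ i b ∉ K)
    {B : Subgroup D8} (hB : B = V0 ∨ B = E0) (bB : b ∈ B) : ∃ n ∈ 𝒩(QQ θ i B), n ∉ 𝒞[zs θ s] := by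
  have res : pResidual 2 G = ⊤ := by
    by_contra hne
    obtain ⟨M, -, hi⟩ := H3.pResidual_ne_top_iff.1 hne
    exact h2 M hi
  have h0 : z0 ∈ B := by rcases hB with rfl | rfl <;> decide
  obtain ⟨S, hS⟩ := (two_range (θ := θ)).exists_le_sylow
  have odd : ¬ 2 ∣ 𝒞[zs θ s].index := fun hd => S.not_dvd_index
    (hd.trans (index_dvd_of_le ((h.le_norm S.isPGroup' hS).trans hN)))
  have nK := norm_of_relIndex_two hK hi
  obtain ⟨g, h1, h3⟩ := NG.CI.ext_transfer (Q := QQ θ i B) (z := at1 θ i b) (by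
      rw [← at1_mul, show b * b = 1 by rcases hB with rfl | rfl; exacts [V0_sq b bB, E0_sq b bB], at1]
      simp) (res ▸ mem_top _) odd hK hi (two_range.to_le QQ_le) (by
      rintro _ ⟨d, hd, rfl⟩
      rw [at1, ← map_mul, ← map_mul]
      refine congrArg θ (funext fun j => ?_)
      by_cases hj : j = i
      · subst hj
        simpa using show d j * b = b * d j by
          rcases hB with rfl | rfl; exacts [V0_comm _ hd _ bB, E0_comm _ hd _ bB]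
      · simp [hj])
  obtain ⟨P, hP, p1, -, c, hc, e⟩ := exists_conj_le (le_normalizer.trans hN)
    (show cj g⁻¹ (QQ θ i B) ≤ _ from h3) two_range
    (isPGroup_cj.2 (two_range.to_le QQ_le))
  rw [cj_cj] at e
  have k : ∀ B' : ι → Subgroup D8, (∀ l, B' l = V0 ∨ B' l = E0) → B' i = B →
      cj (c * g⁻¹) (pr θ B') ≤ θ.range ∧ ∀ I, zs θ I ∈ cj (c * g⁻¹) (QQ θ i B) := fun B' hB' e' => by
    have le : pr θ B' ≤ QQ θ i B := fun x hx => by
      obtain ⟨d, hd, rfl⟩ := mem_pr.1 hx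
      exact ⟨d, e' ▸ hd i, rfl⟩
    have a1 : ∀ x ∈ cj (c * g⁻¹) (pr θ B'), x * x = 1 := fun x hx => by
      obtain ⟨y, hy, rfl⟩ := mem_cj'.1 hx
      rw [conj_mul, pr_sq hB' y hy]; simp
    have a2 : ∀ x ∈ cj (c * g⁻¹) (pr θ B'), ∀ y ∈ cj (c * g⁻¹) (pr θ B'), x * y = y * x :=
      fun x hx x' hx' => by
        obtain ⟨y, hy, rfl⟩ := mem_cj'.1 hx
        obtain ⟨y', hy', rfl⟩ := mem_cj'.1 hx'
        rw [conj_mul, conj_mul, pr_comm hB' y hy y' hy']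
    have a3 : 4 ^ Fintype.card ι ≤ Nat.card (cj (c * g⁻¹) (pr θ B')) := by
      rw [card_cj, card_pr_four h.1 hB']
    have a4 := h.le_range hP p1 ((cj_mono _ le).trans e) a1 a2 a3
    obtain ⟨B'', hB'', e''⟩ := eq_pr h.1 a4 a1 a2 a3
    refine ⟨a4, fun I => cj_mono _ le (e'' ▸ mem_pr.2 ⟨_, fun l => ?_, rfl⟩)⟩
    rcases hB'' l with e | e <;> rw [e] <;> split_ifs <;> decide
  have u : ∀ X : Subgroup D8, X = V0 ∨ X = E0 → ∀ l, Function.update (fun _ : ι => X) i B l = V0 ∨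
      Function.update (fun _ : ι => X) i B l = E0 := fun X hX l => by
    rw [Function.update_apply]; split_ifs; exacts [hB, hX]
  obtain ⟨k1, k3⟩ := k _ (u V0 (Or.inl rfl)) (by simp)
  obtain ⟨k2, -⟩ := k _ (u E0 (Or.inr rfl)) (by simp)
  have le : cj (c * g⁻¹) (QQ θ i B) ≤ θ.range := fun x hx => by
    obtain ⟨_, ⟨d, hd, rfl⟩, rfl⟩ := mem_cj'.1 hx
    choose x hx y hy e using fun l => d8_split (d l)
    have : d = Function.update x i (d i) * Function.update y i 1 := funext fun l => by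
      by_cases hl : l = i
      · subst hl; simp
      · simpa [hl] using e l
    rw [this, map_mul, ← conj_mul]
    refine mul_mem (k1 (conj_mem_cj.2 (mem_pr.2 ⟨_, fun l => ?_, rfl⟩)))
      (k2 (conj_mem_cj.2 (mem_pr.2 ⟨_, fun l => ?_, rfl⟩)))
    all_goals
      by_cases hl : l = i
      · subst hl; simp [show d l ∈ B from hd]
      · simp [hl, hx, hy]
  obtain ⟨c', hc', e'⟩ := h.frattini (nu1_norm le k3) (g := c * g⁻¹) (by
    rw [← cj_normalizer]; exact cj_mono _ (nu1_norm QQ_le (zs_mem_QQ h0)))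
  refine ⟨(c' * (c * g⁻¹))⁻¹ * (c * g⁻¹), mem_norm_iff_cj.2 ?_, fun hn => hb ?_⟩
  · rw [cj_mul, ← cj_eq_of_mem_norm hc', cj_cj, cj_cj, ← mul_assoc, ← mul_assoc]
    simp [mul_assoc]
  · have hg : g ∈ 𝒞[zs θ s] := by
      simpa [mul_assoc] using mul_mem (inv_mem (mul_mem (hN e') hn)) hc
    simpa [mul_assoc] using conj_mem_of_norm nK hg h1

/-- rotations when `N(J) ≤ H` -/
theorem KG.nu1 (h : KG m θ s) (h2 : No2 G) (hi : i ∈ s) (hN : 𝒩(θ.range) ≤ 𝒞[zs θ s]) :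
    (∃ ν I, Rot θ i ν (vv θ i * zs θ I)) ∧ ∃ ν I, Rot θ i ν (ee θ i * zs θ I) := by
  have hZ : ∀ g, (∀ l, Fx g (zz θ l)) → g ∈ 𝒞[zs θ s] := fun g hg => fx_iff_mem.1 (fx_zs_of fun l _ => hg l)
  obtain ⟨K, k1, k2, k3⟩ := h.eV
  obtain ⟨K', k1', k2', k3'⟩ := h.eE
  obtain ⟨n, n1, n2⟩ := nu1_main h.js h2 hN k1 k2 (k3 i hi) (Or.inl rfl) (by decide)
  obtain ⟨n', n1', n2'⟩ := nu1_main h.js h2 hN k1' k2' (k3' i hi) (Or.inr rfl) (by decide)
  exact ⟨nu1_rot h.js hN hZ (a := e0) (by decide) (by decide) (by decide) n1 n2,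
    nu1_rot h.js hN hZ (a := v0) (by decide) (by decide) (by decide) n1' n2'⟩

end Cfsg.Agent.H65.Alt
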