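import Cfsg.Agent.H65.AlNu1

set_option autoImplicit false
set_option linter.unusedSectionVars false

namespace Cfsg.Agent.H65.Alt

open Subgroup Equiv Cfsg.Agent.H49 Cfsg.Agent.ALT
open Cfsg.Agent.SAN (An Four KK NN cA)

variable {G : Type*} [Group G] [Finite G] {ι : Type*} [Fintype ι] [DecidableEq ι]
  {θ : (ι → D8) →* G} {s : Finset ι} {m : ℕ} {i : ι}

theorem nu2_coord (hθ : Function.Injective θ) {g : G} (hg : g ∈ 𝒩(θ.range)) {j : ι}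
    (hz : g * zz θ i * g⁻¹ = zz θ j) {d d' : ι → D8} (e : g * θ d * g⁻¹ = θ d')
    (h : d i = 1 ∨ d i = z0) : d' j = 1 ∨ d' j = z0 := by
  by_contra hc
  rw [not_or] at hc
  obtain ⟨y, hy⟩ := d8_noncen _ hc.1 hc.2
  obtain ⟨y', hy'⟩ := exists_conj_map (inv_mem hg) (Pi.mulSingle j y)
  have e1 : g * θ (d * y' * d⁻¹ * y'⁻¹) * g⁻¹ = g * zz θ i * g⁻¹ := by
    rw [hz, zz, at1, ← comm_single hy]
    simp only [map_mul, map_inv, ← e, hy']
    group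
  have := congrFun (hθ (mul_left_cancel (mul_right_cancel e1))) i
  simp only [Pi.mul_apply, Pi.inv_apply, Pi.mulSingle_eq_same] at this
  have k : ∀ y : D8, z0 * y * z0⁻¹ * y⁻¹ ≠ z0 := by decide
  rcases h with h | h <;> rw [h] at this
  · exact z0_ne (by simpa using this.symm)
  · exact k _ this

theorem nu2_rot (hθ : Function.Injective θ) {g : G} (hg : g ∈ 𝒩(θ.range)) {j : ι}
    (hz : g * zz θ i * g⁻¹ = zz θ j) {σ : G} {b : D8} (r : Rot θ j σ (at1 θ j b)) (b1 : ¬ (b = 1 ∨ b = z0)) :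
    ∃ d, θ d = g⁻¹ * at1 θ j b * g⁻¹⁻¹ ∧ ¬ (d i = 1 ∨ d i = z0) ∧ d i * d i = 1 ∧
      ∀ b', b'⁻¹ * d i = 1 ∨ b'⁻¹ * d i = z0 → ∃ ν I, Rot θ i ν (at1 θ i b' * zs θ I) := by
  obtain ⟨d, hd⟩ := exists_conj_map (inv_mem hg) (Pi.mulSingle j b)
  obtain ⟨π, hπ, hp⟩ := exists_perm hθ hg
  have ij : π i = j := (at1_inj hθ z0_ne ((hp i).symm.trans hz)).1
  have r3 := r.toR3.conj g⁻¹
  rw [conj_inv_of hz, at1, ← hd] at r3
  refine ⟨d, hd, fun h => b1 (by simpa using nu2_coord hθ hg hz (d' := Pi.mulSingle j b) (by rw [hd]; group) h),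
    congrFun (hθ (by rw [map_mul, r3.sq (zz_sq i), map_one] : θ (d * d) = θ 1)) i, fun b' hb =>
    ⟨g⁻¹ * σ * g⁻¹⁻¹, Finset.univ.filter fun l => ((Pi.mulSingle i b')⁻¹ * d : ι → D8) l = z0, ?_⟩⟩
  rw [← eq_zs, at1, ← map_mul, mul_inv_cancel_left]
  swap
  · intro l
    by_cases hl : l = i
    · subst hl; simpa using hb
    · simpa [hl] using nu2_coord hθ (inv_mem hg) (conj_inv_of (hp l)) hd.symm
        (Or.inl (Pi.mulSingle_eq_of_ne (fun e => hl (hπ (e.trans ij.symm))) _))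
  refine ⟨r3, fun l hl => ?_, fun x hx => ?_⟩
  · have := (fx_conj (g := g⁻¹)).2 (r.fz (π l) fun e => hl (hπ (e.trans ij.symm)))
    rwa [conj_inv_of (hp l)] at this
  obtain ⟨x', hx'⟩ := exists_conj_map hg x
  have k : Fx σ (θ x') ∨ Fx σ (θ x' * zz θ j) := by
    have h1 := r.fx (Function.update x' j 1) (by simp)
    rcases nu2_coord hθ hg hz hx'.symm (Or.inl hx) with e | e
    · rwa [← e, Function.update_eq_self] at h1
    · have : θ x' = θ (Function.update x' j 1) * zz θ j := by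
        rw [zz, at1, ← map_mul]
        refine congrArg θ (funext fun l => ?_)
        by_cases hl : l = j
        · subst hl; simpa using e
        · simp [hl]
      rw [this, mul_assoc, zz_sq, mul_one]
      exact h1.symm
  have := k.imp (fx_conj (g := g⁻¹)).2 (fx_conj (g := g⁻¹)).2
  rwa [← conj_mul, conj_inv_of hz, conj_inv_of hx'.symm] at this

/-- rotations when `N(J) ≰ H` -/
theorem KG.nu2 (h : KG m θ s) (hi : i ∈ s) (hN : ¬ 𝒩(θ.range) ≤ 𝒞[zs θ s]) :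
    (∃ ν I, Rot θ i ν (vv θ i * zs θ I)) ∧ ∃ ν I, Rot θ i ν (ee θ i * zs θ I) := by
  have hθ := h.js.1
  obtain ⟨g, hg, j, hj, hz⟩ : ∃ g ∈ 𝒩(θ.range), ∃ j, j ∉ s ∧ g * zz θ i * g⁻¹ = zz θ j := by
    obtain ⟨g, hg, hn⟩ := SetLike.not_le_iff_exists.1 hN
    obtain ⟨π, hπ, hp⟩ := exists_perm hθ hg
    obtain ⟨κ, hκ, hj⟩ : ∃ κ ∈ s, π κ ∉ s := by
      by_contra! hc
      refine hn (fx_iff_mem.1 ?_)
      rw [Fx, conj_zs hπ hp, Finset.eq_of_subset_of_card_le (Finset.image_subset_iff.2 hc)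
        (Finset.card_image_of_injective s hπ).ge]
    obtain ⟨x, hx⟩ := h.perm (swap i κ) fun l => by rw [swap_apply_def]; split_ifs <;> simp_all
    refine ⟨g * x, mul_mem hg (H42.mem_normalizer_of_conj_mem (by
      rintro _ ⟨d, rfl⟩; exact ⟨_, (hx d).symm⟩)), π κ, hj, ?_⟩
    have : x * zz θ i * x⁻¹ = zz θ κ := by
      rw [zz, at1, hx]
      refine congrArg θ (funext fun l => ?_)
      simp only [Function.comp, Pi.mulSingle_apply, Equiv.symm_apply_eq, swap_apply_left]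
    exact Eq.trans (by rw [← this]; group) ((show g * zz θ κ * g⁻¹ = _ from hp κ))
  obtain ⟨ρ, r1, -⟩ := h.rho j hj
  obtain ⟨μ, r2, -⟩ := h.mu j hj
  obtain ⟨d, e1, a1, b1, c1⟩ := nu2_rot hθ hg hz r1 (by decide)
  obtain ⟨d', e2, a2, b2, c2⟩ := nu2_rot hθ hg hz r2 (by decide)
  have e3 : d * d' * d⁻¹ = d' * Pi.mulSingle i z0 := hθ (by
    simp only [map_mul, map_inv, e1, e2]
    rw [show θ (Pi.mulSingle i z0) = zz θ i from rfl, ← conj_inv_of hz, conj_mul, conj_mul, ← vv_conj_ee]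
    group)
  have e4 := congrFun e3 i
  simp only [Pi.mul_apply, Pi.inv_apply, Pi.mulSingle_eq_same] at e4
  have k : ∀ x y : D8, ¬ (x = 1 ∨ x = z0) → x * x = 1 → ¬ (y = 1 ∨ y = z0) → y * y = 1 →
      x * y * x⁻¹ = y * z0 → ((v0⁻¹ * x = 1 ∨ v0⁻¹ * x = z0) ∧ (e0⁻¹ * y = 1 ∨ e0⁻¹ * y = z0)) ∨
        ((v0⁻¹ * y = 1 ∨ v0⁻¹ * y = z0) ∧ (e0⁻¹ * x = 1 ∨ e0⁻¹ * x = z0)) := by decide
  rcases k _ _ a1 b1 a2 b2 e4 with ⟨u, w⟩ | ⟨u, w⟩
  exacts [⟨c1 _ u, c2 _ w⟩, ⟨c2 _ u, c1 _ w⟩]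

theorem KG.nu (h : KG m θ s) (h2 : No2 G) (hi : i ∈ s) :
    (∃ ν I, Rot θ i ν (vv θ i * zs θ I)) ∧ ∃ ν I, Rot θ i ν (ee θ i * zs θ I) := by
  by_cases hN : 𝒩(θ.range) ≤ 𝒞[zs θ s]
  exacts [h.nu1 h2 hi hN, h.nu2 hi hN]

end Cfsg.Agent.H65.Alt
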