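import Cfsg.Agent.H65.AlDefs
import Cfsg.Agent.H3.PResidual
import Cfsg.Agent.S2119
import Cfsg.Agent.H23.A6P

set_option autoImplicit false
set_option linter.unusedSectionVars false

namespace Cfsg.Agent.H65.Alt

open Subgroup Equiv Cfsg.Agent.H49 Cfsg.Agent.ALT
open Cfsg.Agent.SAN (An Four KK NN cA)

variable {G : Type*} [Group G] [Finite G] {d : ℕ} {t v : G} {f : An d →* G}

theorem In4.fx {g u : G} (hu : In4 t v u) (h1 : Fx g t) (h2 : Fx g v) : Fx g u := by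
  rcases hu with rfl | rfl | rfl | rfl
  exacts [Fx.one g, h1, h2, h2.mul h1]

theorem In4.mul (h : Four t v) {u w : G} (hu : In4 t v u) (hw : In4 t v w) : In4 t v (u * w) := by
  have h2 : ∀ x, v * (v * x) = x := fun x => by rw [← mul_assoc, h.vv, one_mul]
  have h3 : ∀ x, t * (v * x) = v * (t * x) := fun x => by rw [← mul_assoc, h.uv, mul_assoc]
  rcases hu with rfl | rfl | rfl | rfl <;> rcases hw with rfl | rfl | rfl | rfl <;>
    simp [In4, mul_assoc, h2, h3, h.uu, h.vv, h.uv]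

theorem In4.sq (h : Four t v) {u : G} (hu : In4 t v u) : u * u = 1 := by
  rcases hu with rfl | rfl | rfl | rfl
  exacts [one_mul _, h.uu, h.vv, h.symm.mul_sq]

theorem CVf.fx (cv : CVf t v f) (a : An d) : Fx (f a) t ∧ Fx (f a) v :=
  (cv _).2 ⟨1, a, Or.inl rfl, (one_mul _).symm⟩

theorem CVf.mem_KK (cv : CVf t v f) {u : G} (hu : In4 t v u) : u ∈ KK f :=
  SAN.mem_KK.2 fun a => fx_iff.1 (hu.fx (cv.fx a).1 (cv.fx a).2)

theorem CVf.one (_cv : CVf t v f) (hf : Function.Injective f) (h4 : 4 ≤ d) {a : An d}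
    (h : f a ∈ KK f) : a = 1 := by
  have : Nontrivial (Fin d) := Fin.nontrivial_iff_two_le.2 (by omega)
  have hc := alternatingGroup.center_eq_bot (α := Fin d) (by simpa using h4)
  have : a ∈ center (An d) := mem_center_iff.2 fun x => hf (by
    rw [map_mul, map_mul]; exact SAN.mem_KK.1 h x)
  rwa [hc, mem_bot] at this

/-- the components of an element of `C(V) = V × L` are unique -/
theorem CVf.uniq (cv : CVf t v f) (h : Four t v) (hf : Function.Injective f) (h4 : 4 ≤ d) {u w : G}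
    (hu : In4 t v u) (hw : In4 t v w) {a b : An d} (e : u * f a = w * f b) : u = w ∧ a = b := by
  have e1 : f (a * b⁻¹) = u * w := by
    rw [map_mul, map_inv, mul_inv_eq_iff_eq_mul, mul_assoc, ← e, ← mul_assoc, hu.sq h, one_mul]
  have e2 : a = b := mul_inv_eq_one.1 (cv.one hf h4 (e1 ▸ cv.mem_KK (hu.mul h hw)))
  exact ⟨mul_right_cancel (e2 ▸ e), e2⟩

theorem CVf.sq_mem (cv : CVf t v f) (h : Four t v) {x : G} (hx : Fx x t ∧ Fx x v) : x * x ∈ f.range := by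
  obtain ⟨u, a, hu, rfl⟩ := (cv x).1 hx
  refine ⟨a * a, ?_⟩
  rw [mul_assoc, ← mul_assoc (f a), SAN.mem_KK.1 (cv.mem_KK hu), ← mul_assoc, ← mul_assoc, hu.sq h,
    one_mul, map_mul]

theorem CVf.conj_mem (cv : CVf t v f) {x y : G} (hx : Fx x t ∧ Fx x v) (hy : y ∈ f.range) :
    x * y * x⁻¹ ∈ f.range := by
  obtain ⟨u, a, hu, rfl⟩ := (cv x).1 hx
  exact SAN.conj_mem_range (mul_mem (SAN.KK_le f (cv.mem_KK hu)) (SAN.range_le f ⟨a, rfl⟩)) hy

theorem sd_in4_inv (h : Four t v) {g : G} (h1 : In4 t v (g * t * g⁻¹)) (h2 : In4 t v (g * v * g⁻¹)) :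
    In4 t v (g⁻¹ * t * g⁻¹⁻¹) ∧ In4 t v (g⁻¹ * v * g⁻¹⁻¹) := by
  let V : Subgroup G := ⟨⟨⟨{u | In4 t v u}, fun a b => In4.mul h a b⟩, Or.inl rfl⟩,
    fun {u} hu => (inv_eq_of_mul_eq_one_right (In4.sq h hu)).symm ▸ hu⟩
  have : g ∈ 𝒩(V) := H42.mem_normalizer_of_conj_mem (by
    rintro u (rfl | rfl | rfl | rfl)
    · exact Or.inl (by simp)
    · exact h1
    · exact h2
    · rw [← conj_mul]; exact In4.mul h h2 h1)
  exact ⟨conj_mem_of_norm le_rfl (inv_mem this) (Or.inr (Or.inl rfl)),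
    conj_mem_of_norm le_rfl (inv_mem this) (Or.inr (Or.inr (Or.inl rfl)))⟩

/-- `N(V) ≤ N(L)` -/
theorem CVf.norm (cv : CVf t v f) (h : Four t v) (h5 : 5 ≤ d) {g : G} (h1 : In4 t v (g * t * g⁻¹))
    (h2 : In4 t v (g * v * g⁻¹)) : g ∈ NN f := by
  obtain ⟨h3, h4⟩ := sd_in4_inv h h1 h2
  have k : ∀ a, Fx (g * f a * g⁻¹) t ∧ Fx (g * f a * g⁻¹) v := fun a => by
    have e1 := (fx_conj (g := g)).2 (h3.fx (cv.fx a).1 (cv.fx a).2)
    have e2 := (fx_conj (g := g)).2 (h4.fx (cv.fx a).1 (cv.fx a).2)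
    constructor
    · convert e1 using 1; group
    · convert e2 using 1; group
  let N : Subgroup (An d) := f.range.comap (SAN.cf g f)
  have : N.Normal := ⟨fun a ha b => by
    have := cv.conj_mem (k b) ha
    rw [mem_comap, map_mul, map_mul, map_inv]
    exact this⟩
  rcases alternatingGroup.normal_subgroup_eq_bot_or_eq_top (N := N) (by simpa using h5) with e | e
  · have hc := Perm.isThreeCycle_swap_mul_swap_same (a := (⟨0, by omega⟩ : Fin d)) (b := ⟨1, by omega⟩)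
      (c := ⟨2, by omega⟩) (by simp) (by simp) (by simp)
    let c : An d := ⟨_, hc.mem_alternatingGroup⟩
    have : c * c ∈ N := by
      rw [mem_comap, map_mul]; exact cv.sq_mem h (k c)
    rw [e, mem_bot] at this
    exact absurd (congrArg Subtype.val this) hc.isThreeCycle_sq.ne_one
  · exact H42.mem_normalizer_of_conj_mem (by
      rintro _ ⟨a, rfl⟩
      exact (e ▸ mem_top a : a ∈ N))

/-- commutators of `C(V)` lie in `L` -/
theorem CVf.comm_mem (cv : CVf t v f) (_h : Four t v) {x y : G} (hx : Fx x t ∧ Fx x v)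
    (hy : Fx y t ∧ Fx y v) : x * y * x⁻¹ * y⁻¹ ∈ f.range := by
  obtain ⟨u, a, hu, rfl⟩ := (cv y).1 hy
  have e := hu.fx hx.1 hx.2
  have e2 := fx_symm (hu.fx (fx_mul (fx_mul hx.1 (cv.fx a).1) (fx_inv hx.1))
    (fx_mul (fx_mul hx.2 (cv.fx a).2) (fx_inv hx.2)))
  have e3 := fx_symm (hu.fx (cv.fx a⁻¹).1 (cv.fx a⁻¹).2)
  have := mul_mem (cv.conj_mem hx ⟨a, rfl⟩) (inv_mem (⟨a, rfl⟩ : f a ∈ f.range))
  rw [← e2, ← map_inv, ← e3, map_inv] at this
  convert this using 1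
  rw [← conj_mul, e]; group

theorem sd_conj33 {x : An 6} (h3 : x ^ 3 = 1) (h1 : x ≠ 1) (h : ¬ x.1.IsThreeCycle) :
    IsConj x ⟨swap 0 1 * swap 0 2 * (swap 3 4 * swap 3 5),
      Perm.mem_alternatingGroup.2 (by decide)⟩ := by
  have c1 := H23.Six.cycleType_three (congrArg Subtype.val h3) (fun e => h1 (Subtype.ext e)) h
  have c2 : (swap 0 1 * swap 0 2 * (swap 3 4 * swap 3 5) : Perm (Fin 6)).cycleType = {3, 3} :=
    H23.Six.cycleType_three (by decide) (by decide) (by rw [Perm.IsThreeCycle]; decide)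
  obtain ⟨π, hπ⟩ := isConj_iff.1 (Perm.isConj_of_cycleType_eq (c1.trans c2.symm))
  rcases Int.units_eq_one_or (Perm.sign π) with e | e
  · exact isConj_iff.2 ⟨⟨π, e⟩, Subtype.ext hπ⟩
  · refine isConj_iff.2 ⟨⟨swap 0 3 * swap 1 4 * swap 2 5 * π, Perm.mem_alternatingGroup.2 (by
      rw [map_mul, e]; decide)⟩, Subtype.ext ?_⟩
    show _ * π * x.1 * (_ * π)⁻¹ = _
    rw [mul_inv_rev, mul_assoc _ π, mul_assoc, ← mul_assoc _ π⁻¹, hπ]
    decide

theorem aut4 (h5 : 5 ≤ d) (α : MulAut (An d)) : ∃ a : An d, α ^ 4 = cA (a : Perm (Fin d)) := by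
  suffices h : ∃ π, α ^ 2 = cA π by
    obtain ⟨π, h⟩ := h
    exact ⟨⟨π * π, Perm.mem_alternatingGroup.2 (by simp)⟩, by
      rw [show 4 = 2 + 2 from rfl, pow_add, h, ← map_mul]⟩
  by_cases h6 : d = 6
  swap
  · obtain ⟨π, h⟩ := (S2119.result d (by omega) h6).2 (α ^ 2)
    exact ⟨π, h.symm⟩
  subst h6
  have k : ∀ (β : MulAut (An 6)) (c c' : An 6), c.1.IsThreeCycle → c'.1.IsThreeCycle →
      (β c).1.IsThreeCycle → (β c').1.IsThreeCycle := fun β c c' hc hc' h => by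
    obtain ⟨g, rfl⟩ := isConj_iff.1 (alternatingGroup.isThreeCycle_isConj (by simp) hc hc')
    rw [map_mul, map_mul, map_inv]
    exact (Perm.cycleType_conj).trans h
  obtain ⟨σ, hσ⟩ := H1.AltAut.exists_conj (p := (0 : Fin 6)) (q := 1) (r := 2) (by decide) (by decide)
    (by decide) ⟨3, by decide⟩ (α ^ 2) fun c hc => by
      rw [pow_two, MulAut.mul_apply]
      by_cases h : (α c).1.IsThreeCycle
      · exact k α c _ hc h h
      have c3 : c ^ 3 = 1 := Subtype.ext (by rw [← hc.orderOf]; simp)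
      have c1 : c ≠ 1 := fun e => hc.ne_one (by rw [e]; rfl)
      have h' : ¬ (α⁻¹ c).1.IsThreeCycle := fun h' =>
        h (k α _ c h' hc (by rwa [MulAut.apply_inv_self]))
      obtain ⟨g, hg⟩ := isConj_iff.1 ((sd_conj33 (by rw [← map_pow, c3, map_one]) (by simpa) h').trans
        (sd_conj33 (by rw [← map_pow, c3, map_one]) (by simpa) h).symm)
      rw [← hg, map_mul, map_mul, map_inv, MulAut.apply_inv_self]
      exact (Perm.cycleType_conj).trans hc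
  exact ⟨σ, MulEquiv.ext fun g => Subtype.ext (hσ g)⟩

theorem conj_conj' (x y z : G) : x * (y * z * y⁻¹) * x⁻¹ = x * y * z * (x * y)⁻¹ := by group

theorem R3.pow4 {ν c : G} (h : R3 ν t c) (tt : t * t = 1) : R3 (ν ^ 4) t c := by
  have e : ∀ x, ν ^ 4 * x * (ν ^ 4)⁻¹ = ν * (ν * (ν * (ν * x * ν⁻¹) * ν⁻¹) * ν⁻¹) * ν⁻¹ := fun x => by
    simp only [pow_succ, pow_zero, mul_inv_rev, one_mul, mul_assoc]
  exact ⟨by rw [e, h.r1, h.r2, h.r3 tt, h.r1], by rw [e, h.r2, h.r3 tt, h.r1, h.r2]⟩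

theorem SD.rhoK (h : SD t v f) : ∃ ρ ∈ KK f, R3 ρ t v := by
  obtain ⟨ρ, r⟩ := h.rho
  have h5 : 5 ≤ d := le_trans (by norm_num) h.d6
  obtain ⟨α, hα⟩ := SAN.exists_acA h.inj (h.cv.norm h.toFour h5 (g := ρ)
    (Or.inr (Or.inr (Or.inl r.r1))) (Or.inr (Or.inr (Or.inr r.r2))))
  obtain ⟨a, ha⟩ := aut4 h5 α
  have r4 := r.pow4 h.uu
  refine ⟨ρ ^ 4 * (f a)⁻¹, (ha ▸ hα.pow 4).mem_KK (SAN.ac_self f a), ?_, ?_⟩
  · rw [← conj_conj', fx_inv (h.cv.fx a).1, r4.r1]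
  · rw [← conj_conj', fx_inv (h.cv.fx a).2, r4.r2]

theorem up {X : Type*} [Group X] [Finite X] (h7 : 7 ≤ d) (hmod : d % 4 = 2 ∨ d % 4 = 3) {N : Subgroup X}
    [N.Normal] (e : N ≃* An d) {z : X} (hz : orderOf z = 2) (hN : 𝒞[z] ≤ N) : N = ⊤ := by
  let Φ : An d →* X := N.subtype.comp e.symm.toMonoidHom
  have hΦ : Function.Injective Φ := Subtype.val_injective.comp e.symm.injective
  have hr : Φ.range = N := by
    rw [MonoidHom.range_comp, MonoidHom.range_eq_top.2 e.symm.surjective, ← MonoidHom.range_eq_map,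
      range_subtype]
  obtain ⟨α, rfl⟩ : z ∈ Φ.range := hr ▸ hN (self_mem_cent1 z)
  refine eq_top_iff.2 fun x _ => ?_
  obtain ⟨β, hβ⟩ := SAN.exists_acA hΦ (g := x) (by rw [NN, hr, normalizer_eq_top]; trivial)
  obtain ⟨π, rfl⟩ := (S2119.result d (by omega) (by omega)).2 β
  have h4 := four_dvd_support (w := α.1) (congrArg Subtype.val (hΦ (by
    rw [map_mul, map_one]; exact (orderOf_eq_two_iff.1 hz).1) : α * α = 1)) (SAN.sign_coe α)
  have h5 := α.1.support.card_le_univ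
  obtain ⟨g, hg⟩ := isConj_iff.1 (alternatingGroup.isConj_of (σ := α) (τ := cA π α)
    (isConj_iff.2 ⟨π, rfl⟩) (by rw [Fintype.card_fin] at *; omega))
  have : (Φ g)⁻¹ * x ∈ N := hN (fx_iff_mem.1 (by
    have := hβ α
    rw [← hg, map_mul, map_mul, map_inv] at this
    rw [Fx, mul_inv_rev, mul_assoc _ x, mul_assoc, ← mul_assoc _ x⁻¹, this]; group))
  simpa using mul_mem (hr ▸ ⟨g, rfl⟩ : Φ g ∈ N) this

end Cfsg.Agent.H65.Alt
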