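import Cfsg.Agent.H65.AlNu2
import Cfsg.Agent.H65.AlTr
import Cfsg.Agent.H65.AlSd

set_option autoImplicit false
set_option linter.unusedSectionVars false

namespace Cfsg.Agent.H65.Alt

open Subgroup Equiv Cfsg.Agent.H49 Cfsg.Agent.ALT
open Cfsg.Agent.SAN (An Four KK NN cA)

variable {G : Type*} [Group G] [Finite G] {ι : Type*} [Fintype ι] [DecidableEq ι]
  {θ : (ι → D8) →* G} {s : Finset ι} {m : ℕ} {i : ι}

theorem pf_five {ν σ p1 p2 p3 p4 p5 : G} (n1 : ν * p1 * ν⁻¹ = p2) (n2 : ν * p2 * ν⁻¹ = p3)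
    (n3 : ν * p3 * ν⁻¹ = p1) (n4 : ν * p4 * ν⁻¹ = p4) (n5 : ν * p5 * ν⁻¹ = p5) (s1 : σ * p1 * σ⁻¹ = p4)
    (s4 : σ * p4 * σ⁻¹ = p5) (s5 : σ * p5 * σ⁻¹ = p1) (s2 : σ * p2 * σ⁻¹ = p2) (s3 : σ * p3 * σ⁻¹ = p3) :
    (∃ g, g * p2 * g⁻¹ = p5 ∧ g * p5 * g⁻¹ = p2 ∧ g * p3 * g⁻¹ = p4 ∧ g * p4 * g⁻¹ = p3 ∧
      ∀ w, Fx ν w → Fx σ w → Fx g w) ∧
    ∃ n, Fx n p1 ∧ n * p2 * n⁻¹ = p3 ∧ n * p3 * n⁻¹ = p4 ∧ ∀ w, Fx ν w → Fx σ w → Fx n w := by
  refine ⟨⟨ν * (σ * (ν⁻¹ * (σ * (ν⁻¹ * σ⁻¹)))), ?_, ?_, ?_, ?_, fun w a b =>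
    fx_mul a (fx_mul b (fx_mul (fx_inv a) (fx_mul b (fx_mul (fx_inv a) (fx_inv b)))))⟩,
    σ * (ν * σ⁻¹), ?_, ?_, ?_, fun w a b => fx_mul b (fx_mul a (fx_inv b))⟩ <;>
  simp only [Fx, ← conj_conj', n1, n2, n3, n4, n5, s1, s2, s3, s4, s5, conj_inv_of n1, conj_inv_of n2,
    conj_inv_of n3, conj_inv_of n4, conj_inv_of n5, conj_inv_of s1, conj_inv_of s2, conj_inv_of s3,
    conj_inv_of s4, conj_inv_of s5]

theorem pf_zc (i : ι) (S : Finset ι) : zz θ i * zs θ S = zs θ S * zz θ i := fx_iff.1 (fx_map_zs _ S)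

theorem pf_lc {a b : G} (h : Fx a b) (z : G) : a * (b * z) = b * (a * z) := by
  rw [← mul_assoc, fx_iff.1 h, mul_assoc]

theorem pf_sq {a : G} (h : a * a = 1) (z : G) : a * (a * z) = z := by rw [← mul_assoc, h, one_mul]

/-- two rotations of commuting four-groups -/
structure TR (ν σ t c x y : G) : Prop where
  tt : t * t = 1
  xx : x * x = 1
  rn : R3 ν t c
  rs : R3 σ x y
  nx : Fx ν x
  st : Fx σ t
  xt : Fx x t
  yt : Fx y t
  xc : Fx x c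
  yc : Fx y c

variable {ν σ t c x y : G}

theorem TR.w1 (h : TR ν σ t c x y) (ny : Fx ν y) (sc : Fx σ (c * x)) : IsConj t (t * x) := by
  have e1 : σ * c * σ⁻¹ = c * (y * x) := by
    rw [show c = c * x * x by rw [mul_assoc, h.xx, mul_one], ← conj_mul, sc, h.rs.r1, mul_assoc, mul_assoc,
      mul_assoc, pf_sq h.xx, h.rs.comm h.xx]
  have e2 : ν * (t * (y * x)) * ν⁻¹ = c * (y * x) := by rw [← conj_mul, h.rn.r1, ny.mul h.nx]
  have e3 : σ * (t * (y * x)) * σ⁻¹ = t * x := by rw [← conj_mul, h.st, h.rs.r3 h.xx]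
  exact (((isConj_iff.2 ⟨_, h.rn.r1⟩).trans (isConj_iff.2 ⟨_, e1⟩)).trans
    (isConj_iff.2 ⟨_, e2⟩).symm).trans (isConj_iff.2 ⟨_, e3⟩)

theorem TR.w2 (h : TR ν σ t c x y) (ny : Fx ν (y * t)) (sc : Fx σ c) : IsConj x (x * t) := by
  have e1 : ν * y * ν⁻¹ = y * (c * t) := by
    rw [show y = y * t * t by rw [mul_assoc, h.tt, mul_one], ← conj_mul, ny, h.rn.r1, mul_assoc, mul_assoc,
      mul_assoc, pf_sq h.tt, h.rn.comm h.tt]
  have e2 : σ * (x * (c * t)) * σ⁻¹ = y * (c * t) := by rw [← conj_mul, h.rs.r1, sc.mul h.st]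
  have e3 : ν * (x * (c * t)) * ν⁻¹ = x * t := by rw [← conj_mul, h.nx, h.rn.r3 h.tt]
  exact (((isConj_iff.2 ⟨_, h.rs.r1⟩).trans (isConj_iff.2 ⟨_, e1⟩)).trans
    (isConj_iff.2 ⟨_, e2⟩).symm).trans (isConj_iff.2 ⟨_, e3⟩)

theorem TR.star (h : TR ν σ t c x y) (ny : Fx ν (y * t)) (sc : Fx σ (c * x)) :
    (∃ g, g * t * g⁻¹ = x ∧ g * x * g⁻¹ = t ∧ g * (c * t * x) * g⁻¹ = t * y ∧
      g * (t * y) * g⁻¹ = c * t * x ∧ ∀ w, Fx ν w → Fx σ w → Fx g w) ∧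
    ∃ n, Fx n (t * x) ∧ n * t * n⁻¹ = c * x * y ∧ ∀ w, Fx ν w → Fx σ w → Fx n w := by
  have cc := h.rn.sq h.tt
  have yy := h.rs.sq h.xx
  have ct : Fx c t := fx_iff.2 (h.rn.comm h.tt)
  have yx : Fx y x := fx_iff.2 (h.rs.comm h.xx)
  have ny' : Fx ν (t * y) := by rwa [← fx_iff.1 h.yt]
  obtain ⟨⟨g, g2, g5, g3, g4, gw⟩, n, n1, n2, n3, nw⟩ := pf_five (ν := ν) (σ := σ) (p1 := t * x)
    (p2 := c * x) (p3 := c * t * x) (p4 := t * y) (p5 := t * (y * x))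
    (by rw [← conj_mul, h.rn.r1, h.nx]) (by rw [← conj_mul, h.rn.r2, h.nx])
    (by rw [← conj_mul, h.rn.r3 h.tt, h.nx]) ny' (by rw [← mul_assoc t]; exact ny'.mul h.nx)
    (by rw [← conj_mul, h.rs.r1, h.st]) (by rw [← conj_mul, h.rs.r2, h.st])
    (by rw [← conj_mul, h.rs.r3 h.xx, h.st]) sc
    (by rw [mul_assoc c, ← fx_iff.1 h.xt, ← mul_assoc c]; exact sc.mul h.st)
  have e1 : c * x * (c * t * x) = t := by
    simp only [mul_assoc, pf_lc h.xc, pf_lc h.xt, pf_lc ct, cc, h.xx, mul_one]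
  have e2 : t * y * (t * (y * x)) = x := by simp only [mul_assoc, pf_lc h.yt, pf_sq h.tt, pf_sq yy]
  refine ⟨⟨g, ?_, ?_, g3, g4, gw⟩, n, n1, ?_, nw⟩
  · rw [← e1, ← conj_mul, g2, g3]
    simp only [mul_assoc, pf_lc h.yt, pf_lc h.xt, pf_sq h.tt, pf_lc yx, yy, mul_one]
  · rw [← e2, ← conj_mul, g4, g5]
    simp only [mul_assoc, pf_lc h.xc, pf_lc ct, h.xx, cc, mul_one]
  · rw [← e1, ← conj_mul, n2, n3]
    simp only [mul_assoc, pf_lc h.xt, pf_lc ct, pf_sq h.tt]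

theorem Rot.fx' (r : Rot θ i ν c) {j : ι} (hj : j ≠ i) (b : D8) (I : Finset ι) :
    Fx ν (at1 θ j b * zs θ I) ∨ Fx ν (at1 θ j b * zs θ I * zz θ i) := by
  have h := r.fx (Pi.mulSingle j b) (by simp [hj.symm])
  have k := r.fzs (I.notMem_erase i)
  have e : ∀ S, at1 θ j b * zs θ S * zz θ i = at1 θ j b * zz θ i * zs θ S := fun S => by
    rw [mul_assoc, mul_assoc, pf_zc]
  by_cases hi : i ∈ I
  · rw [e, zs_erase hi, ← mul_assoc, ← mul_assoc, mul_assoc _ _ (zz θ i), zz_sq, mul_one]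
    exact (h.imp (·.mul k) (·.mul k)).symm
  · rw [e]
    exact h.imp (·.mul (r.fzs hi)) (·.mul (r.fzs hi))

theorem pf_at1 {π : Perm ι} {h : G} (e : ∀ d, h * θ d * h⁻¹ = θ (d ∘ π.symm)) (j : ι) (b : D8) :
    h * at1 θ j b * h⁻¹ = at1 θ (π j) b := by
  rw [at1, e, at1]
  congr 1
  funext l
  simp only [Function.comp, Pi.mulSingle_apply, Equiv.symm_apply_eq]

theorem Rot.perm {b : D8} {I : Finset ι} (r : Rot θ i ν (at1 θ i b * zs θ I)) {π : Perm ι} {h : G}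
    (e : ∀ d, h * θ d * h⁻¹ = θ (d ∘ π.symm)) :
    Rot θ (π i) (h * ν * h⁻¹) (at1 θ (π i) b * zs θ (I.image π)) := by
  have r3 := r.toR3.conj h
  rw [← conj_mul, pf_at1 e, pf_at1 e, conj_zs π.injective fun j => pf_at1 e j z0] at r3
  refine ⟨r3, fun l hl => ?_, fun d hd => ?_⟩
  · have := (fx_conj (g := h)).2 (r.fz (π.symm l) fun e => hl (by rw [← e, π.apply_symm_apply]))
    rwa [pf_at1 e, π.apply_symm_apply] at this
  · have := (r.fx (d ∘ π) hd).imp (fx_conj (g := h)).2 (fx_conj (g := h)).2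
    rwa [← conj_mul, pf_at1 e, e, Function.comp_assoc, π.self_comp_symm, Function.comp_id] at this

theorem pf_tr {j : ι} (hj : j ≠ i) {b b' : D8} {I : Finset ι} (r : Rot θ i ν (at1 θ i b * zs θ I))
    (r' : Rot θ j σ (at1 θ j b')) :
    TR ν σ (zz θ i) (at1 θ i b * zs θ I) (zz θ j) (at1 θ j b') :=
  ⟨zz_sq i, zz_sq j, r.toR3, r'.toR3, r.fz j hj, r'.fz i hj.symm, fx_map_zz _ i, fx_map_zz _ i,
    (fx_at1_at1 hj _ _).mul (fx_map_zs _ I), (fx_at1_at1 hj _ _).mul (fx_map_zs _ I)⟩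

theorem pf_fz {κ l : ι} {g : G} (h1 : Fx g (zz θ κ)) (h2 : Fx g (zz θ l))
    (h : ∀ j, j ≠ κ → j ≠ l → Fx g (zz θ j)) (j : ι) : Fx g (zz θ j) := by
  by_cases e : j = κ
  · rwa [e]
  by_cases e' : j = l
  · rwa [e']
  exact h j e e'

/-- the rotation of type `V` does not involve the factors outside `s` -/
theorem KG.p0 (h : KG m θ s) {I : Finset ι} (r : Rot θ i ν (vv θ i * zs θ I)) (hi : i ∈ s) {l : ι}
    (hl : l ∉ s) : l ∉ I := fun hI => by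
  have li : l ≠ i := fun e => hl (e ▸ hi)
  have e : vv θ i * zs θ I * zz θ l = vv θ i * zs θ (I.erase l) := by
    rw [zs_erase hI, pf_zc, mul_assoc, mul_assoc, zz_sq, mul_one]
  have k : ∀ σ b, Rot θ l σ (at1 θ l b) → Fx σ (vv θ i) → ∃ g, g * zz θ i * g⁻¹ = zz θ l ∧
      g * zz θ l * g⁻¹ = zz θ i ∧ g * (vv θ i * zs θ I * zz θ i * zz θ l) * g⁻¹ = zz θ i * at1 θ l b ∧
      g * (zz θ i * at1 θ l b) * g⁻¹ = vv θ i * zs θ I * zz θ i * zz θ l ∧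
      ∀ j, j ≠ i → j ≠ l → Fx g (zz θ j) := fun σ b r' hv => by
    have sc : Fx σ (vv θ i * zs θ I * zz θ l) := e ▸ hv.mul (r'.fzs (I.notMem_erase l))
    have T := pf_tr li r r'
    rcases r.fx (Pi.mulSingle l b) (by simp [li.symm]) with f | f
    · exact absurd (T.w1 f sc) (not_conj2 h.js li.symm)
    · obtain ⟨g, g1, g2, g3, g4, g5⟩ := (T.star f sc).1
      exact ⟨g, g1, g2, g3, g4, fun j a b => g5 _ (r.fz j a) (r'.fz j b)⟩
  obtain ⟨ρ, r1, f1⟩ := h.rho l hl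
  obtain ⟨μ, r2, f2⟩ := h.mu l hl
  obtain ⟨g, g1, g2, -, g4, g5⟩ := k ρ v0 r1 (f1 _ (by simp [li]))
  obtain ⟨g', g1', g2', g3', -, g5'⟩ := k μ e0 r2 (f2 i li.symm).1
  have f3 : Fx (g' * g) (zz θ i) := by rw [Fx, ← conj_conj', g1, g2']
  have f4 := pf_fz f3 (by rw [Fx, ← conj_conj', g2, g1']) fun j a b => fx_mul (g5' j a b) (g5 j a b)
  have f5 : g' * g * vv θ l * (g' * g)⁻¹ = ee θ l := by
    have : g' * g * (zz θ i * vv θ l) * (g' * g)⁻¹ = zz θ i * ee θ l := by rw [← conj_conj', g4, g3']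
    rw [← conj_mul, f3] at this
    exact mul_left_cancel this
  rcases h.nv l _ (fx_zs_of fun j _ => f4 j) (f4 l) with e | e
  · exact absurd (at1_inj h.js.1 (by decide) (f5.symm.trans e)).2 (by decide)
  · rw [f5, ← at1_mul] at e
    exact absurd (at1_inj h.js.1 (by decide) e).2 (by decide)

theorem pf_swap {a b : ι} (ha : a ∈ s) (hb : b ∈ s) (l : ι) : swap a b l ∈ s ↔ l ∈ s := by
  rw [swap_apply_def]; split_ifs <;> simp_all

theorem KG.p1 (h : KG m θ s) {I : Finset ι} (r : Rot θ i ν (vv θ i * zs θ I)) {a b : ι} (ha : a ∈ s)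
    (hb : b ∈ s) (ai : a ≠ i) (bi : b ≠ i) (aI : a ∈ I) : b ∈ I := by
  by_contra bI
  have ab : a ≠ b := fun e => bI (e ▸ aI)
  obtain ⟨g, e⟩ := h.perm (swap a b) (pf_swap ha hb)
  have r' := (r.perm e).r1
  rw [swap_apply_of_ne_of_ne ai.symm bi.symm] at r'
  have e1 : zs θ (I.image (swap a b)) = zs θ I * zs θ {a, b} := by
    rw [zs, zs, zs, ← map_mul]
    congr 1
    funext l
    have : l ∈ I.image (swap a b) ↔ swap a b l ∈ I := by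
      rw [← Finset.mem_coe, Finset.coe_image, Equiv.image_eq_preimage_symm]; rfl
    simp only [this, Pi.mul_apply, swap_apply_def, Finset.mem_insert, Finset.mem_singleton]
    by_cases h1 : l = a
    · subst h1; simp [aI, bI]; decide
    by_cases h2 : l = b
    · subst h2; simp [aI, bI, h1]
    simp [h1, h2]
  have e2 : ν * (zz θ i * zs θ {a, b}) * ν⁻¹ = vv θ i * zs θ (I.image (swap a b)) := by
    rw [← conj_mul, r.r1, r.fzs (by simp [ai.symm, bi.symm]), e1, mul_assoc]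
  exact not_conj h.js (I := {a, b}) (by simp [ai.symm, bi.symm]) (by simp)
    ((isConj_iff.2 ⟨_, r'⟩).trans (isConj_iff.2 ⟨_, e2⟩).symm)

theorem KG.p1' (h : KG m θ s) (h2 : No2 G) (hi : i ∈ s) :
    (∃ ν, Rot θ i ν (vv θ i)) ∨ ∃ ν, Rot θ i ν (vv θ i * zs θ s) := by
  obtain ⟨ν, I, r⟩ : ∃ ν I, Rot θ i ν (vv θ i * zs θ I) ∧ i ∉ I := by
    obtain ⟨ν, I, r⟩ := (h.nu h2 hi).1
    by_cases hI : i ∈ I
    · refine ⟨ν⁻¹, I.erase i, ?_, I.notMem_erase i⟩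
      have := r.inv
      rwa [zs_erase hI, pf_zc, mul_assoc, mul_assoc, zz_sq,
        mul_one] at this
    · exact ⟨ν, I, r, hI⟩
  rcases I.eq_empty_or_nonempty with rfl | ⟨a, ha⟩
  · exact Or.inl ⟨ν, by simpa [zs_empty] using r.1⟩
  have e : I = s.erase i := Finset.ext fun b => by
    have k : ∀ l ∈ I, l ∈ s := fun l hl => by_contra fun c => h.p0 r.1 hi c hl
    rw [Finset.mem_erase]
    exact ⟨fun hb => ⟨ne_of_mem_of_not_mem hb r.2, k b hb⟩,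
      fun hb => h.p1 r.1 (k a ha) hb.2 (ne_of_mem_of_not_mem ha r.2) hb.1 ha⟩
  refine Or.inr ⟨ν⁻¹, ?_⟩
  have := r.1.inv
  rwa [e, mul_assoc, ← pf_zc, ← zs_erase hi] at this

theorem KG.exact (h : KG m θ s) (h2 : No2 G) (hi : i ∈ s) :
    ∃ θ' : (ι → D8) →* G, KG m θ' s ∧ zs θ' s = zs θ s ∧ ∃ ν, Rot θ' i ν (vv θ' i) := by
  rcases h.p1' h2 hi with r | ⟨ν, r⟩
  · exact ⟨θ, h, rfl, r⟩
  obtain ⟨θ', h', e1, e2⟩ := h.twist
  rcases h'.p1' h2 hi with r' | ⟨ν', r'⟩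
  · exact ⟨θ', h', e1 s, r'⟩
  have r1 := r'.r1
  rw [zz, ← zs_singleton, e1, e1, e2 i hi, mul_assoc (vv θ i), zs_sq, mul_one] at r1
  have e3 : ν * zs θ s * ν⁻¹ = vv θ i * zz θ i := by
    rw [zs_erase hi, ← conj_mul, r.r1, r.fzs (s.notMem_erase i), zs_erase hi, mul_assoc, mul_assoc, zs_sq,
      mul_one]
  have := h.js.card_eq (((isConj_iff.2 ⟨_, r1⟩).trans (isConj_iff.2 ⟨_, ee_conj_vv i⟩)).trans
    (isConj_iff.2 ⟨_, e3⟩).symm)
  obtain ⟨j, rfl⟩ := Finset.card_eq_one.1 (this.symm.trans (Finset.card_singleton i))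
  obtain rfl := Finset.mem_singleton.1 hi
  have := r.inv
  rw [zs_singleton, mul_assoc, zz_sq, mul_one] at this
  exact ⟨θ, h, rfl, _, this⟩

theorem KG.p2 (h : KG m θ s) {j : ι} (hi : i ∈ s) (hj : j ∈ s) (ij : i ≠ j) {ρ : G}
    (r : Rot θ i ρ (vv θ i)) {b : D8} {I : Finset ι} (r' : Rot θ j ν (at1 θ j b * zs θ I)) :
    Fx ν (vv θ i) := by
  refine (r'.fx (Pi.mulSingle i v0) (by simp [ij.symm])).resolve_right fun f => ?_
  have T := pf_tr ij r' r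
  rcases r.fx' ij.symm b I with sc | sc
  · exact not_conj2 h.js ij (T.w2 f sc)
  obtain ⟨n, n1, n2, n3⟩ := (T.star f sc).2
  have fs : Fx n (zs θ s) := by
    rw [zs_erase hj, zs_erase (Finset.mem_erase.2 ⟨ij, hi⟩), ← mul_assoc]
    exact n1.mul (fx_zs_of fun l hl => by
      rw [Finset.mem_erase, Finset.mem_erase] at hl
      exact n3 _ (r'.fz l hl.2.1) (r.fz l hl.1))
  simp only [at1, zs, ← map_mul] at n2
  have := h.supp j hj n _ fs n2 i hi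
  simp only [Pi.mul_apply, Pi.mulSingle_eq_same, Pi.mulSingle_eq_of_ne ij, one_mul] at this
  revert this
  split_ifs <;> decide

theorem KG.pf (h : KG m θ s) (h2 : No2 G) (hi : i ∈ s) :
    ∃ θ' : (ι → D8) →* G, KG m θ' s ∧ zs θ' s = zs θ s ∧ PF θ' i := by
  obtain ⟨θ, h, e0, ρ, r⟩ := h.exact h2 hi
  refine ⟨θ, h, e0, ⟨ρ, r⟩, fun j ji => ?_⟩
  by_cases hj : j ∈ s
  swap
  · obtain ⟨ρ, r1, f1⟩ := h.rho j hj
    obtain ⟨μ, r2, f2⟩ := h.mu j hj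
    refine ⟨ρ, μ, ∅, ∅, ?_⟩
    rw [zs_empty, mul_one, mul_one]
    exact ⟨r1, r2, f1 _ (by simp [ji]), (f2 i ji.symm).1, f1 _ (by simp [ji]), (f2 i ji.symm).2⟩
  obtain ⟨ν, S, w⟩ := (h.nu h2 hi).2
  obtain ⟨g, e⟩ := h.perm (swap i j) (pf_swap hi hj)
  have r1 := Rot.perm (I := ∅) (by rwa [zs_empty, mul_one]) e
  have r1' := r1
  have w1 := w.perm e
  rw [swap_apply_left] at r1 r1' w1
  rw [Finset.image_empty, zs_empty, mul_one] at r1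
  refine ⟨_, _, _, S, r1, w1, h.p2 hi hj ji.symm r r1', h.p2 hi hj ji.symm r w1, ?_, ?_⟩
  · exact (r1.fx' ji.symm _ S).resolve_right fun f =>
      not_conj2 h.js ji.symm ((pf_tr ji w r1).w1 (h.p2 hj hi ji r1 w) f)
  refine (w1.fx' ji.symm _ S).resolve_left fun f => not_conj2 h.js ji.symm (l := i) ?_
  obtain ⟨x, -, hx⟩ := h.pair i hi j hj ji.symm
  have e1 : ν * (zz θ i * zz θ j) * ν⁻¹ = ee θ i * zs θ S * zz θ j := by rw [← conj_mul, w.r1, w.fz j ji]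
  have e2 : g * ν * g⁻¹ * (ee θ i * zs θ S * zz θ j) * (g * ν * g⁻¹)⁻¹ =
      ee θ i * zs θ S * (ee θ j * zs θ (S.image (swap i j))) := by rw [← conj_mul, f, w1.r1]
  have e3 : ∃ y, y * (ee θ i * ee θ j) * y⁻¹ = ee θ i * zs θ S * (ee θ j * zs θ (S.image (swap i j))) := by
    refine ⟨θ (if (i ∈ S ↔ j ∈ S) then 1 else Pi.mulSingle i v0 * Pi.mulSingle j v0), ?_⟩
    simp only [at1, zs, ← map_mul, ← map_inv]
    congr 1
    funext l
    have : l ∈ S.image (swap i j) ↔ swap i j l ∈ S := by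
      rw [← Finset.mem_coe, Finset.coe_image, Equiv.image_eq_preimage_symm]; rfl
    simp only [Pi.mul_apply, Pi.inv_apply, this, swap_apply_def]
    by_cases h1 : l = i
    · subst h1
      by_cases a : l ∈ S <;> by_cases b : j ∈ S <;> simp [a, b, ji.symm] <;> rfl
    by_cases h2 : l = j
    · subst h2
      by_cases a : l ∈ S <;> by_cases b : i ∈ S <;> simp [a, b, ji] <;> rfl
    by_cases a : l ∈ S <;> by_cases b : (i ∈ S ↔ j ∈ S) <;> simp [a, b, h1, h2] <;> decide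
  exact ((isConj_iff.2 ⟨_, hx⟩).trans (isConj_iff.2 e3)).trans
    ((isConj_iff.2 ⟨_, e1⟩).trans (isConj_iff.2 ⟨_, e2⟩)).symm

end Cfsg.Agent.H65.Alt
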