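import Cfsg.Agent.H65.AlDefs
import Cfsg.Agent.H3.PResidual

set_option autoImplicit false
set_option linter.unusedSectionVars false

namespace Cfsg.Agent.H65.Alt

open Subgroup Equiv Cfsg.Agent.H49 Cfsg.Agent.ALT
open Cfsg.Agent.SAN (An Four KK NN cA)

variable {G : Type*} [Group G] [Finite G] {ι : Type*} [Fintype ι] [DecidableEq ι]
  {θ : (ι → D8) →* G} {s : Finset ι} {m : ℕ} {i : ι}

theorem qu_cv {u : G} (hu : In4 (zz θ i) (vv θ i) u) :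
    u * u = 1 ∧ ∀ c ∈ CV θ i, Fx c u := by
  rcases hu with rfl | rfl | rfl | rfl
  · exact ⟨one_mul _, fun c _ => Fx.one c⟩
  · exact ⟨zz_sq i, fun c hc => (mem_CV.1 hc).1⟩
  · exact ⟨vv_sq i, fun c hc => (mem_CV.1 hc).2⟩
  · exact ⟨VV_sq _ (mul_mem (at1_mem (by decide)) (z_mem i)),
      fun c hc => (mem_CV.1 hc).2.mul (mem_CV.1 hc).1⟩

theorem qu_conj (p : PF θ i) {I : Finset ι} (hI : i ∉ I) {u : G} (hu : In4 (zz θ i) (vv θ i) u)
    (u1 : u ≠ 1) : IsConj (zs θ (insert i I)) (zs θ I * u) := by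
  obtain ⟨ρ, r⟩ := p.rho
  have e0 : zs θ (insert i I) = zs θ I * zz θ i := (zs_insert hI).trans (zs_comm I _ ⟨_, rfl⟩).symm
  have e1 : IsConj (zs θ I * zz θ i) (zs θ I * vv θ i) :=
    isConj_iff.2 ⟨ρ, by rw [← conj_mul, r.fzs hI, r.r1]⟩
  rw [e0]
  rcases hu with rfl | rfl | rfl | rfl
  exacts [absurd rfl u1, IsConj.refl _, e1,
    e1.trans (isConj_iff.2 ⟨ρ, by rw [← conj_mul, r.fzs hI, r.r2]⟩)]

/-- fusion modulo `Vᵢ` -/
theorem fl (h : JS θ) (p : PF θ i) {c u : G} (hc : c ∈ CV θ i) {I I' : Finset ι} (hI : i ∉ I)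
    (hI' : i ∉ I') (hu : In4 (zz θ i) (vv θ i) u) (e : c * zs θ I * c⁻¹ = zs θ I' * u) :
    u = 1 ∧ I.card = I'.card := by
  by_cases u1 : u = 1
  · exact ⟨u1, h.card_eq (isConj_iff.2 ⟨c, by rw [e, u1, mul_one]⟩)⟩
  have h1 := h.card_eq ((isConj_iff.2 ⟨c, e⟩).trans (qu_conj p hI' hu u1).symm)
  have h2 := h.card_eq ((qu_conj p hI hu u1).trans (isConj_iff.2 ⟨c, show _ = zs θ I' by
    rw [← conj_mul, e, (qu_cv hu).2 c hc, mul_assoc, (qu_cv hu).1, mul_one]⟩))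
  rw [Finset.card_insert_of_notMem ‹_›] at h1 h2
  omega

theorem qu_r3 {t : G} (tt : t * t = 1) (k : ℕ) : ∀ {ν c : G}, R3 ν t c → ν ^ 2 ^ k = 1 → t = 1 := by
  induction k with
  | zero => exact fun r e => by_contra fun t1 => r.not_fx tt t1 (by rw [pow_zero, pow_one] at e; simp [Fx, e])
  | succ k ih =>
    refine fun {ν c} r e => ih (ν := ν * ν) (c := c * t) ⟨?_, ?_⟩ (by rw [← pow_two, ← pow_mul, ← pow_succ', e])
    · rw [← r.r2, ← r.r1]; group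
    · rw [show ∀ x, ν * ν * x * (ν * ν)⁻¹ = ν * (ν * x * ν⁻¹) * ν⁻¹ from fun x => by group, r.r3 tt, r.r1,
        mul_assoc c, tt, mul_one]

theorem quo1 (h : KG m θ s) (p : PF θ i) (hi : i ∈ s) (h2 : 2 ≤ s.card) {X : Type*} [Group X] [Finite X]
    {π : CV θ i →* X} (q : QP θ i π) : ∃ (z : X) (α : An (m - 4)), orderOf z = 2 ∧ orderOf α = 2 ∧
      Nonempty (𝒞[z] ≃* 𝒞[α]) ∧ 𝒞[z] ≤ pResidual 2 X := by
  obtain ⟨α, ψ, a1, a2, a3, a4, a5⟩ := h.quo i hi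
  have ni := s.notMem_erase i
  have zc : ∀ I, zs θ I ∈ CV θ i := fun I => mem_CV.2 ⟨fx_map_zz _ i, fx_symm (fx_map_zs _ I)⟩
  have zc1 : ∀ j, zz θ j ∈ CV θ i := fun j => by rw [zz, ← zs_singleton]; exact zc _
  have hvc : ∀ g, HV θ s i g → g ∈ CV θ i := fun g hg => mem_CV.2 hg.2
  have cz : ∀ g : CV θ i, π g ∈ 𝒞[π ⟨_, zc (s.erase i)⟩] ↔ HV θ s i g := fun g => by
    have e : HV θ s i g ↔ Fx g.1 (zs θ (s.erase i)) := by
      rw [HV, zs_erase hi]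
      exact ⟨fun h => fx_cancel h.1 h.2.1, fun h => ⟨(mem_CV.1 g.2).1.mul h, mem_CV.1 g.2⟩⟩
    rw [e, ← fx_iff_mem]
    refine ⟨fun hg => ?_, fun hg => ?_⟩
    · have h1 := (q.ker ((⟨_, zc (s.erase i)⟩ : CV θ i)⁻¹ * (g * ⟨_, zc (s.erase i)⟩ * g⁻¹))).1 (by
        rw [map_mul, map_mul, map_mul, map_inv, map_inv, hg, inv_mul_cancel])
      exact (inv_mul_eq_one.1 (fl h.js p g.2 ni ni h1 (mul_inv_cancel_left _ _).symm).1).symm
    · rw [Fx, ← map_inv, ← map_mul, ← map_mul]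
      exact congrArg π (Subtype.ext hg)
  have hψ : ∀ x, HV θ s i (ψ x) := fun x => (a5 _).2 ⟨1, x, Or.inl rfl, (one_mul _).symm⟩
  let f : 𝒞[α] →* X := π.comp (ψ.codRestrict _ fun x => hvc _ (hψ x))
  have fi : Function.Injective f := (injective_iff_map_eq_one f).2 fun x e => a4 x ((q.ker _).1 e)
  have fr : f.range = 𝒞[π ⟨_, zc (s.erase i)⟩] := le_antisymm (by
    rintro _ ⟨x, rfl⟩; exact (cz _).2 (hψ x)) fun y hy => by
      obtain ⟨g, rfl⟩ := q.surj y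
      obtain ⟨u, x, hu, e⟩ := (a5 _).1 ((cz g).1 hy)
      refine ⟨x, eq_of_mul_inv_eq_one (Eq.trans ?_ (congrArg (·⁻¹) ((q.ker (g * ⟨_, hvc _ (hψ x)⟩⁻¹)).2
        (by simpa [e] using hu))) |>.trans inv_one)⟩
      simp [f]
  refine ⟨π ⟨_, zc (s.erase i)⟩, α, orderOf_eq_prime ?_ fun e => ?_, orderOf_eq_prime (by rwa [pow_two])
    fun e => ?_, ⟨((MonoidHom.ofInjective fi).trans (MulEquiv.subgroupCongr fr)).symm⟩, fun y hy => ?_⟩
  · rw [pow_two, ← map_mul, ← map_one π]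
    exact congrArg π (Subtype.ext (zs_sq _))
  · have := (fl h.js p (one_mem _) ni (Finset.notMem_empty i) ((q.ker _).1 e) (by simp [zs_empty])).2
    rw [Finset.card_erase_of_mem hi, Finset.card_empty] at this
    omega
  · rw [e] at a2
    simp at a2
    omega
  obtain ⟨g, rfl⟩ := q.surj y
  let N := ((pResidual 2 X).comap π).map (CV θ i).subtype
  have k0 : ∀ u, In4 (zz θ i) (vv θ i) u → u ∈ CV θ i → u ∈ N := fun u hu hc =>
    ⟨⟨u, hc⟩, by rw [SetLike.mem_coe, mem_comap, (q.ker _).2 hu]; exact one_mem _, rfl⟩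
  have nN : ∀ g ∈ CV θ i, ∀ x ∈ N, g * x * g⁻¹ ∈ N := by
    rintro g hg _ ⟨x, hx, rfl⟩
    exact ⟨_, ((inferInstance : (pResidual 2 X).Normal).comap π).conj_mem x hx ⟨g, hg⟩, rfl⟩
  have k1 : ∀ {j ν c}, j ≠ i → Rot θ j ν c → Fx ν (vv θ i) → zz θ j ∈ N ∧ c ∈ N := fun {j ν c} hj r hν => by
    have m1 : ν ∈ CV θ i := mem_CV.2 ⟨r.fz i hj.symm, hν⟩
    have m2 := zc1 j
    let F := (QuotientGroup.mk' (pResidual 2 X)).comp π
    obtain ⟨k, hk⟩ := H3.isPGroup_quotient_pResidual (p := 2) (F ⟨ν, m1⟩)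
    have h1 : zz θ j ∈ N := ⟨⟨_, m2⟩, (QuotientGroup.eq_one_iff (π ⟨_, m2⟩)).1 (qu_r3 (t := F ⟨_, m2⟩)
      (by rw [← map_mul, ← map_one F]; exact congrArg F (Subtype.ext (zz_sq j))) k
      (c := F (⟨ν, m1⟩ * ⟨_, m2⟩ * ⟨ν, m1⟩⁻¹)) ⟨by simp only [map_mul, map_inv], by
        rw [← map_inv, ← map_mul, ← map_mul, ← map_mul]
        exact congrArg F (Subtype.ext (by simpa [r.r1] using r.r2))⟩ hk), rfl⟩
    exact ⟨h1, r.r1 ▸ nN ν m1 _ h1⟩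
  have z1 : ∀ j, zz θ j ∈ N := fun j => by
    by_cases e : j = i
    · rw [e]; exact k0 _ (Or.inr (Or.inl rfl)) (zc1 i)
    · obtain ⟨ρ, -, -, -, r, -, f1, -⟩ := p.res j e
      exact (k1 e r f1).1
  have z2 : ∀ I, zs θ I ∈ N := fun I => by
    induction I using Finset.induction_on with
    | empty => rw [zs_empty]; exact one_mem _
    | insert j I hj ih => rw [zs_insert hj]; exact mul_mem (z1 j) ih
  refine (mem_map_iff_mem (CV θ i).subtype_injective (K := (pResidual 2 X).comap π)).1 (h.gen i hi h2 N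
    (fun g hg => mem_norm_of_cj_le fun x hx => ?_) (z1 i) (k0 _ (Or.inr (Or.inr (Or.inl rfl)))
    (mem_CV.2 ⟨fx_map_zz _ i, fx_self _⟩)) (fun d hd => ?_) g ((cz g).1 hy))
  · obtain ⟨y, hy, rfl⟩ := mem_cj'.1 hx
    exact nN g (hvc g hg) y hy
  refine pi_mem_of_mulSingle_mem (H := N.comap θ) d fun j => ?_
  by_cases e : j = i
  · rw [e, hd, Pi.mulSingle_one]; exact one_mem _
  obtain ⟨ρ, μ, I, -, r, r', f1, f2, -⟩ := p.res j e
  have m1 := (k1 e r f1).2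
  have m2 := (mul_mem_cancel_right (z2 I)).1 (k1 e r' f2).2
  have m0 : at1 θ j 1 ∈ N := by simp [at1]
  obtain ⟨a, ha, b, hb, e'⟩ := d8_split (d j)
  show at1 θ j (d j) ∈ N
  rw [e', at1_mul]
  refine mul_mem ?_ ?_
  · rcases ha with rfl | rfl | rfl | rfl
    exacts [m0, z1 j, m1, at1_mul (θ := θ) j v0 z0 ▸ mul_mem m1 (z1 j)]
  · rcases hb with rfl | rfl | rfl | rfl
    exacts [m0, z1 j, m2, at1_mul (θ := θ) j e0 z0 ▸ mul_mem m2 (z1 j)]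

end Cfsg.Agent.H65.Alt
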