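import Cfsg.Agent.H65.AlQuo
import Cfsg.Agent.H65.AlSd
import Cfsg.Agent.SAN.Perm0

set_option autoImplicit false
set_option linter.unusedSectionVars false

namespace Cfsg.Agent.H65.Alt

open Subgroup Equiv Cfsg.Agent.H49 Cfsg.Agent.ALT
open Cfsg.Agent.SAN (An Four KK NN cA)

variable {G : Type*} [Group G] [Finite G] {ι : Type*} [Fintype ι] [DecidableEq ι]
  {θ : (ι → D8) →* G} {s : Finset ι} {m : ℕ} {i : ι}

theorem sp_conj {d : ℕ} (hd : 2 ≤ d % 4) {x y : An d} (xx : x * x = 1) (yy : y * y = 1)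
    (e : x.1.support.card / 4 = y.1.support.card / 4) : IsConj x y := by
  have h1 := four_dvd_support (SAN.p0_coe_sq xx) (SAN.sign_coe x)
  have h2 := four_dvd_support (SAN.p0_coe_sq yy) (SAN.sign_coe y)
  have h3 := x.1.support.card_le_univ
  rw [Fintype.card_fin] at h3
  exact alternatingGroup.isConj_of (isConj_of_card_support (by rw [pow_two, SAN.p0_coe_sq xx])
    (by rw [pow_two, SAN.p0_coe_sq yy]) (by omega)) (by rw [Fintype.card_fin]; omega)

theorem sp_mem {d : ℕ} {x : An d} (xx : x * x = 1) (x1 : x ≠ 1) :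
    x.1.support.card / 4 ∈ Finset.Icc 1 (d / 4) := by
  have h1 := four_dvd_support (SAN.p0_coe_sq xx) (SAN.sign_coe x)
  have h3 := x.1.support.card_le_univ
  have h4 : x.1.support.card ≠ 0 := fun e => x1 (Subtype.ext (Perm.card_support_eq_zero.1 e))
  rw [Fintype.card_fin] at h3
  rw [Finset.mem_Icc]; omega

theorem sp_pigeon {d : ℕ} (hd : 2 ≤ d % 4) (a : ℕ → An d) (h1 : ∀ k ∈ Finset.Icc 1 (d / 4), a k * a k = 1 ∧ a k ≠ 1)
    (h2 : ∀ k ∈ Finset.Icc 1 (d / 4), ∀ l ∈ Finset.Icc 1 (d / 4), IsConj (a k) (a l) → k = l) {x : An d}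
    (xx : x * x = 1) (x1 : x ≠ 1) : ∃ k ∈ Finset.Icc 1 (d / 4), IsConj x (a k) := by
  obtain ⟨k, hk, e⟩ := Finset.surj_on_of_inj_on_of_card_le (s := Finset.Icc 1 (d / 4)) (t := Finset.Icc 1 (d / 4))
    (fun k _ => (a k).1.support.card / 4) (fun k hk => sp_mem (h1 k hk).1 (h1 k hk).2)
    (fun k l hk hl e => h2 k hk l hl (sp_conj hd (h1 k hk).1 (h1 l hl).1 e)) le_rfl _ (sp_mem xx x1)
  exact ⟨k, hk, sp_conj hd xx (h1 k hk).1 e⟩

theorem sp_zs_CV (S : Finset ι) : zs θ S ∈ CV θ i := mem_CV.2 ⟨fx_map_zz _ i, fx_symm (fx_map_zs _ S)⟩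

theorem zz_mem (p : PF θ i) {d : ℕ} {f : An d →* G} (hθ : Function.Injective θ)
    (cv : CVf (zz θ i) (vv θ i) f) {j : ι} (hj : j ≠ i) : zz θ j ∈ f.range := by
  obtain ⟨ρ, -, -, -, r, -, ρv, -⟩ := p.res j hj
  have := cv.comm_mem (four_zv hθ i) ⟨fx_inv (fx_at1_at1 hj v0 z0), fx_inv (fx_at1_at1 hj v0 v0)⟩
    ⟨r.fz i hj.symm, ρv⟩
  rwa [inv_inv, mul_assoc, mul_assoc, ← mul_assoc ρ, r.r2, inv_mul_cancel_left] at this

theorem sp_zs_mem (p : PF θ i) {d : ℕ} {f : An d →* G} (hθ : Function.Injective θ)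
    (cv : CVf (zz θ i) (vv θ i) f) {S : Finset ι} (hS : i ∉ S) : zs θ S ∈ f.range := by
  induction S using Finset.induction_on with
  | empty => rw [zs_empty]; exact one_mem _
  | insert j S hj ih =>
    rw [zs_insert hj]
    exact mul_mem (zz_mem p hθ cv fun e => hS (by simp [e])) (ih fun e => hS (by simp [e]))

theorem sp_inv (h : KG m θ s) (p : PF θ i) (hm : 10 ≤ m) {X : Type*} [Group X] [Finite X]
    {π : CV θ i →* X} (q : QP θ i π) (e : X ≃* An (m - 4)) {x : CV θ i} (xx : π x * π x = 1) (x1 : π x ≠ 1) :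
    ∃ c ∈ CV θ i, ∃ S u, i ∉ S ∧ S.Nonempty ∧ In4 (zz θ i) (vv θ i) u ∧ c * x * c⁻¹ = zs θ S * u := by
  have hc := h.card
  have ex : ∀ k, ∃ S : Finset ι, k ∈ Finset.Icc 1 ((m - 4) / 4) → S ⊆ Finset.univ.erase i ∧ S.card = k :=
    fun k => by
      by_cases hk : k ∈ Finset.Icc 1 ((m - 4) / 4)
      · obtain ⟨S, h1, h2⟩ := Finset.exists_subset_card_eq (s := Finset.univ.erase i) (n := k) (by
          rw [Finset.card_erase_of_mem (Finset.mem_univ _), Finset.card_univ]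
          rw [Finset.mem_Icc] at hk; omega)
        exact ⟨S, fun _ => ⟨h1, h2⟩⟩
      · exact ⟨∅, fun c => absurd c hk⟩
  choose S hS using ex
  have iS : ∀ k ∈ Finset.Icc 1 ((m - 4) / 4), i ∉ S k := fun k hk c => by simpa using (hS k hk).1 c
  have key : ∀ x y : CV θ i, IsConj (e (π x)) (e (π y)) →
      ∃ c ∈ CV θ i, ∃ u, In4 (zz θ i) (vv θ i) u ∧ c * x * c⁻¹ = y * u := fun x y hxy => by
    obtain ⟨g, hg⟩ := isConj_iff.1 hxy
    obtain ⟨c, hc⟩ := q.surj (e.symm g)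
    refine ⟨c, c.2, _, (q.ker (y⁻¹ * (c * x * c⁻¹))).1 (e.injective ?_), by simp⟩
    simp only [map_mul, map_inv, hc, MulEquiv.apply_symm_apply, hg, inv_mul_cancel, map_one]
  obtain ⟨k, hk, hx⟩ := sp_pigeon (d := m - 4) (by omega) (fun k => e (π ⟨zs θ (S k), sp_zs_CV _⟩))
    (fun k hk => ⟨by
      rw [← map_mul, ← map_mul, show (⟨zs θ (S k), sp_zs_CV _⟩ : CV θ i) * ⟨zs θ (S k), sp_zs_CV _⟩ = 1 from
        Subtype.ext (zs_sq _), map_one, map_one], fun c => by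
      have := (fl h.js p (one_mem _) (iS k hk) (Finset.notMem_empty i)
        ((q.ker _).1 ((map_eq_one_iff _ e.injective).1 c)) (by simp [zs_empty])).2
      rw [(hS k hk).2, Finset.card_empty] at this
      simp [this] at hk⟩)
    (fun k hk l hl c => by
      obtain ⟨c, hc, u, hu, e'⟩ := key _ _ c
      rw [← (hS k hk).2, ← (hS l hl).2]
      exact (fl h.js p hc (iS k hk) (iS l hl) hu e').2)
    (x := e (π x)) (by rw [← map_mul, xx, map_one]) ((map_ne_one_iff _ e.injective).2 x1)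
  obtain ⟨c, hc, u, hu, e'⟩ := key _ _ hx
  exact ⟨c, hc, S k, u, iS k hk, Finset.card_pos.1 (by rw [(hS k hk).2]; exact (Finset.mem_Icc.1 hk).1), hu, e'⟩

theorem split (h : KG m θ s) (p : PF θ i) (hm : 10 ≤ m) {X : Type*} [Group X] [Finite X]
    {π : CV θ i →* X} (q : QP θ i π) (e : X ≃* An (m - 4)) : ∃ f : An (m - 4) →* G,
      Function.Injective f ∧ CVf (zz θ i) (vv θ i) f ∧
        ∀ a, a * a = 1 → a ≠ 1 → ¬ IsConj (zz θ i) (zz θ i * f a) := by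
  have four := four_zv h.js.1 i
  have sq : ∀ x : CV θ i, π x * π x = 1 → x * x = 1 := fun x xx => Subtype.ext (by
    by_cases x1 : π x = 1
    · exact ((q.ker x).1 x1).sq four
    · obtain ⟨c, -, S, u, -, -, hu, e'⟩ := sp_inv h p hm q e xx x1
      have c1 := fx_iff.1 (hu.fx (mem_CV.1 (sp_zs_CV (i := i) S)).1 (mem_CV.1 (sp_zs_CV (i := i) S)).2)
      have : c * (x * x) * c⁻¹ = 1 := by
        rw [← conj_mul, e', mul_assoc, ← mul_assoc u, ← c1, mul_assoc, hu.sq four, mul_one, zs_sq]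
      exact conj_eq_one_iff.1 this)
  obtain ⟨a, b, hab⟩ : ∃ a b : Fin (m - 4), a ≠ b := ⟨⟨0, by omega⟩, ⟨1, by omega⟩, by simp⟩
  choose y hy using fun k : Fin (m - 4) => q.surj (e.symm (SAN.ev (H3.c3 a b k)))
  have c3 : ∀ k, k ≠ a → k ≠ b → π (y k) ^ 3 = 1 := fun k ka kb => by
    rw [hy, ← map_pow, show SAN.ev (H3.c3 a b k) ^ 3 = 1 from Subtype.ext (by
      simpa [SAN.coe_c3 hab ka] using H3.c3_cube hab ka kb), map_one]
  have p4 : ∀ k, k ≠ a → k ≠ b → π (y k ^ 4) = e.symm (SAN.ev (H3.c3 a b k)) := fun k ka kb => by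
    rw [map_pow, pow_succ, c3 k ka kb, one_mul, hy]
  have inj1 : ∀ k, k ≠ a → k ≠ b → y k ^ 4 ≠ 1 := fun k ka kb c => by
    have := p4 k ka kb
    rw [c, map_one, eq_comm, map_eq_one_iff _ e.symm.injective] at this
    have := congrArg (fun s : An (m - 4) => (s : Perm (Fin (m - 4))) b) this
    simp only [SAN.coe_c3 hab ka, H3.c3_second] at this
    exact kb this
  obtain ⟨k₀, -, k1⟩ := SAN.p0_ex_new (X := Finset.univ) [a, b] (by simp; omega)
  obtain ⟨Φ, Φi, Φx, -⟩ := SAN.exists_carm (n := m - 4) (by omega) hab (fun k => y k ^ 4)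
    (fun k ka kb => by
      have := sq (y k ^ 3) (by rw [map_pow, c3 k ka kb, one_mul])
      rw [← pow_mul, show 4 * 3 = 3 + 3 + (3 + 3) from rfl, pow_add, pow_add, this, one_mul])
    (fun k ka kb l la lb kl => by
      rw [pow_two]
      refine sq _ ?_
      rw [map_mul, p4 k ka kb, p4 l la lb, ← map_mul, ← map_mul, ← pow_two,
        show (SAN.ev (H3.c3 a b k) * SAN.ev (H3.c3 a b l)) ^ 2 = 1 from Subtype.ext (by
          simpa [SAN.coe_c3 hab ka, SAN.coe_c3 hab la] using H3.c3_pair hab ka kb la lb kl), map_one])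
    ⟨k₀, by simp at k1; exact k1.1, by simp at k1; exact k1.2,
      inj1 _ (by simp at k1; exact k1.1) (by simp at k1; exact k1.2)⟩
  have sec : ∀ s, π (Φ s) = e.symm s := fun s =>
    SAN.Al_le (M := (π.comp Φ).eqLocus e.symm.toMonoidHom) (X := Finset.univ) a b
      (fun k _ ka kb => show π (Φ _) = e.symm _ by rw [Φx k ka kb, p4 k ka kb]) hab (Finset.mem_univ _)
      (Finset.mem_univ _) (SAN.Al_univ ▸ mem_top s)
  have inj : Function.Injective ((CV θ i).subtype.comp Φ) := (CV θ i).subtype_injective.comp Φi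
  have cv : CVf (zz θ i) (vv θ i) ((CV θ i).subtype.comp Φ) := fun g => ⟨fun hg =>
    ⟨_, e (π ⟨g, mem_CV.2 hg⟩), (q.ker (⟨g, mem_CV.2 hg⟩ * (Φ (e (π ⟨g, mem_CV.2 hg⟩)))⁻¹)).1 (by
      rw [map_mul, map_inv, sec, MulEquiv.symm_apply_apply, mul_inv_cancel]), by simp⟩, by
    rintro ⟨u, a, hu, rfl⟩
    exact ⟨fx_mul (fx_symm (hu.fx (fx_self _) (fx_iff.2 four.uv))) (mem_CV.1 (Φ a).2).1,
      fx_mul (fx_symm (hu.fx (fx_iff.2 four.uv.symm) (fx_self _))) (mem_CV.1 (Φ a).2).2⟩⟩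
  refine ⟨_, inj, cv, fun s ss s1 hc => ?_⟩
  obtain ⟨c, hc', S, u, iS, Sn, hu, e'⟩ := sp_inv h p hm q e (x := Φ s) (by rw [sec, ← map_mul, ss, map_one])
    (by rw [sec]; exact (map_ne_one_iff _ e.symm.injective).2 s1)
  have m1 := cv.conj_mem (mem_CV.1 hc') ⟨s, rfl⟩
  rw [show ((CV θ i).subtype.comp Φ) s = (Φ s : G) from rfl, e',
    mul_mem_cancel_left (sp_zs_mem p h.js.1 cv iS)] at m1
  obtain ⟨r, rfl⟩ := m1
  rw [cv.one inj (by omega) (cv.mem_KK hu), map_one, mul_one] at e'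
  refine not_conj h.js iS Sn (hc.trans (isConj_iff.2 ⟨c, ?_⟩))
  rw [← conj_mul, (mem_CV.1 hc').1, ← e']; rfl

theorem sp_U {d : ℕ} {t v : G} {f : An d →* G} (h : Four t v) (hf : Function.Injective f) (h4 : 4 ≤ d)
    (cv : CVf t v f) {k x : G} (hk : k ∈ KK f) (kt : Fx k t) (kv : k * v * k⁻¹ = v * t) {a : An d}
    (hx : Fx x t ∧ Fx x v) (e : Fx (f a * k) x) : Fx (f a) x := by
  obtain ⟨u, b, hu, rfl⟩ := (cv x).1 hx
  have hu' : In4 t v (k * u * k⁻¹) := by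
    rcases hu with rfl | rfl | rfl | rfl
    · exact .inl (by simp)
    · exact .inr (.inl kt)
    · exact .inr (.inr (.inr kv))
    · exact .inr (.inr (.inl (by rw [← conj_mul, kv, kt, mul_assoc, h.uu, mul_one])))
  have e1 : Fx k (f b) := fx_iff.2 (SAN.mem_KK.1 hk b).symm
  have e2 := hu'.fx (cv.fx a).1 (cv.fx a).2
  rw [Fx, ← conj_conj', show k * (u * f b) * k⁻¹ = k * u * k⁻¹ * (k * f b * k⁻¹) from conj_mul.symm, e1,
    ← conj_mul, e2, ← map_inv, ← map_mul, ← map_mul] at e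
  refine (hu.fx (cv.fx a).1 (cv.fx a).2).mul ?_
  rw [Fx, ← map_inv, ← map_mul, ← map_mul, (cv.uniq h hf h4 hu' hu e).2]

/-- no element of `K = C(L)` induces a transvection on `V` -/
theorem ni (h : KG m θ s) (p : PF θ i) (hm : 10 ≤ m) {d : ℕ} (h5 : 5 ≤ d) {f : An d →* G}
    (hf : Function.Injective f) (cv : CVf (zz θ i) (vv θ i) f) :
    ∀ k ∈ KK f, Fx k (zz θ i) → k * vv θ i * k⁻¹ ≠ vv θ i * zz θ i := fun k hk kt kv => by
  have four := four_zv h.js.1 i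
  have hc := h.card
  obtain ⟨j, hj⟩ := Fintype.exists_ne_of_one_lt_card (by omega) i
  obtain ⟨ρ, μ, I, S, r, r', ρv, μv, ρw, μw⟩ := p.res j hj
  have zS := mem_CV.1 (sp_zs_CV (θ := θ) (i := i) S)
  have wt : Fx (ee θ i * zs θ S) (zz θ i) := fx_mul (fx_map_zz _ i) zS.1
  have wv : ee θ i * zs θ S * vv θ i * (ee θ i * zs θ S)⁻¹ = vv θ i * zz θ i := by
    rw [← conj_conj', zS.2, ee_conj_vv]
  obtain ⟨u, a, hu, e⟩ := (cv (ee θ i * zs θ S * k⁻¹)).1 ⟨fx_mul wt (fx_inv kt), by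
    have : k⁻¹ * vv θ i * k⁻¹⁻¹ = vv θ i * zz θ i := by
      have := conj_inv_of kv
      rw [← conj_mul, fx_inv kt] at this
      rw [← mul_inv_cancel_right (k⁻¹ * vv θ i * k⁻¹⁻¹) (zz θ i), this, inv_eq_of_mul_eq_one_right four.uu]
    rw [Fx, ← conj_conj', this, ← conj_mul, wv, wt, mul_assoc, four.uu, mul_one]⟩
  have uK := cv.mem_KK hu
  have hk' := mul_mem uK hk
  have ut := fx_symm (hu.fx (fx_self _) (fx_iff.2 four.uv))
  have uv := fx_symm (hu.fx (fx_iff.2 four.uv.symm) (fx_self _))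
  have kt' := fx_mul ut kt
  have kv' : u * k * vv θ i * (u * k)⁻¹ = vv θ i * zz θ i := by rw [← conj_conj', kv]; exact uv.mul ut
  have ew : ee θ i * zs θ S = f a * (u * k) := by
    rw [← mul_assoc, SAN.mem_KK.1 uK a, ← e, inv_mul_cancel_right]
  generalize u * k = k' at hk' kt' kv' ew
  have U : ∀ x, Fx x (zz θ i) ∧ Fx x (vv θ i) → Fx (ee θ i * zs θ S) x → Fx (f a) x := fun x hx e' =>
    sp_U four hf (by omega) cv hk' kt' kv' hx (ew ▸ e')
  have fe : Fx (f a) (ee θ i) := fx_cancel' (v := zs θ S)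
    (ew ▸ (fx_self _).mul (fx_iff.2 (SAN.mem_KK.1 hk' a))) (U _ zS (fx_mul (fx_map_zs _ S) (fx_self _)))
  obtain ⟨I', eI⟩ := h.cJ (f a) fun d => fx_map fun l => by
    by_cases hl : l = i
    · subst hl
      obtain ⟨x, hx, y, hy, e'⟩ := d8_split (d l)
      rw [e', at1_mul]
      have o : Fx (f a) (at1 θ l 1) := by rw [at1, Pi.mulSingle_one, map_one]; exact Fx.one _
      refine Fx.mul ?_ ?_
      · rcases hx with rfl | rfl | rfl | rfl
        exacts [o, (cv.fx a).1, (cv.fx a).2, at1_mul (θ := θ) l v0 z0 ▸ (cv.fx a).2.mul (cv.fx a).1]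
      · rcases hy with rfl | rfl | rfl | rfl
        exacts [o, (cv.fx a).1, fe, at1_mul (θ := θ) l e0 z0 ▸ fe.mul (cv.fx a).1]
    · exact U _ ⟨fx_at1_at1 hl _ _, fx_at1_at1 hl _ _⟩
        (fx_mul (fx_at1_at1 (Ne.symm hl) _ _) (fx_symm (fx_map_zs _ S)))
  have jI : j ∉ I' := r.notMem h.js.1 (eI ▸ fx_symm (U ρ ⟨r.fz i hj.symm, ρv⟩ (fx_symm ρw)))
  obtain ⟨b, hb⟩ := zz_mem p h.js.1 cv hj
  have := sp_U four hf (by omega) cv hk' kt' kv' (a := a * b) ⟨r'.fz i hj.symm, μv⟩ (by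
    rw [map_mul, mul_assoc, SAN.mem_KK.1 hk' b, ← mul_assoc, ← ew, hb]; exact fx_symm μw)
  rw [map_mul, eI, hb] at this
  exact r'.toR3.not_fx (zz_sq j) (at1_ne h.js.1 j z0_ne) (fx_cancel (fx_symm this) (r'.fzs jI))

end Cfsg.Agent.H65.Alt
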