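import Mathlib

/-! Every finite group embeds in all large alternating groups. -/

set_option autoImplicit false

namespace Cfsg.Agent.H65

/-- diagonal action on two copies -/
def permDouble (α : Type*) : Equiv.Perm α →* Equiv.Perm (α ⊕ α) where
  toFun σ := Equiv.Perm.sumCongr σ σ
  map_one' := by simp
  map_mul' σ τ := by simp [Equiv.Perm.sumCongr_mul]

theorem exists_injective_alternatingGroup (G : Type*) [Group G] [Finite G] (n : ℕ)
    (hn : 2 * Nat.card G ≤ n) : ∃ φ : G →* alternatingGroup (Fin n), Function.Injective φ := by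
  classical
  have := Fintype.ofFinite G
  obtain ⟨e⟩ : Nonempty (G ⊕ G ↪ Fin n) := by
    apply Function.Embedding.nonempty_of_card_le
    simp only [Fintype.card_sum, Fintype.card_fin]
    rw [Nat.card_eq_fintype_card] at hn
    omega
  let ψ : G →* Equiv.Perm (Fin n) :=
    (Equiv.Perm.viaEmbeddingHom e).comp ((permDouble G).comp (MulAction.toPermHom G G))
  have hψ : ∀ g, ψ g ∈ alternatingGroup (Fin n) := by
    intro g
    rw [Equiv.Perm.mem_alternatingGroup]
    simp only [ψ, MonoidHom.comp_apply, Equiv.Perm.viaEmbeddingHom_apply, Equiv.Perm.viaEmbedding]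
    rw [Equiv.Perm.sign_extendDomain]
    simp [permDouble]
  refine ⟨ψ.codRestrict _ hψ, ?_⟩
  intro a b hab
  have h1 : ψ a = ψ b := congrArg Subtype.val hab
  have h2 := Equiv.Perm.viaEmbeddingHom_injective e h1
  have h3 := congrArg (fun σ : Equiv.Perm (G ⊕ G) => σ (Sum.inl 1)) h2
  simpa [permDouble] using h3

end Cfsg.Agent.H65
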