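import Cfsg.Agent.H65.SLa
set_option autoImplicit false

/-! Eigenspaces of one-parameter groups: dimension counts. -/

namespace Cfsg.Agent.H65

open Module

variable {F V : Type*} [Field F] [AddCommGroup V] [Module ℂ V] {ψ : AddChar F ℂ}

/-- the eigenspace of a one-parameter family -/
noncomputable def Eg (ψ : AddChar F ℂ) (X : F → End ℂ V) (c : F) : Submodule ℂ V := ws X (ψ.mulShift c)

theorem mem_Eg {X : F → End ℂ V} {c : F} {v : V} : v ∈ Eg ψ X c ↔ ∀ t, X t v = ψ (c * t) • v := mem_ws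

/-- `W` is invariant under `f` -/
def Iv (f : End ℂ V) (W : Submodule ℂ V) : Prop := ∀ v ∈ W, f v ∈ W

theorem Iv.inf {f : End ℂ V} {W W' : Submodule ℂ V} (h : Iv f W) (h' : Iv f W') : Iv f (W ⊓ W') :=
  fun v hv => ⟨h v hv.1, h' v hv.2⟩

theorem Iv.top {f : End ℂ V} : Iv f ⊤ := fun _ _ => trivial

theorem Iv.mul {f g : End ℂ V} {W : Submodule ℂ V} (h : Iv f W) (h' : Iv g W) : Iv (f * g) W :=
  fun v hv => h _ (h' v hv)

theorem sum_const0 [Fintype F] {f : F → ℕ} {a : ℕ} (h : ∀ c, c ≠ 0 → f c = a) :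
    ∑ c, f c = f 0 + (Fintype.card F - 1) * a := by
  classical
  rw [← Finset.add_sum_erase _ _ (Finset.mem_univ 0), Finset.sum_congr rfl fun c hc => h c (Finset.ne_of_mem_erase hc)]
  simp

theorem sum_units [Fintype F] [DecidableEq F] (f : F → ℕ) : ∑ c, f c = f 0 + ∑ c : Fˣ, f c := by
  rw [← Finset.add_sum_erase _ _ (Finset.mem_univ 0)]
  congr 1
  refine (Finset.sum_bij (fun (c : Fˣ) _ => (c : F)) (by simp) (fun a _ b _ h => Units.ext h)
    (fun b hb => ⟨Units.mk0 b (Finset.ne_of_mem_erase hb), by simp⟩) fun _ _ => rfl).symm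

theorem card_dvd_sum {A : Type*} [Group A] [Fintype A] (H : Subgroup A) {f : A → ℕ}
    (h : ∀ a, ∀ b ∈ H, f (a * b) = f a) : Nat.card H ∣ ∑ a, f a := by
  classical
  have := Fintype.ofFinite H
  rw [← (Subgroup.groupEquivQuotientProdSubgroup (s := H)).symm.sum_comp, Fintype.sum_prod_type]
  refine Finset.dvd_sum fun x _ => ⟨f x.out, ?_⟩
  rw [Finset.sum_congr rfl (g := fun _ => f x.out) fun b _ => ?_]
  · simp
  · have : (QuotientGroup.mk ((Subgroup.groupEquivQuotientProdSubgroup (s := H)).symm (x, b)) : A ⧸ H) = x := by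
      change ((Subgroup.groupEquivQuotientProdSubgroup (s := H))
        ((Subgroup.groupEquivQuotientProdSubgroup (s := H)).symm (x, b))).1 = x
      rw [Equiv.apply_symm_apply]
    have := QuotientGroup.eq.1 (x.out_eq'.trans this.symm)
    rw [← h x.out _ this, mul_inv_cancel_left]

theorem rho_inj {G : Type*} [Group G] (ρ : G →* End ℂ V) (g : G) : Function.Injective (ρ g) := fun a b e => by
  simpa [← End.mul_apply, ← map_mul] using congrArg (ρ g⁻¹) e

variable [FiniteDimensional ℂ V]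

theorem finrank_le_of {G : Type*} [Group G] (ρ : G →* End ℂ V) (g : G) {W W' : Submodule ℂ V}
    (h : ∀ v ∈ W, ρ g v ∈ W') : finrank ℂ W ≤ finrank ℂ W' :=
  LinearMap.finrank_le_finrank_of_injective (f := (ρ g).restrict h) fun _ _ e =>
    Subtype.ext (rho_inj ρ g (congrArg Subtype.val e))

theorem pow_finrank_eq_one {G : Type*} [Group G] (ρ : G →* End ℂ V) {g h : G} {W : Submodule ℂ V} (hg : Iv (ρ g) W)
    (hh : Iv (ρ h) W) {z : ℂ} (e : ∀ v ∈ W, ρ g (ρ h v) = z • ρ h (ρ g v)) : z ^ finrank ℂ W = 1 := by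
  have hd : ∀ {g : G} (hg : Iv (ρ g) W), LinearMap.det ((ρ g).restrict hg) ≠ 0 := fun {g} hg =>
    (LinearMap.isUnit_det _ ((LinearMap.isUnit_iff_ker_eq_bot _).2 (LinearMap.ker_eq_bot.2
      fun a b e => Subtype.ext (rho_inj ρ g (congrArg Subtype.val e))))).ne_zero
  have : (ρ g).restrict hg * (ρ h).restrict hh = z • ((ρ h).restrict hh * (ρ g).restrict hg) :=
    LinearMap.ext fun v => Subtype.ext (e v v.2)
  have := congrArg LinearMap.det this
  rw [LinearMap.det_smul, map_mul, map_mul, mul_comm] at this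
  exact (mul_right_cancel₀ (mul_ne_zero (hd hh) (hd hg)) (by rw [one_mul]; exact this)).symm

variable [Fintype F] {X : F → End ℂ V}

theorem trace_sum (hψ : ψ ≠ 1) (hX : ∀ a b, X (a + b) = X a * X b) (h0 : X 0 = 1) {W : Submodule ℂ V}
    (hW : ∀ t, Iv (X t) W) {f π : End ℂ V} (hπ : LinearMap.IsProj W π) {a : F → ℂ}
    (hf : ∀ c, ∀ v ∈ W ⊓ Eg ψ X c, f v = a c • v) :
    LinearMap.trace ℂ V (f * π) = ∑ c, a c * finrank ℂ ↥(W ⊓ Eg ψ X c) := by
  classical
  have h1 : ∑ c, prj X (ψ.mulShift c) = 1 := by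
    simp only [prj, ← Finset.smul_sum]
    rw [Finset.sum_comm]
    simp only [← Finset.sum_smul, AddChar.mulShift_apply,
      AddChar.sum_mulShift _ (AddChar.IsPrimitive.of_ne_one hψ), neg_eq_zero]
    rw [Finset.sum_eq_single 0 (fun b _ hb => by simp [hb]) (by simp)]
    simp [smul_smul, h0]
  rw [← one_mul π, ← h1, Finset.sum_mul, Finset.mul_sum, map_sum]
  refine Finset.sum_congr rfl fun c _ => ?_
  have hP := isProj_prj hX (ψ.mulShift c)
  have h2 : ∀ x, prj X (ψ.mulShift c) (π x) ∈ W ⊓ Eg ψ X c := fun x => ⟨by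
    simp only [prj, LinearMap.smul_apply, LinearMap.sum_apply]
    exact W.smul_mem _ (W.sum_mem fun t _ => W.smul_mem _ (hW t _ (hπ.map_mem x))), hP.map_mem _⟩
  refine trace_of_range (fun x => ?_) fun x hx => ?_
  · rw [End.mul_apply, End.mul_apply, hf c _ (h2 x)]
    exact Submodule.smul_mem _ _ (h2 x)
  · rw [End.mul_apply, End.mul_apply, hπ.map_id x hx.1, hP.map_id x hx.2, hf c x hx]

omit [FiniteDimensional ℂ V] in
theorem exists_isProj (W : Submodule ℂ V) : ∃ π : End ℂ V, LinearMap.IsProj W π := by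
  obtain ⟨U, hU⟩ := W.exists_isCompl
  exact ⟨W.subtype ∘ₗ W.projectionOnto U hU, fun x => (W.projectionOnto U hU x).2, fun x hx =>
    congrArg Subtype.val (Submodule.projectionOnto_apply_left hU ⟨x, hx⟩)⟩

theorem finrank_sum (hψ : ψ ≠ 1) (hX : ∀ a b, X (a + b) = X a * X b) (h0 : X 0 = 1) {W : Submodule ℂ V}
    (hW : ∀ t, Iv (X t) W) : finrank ℂ W = ∑ c, finrank ℂ ↥(W ⊓ Eg ψ X c) := by
  obtain ⟨π, hπ⟩ := exists_isProj W
  have := trace_sum hψ hX h0 hW (f := 1) hπ (a := fun _ => 1) fun _ _ _ => by simp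
  rw [one_mul, hπ.trace] at this
  simp only [one_mul] at this
  exact_mod_cast this

theorem heis (hψ : ψ ≠ 1) (hX : ∀ a b, X (a + b) = X a * X b) (h0 : X 0 = 1) {W : Submodule ℂ V}
    (hW : ∀ t, Iv (X t) W) {G : Type*} [Group G] (ρ : G →* End ℂ V)
    (h : ∀ a, ∃ g, Iv (ρ g) W ∧ ∀ t, ∀ v ∈ W, X t (ρ g v) = ψ (a * t) • ρ g (X t v)) (c : F) :
    finrank ℂ W = Fintype.card F * finrank ℂ ↥(W ⊓ Eg ψ X c) := by
  have h1 : ∀ c c', finrank ℂ ↥(W ⊓ Eg ψ X c) ≤ finrank ℂ ↥(W ⊓ Eg ψ X c') := fun c c' => by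
    obtain ⟨g, hg, e⟩ := h (c' - c)
    refine finrank_le_of ρ g fun v hv => ⟨hg v hv.1, mem_Eg.2 fun t => ?_⟩
    rw [e t v hv.1, mem_Eg.1 hv.2, map_smul, smul_smul, ← AddChar.map_add_eq_mul]
    congr 2; ring
  rw [finrank_sum hψ hX h0 hW, Finset.sum_congr rfl fun c' _ => le_antisymm (h1 c' c) (h1 c c')]
  simp

theorem le_Eg_zero (hψ : ψ ≠ 1) (hX : ∀ a b, X (a + b) = X a * X b) (h0 : X 0 = 1) {W : Submodule ℂ V}
    (hW : ∀ t, Iv (X t) W) (h : ∀ c, c ≠ 0 → finrank ℂ ↥(W ⊓ Eg ψ X c) = 0) {v : V} (hv : v ∈ W) (t : F) :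
    X t v = v := by
  have h1 := finrank_sum hψ hX h0 hW
  rw [sum_const0 h, mul_zero, add_zero] at h1
  have := Submodule.eq_of_le_of_finrank_eq inf_le_left h1.symm
  simpa using mem_Eg.1 (this.ge hv).2 t

end Cfsg.Agent.H65
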