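import Cfsg.Agent.H65.G2a
import Cfsg.Agent.H40.Rel
set_option autoImplicit false

/-! Representations of groups of type `G₂`: eigenspaces of the root subgroups. -/

namespace Cfsg.Agent.H65

open Module Cfsg.Lie Cfsg.Agent.H37

/-- a representation of a group with the relations of `G₂` -/
structure GD (F G V : Type*) [Field F] [Group G] [AddCommGroup V] [Module ℂ V] where
  /-- the relations -/
  S : StRel chevG2 F G
  /-- the representation -/
  ρ : G →* End ℂ V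
  /-- the additive character -/
  ψ : AddChar F ℂ
  hψ : ψ ≠ 1

/-- the root groups `r`, `s` commute in characteristic `p` -/
def Cm (p : ℤ) (r s : ℕ) : Prop := r < 12 ∧ s < 12 ∧ s ≠ chevG2.neg r ∧ ∀ c ∈ chevG2.commTerms r s, p ∣ c.2.1

instance (p : ℤ) (r s : ℕ) : Decidable (Cm p r s) := by unfold Cm; infer_instance

/-- the commutator terms -/
def Ct (r s : ℕ) (L : List (ℕ × ℤ × ℕ × ℕ)) : Prop :=
  r < 12 ∧ s < 12 ∧ s ≠ r ∧ s ≠ chevG2.neg r ∧ chevG2.commTerms r s = L ∧ ∀ c ∈ L, c.1 < 12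

instance (r s : ℕ) (L : List (ℕ × ℤ × ℕ × ℕ)) : Decidable (Ct r s L) := by unfold Ct; infer_instance

/-- the action of a reflection -/
def Nf (r s s' : ℕ) (e : ℤ) : Prop := r < 12 ∧ s < 12 ∧ refl chevG2 r s = s' ∧ eta chevG2 r s = e

instance (r s s' : ℕ) (e : ℤ) : Decidable (Nf r s s' e) := by unfold Nf; infer_instance

/-- the pairing -/
def Pf (r s : ℕ) (e : ℤ) : Prop := r < 12 ∧ s < 12 ∧ chevG2.pairing r s = e

instance (r s : ℕ) (e : ℤ) : Decidable (Pf r s e) := by unfold Pf; infer_instance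

theorem ctlt : ∀ r < 12, ∀ s < 12, ∀ c ∈ chevG2.commTerms r s, c.1 < 12 := by decide +kernel

variable {F G V : Type*} [Field F] [Group G] [AddCommGroup V] [Module ℂ V]

theorem x_cm (S : StRel chevG2 F G) {p : ℤ} (hp : (p : F) = 0) {r s : ℕ} (h : Cm p r s) (t u : F) :
    S.x s u * S.x r t = S.x r t * S.x s u := by
  by_cases e : s = r
  · rw [e, S.x_add r h.1, S.x_add r h.1, add_comm]
  rw [S.x_comm r h.1 s h.2.1 e h.2.2.1, mul_eq_left]
  refine Subgroup.mem_bot.1 (H40.gword_mem S fun c hc => ?_)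
  obtain ⟨d, hd, rfl⟩ := List.mem_map.1 hc
  obtain ⟨k, hk⟩ := h.2.2.2 d hd
  simp [hk, hp, H40.x_zero S (ctlt r h.1 s h.2.1 d hd)]

namespace GD

variable (R : GD F G V)

/-- the root elements -/
def X (r : ℕ) (t : F) : End ℂ V := R.ρ (R.S.x r t)

/-- the eigenspaces -/
noncomputable def E (r : ℕ) (c : F) : Submodule ℂ V := Eg R.ψ (R.X r) c

variable {R}

theorem mem_E {r : ℕ} {c : F} {v : V} : v ∈ R.E r c ↔ ∀ t, R.X r t v = R.ψ (c * t) • v := mem_Eg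

theorem X_add {r : ℕ} (hr : r < 12) (a b : F) : R.X r (a + b) = R.X r a * R.X r b := by
  rw [X, ← R.S.x_add r hr, map_mul]; rfl

theorem X_zero {r : ℕ} (hr : r < 12) : R.X r 0 = 1 := by rw [X, H40.x_zero R.S hr, map_one]

theorem conjE {g : G} {r s : ℕ} {a c : F} (h : ∀ u, g * R.S.x r u * g⁻¹ = R.S.x s (a * u)) {v : V}
    (hv : v ∈ R.E s c) : R.ρ g⁻¹ v ∈ R.E r (c * a) := mem_E.2 fun t => by
  rw [X, ← End.mul_apply, ← map_mul, show R.S.x r t * g⁻¹ = g⁻¹ * R.S.x s (a * t) by rw [← h]; group, map_mul,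
    End.mul_apply, show R.ρ (R.S.x s (a * t)) v = _ from mem_E.1 hv _, map_smul, mul_assoc]

theorem nE {r s s' : ℕ} {e : ℤ} (h : Nf r s s' e) {c : F} {v : V} (hv : v ∈ R.E s' c) :
    R.ρ (R.S.n r 1)⁻¹ v ∈ R.E s (c * e) :=
  conjE (fun u => by rw [H40.n_conj' R.S h.1 h.2.1 one_ne_zero, h.2.2.1, h.2.2.2, one_zpow, mul_one]) hv

theorem nE0 {r s s' : ℕ} {e : ℤ} (h : Nf r s s' e) {v : V} (hv : v ∈ R.E s' 0) :
    R.ρ (R.S.n r 1)⁻¹ v ∈ R.E s 0 := by simpa using nE h hv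

theorem hE [Chev chevG2] {r s : ℕ} {e : ℤ} (h : Pf r s e) {t : F} (ht : t ≠ 0) {c : F} {v : V} (hv : v ∈ R.E s c) :
    R.ρ (R.S.h r t)⁻¹ v ∈ R.E s (c * t ^ e) :=
  conjE (fun u => by rw [H40.h_conj R.S h.1 h.2.1 ht, h.2.2]) hv

theorem X_cm {p : ℤ} (hp : (p : F) = 0) {r s : ℕ} (h : Cm p r s) (t u : F) (v : V) :
    R.X s u (R.X r t v) = R.X r t (R.X s u v) := by
  simp only [X, ← End.mul_apply, ← map_mul, x_cm R.S hp h]

theorem iv {p : ℤ} (hp : (p : F) = 0) {r s : ℕ} (h : Cm p r s) (t c : F) : Iv (R.X r t) (R.E s c) := fun v hv =>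
  mem_E.2 fun u => by rw [X_cm hp h, mem_E.1 hv, map_smul]

theorem iv0 {r s : ℕ} (h : Cm 0 r s) (t c : F) : Iv (R.X r t) (R.E s c) := iv Int.cast_zero h t c

theorem word_smul {L : List (ℕ × F)} {d : ℕ → F} {v : V} (h : ∀ c ∈ L, v ∈ R.E c.1 (d c.1)) :
    R.ρ (gword R.S.x L) v = R.ψ (L.map fun c => d c.1 * c.2).sum • v := by
  induction L with
  | nil => simp [H40.gword_nil]
  | cons a L ih =>
    rw [H40.gword_cons, map_mul, End.mul_apply, ih fun c hc => h c (List.mem_cons_of_mem _ hc), map_smul,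
      show R.ρ (R.S.x a.1 a.2) v = _ from mem_E.1 (h a List.mem_cons_self) _, smul_smul, ← AddChar.map_add_eq_mul,
      List.map_cons, List.sum_cons, add_comm]

theorem X_ct {r s : ℕ} {L : List (ℕ × ℤ × ℕ × ℕ)} (h : Ct r s L) {d : ℕ → F} {v : V}
    (hv : ∀ c ∈ L, v ∈ R.E c.1 (d c.1)) (t u : F) : R.X s u (R.X r t v) =
      R.ψ (L.map fun c => d c.1 * ((c.2.1 : F) * (-t) ^ c.2.2.1 * u ^ c.2.2.2)).sum • R.X r t (R.X s u v) := by
  have e := R.S.x_comm r h.1 s h.2.1 h.2.2.1 h.2.2.2.1 t u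
  rw [ChevalleyDatum.commWord, h.2.2.2.2.1] at e
  rw [X, X, ← End.mul_apply, ← map_mul, e, map_mul, map_mul, End.mul_apply, End.mul_apply,
    word_smul (d := d) (fun c hc => by obtain ⟨a, ha, rfl⟩ := List.mem_map.1 hc; exact hv a ha), map_smul, map_smul, List.map_map]
  rfl

theorem X_ct1 {r s k : ℕ} {C : ℤ} (h : Ct r s [(k, C, 1, 1)]) {d : F} {v : V} (hv : v ∈ R.E k d) (t u : F) :
    R.X s u (R.X r t v) = R.ψ (-(d * C * t) * u) • R.X r t (R.X s u v) := by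
  rw [X_ct h (d := fun _ => d) (by simpa using hv)]
  congr 2
  simp; ring

theorem shE {r s k : ℕ} {C : ℤ} (h : Ct r s [(k, C, 1, 1)]) {c d : F} {v : V} (hv : v ∈ R.E k d)
    (hv' : v ∈ R.E s c) (t : F) : R.X r t v ∈ R.E s (c - d * C * t) := mem_E.2 fun u => by
  rw [X_ct1 h hv, mem_E.1 hv', map_smul, smul_smul, ← AddChar.map_add_eq_mul]
  congr 2; ring

theorem X67 {κ l μ ν : F} {v : V} (h8 : v ∈ R.E 8 ν) (h9 : v ∈ R.E 9 l) (h10 : v ∈ R.E 10 κ) (h11 : v ∈ R.E 11 μ)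
    (t u : F) : R.X 7 u (R.X 6 t v) =
      R.ψ (-(ν * t * u) - l * t * u ^ 2 + κ * t * u ^ 3 - 2 * μ * t ^ 2 * u ^ 3) • R.X 6 t (R.X 7 u v) := by
  rw [X_ct (L := [(8, 1, 1, 1), (9, 1, 1, 2), (10, -1, 1, 3), (11, -2, 2, 3)]) (by decide +kernel)
    (d := fun r => if r = 8 then ν else if r = 9 then l else if r = 10 then κ else μ) (by simp [*])]
  congr 2
  simp; ring

theorem X78 (h3 : (3 : F) = 0) {l : F} {v : V} (h9 : v ∈ R.E 9 l) (t u : F) :
    R.X 8 u (R.X 7 t v) = R.ψ (-(l * t) * u) • R.X 7 t (R.X 8 u v) := by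
  have h : Ct 7 8 [(9, -2, 1, 1), (10, -3, 2, 1), (11, 3, 1, 2)] := by decide +kernel
  have e := R.S.x_comm 7 h.1 8 h.2.1 h.2.2.1 h.2.2.2.1 t u
  rw [ChevalleyDatum.commWord, h.2.2.2.2.1] at e
  simp only [List.map, H40.gword_cons, H40.gword_nil, Int.cast_neg, Int.cast_ofNat, h3, neg_zero, zero_mul,
    H40.x_zero R.S (show 10 < 12 by decide), H40.x_zero R.S (show 11 < 12 by decide), mul_one] at e
  rw [X, X, ← End.mul_apply, ← map_mul, e, map_mul, map_mul, End.mul_apply, End.mul_apply,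
    show R.ρ (R.S.x 9 _) v = _ from mem_E.1 h9 _, map_smul, map_smul]
  congr 2
  linear_combination (l * t * u) * h3

variable [FiniteDimensional ℂ V] [Fintype F]

theorem fsum {r : ℕ} (hr : r < 12) {W : Submodule ℂ V} (hW : ∀ t, Iv (R.X r t) W) :
    finrank ℂ W = ∑ c, finrank ℂ ↥(W ⊓ R.E r c) := finrank_sum R.hψ (X_add hr) (X_zero hr) hW

theorem fsum0 {r : ℕ} (hr : r < 12) {W : Submodule ℂ V} (hW : ∀ t, Iv (R.X r t) W) {a : ℕ}
    (h : ∀ c, c ≠ 0 → finrank ℂ ↥(W ⊓ R.E r c) = a) :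
    finrank ℂ W = finrank ℂ ↥(W ⊓ R.E r 0) + (Fintype.card F - 1) * a := (fsum hr hW).trans (sum_const0 h)

theorem heisX {r s : ℕ} (hs : s < 12) {W : Submodule ℂ V} (hW : ∀ t, Iv (R.X s t) W) (hW' : ∀ t, Iv (R.X r t) W)
    {f : F → F} (hf : Function.Surjective f)
    (h : ∀ t u, ∀ v ∈ W, R.X s u (R.X r t v) = R.ψ (f t * u) • R.X r t (R.X s u v)) (c : F) :
    finrank ℂ W = Fintype.card F * finrank ℂ ↥(W ⊓ R.E s c) :=
  heis R.hψ (X_add hs) (X_zero hs) hW R.ρ (fun a => by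
    obtain ⟨t, rfl⟩ := hf a
    exact ⟨_, hW' t, h t⟩) c

omit [Fintype F] in
theorem surj_neg_mul {a : F} (ha : a ≠ 0) : Function.Surjective fun t => -(a * t) := fun b =>
  ⟨-b / a, by field_simp⟩

theorem heis1 {r s k : ℕ} {C : ℤ} (h : Ct r s [(k, C, 1, 1)]) {W : Submodule ℂ V} (hW : ∀ t, Iv (R.X s t) W)
    (hW' : ∀ t, Iv (R.X r t) W) {d : F} (hd : d * C ≠ 0) (hk : W ≤ R.E k d) (c : F) :
    finrank ℂ W = Fintype.card F * finrank ℂ ↥(W ⊓ R.E s c) :=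
  heisX h.2.1 hW hW' (surj_neg_mul hd) (fun t u _ hv => X_ct1 h (hk hv) t u) c

end GD

end Cfsg.Agent.H65
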