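import Cfsg.Agent.H65.G2b
import Cfsg.Agent.S2401
import Cfsg.Agent.H5.Central
import Cfsg.Agent.H7.AutC
set_option autoImplicit false

/-! The subgroup `SL₃` of `G₂`; irreducible constituents. -/

namespace Cfsg.Agent.H65

open Module Cfsg.Lie Cfsg.Agent.H37

section
variable {H V : Type*} [Group H] [Finite H] [AddCommGroup V] [Module ℂ V] [FiniteDimensional ℂ V]

theorem exists_irr_sub (σ : Representation ℂ H V) {D : Submodule ℂ V}
    (hD : ∀ f : End ℂ V, (∀ g v, f (σ g v) = σ g (f v)) → Iv f D) (U : Subrepresentation σ)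
    (hU : U.toSubmodule ⊓ D ≠ ⊥) :
    ∃ W : Subrepresentation σ, W ≤ U ∧ W.toSubmodule ⊓ D ≠ ⊥ ∧ W.toRepresentation.IsIrreducible := by
  induction hn : finrank ℂ U.toSubmodule using Nat.strong_induction_on generalizing U with
  | _ n ih =>
  subst hn
  by_cases hi : U.toRepresentation.IsIrreducible
  · exact ⟨U, le_rfl, hU, hi⟩
  have : NeZero (Nat.card H : ℂ) := ⟨by exact_mod_cast Nat.card_pos.ne'⟩
  obtain ⟨v, hv, hv0⟩ := (Submodule.ne_bot_iff _).1 hU
  have : Nontrivial (Subrepresentation U.toRepresentation) := ⟨⊥, ⊤, fun h => hv0 (congrArg Subtype.val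
    (show (⟨v, hv.1⟩ : U.toSubmodule) ∈ (⊥ : Subrepresentation U.toRepresentation).toSubmodule from h ▸ trivial))⟩
  obtain ⟨T, hT0, hT1⟩ : ∃ T : Subrepresentation U.toRepresentation, T ≠ ⊥ ∧ T ≠ ⊤ := by
    by_contra! hc
    exact hi ⟨fun U => (eq_or_ne U ⊥).imp_right (hc U)⟩
  let U1 : Subrepresentation σ := ⟨T.toSubmodule.map U.toSubmodule.subtype, by
    rintro g _ ⟨w, hw, rfl⟩; exact ⟨_, T.apply_mem_toSubmodule g hw, rfl⟩⟩
  have h1 : U1.toSubmodule ≤ U.toSubmodule := Submodule.map_subtype_le _ _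
  obtain ⟨U', hU'⟩ := exists_isCompl U1
  have hc := H5.isCompl_toSubmodule hU'
  let π : End ℂ V := U1.toSubmodule.projection U'.toSubmodule hc
  have hπ : ∀ g v, π (σ g v) = σ g (π v) := fun g v => by
    obtain ⟨a, ha, b, hb, rfl⟩ := Submodule.mem_sup.1 (hc.sup_eq_top ▸ Submodule.mem_top (x := v))
    simp only [π, map_add, Submodule.projection_apply_of_mem_left hc ha, Submodule.projection_apply_of_mem_right hc hb,
      Submodule.projection_apply_of_mem_left hc (U1.apply_mem_toSubmodule g ha),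
      Submodule.projection_apply_of_mem_right hc (U'.apply_mem_toSubmodule g hb), map_zero]
  have h2 : π v ∈ U1.toSubmodule := Submodule.projection_apply_mem hc v
  have key : ∀ W : Subrepresentation σ, W.toSubmodule < U.toSubmodule → ∀ w ∈ W.toSubmodule ⊓ D, w ≠ 0 →
      ∃ W : Subrepresentation σ, W ≤ U ∧ W.toSubmodule ⊓ D ≠ ⊥ ∧ W.toRepresentation.IsIrreducible :=
    fun W hW w hw h0 => (ih _ (Submodule.finrank_lt_finrank_of_lt hW) W ((Submodule.ne_bot_iff _).2 ⟨w, hw, h0⟩) rfl).imp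
      fun W' h => ⟨h.1.trans hW.le, h.2⟩
  by_cases h0 : π v = 0
  · refine key (U ⊓ U') (lt_of_le_of_ne inf_le_left fun e => hT0 ?_) v
      ⟨⟨hv.1, (Submodule.projection_apply_eq_zero_iff hc).1 h0⟩, hv.2⟩ hv0
    refine Subrepresentation.toSubmodule_injective ((Submodule.eq_bot_iff _).2 fun w hw => Subtype.ext ?_)
    exact (Submodule.disjoint_def.1 hc.disjoint) w ⟨w, hw, rfl⟩ (e.ge w.2).2
  · refine key U1 (lt_of_le_of_ne h1 fun e => hT1 ?_) (π v) ⟨h2, hD π hπ v hv.2⟩ h0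
    refine Subrepresentation.toSubmodule_injective (Submodule.eq_top_iff'.2 fun w => ?_)
    obtain ⟨w', hw', e'⟩ := e.ge w.2
    exact Subtype.ext e' ▸ hw'

theorem irr_dvd {σ : Representation ℂ H V} {W : Subrepresentation σ} (hW : W.toRepresentation.IsIrreducible) (g : H)
    {a : ℕ} (ha : ∀ π, LinearMap.IsProj W.toSubmodule π → LinearMap.trace ℂ V (σ g * π) = a) :
    finrank ℂ W.toSubmodule ∣ (Subgroup.centralizer {g}).index * a := by
  obtain ⟨π, hπ⟩ := exists_isProj W.toSubmodule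
  have h := H5.isIntegral_centralChar (H5.isIrrCharacter_character W.toRepresentation) g
  have e : W.toRepresentation.character g = a := by
    rw [← ha π hπ, ← LinearMap.trace_restrict_eq_of_forall_mem W.toSubmodule (σ g * π)
      fun x => W.apply_mem_toSubmodule g (hπ.map_mem x)]
    refine congrArg (LinearMap.trace ℂ W.toSubmodule) (LinearMap.ext fun v => Subtype.ext ?_)
    exact congrArg (σ g) (hπ.map_id v v.2).symm
  rw [e, Representation.char_one, ← Nat.cast_mul] at h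
  exact H7.dvd_of_isIntegral_div (H5.finrank_pos_of_isIrreducible W.toRepresentation).ne' h

end

variable {F G : Type*} [Field F] [Group G]

theorem index_transvection [Fintype F] {z : Matrix.SpecialLinearGroup (Fin 3) F} (hz : z.1 = Matrix.transvection 0 2 1) :
    (Subgroup.centralizer {z}).index = (Fintype.card F + 1) * (Fintype.card F ^ 3 - 1) := by
  have hz' : z.1 = !![1, 0, 1; 0, 1, 0; 0, 0, 1] := by
    rw [hz]; ext i j; fin_cases i <;> fin_cases j <;> simp [Matrix.transvection]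
  let f0 : Fˣ × F × F × F → Matrix.SpecialLinearGroup (Fin 3) F := fun a =>
    ⟨!![a.1, a.2.1, a.2.2.1; 0, (a.1⁻¹ : Fˣ) ^ 2, a.2.2.2; 0, 0, a.1], by simp [Matrix.det_fin_three]; field_simp⟩
  let f : Fˣ × F × F × F → Subgroup.centralizer {z} := fun a =>
    ⟨f0 a, Subgroup.mem_centralizer_singleton_iff.2 (Subtype.ext (show (f0 a).1 * z.1 = z.1 * (f0 a).1 by
        rw [hz']; simp [f0, add_comm]))⟩
  have hf : Function.Bijective f := ⟨fun a b e => by
    have := congrArg (fun g : Subgroup.centralizer {z} => (g.1.1 0 0, g.1.1 0 1, g.1.1 0 2, g.1.1 1 2)) e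
    simp only [f, f0, Prod.mk.injEq] at this
    exact Prod.ext (Units.ext this.1) (Prod.ext this.2.1 (Prod.ext this.2.2.1 this.2.2.2)), fun g => by
    have h' : g.1 * z = z * g.1 := Subgroup.mem_centralizer_singleton_iff.1 g.2
    have h : g.1.1 * z.1 = z.1 * g.1.1 := congrArg Subtype.val h'
    have hd := g.1.2
    rw [hz'] at h
    have h0 := congrFun (congrFun h 0) 0
    have h1 := congrFun (congrFun h 0) 1
    have h2 := congrFun (congrFun h 0) 2
    have h3 := congrFun (congrFun h 1) 2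
    simp [Matrix.mul_apply, Fin.sum_univ_three] at h0 h1 h2 h3
    have h4 : g.1.1 2 2 = g.1.1 0 0 := by linear_combination -h2
    rw [Matrix.det_fin_three, h0, h1, h3, h4] at hd
    have h5 : g.1.1 0 0 ≠ 0 := fun e => by simp [e] at hd
    refine ⟨(Units.mk0 _ h5, g.1.1 0 1, g.1.1 0 2, g.1.1 1 2), Subtype.ext (Subtype.ext ?_)⟩
    ext i j
    fin_cases i <;> fin_cases j <;> simp [f, f0, h0, h1, h3, h4]
    field_simp
    linear_combination -hd⟩
  have h1 := (Subgroup.centralizer {z}).card_mul_index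
  have h2 := H9.card_sl_fin (F := F) 3 (by norm_num)
  rw [← h1, ← Nat.card_congr (Equiv.ofBijective f hf), Fin.prod_univ_three] at h2
  simp only [Nat.card_prod, Nat.card_units, Nat.card_eq_fintype_card (α := F)] at h2
  obtain ⟨q, hq⟩ : ∃ q, Fintype.card F = q + 2 := ⟨_, (Nat.sub_add_cancel Fintype.one_lt_card).symm⟩
  rw [hq] at h2 ⊢
  refine Nat.eq_of_mul_eq_mul_left (show 0 < (q + 1) ^ 2 * (q + 2) ^ 3 by positivity) ?_
  have e1 : (q + 2) ^ 3 - (q + 2) ^ ((1 : Fin 3) : ℕ) = (q + 1) * (q + 2) * (q + 3) :=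
    Nat.sub_eq_of_eq_add (by simp; ring)
  have e2 : (q + 2) ^ 3 - (q + 2) ^ ((2 : Fin 3) : ℕ) = (q + 1) * (q + 2) ^ 2 := Nat.sub_eq_of_eq_add (by simp; ring)
  rw [e1, e2, show q + 2 - 1 = q + 1 from rfl, show (q + 2) ^ ((0 : Fin 3) : ℕ) = 1 from rfl] at h2
  linear_combination h2

/-- the long roots -/
def lg : List ℕ := [0, 1, 5, 6, 10, 11]

theorem x_st (S : StRel chevG2 F G) {r s k : ℕ} (h : Ct r s [(k, 1, 1, 1)] ∧ Cm 0 r k ∧ Cm 0 s k) (t u : F) :
    S.x r t * S.x s u * (S.x r t)⁻¹ * (S.x s u)⁻¹ * (S.x k (t * u))⁻¹ = 1 := by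
  have e := S.x_comm r h.1.1 s h.1.2.1 h.1.2.2.1 h.1.2.2.2.1 t u
  rw [ChevalleyDatum.commWord, h.1.2.2.2.2.1] at e
  simp only [List.map, H40.gword_cons, H40.gword_nil, Int.cast_one, one_mul, mul_one, pow_one, neg_mul,
    ← H40.x_inv S h.2.1.2.1] at e
  have c1 : Commute (S.x k (t * u)) (S.x r t) := x_cm S Int.cast_zero h.2.1 _ _
  have c2 : Commute (S.x k (t * u)) (S.x s u) := x_cm S Int.cast_zero h.2.2 _ _
  rw [mul_assoc _ (S.x s u)⁻¹, ← c2.inv_inv.eq, ← mul_assoc, mul_assoc _ (S.x r t)⁻¹, ← c1.inv_inv.eq, ← mul_assoc, ← e]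
  group

theorem exists_phi [Finite F] (S : StRel chevG2 F G) : ∃ φ : Matrix.SpecialLinearGroup (Fin 3) F →* G,
    (∃ z, φ z = S.x 11 1 ∧ z.1 = Matrix.transvection 0 2 1) ∧ (∀ r ∈ lg, ∀ t, ∃ g, φ g = S.x r t) ∧
      ∀ K : Subgroup G, (∀ r ∈ lg, ∀ t, S.x r t ∈ K) → ∀ g, φ g ∈ K := by
  obtain ⟨e, he⟩ := S2401.result (K := F) 3 le_rfl
  let y : Fin 3 → Fin 3 → ℕ := ![![0, 6, 11], ![5, 0, 10], ![0, 1, 0]]
  have hy : ∀ i j, y i j ∈ lg ∧ y i j < 12 := by decide
  refine ⟨(PresentedGroup.toGroup (f := fun p => S.x (y p.1.1.1 p.1.1.2) p.2) ?_).comp e.symm.toMonoidHom,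
    ⟨e (.of (⟨(0, 2), by decide⟩, 1)), by simp [y], he _ _⟩, fun r hr t => ?_, fun K hK g => ?_⟩
  · rintro _ ((⟨a, t, u, rfl⟩ | ⟨⟨⟨i, j⟩, h⟩, ⟨⟨k, l⟩, h'⟩, t, u, h1, h2, rfl⟩) |
      ⟨⟨⟨i, j⟩, h1⟩, ⟨⟨_, k⟩, h2⟩, h3, t, u, rfl, rfl⟩) <;> simp only [map_mul, map_inv, FreeGroup.lift_apply_of]
    · rw [S.x_add _ (hy _ _).2, mul_inv_cancel]
    · rw [← x_cm S Int.cast_zero ((show ∀ i j k l, i ≠ j → k ≠ l → i ≠ l → j ≠ k → Cm 0 (y i j) (y k l) by
        decide +kernel) i j k l h h' h1 h2)]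
      group
    · exact x_st S ((show ∀ i j k, i ≠ j → j ≠ k → i ≠ k → Ct (y i j) (y j k) [(y i k, 1, 1, 1)] ∧
        Cm 0 (y i j) (y i k) ∧ Cm 0 (y j k) (y i k) by decide +kernel) i j k h1 h2 h3) t u
  · obtain ⟨i, j, h, rfl⟩ := (show ∀ r ∈ lg, ∃ i j, i ≠ j ∧ y i j = r by decide) r hr
    exact ⟨e (.of (⟨(i, j), h⟩, t)), by simp⟩
  · obtain ⟨g, rfl⟩ := e.surjective g
    rw [MonoidHom.comp_apply, MulEquiv.coe_toMonoidHom, e.symm_apply_apply, ← Subgroup.mem_comap]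
    refine PresentedGroup.generated_by _ _ (fun a => ?_) g
    simpa using hK _ (hy _ _).1 _

end Cfsg.Agent.H65
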