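import Cfsg.Agent.H65.G2c
set_option autoImplicit false

/-! Representations of groups of type `G₂`: the long root subgroups. -/

namespace Cfsg.Agent.H65

open Module Cfsg.Lie Cfsg.Agent.H37

variable {F G V : Type*} [Field F] [Group G] [AddCommGroup V] [Module ℂ V]

theorem ord3 [FiniteDimensional ℂ V] (ρ : G →* End ℂ V) {w g : G} (h3 : w ^ 3 = 1) (hg : g * w * g⁻¹ = w⁻¹)
    (hw : ρ w ≠ 1) {z : ℂ} {W : Submodule ℂ V} (hW : ∀ v ∈ W, ρ w v = z • v) (h2 : 2 ≤ finrank ℂ W) :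
    finrank ℂ W + 2 ≤ finrank ℂ V := by
  let U : ℂ → Submodule ℂ V := fun c => ws (fun _ : Unit => ρ w) fun _ => c
  have hU : ∀ {c v}, v ∈ U c ↔ ρ w v = c • v := by simp [U, mem_ws]
  have h1 : ∀ {c v}, v ∈ U c → v ≠ 0 → c ^ 3 = 1 := fun {c v} hv h0 => by
    have : ρ (w ^ 3) v = c ^ 3 • v := by simp [pow_succ, hU.1 hv, smul_smul, mul_assoc]
    rw [h3, map_one, End.one_apply] at this
    exact smul_left_injective ℂ h0 (by simpa using this.symm)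
  have h4 : ∀ c, c ^ 3 = 1 → c ≠ 1 → finrank ℂ (U 1) + 2 * finrank ℂ (U c) ≤ finrank ℂ V := fun c hc h1 => by
    have h0 : c ≠ 0 := by rintro rfl; simp at hc
    have h5 : finrank ℂ (U c) ≤ finrank ℂ (U c⁻¹) := finrank_le_of ρ g⁻¹ fun v hv => hU.2 (by
      rw [← End.mul_apply, ← map_mul, show w * g⁻¹ = g⁻¹ * w⁻¹ by rw [← hg]; group, map_mul, End.mul_apply, ← map_smul]
      congr 1
      apply rho_inj ρ w
      rw [← End.mul_apply, ← map_mul, mul_inv_cancel, map_one, map_smul, hU.1 hv, smul_smul, inv_mul_cancel₀ h0,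
        one_smul, End.one_apply])
    have h6 : c⁻¹ ≠ c := fun e => h1 (by
      rw [← hc, pow_succ, sq, ← e, e, show c * c = 1 by nth_rewrite 1 [← e]; exact inv_mul_cancel₀ h0, one_mul])
    have := sum_finrank_ws_le (T := fun _ : Unit => ρ w) (fun _ _ => Commute.refl _)
      (γ := fun (i : Fin 3) _ => ![1, c, c⁻¹] i) fun i j e => by
        have := congrFun e ()
        have h8 : c⁻¹ ≠ 1 := by simpa
        fin_cases i <;> fin_cases j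
        exacts [rfl, absurd this.symm h1, absurd this.symm h8, absurd this h1, rfl, absurd this.symm h6, absurd this h8,
          absurd this h6, rfl]
    rw [Fin.sum_univ_three] at this
    change finrank ℂ (U 1) + finrank ℂ (U c) + finrank ℂ (U c⁻¹) ≤ _ at this
    omega
  have h7 : finrank ℂ W ≤ finrank ℂ (U z) := Submodule.finrank_mono fun v hv => hU.2 (hW v hv)
  by_cases hz : z = 1
  · obtain ⟨γ, v, hv, h0, hγ⟩ := exists_ws_ne (T := fun _ : Unit => ρ w) (fun _ _ => Commute.refl _) (m := 3)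
      (by norm_num) (fun _ => by rw [← map_pow, h3, map_one]) (i := ()) hw
    have hv' : v ∈ U (γ ()) := hv
    have := h4 _ (h1 hv' h0) hγ
    have := Submodule.one_le_finrank_iff.2 ((Submodule.ne_bot_iff _).2 ⟨v, hv', h0⟩)
    subst hz
    omega
  · obtain ⟨v, hv, h0⟩ := (Submodule.ne_bot_iff _).1 (Submodule.one_le_finrank_iff.1 (show 1 ≤ finrank ℂ (U z) by omega))
    have := h4 _ (h1 hv h0) hz
    omega

namespace GD

variable (R : GD F G V)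

/-- invariance under the long root subgroups -/
def Lg (W : Submodule ℂ V) : Prop := ∀ r ∈ lg, ∀ t, Iv (R.X r t) W

/-- the stabiliser -/
def stab (W : Submodule ℂ V) : Subgroup G where
  carrier := {g | Iv (R.ρ g) W ∧ Iv (R.ρ g⁻¹) W}
  mul_mem' ha hb := ⟨by rw [map_mul]; exact ha.1.mul hb.1, by rw [mul_inv_rev, map_mul]; exact hb.2.mul ha.2⟩
  one_mem' := by simp [Iv]
  inv_mem' ha := ⟨ha.2, by rw [inv_inv]; exact ha.1⟩

/-- multiplicities -/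
noncomputable def kk (W : Submodule ℂ V) : ℕ := finrank ℂ ↥(W ⊓ R.E 11 1 ⊓ R.E 10 0)
/-- multiplicities -/
noncomputable def dd (W : Submodule ℂ V) (l κ : F) : ℕ := finrank ℂ ↥(W ⊓ R.E 11 0 ⊓ R.E 6 l ⊓ R.E 10 κ)

variable {R} {W : Submodule ℂ V}

theorem E_eq {r : ℕ} {c c' : F} {v : V} (hv : v ∈ R.E r c) (h : c = c') : v ∈ R.E r c' := h ▸ hv

theorem iv1 {r s k : ℕ} {C : ℤ} (h : Ct r s [(k, C, 1, 1)]) {t : F} (hW : Iv (R.X r t) W) (hk : W ≤ R.E k 0) (c : F) :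
    Iv (R.X r t) (W ⊓ R.E s c) := fun v hv => ⟨hW v hv.1, E_eq (shE h (hk hv.1) hv.2 t) (by simp)⟩

variable (hW : R.Lg W)
include hW

theorem Lg.x {r : ℕ} (hr : r ∈ lg) (t : F) : R.S.x r t ∈ R.stab W :=
  ⟨hW r hr t, by rw [H40.x_inv R.S ((show ∀ r ∈ lg, r < 12 by decide) r hr)]; exact hW r hr _⟩

theorem Lg.n {r : ℕ} (hr : r ∈ lg) (t : F) : R.S.n r t ∈ R.stab W := by
  rw [H40.n_def]
  exact mul_mem (mul_mem (hW.x hr _) (hW.x ((show ∀ r ∈ lg, chevG2.neg r ∈ lg by decide +kernel) r hr) _)) (hW.x hr _)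

theorem Lg.h {r : ℕ} (hr : r ∈ lg) (t : F) : R.S.h r t ∈ R.stab W := by
  rw [H40.h_def]
  exact mul_mem (hW.n hr _) (hW.n hr _)

variable [FiniteDimensional ℂ V] [Fintype F] [Chev chevG2]

local notation "𝐪" => Fintype.card F

theorem Lg.e1 {μ : F} (h : μ ≠ 0) : finrank ℂ ↥(W ⊓ R.E 11 μ) = 𝐪 * R.kk W := by
  have h1 : ∀ a b : F, a ≠ 0 → b ≠ 0 → finrank ℂ ↥(W ⊓ R.E 11 a) ≤ finrank ℂ ↥(W ⊓ R.E 11 b) := fun a b ha hb =>
    finrank_le_of R.ρ (R.S.h 6 (b / a))⁻¹ fun v hv => ⟨(hW.h (by decide) _).2 v hv.1, by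
      simpa [mul_div_cancel₀, ha] using hE (show Pf 6 11 1 by decide +kernel) (div_ne_zero hb ha) hv.2⟩
  rw [le_antisymm (h1 μ 1 h one_ne_zero) (h1 1 μ one_ne_zero h)]
  exact heis1 (show Ct 6 10 [(11, 1, 1, 1)] by decide +kernel)
    (fun t => (hW 10 (by decide) t).inf (iv0 (by decide +kernel) _ _))
    (fun t => (hW 6 (by decide) t).inf (iv0 (by decide +kernel) _ _)) (by simp) inf_le_right 0

theorem Lg.e2 {μ : F} (h : μ ≠ 0) (κ : F) : finrank ℂ ↥(W ⊓ R.E 11 μ ⊓ R.E 10 κ) = R.kk W :=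
  Nat.eq_of_mul_eq_mul_left Fintype.card_pos ((heis1 (show Ct 6 10 [(11, 1, 1, 1)] by decide +kernel)
    (fun t => (hW 10 (by decide) t).inf (iv0 (by decide +kernel) _ _))
    (fun t => (hW 6 (by decide) t).inf (iv0 (by decide +kernel) _ _)) (by simpa) inf_le_right κ).symm.trans (hW.e1 h))

theorem Lg.e3 {μ : F} (h : μ ≠ 0) (l : F) : finrank ℂ ↥(W ⊓ R.E 11 μ ⊓ R.E 6 l) = R.kk W :=
  Nat.eq_of_mul_eq_mul_left Fintype.card_pos ((heis1 (show Ct 10 6 [(11, -1, 1, 1)] by decide +kernel)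
    (fun t => (hW 6 (by decide) t).inf (iv0 (by decide +kernel) _ _))
    (fun t => (hW 10 (by decide) t).inf (iv0 (by decide +kernel) _ _)) (by simpa) inf_le_right l).symm.trans (hW.e1 h))

theorem Lg.e4 {κ : F} (h : κ ≠ 0) : finrank ℂ ↥(W ⊓ R.E 11 0 ⊓ R.E 10 κ) = R.kk W := by
  have h1 : Nf 6 10 11 1 ∧ Nf 6 11 10 (-1) := by decide +kernel
  refine le_antisymm ?_ ?_
  · rw [← hW.e2 (μ := κ * (-1 : ℤ)) (by simpa) 0]
    exact finrank_le_of R.ρ _ fun v hv => ⟨⟨(hW.n (by decide) _).2 v hv.1.1, nE h1.2 hv.2⟩, nE0 h1.1 hv.1.2⟩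
  · rw [← hW.e2 h 0]
    exact finrank_le_of R.ρ _ fun v hv =>
      ⟨⟨(hW.n (by decide) _).2 v hv.1.1, nE0 h1.2 hv.2⟩, by simpa using nE h1.1 hv.1.2⟩

theorem Lg.e5 {l : F} (h : l ≠ 0) : finrank ℂ ↥(W ⊓ R.E 11 0 ⊓ R.E 6 l) = R.kk W := by
  have h1 : Nf 10 6 11 (-1) ∧ Nf 10 11 6 1 := by decide +kernel
  refine le_antisymm ?_ ?_
  · rw [← hW.e3 h 0]
    exact finrank_le_of R.ρ _ fun v hv =>
      ⟨⟨(hW.n (by decide) _).2 v hv.1.1, by simpa using nE h1.2 hv.2⟩, nE0 h1.1 hv.1.2⟩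
  · rw [← hW.e3 (μ := -l) (by simpa) 0]
    exact finrank_le_of R.ρ _ fun v hv =>
      ⟨⟨(hW.n (by decide) _).2 v hv.1.1, nE0 h1.2 hv.2⟩, by simpa using nE h1.1 hv.1.2⟩

theorem Lg.e6 : ∃ Y, R.kk W = R.dd W 1 0 + (𝐪 - 1) / (𝐪 - 1).gcd 3 * Y := by
  classical
  have h0 : Pf 6 11 1 ∧ Pf 6 6 2 ∧ Pf 6 10 (-1) ∧ Pf 10 11 1 ∧ Pf 10 6 (-1) ∧ Pf 10 10 2 := by decide +kernel
  have h1 : ∀ κ c : F, c ≠ 0 → R.dd W 1 κ ≤ R.dd W 1 (κ * c ^ 3) := fun κ c hc =>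
    finrank_le_of R.ρ ((R.S.h 6 c)⁻¹ * (R.S.h 10 (c ^ 2))⁻¹) fun v hv => by
      have hc2 := pow_ne_zero 2 hc
      rw [map_mul, End.mul_apply]
      refine ⟨⟨⟨(hW.h (by decide) _).2 _ ((hW.h (by decide) _).2 v hv.1.1.1),
        by simpa using hE h0.1 hc (hE h0.2.2.2.1 hc2 hv.1.1.2)⟩, ?_⟩, ?_⟩
      · exact E_eq (hE h0.2.1 hc (hE h0.2.2.2.2.1 hc2 hv.1.2)) (by field_simp)
      · exact E_eq (hE h0.2.2.1 hc (hE h0.2.2.2.2.2 hc2 hv.2)) (by field_simp)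
  obtain ⟨Y, hY⟩ := card_dvd_sum (powMonoidHom 3 : Fˣ →* Fˣ).range (f := fun c : Fˣ => R.dd W 1 c) (by
    rintro a _ ⟨c, rfl⟩
    refine le_antisymm ?_ (by simpa using h1 a c c.ne_zero)
    have := h1 (a * c ^ 3) c⁻¹ (inv_ne_zero c.ne_zero)
    rwa [show (a * c ^ 3 * (c : F)⁻¹ ^ 3 : F) = a by field_simp] at this)
  rw [IsCyclic.card_powMonoidHom_range, Nat.card_units, Nat.card_eq_fintype_card] at hY
  refine ⟨Y, ?_⟩
  rw [← hY, ← sum_units, ← hW.e5 one_ne_zero]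
  exact fsum (by decide) fun t => iv1 (show Ct 10 6 [(11, -1, 1, 1)] by decide +kernel)
    ((hW 10 (by decide) t).inf (iv0 (by decide +kernel) _ _)) inf_le_right _

theorem Lg.e7 : finrank ℂ ↥(W ⊓ R.E 11 0) = R.dd W 0 0 + (𝐪 - 1) * R.dd W 1 0 + (𝐪 - 1) * R.kk W := by
  have h0 : Pf 11 11 2 ∧ Pf 11 6 1 ∧ Pf 11 10 1 := by decide +kernel
  have h1 : ∀ a b : F, a ≠ 0 → b ≠ 0 → R.dd W a 0 ≤ R.dd W b 0 := fun a b ha hb =>
    finrank_le_of R.ρ (R.S.h 11 (b / a))⁻¹ fun v hv => by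
      have hc := div_ne_zero hb ha
      exact ⟨⟨⟨(hW.h (by decide) _).2 v hv.1.1.1, E_eq (hE h0.1 hc hv.1.1.2) (by simp)⟩,
        E_eq (hE h0.2.1 hc hv.1.2) (by field_simp)⟩, E_eq (hE h0.2.2 hc hv.2) (by simp)⟩
  rw [fsum0 (r := 10) (by decide) (fun t => (hW 10 (by decide) t).inf (iv0 (by decide +kernel) _ _))
    fun c hc => hW.e4 hc, fsum0 (r := 6) (by decide) (fun t => iv1 (show Ct 6 10 [(11, 1, 1, 1)] by decide +kernel)
    ((hW 6 (by decide) t).inf (iv0 (by decide +kernel) _ _)) inf_le_right _) (a := R.dd W 1 0)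
    fun c hc => by rw [inf_right_comm]; exact le_antisymm (h1 _ _ hc one_ne_zero) (h1 _ _ one_ne_zero hc),
    inf_right_comm]
  rfl

theorem Lg.e8 : finrank ℂ W = R.dd W 0 0 + (𝐪 - 1) * R.dd W 1 0 + (𝐪 - 1) * R.kk W + (𝐪 - 1) * (𝐪 * R.kk W) := by
  rw [fsum0 (r := 11) (by decide) (hW 11 (by decide)) fun c hc => hW.e1 hc, hW.e7]

theorem Lg.e9 {π : End ℂ V} (hπ : LinearMap.IsProj W π) : LinearMap.trace ℂ V (R.X 11 1 * π) =
    (R.dd W 0 0 + (𝐪 - 1) * R.dd W 1 0 + (𝐪 - 1) * R.kk W : ℕ) - (𝐪 * R.kk W : ℕ) := by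
  classical
  rw [trace_sum R.hψ (X_add (r := 11) (by decide)) (X_zero (by decide)) (hW 11 (by decide)) hπ (a := fun c => R.ψ c)
    fun c v hv => by simpa using mem_E.1 hv.2 1, ← Finset.add_sum_erase _ _ (Finset.mem_univ 0), ← hW.e7,
    Finset.sum_congr rfl (f := fun c => R.ψ c * finrank ℂ ↥(W ⊓ Eg R.ψ (R.X 11) c))
      fun c hc => congrArg (fun n : ℕ => R.ψ c * n) (hW.e1 (Finset.ne_of_mem_erase hc)),
    ← Finset.sum_mul, Finset.sum_erase_eq_sub (Finset.mem_univ _), AddChar.sum_eq_zero_of_ne_one R.hψ]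
  simp [E, sub_eq_add_neg]; rfl

end GD

end Cfsg.Agent.H65
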