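import Cfsg.Agent.H65.G2d
set_option autoImplicit false

/-! Representations of groups of type `G₂` in characteristic different from `3`. -/

namespace Cfsg.Agent.H65

open Module Cfsg.Lie Cfsg.Agent.H37

theorem dvd_rem {D N c Q R : ℤ} (h : D ∣ N) (e : c * N = D * Q + R) : D ∣ R :=
  (dvd_add_right (dvd_mul_right D Q)).1 (e ▸ h.mul_left c)

theorem g2_arith {h Y u : ℤ} (h2 : 2 ≤ h) (h3 : h ≠ 3) (hY : Y = 0 ∨ Y = 1 ∨ Y = 2) (hu : u = 0 ∨ u = 1) :
    ¬ u + 3 * h + 3 * h * (1 + h * Y) + 3 * h * ((3 * h + 1) * (1 + h * Y)) ∣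
      (3 * h + 1 + 1) * ((3 * h + 1) ^ 3 - 1) * (u + 3 * h - (1 + h * Y)) := fun hd => by
  rcases hY with rfl | rfl | rfl <;> rcases hu with rfl | rfl
  · have h1 := dvd_rem hd (c := 1) (Q := 27 * h ^ 3 + 9 * h ^ 2 + 3 * h - 6) (R := 36 * h) (by ring)
    have : h ≤ 3 := by have := Int.le_of_dvd (by positivity) h1; nlinarith
    obtain rfl : h = 2 := by omega
    norm_num at h1
  · have := Int.le_of_dvd (by positivity)
      (dvd_rem hd (c := 1) (Q := 27 * h ^ 3 + 18 * h ^ 2 + 6 * h - 2) (R := 12 * h + 2) (by ring))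
    nlinarith
  · have := Int.le_of_dvd (by nlinarith)
      (dvd_rem hd (c := 1) (Q := 18 * h ^ 2 - 9 * h) (R := 36 * h ^ 2 - 18 * h) (by ring))
    nlinarith [mul_nonneg (mul_nonneg (sub_nonneg.2 h2) (sub_nonneg.2 h2)) (sub_nonneg.2 h2)]
  · have := Int.le_of_dvd (by positivity) (dvd_rem hd (c := 1) (Q := 18 * h ^ 2) (R := 18 * h ^ 2) (by ring))
    nlinarith [mul_nonneg (mul_nonneg (sub_nonneg.2 h2) (sub_nonneg.2 h2)) (sub_nonneg.2 h2)]
  · have h1 := dvd_rem hd (c := 8) (Q := 36 * h ^ 2 - 18 * h - 21) (R := 99 * h ^ 2 + 45 * h) (by ring)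
    have : h ≤ 4 := by
      have := Int.le_of_dvd (by positivity) h1
      by_contra! h5
      have h6 : 0 ≤ h - 5 := by omega
      nlinarith [mul_nonneg (mul_nonneg h6 h6) h6]
    interval_cases h <;> norm_num at h1
  · have := Int.le_of_dvd (by positivity)
      (dvd_rem hd (c := 8) (Q := 36 * h ^ 2 + 18 * h - 3) (R := 9 * h ^ 2 + 9 * h + 3) (by ring))
    nlinarith [mul_nonneg (mul_nonneg (sub_nonneg.2 h2) (sub_nonneg.2 h2)) (sub_nonneg.2 h2)]

variable {F G V : Type*} [Field F] [Group G] [AddCommGroup V] [Module ℂ V]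

theorem conj_h [Chev chevG2] (S : StRel chevG2 F G) {r : ℕ} (hr : r < 12) {t : F} (ht : t ≠ 0) :
    S.n r (-1) * S.h r t * (S.n r (-1))⁻¹ = (S.h r t)⁻¹ := by
  have h : S.h r (-1) * S.h r t = S.h r (-1 * t) := S.h_mul r hr _ _ (by simp) ht
  simp only [H40.h_def, neg_one_mul, ← H40.n_inv S hr t] at h
  rw [H40.h_def, mul_inv_rev, show (S.n r t)⁻¹ = S.n r (-1) * S.n r (-1) * S.n r t from
    mul_right_cancel (by rw [← h]; group)]
  group

namespace GD

variable {R : GD F G V} [FiniteDimensional ℂ V] [Fintype F] [Chev chevG2]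

local notation "𝐪" => Fintype.card F

omit [FiniteDimensional ℂ V] [Fintype F] [Chev chevG2] in
theorem lg_top : R.Lg ⊤ := fun _ _ _ => Iv.top

theorem kk_top (h3 : (3 : F) ≠ 0) (hf : R.X 11 1 ≠ 1) : ∃ m, 1 ≤ m ∧ R.kk ⊤ = 𝐪 * m := by
  have h := heis1 (R := R) (W := ⊤ ⊓ R.E 11 1 ⊓ R.E 10 0) (show Ct 8 9 [(11, 3, 1, 1)] by decide +kernel)
    (fun t => (Iv.top.inf (iv0 (by decide +kernel) _ _)).inf (iv0 (by decide +kernel) _ _))
    (fun t => (Iv.top.inf (iv0 (by decide +kernel) _ _)).inf (iv0 (by decide +kernel) _ _))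
    (by simpa) (inf_le_left.trans inf_le_right) 0
  refine ⟨_, Nat.pos_of_ne_zero fun h0 => hf (LinearMap.ext fun v => ?_), h⟩
  refine le_Eg_zero R.hψ (X_add (by decide)) (X_zero (by decide)) (W := ⊤) (fun _ => Iv.top) (fun c hc => ?_) trivial 1
  rw [h0] at h
  exact (lg_top.e1 hc).trans (by rw [kk, h]; simp)

theorem bound_two (h3 : 𝐪 % 3 = 2) (h2 : 2 < 𝐪) (hf : R.X 11 1 ≠ 1) : 𝐪 ^ 3 - 1 ≤ finrank ℂ V := by
  have hp : (3 : F) ≠ 0 := fun h => by
    have := FiniteField.cast_card_eq_zero F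
    rw [← Nat.div_add_mod 𝐪 3, h3] at this
    push_cast at this
    exact one_ne_zero (α := F) (by linear_combination (1 + (𝐪 / 3 : ℕ)) * h - this)
  obtain ⟨m, hm, hk⟩ := kk_top hp hf
  obtain ⟨Y, hY⟩ := (lg_top (R := R)).e6
  have h8 := (lg_top (R := R)).e8
  rw [finrank_top, hk] at h8
  obtain ⟨q, hq⟩ : ∃ q, 𝐪 = q + 1 := ⟨_, (Nat.sub_add_cancel Fintype.card_pos).symm⟩
  rw [hk, hq, Nat.add_sub_cancel, show q.gcd 3 = 1 from (Nat.coprime_comm.1 ((Nat.Prime.coprime_iff_not_dvd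
    Nat.prime_three).2 (by omega))), Nat.div_one] at hY
  rw [hq] at h2 h8 ⊢
  rw [Nat.add_sub_cancel] at h8
  refine Nat.sub_le_of_le_add ?_
  rcases hm.eq_or_lt with rfl | hm
  · have : R.dd ⊤ 1 0 ≠ 0 := fun e => by
      have : q ∣ q + 1 := ⟨Y, by omega⟩
      have := Nat.le_of_dvd one_pos ((Nat.dvd_add_right dvd_rfl).1 this)
      omega
    have := Nat.mul_le_mul_left q (Nat.pos_of_ne_zero this)
    nlinarith
  · have := Nat.mul_le_mul_left (q * (q + 1) ^ 2) hm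
    nlinarith [Nat.zero_le (q * q * q)]

theorem bound_one (h3 : 𝐪 % 3 = 1) (h4 : 4 < 𝐪) (hf : Function.Injective R.ρ)
    (hx : ∀ r < 12, ∀ t, R.S.x r t = 1 → t = 0) : 𝐪 ^ 3 + 1 ≤ finrank ℂ V := by
  classical
  by_contra! hn
  have hp : (3 : F) ≠ 0 := fun h => by
    have := FiniteField.cast_card_eq_zero F
    rw [← Nat.div_add_mod 𝐪 3, h3] at this
    push_cast at this
    exact one_ne_zero (α := F) (by linear_combination this - (𝐪 / 3 : ℕ) * h)
  obtain ⟨m, hm, hk⟩ := kk_top hp fun e : R.X 11 1 = 1 => one_ne_zero (hx 11 (by decide) 1 (hf (e.trans (map_one _).symm)))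
  obtain ⟨h, hq⟩ : ∃ h, 𝐪 = 3 * h + 1 := ⟨𝐪 / 3, by omega⟩
  have h2 : 2 ≤ h := by omega
  have hh : (𝐪 - 1) / (𝐪 - 1).gcd 3 = h := by simp [hq]
  obtain ⟨Y, hY⟩ := (lg_top (R := R)).e6
  have h8 := (lg_top (R := R)).e8
  rw [finrank_top, hk, hq, Nat.add_sub_cancel] at h8
  rw [hh, hk, hq] at hY
  rw [hq] at hn hk
  obtain rfl : m = 1 := by
    by_contra h1
    have := Nat.mul_le_mul_left (3 * h * (3 * h + 1) ^ 2) (show 2 ≤ m by omega)
    nlinarith [Nat.zero_le (h * h * h)]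
  have hx1 : R.dd ⊤ 1 0 = 1 := by
    by_contra h1
    rcases Nat.eq_zero_or_pos (R.dd ⊤ 1 0) with e | e
    · have : h ∣ h * 3 + 1 := ⟨Y, by omega⟩
      have := Nat.le_of_dvd one_pos ((Nat.dvd_add_right (dvd_mul_right _ _)).1 this)
      omega
    · have := Nat.mul_le_mul_left (3 * h) (show 2 ≤ R.dd ⊤ 1 0 by omega)
      nlinarith
  have hu : R.dd ⊤ 0 0 ≤ 1 := by rw [hx1] at h8; nlinarith
  obtain ⟨w, hw⟩ := exists_prime_orderOf_dvd_card (G := Fˣ) 3 (hp := ⟨Nat.prime_three⟩)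
    (by rw [Fintype.card_units, hq]; simp)
  have hw3 : (w : F) ^ 3 = 1 := by rw [← hw, ← Units.val_pow_eq_pow_val, pow_orderOf_eq_one, Units.val_one]
  have hc : ∀ r ∈ lg, ∀ t, R.S.x r t ∈ Subgroup.centralizer {R.S.h 7 w} := fun r hr t => by
    obtain ⟨h1, k, hk⟩ := (show ∀ r ∈ lg, r < 12 ∧ 3 ∣ chevG2.pairing 7 r by decide +kernel) r hr
    rw [Subgroup.mem_centralizer_singleton_iff, eq_comm, ← mul_inv_eq_iff_eq_mul,
      H40.h_conj R.S (by decide) h1 w.ne_zero, hk, zpow_mul, zpow_ofNat, hw3, one_zpow, one_mul]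
  have hh3 : R.S.h 7 w ^ 3 = 1 := by
    have e : ∀ a b : F, a ≠ 0 → b ≠ 0 → R.S.h 7 a * R.S.h 7 b = R.S.h 7 (a * b) := R.S.h_mul 7 (by decide)
    rw [pow_succ, sq, e _ _ w.ne_zero w.ne_zero, e _ _ (mul_ne_zero w.ne_zero w.ne_zero) w.ne_zero,
      show (w * w * w : F) = 1 by rw [← hw3]; ring, H40.h_def, ← H40.n_inv R.S (by decide), mul_inv_cancel]
  obtain ⟨φ, ⟨z, hz, hz'⟩, hφ, hφ'⟩ := exists_phi R.S
  have hE : ∀ f : End ℂ V, (∀ r ∈ lg, ∀ t v, f (R.X r t v) = R.X r t (f v)) →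
      Iv f (⊤ ⊓ R.E 11 0 ⊓ R.E 6 1 ⊓ R.E 10 0) := fun f hf => by
    have : ∀ r ∈ lg, ∀ c, Iv f (R.E r c) := fun r hr c v hv => mem_E.2 fun t => by
      rw [← hf r hr, mem_E.1 hv, map_smul]
    exact ((Iv.top.inf (this _ (by decide) _)).inf (this _ (by decide) _)).inf (this _ (by decide) _)
  have hcm : ∀ g ∈ Subgroup.centralizer {R.S.h 7 w}, ∀ v, R.ρ (R.S.h 7 w) (R.ρ g v) = R.ρ g (R.ρ (R.S.h 7 w) v) :=
    fun g hg v => by simp only [← End.mul_apply, ← map_mul, Subgroup.mem_centralizer_singleton_iff.1 hg]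
  obtain ⟨γ, v, hv, h0, hv'⟩ := exists_mem_ws (T := fun _ : Unit => R.ρ (R.S.h 7 w)) (fun _ _ => Commute.refl _)
    (m := 3) (by norm_num) (fun _ => by rw [← map_pow, hh3, map_one])
    (fun _ => hE _ fun r hr t => hcm _ (hc r hr t)) (Submodule.one_le_finrank_iff.1 hx1.ge)
  obtain ⟨W, hW, hW1, hW2⟩ := exists_irr_sub (R.ρ.comp φ) (fun f hf => hE f fun r hr t v => by
      obtain ⟨g, hg⟩ := hφ r hr t
      rw [X, ← hg]; exact hf g v)
    ⟨ws (fun _ : Unit => R.ρ (R.S.h 7 w)) γ, fun g v hv => mem_ws.2 fun i => by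
      rw [MonoidHom.comp_apply, hcm _ (hφ' _ hc g), mem_ws.1 hv i, map_smul]⟩
    ((Submodule.ne_bot_iff _).2 ⟨v, ⟨hv, hv'⟩, h0⟩)
  have hL : R.Lg W.toSubmodule := fun r hr t v hv => by
    obtain ⟨g, hg⟩ := hφ r hr t
    rw [X, ← hg]; exact W.apply_mem_toSubmodule g hv
  have m1 : ∀ a b, R.dd W.toSubmodule a b ≤ R.dd ⊤ a b := fun a b =>
    Submodule.finrank_mono (inf_le_inf_right _ (inf_le_inf_right _ (inf_le_inf_right _ le_top)))
  have m2 : R.kk W.toSubmodule ≤ R.kk ⊤ := Submodule.finrank_mono (inf_le_inf_right _ (inf_le_inf_right _ le_top))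
  have m3 : R.dd W.toSubmodule 1 0 = 1 := le_antisymm (hx1 ▸ m1 1 0) (Submodule.one_le_finrank_iff.2 (by
    simpa [inf_assoc] using hW1))
  obtain ⟨Y', hY'⟩ := hL.e6
  have e8 := hL.e8
  have e9 := fun π hπ => hL.e9 (π := π) hπ
  have m4 := (m1 0 0).trans hu
  rw [hh, m3] at hY'
  rw [m3, hY', hq, Nat.add_sub_cancel] at e8 e9
  rw [hY', hk] at m2
  have hY3 : Y' ≤ 3 := by nlinarith
  rcases hY3.eq_or_lt with rfl | hY3
  · have := ord3 R.ρ hh3 (conj_h R.S (by decide) w.ne_zero) (fun e => by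
      have e1 := H40.h_conj R.S (show 7 < 12 by decide) (show 7 < 12 by decide) w.ne_zero 1
      rw [hf (e.trans (map_one _).symm), one_mul, inv_one, mul_one, eq_comm, ← mul_inv_eq_one,
        H40.x_inv _ (by decide), R.S.x_add _ (by decide), show chevG2.pairing 7 7 = 2 by decide +kernel] at e1
      have e2 : w ^ 2 = 1 := Units.ext (by simpa [add_neg_eq_zero] using hx _ (by decide) _ e1)
      have := orderOf_dvd_of_pow_eq_one e2
      rw [hw] at this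
      omega) (z := γ ()) (W := W.toSubmodule) (fun v hv => mem_ws.1 (hW hv) ())
      (by rw [e8]; omega)
    rw [e8] at this
    nlinarith
  have hle : 1 + h * Y' ≤ R.dd W.toSubmodule 0 0 + 3 * h := by nlinarith
  have := irr_dvd hW2 z (a := R.dd W.toSubmodule 0 0 + 3 * h - (1 + h * Y')) fun π hπ => by
    rw [MonoidHom.comp_apply, hz, show R.ρ (R.S.x 11 1) = R.X 11 1 from rfl, e9 π hπ, Nat.cast_sub hle]
    push_cast; ring
  rw [index_transvection hz', e8, hq, ← Int.natCast_dvd_natCast] at this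
  push_cast [Nat.cast_sub hle, Nat.cast_sub (Nat.one_le_pow 3 (3 * h + 1) (by omega))] at this
  refine g2_arith (h := h) (Y := Y') (u := R.dd W.toSubmodule 0 0) (by omega) (fun e => ?_) (by omega) (by omega)
    (by simpa using this)
  have := FiniteField.isPrimePow_card F
  rw [hq, show h = 3 by omega] at this
  exact absurd this (by decide +kernel)

end GD

end Cfsg.Agent.H65
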