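import Cfsg.Agent.H65.G2d
set_option autoImplicit false

/-! Representations of groups of type `G₂` in characteristic `3`: multiplicities. -/

namespace Cfsg.Agent.H65

open Module Cfsg.Lie Cfsg.Agent.H37

variable {F G V : Type*} [Field F] [Group G] [AddCommGroup V] [Module ℂ V]

namespace GD

variable (R : GD F G V)

/-- eigenspaces of the centre of `U` -/
noncomputable def Z (μ l : F) : Submodule ℂ V := R.E 11 μ ⊓ R.E 9 l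
/-- multiplicities -/
noncomputable def M (κ l μ ν : F) : ℕ := finrank ℂ ↥(R.Z μ l ⊓ R.E 10 κ ⊓ R.E 8 ν)
/-- multiplicities -/
noncomputable def Nb (κ l μ : F) : ℕ := finrank ℂ ↥(R.Z μ l ⊓ R.E 10 κ)
/-- multiplicities -/
noncomputable def Na (l μ ν : F) : ℕ := finrank ℂ ↥(R.Z μ l ⊓ R.E 8 ν)
/-- the torus -/
def tor (a b : F) : G := (R.S.h 11 b)⁻¹ * (R.S.h 9 a)⁻¹

variable {R}

theorem tE [Chev chevG2] {r : ℕ} (i j : ℕ) (h : Pf 9 r i ∧ Pf 11 r j) {a b : F} (ha : a ≠ 0) (hb : b ≠ 0) {c c' : F}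
    {v : V} (hv : v ∈ R.E r c) (e : c * a ^ i * b ^ j = c') : R.ρ (R.tor a b) v ∈ R.E r c' := by
  rw [tor, map_mul, End.mul_apply]
  exact E_eq (hE h.2 hb (hE h.1 ha hv)) (by simpa using e)

theorem M_comm (κ l μ ν : F) : finrank ℂ ↥(R.Z μ l ⊓ R.E 8 ν ⊓ R.E 10 κ) = R.M κ l μ ν := by
  rw [inf_right_comm]; rfl

theorem nZ6 {κ l μ : F} {v : V} (hv : v ∈ R.Z μ l ⊓ R.E 10 κ) : R.ρ (R.S.n 6 1)⁻¹ v ∈ R.Z (-κ) l ⊓ R.E 10 μ := by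
  have h : Nf 6 11 10 (-1) ∧ Nf 6 9 9 1 ∧ Nf 6 10 11 1 := by decide +kernel
  exact ⟨⟨E_eq (nE h.1 hv.2) (by simp), E_eq (nE h.2.1 hv.1.2) (by simp)⟩, E_eq (nE h.2.2 hv.1.1) (by simp)⟩

theorem nZ7 {l μ ν : F} {v : V} (hv : v ∈ R.Z μ l ⊓ R.E 8 ν) : R.ρ (R.S.n 7 1)⁻¹ v ∈ R.Z μ (-ν) ⊓ R.E 8 l := by
  have h : Nf 7 11 11 1 ∧ Nf 7 9 8 (-1) ∧ Nf 7 8 9 1 := by decide +kernel
  exact ⟨⟨E_eq (nE h.1 hv.1.1) (by simp), E_eq (nE h.2.1 hv.2) (by simp)⟩, E_eq (nE h.2.2 hv.1.2) (by simp)⟩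

theorem iv3 (h3 : (3 : F) = 0) {r s : ℕ} (h : Cm 3 r s) (t c : F) : Iv (R.X r t) (R.E s c) :=
  iv (by simpa using h3) h t c

theorem ivZ (h3 : (3 : F) = 0) {r : ℕ} (h : Cm 3 r 11 ∧ Cm 3 r 9) (t μ l : F) : Iv (R.X r t) (R.Z μ l) :=
  (iv3 h3 h.1 _ _).inf (iv3 h3 h.2 _ _)

theorem ivZ' (h3 : (3 : F) = 0) {r s : ℕ} (h : (Cm 3 r 11 ∧ Cm 3 r 9) ∧ Cm 3 r s) (t μ l c : F) :
    Iv (R.X r t) (R.Z μ l ⊓ R.E s c) := (ivZ h3 h.1 _ _ _).inf (iv3 h3 h.2 _ _)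

theorem iv78 (h3 : (3 : F) = 0) {W : Submodule ℂ V} {t : F} (hW : Iv (R.X 7 t) W) (h : W ≤ R.E 9 0) (c : F) :
    Iv (R.X 7 t) (W ⊓ R.E 8 c) := fun v hv => ⟨hW v hv.1, mem_E.2 fun u => by
  rw [X78 h3 (h hv.1), mem_E.1 hv.2]; simp⟩

theorem iv87 (h3 : (3 : F) = 0) {W : Submodule ℂ V} {t : F} (hW : Iv (R.X 8 t) W) (h : W ≤ R.E 9 0) (c : F) :
    Iv (R.X 8 t) (W ⊓ R.E 7 c) := fun v hv => ⟨hW v hv.1, mem_E.2 fun u => by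
  have := X78 h3 (h hv.1) u t
  rw [mem_E.1 hv.2] at this
  simpa using this.symm⟩

theorem ivM6 (h3 : (3 : F) = 0) (t κ l ν : F) : Iv (R.X 6 t) (R.Z 0 l ⊓ R.E 10 κ ⊓ R.E 8 ν) :=
  (iv1 (show Ct 6 10 [(11, 1, 1, 1)] by decide +kernel) (ivZ h3 (by decide +kernel) _ _ _) inf_le_left _).inf
    (iv3 h3 (by decide +kernel) _ _)

theorem ivM7 (h3 : (3 : F) = 0) (t κ μ ν : F) : Iv (R.X 7 t) (R.Z μ 0 ⊓ R.E 10 κ ⊓ R.E 8 ν) :=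
  iv78 h3 (ivZ' h3 (by decide +kernel) _ _ _ _) (inf_le_left.trans inf_le_right) _

variable [FiniteDimensional ℂ V]

theorem Nb_n (κ l μ : F) : R.Nb κ l μ = R.Nb μ l (-κ) := by
  have h : ∀ κ μ : F, R.Nb κ l μ ≤ R.Nb μ l (-κ) := fun κ μ => finrank_le_of R.ρ _ fun _ => nZ6
  refine le_antisymm (h _ _) ((h _ _).trans ((h _ _).trans ?_))
  simpa using h (-μ) (- -κ)

theorem Na_n (l μ ν : F) : R.Na l μ ν = R.Na (-ν) μ l := by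
  have h : ∀ l ν : F, R.Na l μ ν ≤ R.Na (-ν) μ l := fun l ν => finrank_le_of R.ρ _ fun _ => nZ7
  refine le_antisymm (h _ _) ((h _ _).trans ((h _ _).trans ?_))
  simpa using h (- -ν) (-l)

theorem M_tor [Chev chevG2] {a b : F} (ha : a ≠ 0) (hb : b ≠ 0) {κ l μ ν κ' l' μ' ν' : F} (e1 : κ * a ^ 3 * b ^ 1 = κ')
    (e2 : l * a ^ 2 * b ^ 1 = l') (e3 : μ * a ^ 3 * b ^ 2 = μ') (e4 : ν * a ^ 1 * b ^ 1 = ν') :
    R.M κ l μ ν = R.M κ' l' μ' ν' := by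
  have h : ∀ {a b : F} (ha : a ≠ 0) (hb : b ≠ 0) {κ l μ ν κ' l' μ' ν' : F} (e1 : κ * a ^ 3 * b ^ 1 = κ')
      (e2 : l * a ^ 2 * b ^ 1 = l') (e3 : μ * a ^ 3 * b ^ 2 = μ') (e4 : ν * a ^ 1 * b ^ 1 = ν'),
      R.M κ l μ ν ≤ R.M κ' l' μ' ν' := fun ha hb _ _ _ _ _ _ _ _ e1 e2 e3 e4 => finrank_le_of R.ρ _ fun v hv =>
    ⟨⟨⟨tE 3 2 (by decide +kernel) ha hb hv.1.1.1 e3, tE 2 1 (by decide +kernel) ha hb hv.1.1.2 e2⟩,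
      tE 3 1 (by decide +kernel) ha hb hv.1.2 e1⟩, tE 1 1 (by decide +kernel) ha hb hv.2 e4⟩
  refine le_antisymm (h ha hb e1 e2 e3 e4) (h (inv_ne_zero ha) (inv_ne_zero hb) ?_ ?_ ?_ ?_) <;>
    subst e1 e2 e3 e4 <;> field_simp

theorem three_dvd_M (h3 : (3 : F) = 0) (hF : ∃ a : F, a ≠ 0 ∧ a ^ 2 ≠ 1) {κ ν : F} (h : κ ≠ 0 ∨ ν ≠ 0) :
    3 ∣ R.M κ 0 0 ν := by
  obtain ⟨u, hu⟩ : ∃ u, κ * u ^ 3 - ν * u ≠ 0 := by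
    by_contra! hc
    obtain ⟨a, ha, ha'⟩ := hF
    have e : κ = ν := by linear_combination hc 1
    subst e
    exact ha' (mul_left_cancel₀ (mul_ne_zero (h.elim id id) ha) (by linear_combination hc a))
  obtain ⟨x, hx⟩ := AddChar.ne_one_iff.1 R.hψ
  have h1 := pow_finrank_eq_one R.ρ (ivM7 h3 u κ 0 ν) (ivM6 h3 (x / (κ * u ^ 3 - ν * u)) κ 0 ν) (z := R.ψ x)
    fun v hv => (X67 hv.2 hv.1.1.2 hv.1.2 hv.1.1.1 _ _).trans (by congr 2; linear_combination div_mul_cancel₀ x hu)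
  have h2 : R.ψ x ^ 3 = 1 := by rw [← AddChar.map_nsmul_eq_pow, nsmul_eq_mul, Nat.cast_ofNat, h3, zero_mul, R.ψ.map_zero_eq_one]
  have : Fact (Nat.Prime 3) := ⟨Nat.prime_three⟩
  exact orderOf_eq_prime h2 hx ▸ orderOf_dvd_of_pow_eq_one h1

variable [Fintype F] (h3 : (3 : F) = 0)
include h3

local notation "𝐪" => Fintype.card F

theorem Nb_sum (κ l μ : F) : R.Nb κ l μ = ∑ ν, R.M κ l μ ν :=
  fsum (by decide) fun _ => ivZ' h3 (by decide +kernel) _ _ _ _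

theorem Na_sum (l μ ν : F) : R.Na l μ ν = ∑ κ, R.M κ l μ ν :=
  (fsum (r := 10) (by decide) fun _ => ivZ' h3 (by decide +kernel) _ _ _ _).trans
    (Finset.sum_congr rfl fun _ _ => M_comm _ _ _ _)

theorem Z_Nb {μ : F} (h : μ ≠ 0) (κ l : F) : finrank ℂ (R.Z μ l) = 𝐪 * R.Nb κ l μ :=
  heis1 (show Ct 6 10 [(11, 1, 1, 1)] by decide +kernel) (fun _ => ivZ h3 (by decide +kernel) _ _ _)
    (fun _ => ivZ h3 (by decide +kernel) _ _ _) (by simpa) inf_le_left κ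

theorem Na_M {μ : F} (h : μ ≠ 0) (κ l ν : F) : R.Na l μ ν = 𝐪 * R.M κ l μ ν :=
  (heis1 (show Ct 6 10 [(11, 1, 1, 1)] by decide +kernel) (fun _ => ivZ' h3 (by decide +kernel) _ _ _ _)
    (fun _ => ivZ' h3 (by decide +kernel) _ _ _ _) (by simpa) (inf_le_left.trans inf_le_left) κ).trans (by rw [M_comm])

theorem Z_Na {l : F} (h : l ≠ 0) (μ ν : F) : finrank ℂ (R.Z μ l) = 𝐪 * R.Na l μ ν :=
  heisX (r := 7) (by decide) (fun _ => ivZ h3 (by decide +kernel) _ _ _) (fun _ => ivZ h3 (by decide +kernel) _ _ _)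
    (surj_neg_mul h) (fun _ _ _ hv => X78 h3 hv.2 _ _) ν

theorem Nb_M {l : F} (h : l ≠ 0) (κ μ ν : F) : R.Nb κ l μ = 𝐪 * R.M κ l μ ν :=
  heisX (r := 7) (by decide) (fun _ => ivZ' h3 (by decide +kernel) _ _ _ _)
    (fun _ => ivZ' h3 (by decide +kernel) _ _ _ _) (surj_neg_mul h) (fun _ _ _ hv => X78 h3 hv.1.2 _ _) ν

variable [Chev chevG2]

theorem My1 {l μ : F} (hl : l ≠ 0) (hμ : μ ≠ 0) (κ ν : F) : R.M κ l μ ν = R.M 0 1 1 0 := by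
  refine Eq.trans ?_ (M_tor (a := μ / l ^ 2) (b := l ^ 3 / μ ^ 2) (κ := 0) (l := l) (μ := μ) (ν := 0) (by simp [*])
    (by simp [*]) (by simp) (by field_simp) (by field_simp) (by simp))
  refine Nat.eq_of_mul_eq_mul_left (Fintype.card_pos (α := F)) (Nat.eq_of_mul_eq_mul_left (Fintype.card_pos (α := F)) ?_)
  rw [← Nb_M h3 hl, ← Nb_M h3 hl, ← Z_Nb h3 hμ, ← Z_Nb h3 hμ]

theorem My2 {μ ν : F} (hμ : μ ≠ 0) (hν : ν ≠ 0) (κ : F) : R.M κ 0 μ ν = R.M 0 1 1 0 :=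
  Nat.eq_of_mul_eq_mul_left Fintype.card_pos (by
    rw [← Na_M h3 hμ, Na_n, Na_M h3 hμ 0, My1 h3 (neg_ne_zero.2 hν) hμ])

theorem My3 {l κ : F} (hl : l ≠ 0) (hκ : κ ≠ 0) (ν : F) : R.M κ l 0 ν = R.M 0 1 1 0 :=
  Nat.eq_of_mul_eq_mul_left Fintype.card_pos (by
    rw [← Nb_M h3 hl, Nb_n, Nb_M h3 hl _ _ 0, My1 h3 hl (neg_ne_zero.2 hκ)])

theorem Ms {μ : F} (hμ : μ ≠ 0) (κ : F) : R.M κ 0 μ 0 = R.M 0 0 1 0 := by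
  refine Eq.trans ?_ (M_tor (a := μ⁻¹) (b := μ) (κ := 0) (l := 0) (μ := μ) (ν := 0) (by simp [*]) hμ
    (by simp) (by simp) (by field_simp) (by simp))
  exact Nat.eq_of_mul_eq_mul_left Fintype.card_pos (by rw [← Na_M h3 hμ, ← Na_M h3 hμ])

theorem Ms' {l : F} (hl : l ≠ 0) (ν : F) : R.M 0 l 0 ν = R.M 0 1 0 0 := by
  refine Eq.trans ?_ (M_tor (a := 1) (b := l⁻¹) (κ := 0) (l := l) (μ := 0) (ν := 0) one_ne_zero (inv_ne_zero hl)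
    (by simp) (by field_simp) (by simp) (by simp))
  exact Nat.eq_of_mul_eq_mul_left Fintype.card_pos (by rw [← Nb_M h3 hl, ← Nb_M h3 hl])

omit h3 [Fintype F] in
theorem Mr {κ : F} (h : κ ≠ 0) : R.M κ 0 0 0 = R.M 1 0 0 0 :=
  M_tor one_ne_zero (inv_ne_zero h) (by field_simp) (by simp) (by simp) (by simp)

omit h3 [Fintype F] in
theorem Mr' {ν : F} (h : ν ≠ 0) : R.M 0 0 0 ν = R.M 0 0 0 1 :=
  M_tor one_ne_zero (inv_ne_zero h) (by simp) (by simp) (by simp) (by field_simp)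

theorem Nb1 {μ : F} (hμ : μ ≠ 0) (κ : F) : R.Nb κ 0 μ = R.M 0 0 1 0 + (𝐪 - 1) * R.M 0 1 1 0 := by
  rw [Nb_sum h3, sum_const0 fun ν hν => My2 h3 hμ hν κ, Ms h3 hμ]

theorem Nb2 {κ : F} (h : κ ≠ 0) : R.Nb κ 0 0 = R.M 0 0 1 0 + (𝐪 - 1) * R.M 0 1 1 0 := by
  rw [Nb_n, Nb1 h3 (neg_ne_zero.2 h)]

theorem Na1 {l : F} (hl : l ≠ 0) (ν : F) : R.Na l 0 ν = R.M 0 1 0 0 + (𝐪 - 1) * R.M 0 1 1 0 := by
  rw [Na_sum h3, sum_const0 fun κ hκ => My3 h3 hl hκ ν, Ms' h3 hl]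

theorem Na2 {ν : F} (h : ν ≠ 0) : R.Na 0 0 ν = R.M 0 1 0 0 + (𝐪 - 1) * R.M 0 1 1 0 := by
  rw [Na_n, Na1 h3 (neg_ne_zero.2 h)]

theorem E11 {μ : F} (h : μ ≠ 0) : finrank ℂ (R.E 11 μ) =
    𝐪 * (R.M 0 0 1 0 + (𝐪 - 1) * R.M 0 1 1 0) + (𝐪 - 1) * (𝐪 * (𝐪 * R.M 0 1 1 0)) := by
  rw [fsum0 (r := 9) (by decide) (fun _ => iv3 h3 (by decide +kernel) _ _)
    fun l hl => (Z_Nb h3 h 0 l).trans (by rw [Nb_M h3 hl _ _ 0, My1 h3 hl h]), ← Nb1 h3 h 0, ← Z_Nb h3 h]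
  rfl

theorem dim3 : finrank ℂ V = R.M 0 0 0 0 + (𝐪 - 1) * R.M 0 0 0 1 + (𝐪 - 1) * (R.M 0 0 1 0 + (𝐪 - 1) * R.M 0 1 1 0) +
    (𝐪 - 1) * (𝐪 * (R.M 0 1 0 0 + (𝐪 - 1) * R.M 0 1 1 0)) +
    (𝐪 - 1) * (𝐪 * (R.M 0 0 1 0 + (𝐪 - 1) * R.M 0 1 1 0) + (𝐪 - 1) * (𝐪 * (𝐪 * R.M 0 1 1 0))) := by
  rw [← finrank_top ℂ V, fsum0 (R := R) (r := 11) (by decide) (fun _ => Iv.top)
      fun μ hμ => by rw [top_inf_eq, E11 h3 hμ],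
    top_inf_eq, fsum0 (r := 9) (by decide) (fun _ => iv3 h3 (by decide +kernel) _ _)
      fun l hl => (Z_Na h3 hl 0 0).trans (by rw [Na1 h3 hl]),
    fsum0 (r := 10) (by decide) (W := R.E 11 0 ⊓ R.E 9 0) (fun _ => ivZ h3 (by decide +kernel) _ _ _)
      fun κ hκ => Nb2 h3 hκ, ← sum_const0 (f := fun ν => R.M 0 0 0 ν) fun ν hν => Mr' hν, ← Nb_sum h3]
  rfl

end GD

end Cfsg.Agent.H65
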