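import Cfsg.Agent.H65.G2f
import Cfsg.Agent.H65.G2e
set_option autoImplicit false

/-! Representations of groups of type `G₂` in characteristic `3`: the lower bound. -/

namespace Cfsg.Agent.H65

open Module Cfsg.Lie Cfsg.Agent.H37

theorem g2_arith3 {Q n : ℤ} (h : 81 ≤ Q) (h1 : Q ^ 2 + Q - 2 ≤ n) (h2 : n ≤ Q ^ 2 + Q) :
    ¬ n ∣ Q ^ 3 * (Q - 1) * (Q ^ 3 - 1) := fun hd => by
  obtain rfl | rfl | rfl : n = Q ^ 2 + Q - 2 ∨ n = Q ^ 2 + Q - 1 ∨ n = Q ^ 2 + Q := by omega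
  · have := Int.le_of_dvd (by omega) (dvd_rem hd (c := 1)
      (Q := Q ^ 5 - 2 * Q ^ 4 + 4 * Q ^ 3 - 9 * Q ^ 2 + 18 * Q - 36) (R := 72 * Q - 72) (by ring))
    nlinarith
  · have := Int.le_of_dvd (by omega) (dvd_rem hd (c := 1)
      (Q := Q ^ 5 - 2 * Q ^ 4 + 3 * Q ^ 3 - 6 * Q ^ 2 + 10 * Q - 16) (R := 26 * Q - 16) (by ring))
    nlinarith
  · have := Int.le_of_dvd (by omega) (dvd_rem hd (c := 1)
      (Q := Q ^ 5 - 2 * Q ^ 4 + 2 * Q ^ 3 - 3 * Q ^ 2 + 4 * Q - 4) (R := 4 * Q) (by ring))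
    nlinarith

variable {F G V : Type*} [Field F] [Group G] [AddCommGroup V] [Module ℂ V]

namespace GD

variable {R : GD F G V} [FiniteDimensional ℂ V] [Fintype F] [Chev chevG2] (h3 : (3 : F) = 0)
include h3

local notation "𝐪" => Fintype.card F

omit [Chev chevG2] in
theorem cube_surj : Function.Surjective fun u : F => u ^ 3 := by
  have : CharP F 3 := (CharP.charP_iff_prime_eq_zero Nat.prime_three).2 (by simpa using h3)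
  have : Fact (Nat.Prime 3) := ⟨Nat.prime_three⟩
  exact Finite.surjective_of_injective (frobenius F 3).injective

theorem y_ne (hF : ∃ a : F, a ≠ 0 ∧ a ^ 2 ≠ 1) (hf : R.X 11 1 ≠ 1) : R.M 0 1 1 0 ≠ 0 := fun hy => by
  have h7 : ∀ κ : F, κ ≠ 0 → ∀ v ∈ R.Z 1 0 ⊓ R.E 10 κ, ∀ t, R.X 7 t v = v := fun κ hκ v hv t =>
    le_Eg_zero R.hψ (X_add (by decide)) (X_zero (by decide)) (fun _ => ivZ' h3 (by decide +kernel) _ _ _ _)
      (fun ν hν => Nat.le_zero.1 (by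
        rw [← hy, ← My2 h3 (neg_ne_zero.2 hκ) (neg_ne_zero.2 hν) 1]
        exact finrank_le_of R.ρ _ fun v hv =>
          ⟨nZ6 hv.1, E_eq (nE (show Nf 6 8 7 (-1) by decide +kernel) hv.2) (by simp)⟩)) hv t
  have hs : R.M 0 0 1 0 = 0 := by
    by_contra hs
    obtain ⟨a, ha, ha'⟩ := hF
    rw [← Ms h3 one_ne_zero a] at hs
    obtain ⟨v, hv, h0⟩ := (Submodule.ne_bot_iff _).1 (Submodule.one_le_finrank_iff.1 (Nat.pos_of_ne_zero hs))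
    have h1 : a - 1 ≠ 0 := fun e => ha' (by linear_combination (a + 1) * e)
    have h2 : a + 1 ≠ 0 := fun e => ha' (by linear_combination (a - 1) * e)
    obtain ⟨x, hx⟩ := AddChar.ne_one_iff.1 R.hψ
    obtain ⟨u, hu⟩ := cube_surj h3 (x / (a + 1))
    have e := X67 hv.2 hv.1.1.2 hv.1.2 hv.1.1.1 1 u
    rw [h7 a ha v hv.1, h7 (a - 1) h1 _ ⟨ivZ h3 (by decide +kernel) _ _ _ v hv.1.1, E_eq
      (shE (show Ct 6 10 [(11, 1, 1, 1)] by decide +kernel) hv.1.1.1 hv.1.2 1) (by simp)⟩,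
      show -(0 * 1 * u) - 0 * 1 * u ^ 2 + a * 1 * u ^ 3 - 2 * 1 * 1 ^ 2 * u ^ 3 = x by
        linear_combination (a + 1) * hu + mul_div_cancel₀ x h2 - u ^ 3 * h3] at e
    exact hx (smul_left_injective ℂ (fun e => h0 (rho_inj R.ρ _ (e.trans (map_zero _).symm)))
      (e.symm.trans (one_smul _ _).symm))
  refine hf (LinearMap.ext fun v => le_Eg_zero R.hψ (X_add (by decide)) (X_zero (by decide)) (W := ⊤)
    (fun _ => Iv.top) (fun c hc => ?_) trivial 1)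
  rw [top_inf_eq]
  exact (E11 h3 hc).trans (by simp [hy, hs])

theorem t_zero (hF : ∃ a : F, a ≠ 0 ∧ a ^ 2 ≠ 1) (hq : 3 < 𝐪) (hy : R.M 0 1 1 0 = 1) (hs : R.M 0 1 0 0 = 1) {κ ν : F}
    (hκ : κ ≠ 0) (hν : ν ≠ 0) : R.M κ 0 0 ν = 0 := by
  classical
  obtain ⟨Y, hY⟩ := card_dvd_sum (powMonoidHom 2 : Fˣ →* Fˣ).range (f := fun c : Fˣ => R.M c 0 0 ν / 3) (by
    rintro a _ ⟨c, rfl⟩
    rw [M_tor (R := R) (κ := a) (l := 0) (μ := 0) (ν := ν) c.ne_zero (inv_ne_zero c.ne_zero)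
      (κ' := ↑(a * powMonoidHom 2 c)) (l' := 0) (μ' := 0) (ν' := ν) (by simp; field_simp) (by simp) (by simp) (by simp)])
  rw [IsCyclic.card_powMonoidHom_range, Nat.card_units, Nat.card_eq_fintype_card] at hY
  have h1 := Na2 (R := R) h3 hν
  rw [Na_sum h3, sum_units, hy, hs, Finset.sum_congr rfl fun (c : Fˣ) _ =>
    (Nat.mul_div_cancel' (three_dvd_M (R := R) h3 hF (κ := c) (Or.inr hν))).symm, ← Finset.mul_sum, hY] at h1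
  have h2 : 𝐪 - 1 ≤ 2 * ((𝐪 - 1) / (𝐪 - 1).gcd 2) := by
    nth_rewrite 1 [← Nat.mul_div_cancel' (Nat.gcd_dvd_left (𝐪 - 1) 2)]
    exact Nat.mul_le_mul_right _ (Nat.gcd_le_right _ two_pos)
  obtain rfl : Y = 0 := by
    by_contra h0
    have := Nat.mul_le_mul_left ((𝐪 - 1) / (𝐪 - 1).gcd 2) (Nat.pos_of_ne_zero h0)
    omega
  have := Finset.sum_eq_zero_iff.1 hY (Units.mk0 κ hκ) (Finset.mem_univ _)
  have := three_dvd_M (R := R) h3 hF (κ := κ) (Or.inr hν)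
  simp only [Units.val_mk0] at *
  omega

theorem A7 (hr : R.M 0 0 0 1 = 𝐪) {ν : F} (hν : ν ≠ 0) :
    finrank ℂ ↥(R.Z 0 0 ⊓ R.E 10 0 ⊓ R.E 8 0 ⊓ R.E 7 ν) = 1 := by
  have h0 : Nf 6 7 8 1 ∧ Nf 6 8 7 (-1) := by decide +kernel
  have h1 : finrank ℂ ↥(R.Z 0 0 ⊓ R.E 10 0 ⊓ R.E 7 ν) = 𝐪 := by
    refine le_antisymm ?_ ?_
    · rw [← hr, ← Mr' (neg_ne_zero.2 hν)]
      exact finrank_le_of R.ρ _ fun v hv => ⟨by simpa using nZ6 hv.1, E_eq (nE h0.2 hv.2) (by simp)⟩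
    · rw [← hr, ← Mr' hν]
      exact finrank_le_of R.ρ _ fun v hv => ⟨by simpa using nZ6 hv.1, E_eq (nE h0.1 hv.2) (by simp)⟩
  rw [fsum0 (r := 8) (by decide) (fun _ => iv87 h3 (ivZ' h3 (by decide +kernel) _ _ _ _)
    (inf_le_left.trans inf_le_right) _) (a := 1) fun c hc => ?_, inf_right_comm] at h1
  · have := Fintype.card_pos (α := F); omega
  refine Nat.eq_of_mul_eq_mul_left (Fintype.card_pos (α := F)) ?_
  rw [inf_right_comm, mul_one, ← heisX (r := 6) (by decide) (fun _ => ivM7 h3 _ _ _ _) (fun _ => ivM6 h3 _ _ _ _)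
    (surj_neg_mul hc) fun t u v hv => (X67 hv.2 hv.1.1.2 hv.1.2 hv.1.1.1 t u).trans (by congr 2; ring), ← hr, ← Mr' hc]
  rfl

theorem A6 (hr : R.M 1 0 0 0 = 𝐪) {ε : F} (hε : ε ≠ 0) :
    finrank ℂ ↥(R.Z 0 0 ⊓ R.E 10 0 ⊓ R.E 8 0 ⊓ R.E 6 ε) = 1 := by
  have h0 : Nf 7 6 10 1 ∧ Nf 7 10 6 (-1) := by decide +kernel
  have h1 : finrank ℂ ↥(R.Z 0 0 ⊓ R.E 8 0 ⊓ R.E 6 ε) = 𝐪 := by
    refine le_antisymm ?_ ?_
    · rw [← hr, ← Mr (neg_ne_zero.2 hε), ← M_comm]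
      exact finrank_le_of R.ρ _ fun v hv => ⟨by simpa using nZ7 hv.1, E_eq (nE h0.2 hv.2) (by simp)⟩
    · rw [← hr, ← Mr hε, ← M_comm]
      exact finrank_le_of R.ρ _ fun v hv => ⟨by simpa using nZ7 hv.1, E_eq (nE h0.1 hv.2) (by simp)⟩
  rw [fsum0 (r := 10) (by decide) (fun _ => iv1 (show Ct 10 6 [(11, -1, 1, 1)] by decide +kernel)
    (ivZ' h3 (by decide +kernel) _ _ _ _) (inf_le_left.trans inf_le_left) _) (a := 1) fun c hc => ?_, inf_right_comm,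
    inf_right_comm (R.Z 0 0)] at h1
  · have := Fintype.card_pos (α := F); omega
  refine Nat.eq_of_mul_eq_mul_left (Fintype.card_pos (α := F)) ?_
  rw [inf_right_comm, inf_right_comm (R.Z 0 0), mul_one, ← heisX (r := 7) (by decide) (fun _ => ivM6 h3 _ _ _ _)
    (fun _ => ivM7 h3 _ _ _ _) ((surj_neg_mul hc).comp (cube_surj h3)) fun u t v hv => ?_, ← hr, ← Mr hc]
  · rfl
  rw [X67 hv.2 hv.1.1.2 hv.1.2 hv.1.1.1 t u, smul_smul, ← AddChar.map_add_eq_mul]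
  simp [show -(c * u ^ 3 * t) + c * t * u ^ 3 = 0 by ring]

theorem u_ge (hq : 2 < 𝐪) (hr : R.M 1 0 0 0 = 𝐪) (hr' : R.M 0 0 0 1 = 𝐪) : 2 * (𝐪 - 1) ≤ R.M 0 0 0 0 := by
  have c67 : ∀ v ∈ R.Z 0 0 ⊓ R.E 10 0 ⊓ R.E 8 0, ∀ t u, R.X 7 u (R.X 6 t v) = R.X 6 t (R.X 7 u v) := fun v hv t u => by
    simpa using X67 hv.2 hv.1.1.2 hv.1.2 hv.1.1.1 t u
  have h1 : ∀ ε : F, ε ≠ 0 → ∀ a b : F, a ≠ 0 → b ≠ 0 →
      finrank ℂ ↥(R.Z 0 0 ⊓ R.E 10 0 ⊓ R.E 8 0 ⊓ R.E 6 ε ⊓ R.E 7 a) ≤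
        finrank ℂ ↥(R.Z 0 0 ⊓ R.E 10 0 ⊓ R.E 8 0 ⊓ R.E 6 ε ⊓ R.E 7 b) := fun ε _ a b ha hb => by
    have hc := div_ne_zero hb ha
    exact finrank_le_of R.ρ (R.tor (b / a) 1) fun v hv =>
      ⟨⟨⟨⟨⟨tE 3 2 (by decide +kernel) hc one_ne_zero hv.1.1.1.1.1 (by simp),
        tE 2 1 (by decide +kernel) hc one_ne_zero hv.1.1.1.1.2 (by simp)⟩,
        tE 3 1 (by decide +kernel) hc one_ne_zero hv.1.1.1.2 (by simp)⟩,
        tE 1 1 (by decide +kernel) hc one_ne_zero hv.1.1.2 (by simp)⟩,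
        tE 0 1 (by decide +kernel) hc one_ne_zero hv.1.2 (by simp)⟩,
        tE 1 0 (by decide +kernel) hc one_ne_zero hv.2 (by field_simp)⟩
  rw [M, fsum0 (r := 7) (by decide) (fun _ => ivM7 h3 _ _ _ _) fun c hc => A7 h3 hr' hc,
    fsum0 (R := R) (r := 6) (W := R.Z 0 0 ⊓ R.E 10 0 ⊓ R.E 8 0 ⊓ R.E 7 0) (by decide)
      (fun t v hv => ⟨ivM6 h3 _ _ _ _ v hv.1, mem_E.2 fun u => by
      rw [c67 v hv.1, mem_E.1 hv.2, map_smul]⟩) (a := 1) fun ε hε => ?_]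
  · omega
  have h2 := A6 h3 hr hε
  rw [fsum0 (R := R) (r := 7) (W := R.Z 0 0 ⊓ R.E 10 0 ⊓ R.E 8 0 ⊓ R.E 6 ε) (by decide)
    (fun t v hv => ⟨ivM7 h3 _ _ _ _ v hv.1, mem_E.2 fun u => by
      rw [← c67 v hv.1, mem_E.1 hv.2, map_smul]⟩)
    fun c hc => le_antisymm (h1 ε hε c 1 hc one_ne_zero) (h1 ε hε 1 c one_ne_zero hc), inf_right_comm] at h2
  rcases Nat.eq_zero_or_pos (finrank ℂ ↥(R.Z 0 0 ⊓ R.E 10 0 ⊓ R.E 8 0 ⊓ R.E 6 ε ⊓ R.E 7 1)) with e | e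
  · rwa [e, mul_zero, add_zero] at h2
  · have := Nat.mul_le_mul_left (𝐪 - 1) e
    omega

omit h3 in
theorem bound_three (h0 : 𝐪 % 3 = 0) (hq : 3 < 𝐪) (hf : R.X 11 1 ≠ 1)
    (hd : finrank ℂ V ∣ 𝐪 ^ 6 * (𝐪 ^ 2 - 1) * (𝐪 ^ 6 - 1)) : 𝐪 ^ 4 + 𝐪 ^ 2 + 1 ≤ finrank ℂ V := by
  classical
  obtain ⟨p, hp, n, hp', hn⟩ := FiniteField.card' F
  obtain rfl : 3 = p := (Nat.prime_dvd_prime_iff_eq Nat.prime_three hp').1
    (Nat.prime_three.dvd_of_dvd_pow (hn ▸ Nat.dvd_of_mod_eq_zero h0))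
  have h3 : (3 : F) = 0 := by exact_mod_cast CharP.cast_eq_zero F 3
  have h9 : 9 ≤ 𝐪 := by
    rw [hn] at hq ⊢
    exact Nat.pow_le_pow_right (n := 3) (i := 2) (by norm_num)
      ((Nat.pow_lt_pow_iff_right (a := 3) (m := n) (n := 1) (by norm_num)).1 hq)
  have hF : ∃ a : F, a ≠ 0 ∧ a ^ 2 ≠ 1 := by
    by_contra! hc
    have := Finset.card_le_card (show Finset.univ ⊆ ({0, 1, -1} : Finset F) from fun a _ => by
      by_cases ha : a = 0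
      · simp [ha]
      · simp [sq_eq_one_iff.1 (hc a ha)])
    have := Finset.card_le_three (a := (0 : F)) (b := 1) (c := -1)
    rw [Finset.card_univ] at *
    omega
  by_contra! hlt
  have hy := y_ne h3 hF hf
  have hn := dim3 (R := R) h3
  have e1 := Nb2 (R := R) h3 one_ne_zero
  have e2 := Na2 (R := R) h3 one_ne_zero
  have d1 : 3 ∣ R.Nb 1 0 0 := Nb_sum (R := R) h3 1 0 0 ▸ Finset.dvd_sum fun _ _ => three_dvd_M h3 hF (Or.inl one_ne_zero)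
  have d2 : 3 ∣ R.Na 0 0 1 := Na_sum (R := R) h3 0 0 1 ▸ Finset.dvd_sum fun _ _ => three_dvd_M h3 hF (Or.inr one_ne_zero)
  have ht := fun h1 h2 ν hν => t_zero (R := R) h3 hF hq h1 h2 (κ := 1) (ν := ν) one_ne_zero hν
  have ht' := fun h1 h2 κ hκ => t_zero (R := R) h3 hF hq h1 h2 (κ := κ) hκ one_ne_zero
  have hu := u_ge (R := R) h3 (by omega)
  rw [Nb_sum h3] at e1 d1
  rw [Na_sum h3] at e2 d2
  obtain ⟨q, hq'⟩ : ∃ q, 𝐪 = q + 1 := ⟨𝐪 - 1, by omega⟩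
  have hy1 : R.M 0 1 1 0 = 1 := by
    by_contra h
    have := Nat.mul_le_mul_left (q ^ 2 * (q + 2) ^ 2) (show 2 ≤ R.M 0 1 1 0 by omega)
    rw [hq'] at hn hlt h9
    rw [Nat.add_sub_cancel] at hn
    nlinarith [Nat.zero_le (q * q * q), Nat.zero_le (q * q * q * q)]
  rw [hy1] at e1 e2 hn
  have hs : R.M 0 0 1 0 = 1 ∧ R.M 0 1 0 0 = 1 := by
    rw [e1] at d1
    rw [e2] at d2
    rw [hq'] at hn hlt h9 d1 d2 h0
    rw [Nat.add_sub_cancel] at hn d1 d2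
    by_contra h
    rcases (show 4 ≤ R.M 0 0 1 0 ∧ 1 ≤ R.M 0 1 0 0 ∨ 1 ≤ R.M 0 0 1 0 ∧ 4 ≤ R.M 0 1 0 0 by omega) with h | h
    all_goals
      have := Nat.mul_le_mul_left (q * (q + 2)) h.1
      have := Nat.mul_le_mul_left (q * (q + 1)) h.2
      nlinarith
  rw [sum_const0 fun ν hν => ht hy1 hs.2 ν hν, hs.1] at e1
  rw [sum_const0 fun κ hκ => ht' hy1 hs.2 κ hκ, hs.2] at e2
  have hr' : R.M 0 0 0 1 = 𝐪 := by omega
  have hu := hu (by omega) hr'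
  rw [hs.1, hs.2, hr'] at hn
  rw [← Int.natCast_dvd_natCast] at hd
  push_cast [Nat.cast_sub (Nat.one_le_pow _ 𝐪 (by omega))] at hd
  refine g2_arith3 (Q := (𝐪 : ℤ) ^ 2) (n := finrank ℂ V) (by nlinarith) ?_ (by nlinarith) (by convert hd using 1; ring)
  rw [hq'] at hn hu ⊢
  rw [Nat.add_sub_cancel] at hn hu
  push_cast [hn]
  nlinarith

end GD

end Cfsg.Agent.H65
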