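import Mathlib

/-! Ping-pong by degrees: evaluating a reduced word on elements `u(s i) * w * u(r i)`. -/

set_option autoImplicit false

namespace Cfsg.Agent.H65

open Polynomial

section Abstract
variable {G A : Type*} [Group G] [AddCommGroup A]

/-- left parameter of a letter -/
def lawL (s r : ℕ → A) (x : ℕ × Bool) : A := cond x.2 (s x.1) (-r x.1)
/-- right parameter of a letter -/
def lawR (s r : ℕ → A) (x : ℕ × Bool) : A := cond x.2 (r x.1) (-s x.1)

theorem pingpong_list (u : A → G) (hu : ∀ a b, u (a + b) = u a * u b) (w : G) (s r : ℕ → A)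
    (S : ℕ → G → Prop) (P : ℕ → Prop)
    (hbase : ∀ (v : G), (v = w ∨ v = w⁻¹) → ∀ a, S 0 (v * u a))
    (hstep : ∀ (v : G), (v = w ∨ v = w⁻¹) → ∀ (x y : ℕ × Bool), P x.1 → P y.1 →
      (x.1 = y.1 → x.2 = y.2) → ∀ k g, S k g → S (k + 1) (v * u (lawR s r x + lawL s r y) * g)) :
    ∀ (L : List (ℕ × Bool)) (x : ℕ × Bool), FreeGroup.IsReduced (x :: L) → (∀ y ∈ x :: L, P y.1) →
      ∃ g, S L.length g ∧
        ((x :: L).map fun y => cond y.2 (u (s y.1) * w * u (r y.1)) (u (s y.1) * w * u (r y.1))⁻¹).prod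
          = u (lawL s r x) * g := by
  have h0 : u 0 = 1 := by
    have := hu 0 0
    rw [add_zero] at this
    exact (mul_left_cancel (a := u 0) (by rw [← this, mul_one])).symm
  have hinv : ∀ a, (u a)⁻¹ = u (-a) := fun a => by
    rw [inv_eq_iff_mul_eq_one, ← hu, add_neg_cancel, h0]
  have hlet : ∀ y : ℕ × Bool, ∃ v, (v = w ∨ v = w⁻¹) ∧
      cond y.2 (u (s y.1) * w * u (r y.1)) (u (s y.1) * w * u (r y.1))⁻¹
        = u (lawL s r y) * v * u (lawR s r y) := by
    rintro ⟨i, b⟩
    cases b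
    · exact ⟨w⁻¹, Or.inr rfl, by simp [lawL, lawR, hinv, mul_assoc]⟩
    · exact ⟨w, Or.inl rfl, by simp [lawL, lawR]⟩
  intro L
  induction L with
  | nil =>
    intro x _ _
    obtain ⟨v, hv, e⟩ := hlet x
    exact ⟨v * u (lawR s r x), hbase v hv _, by
      rw [List.map_singleton, List.prod_singleton, e, mul_assoc]⟩
  | cons y L ih =>
    intro x hred hP
    rw [FreeGroup.isReduced_cons_cons] at hred
    obtain ⟨g, hg, e⟩ := ih y hred.2 (fun z hz => hP z (List.mem_cons_of_mem _ hz))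
    obtain ⟨v, hv, e'⟩ := hlet x
    refine ⟨v * u (lawR s r x + lawL s r y) * g,
      hstep v hv x y (hP x (by simp)) (hP y (by simp)) hred.1 _ g hg, ?_⟩
    rw [List.map_cons, List.prod_cons, e, e', hu]
    simp only [mul_assoc]

theorem pingpong (w₀ : FreeGroup ℕ) (hw : w₀ ≠ 1) : ∃ k D : ℕ, ∀ {G A : Type*} [Group G] [AddCommGroup A]
    (u : A → G) (_ : ∀ a b, u (a + b) = u a * u b) (w : G) (s r : ℕ → A)
    (S : ℕ → G → Prop)
    (_ : ∀ (v : G), (v = w ∨ v = w⁻¹) → ∀ a, S 0 (v * u a))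
    (_ : ∀ (v : G), (v = w ∨ v = w⁻¹) → ∀ (x y : ℕ × Bool), x.1 ≤ D → y.1 ≤ D →
      (x.1 = y.1 → x.2 = y.2) → ∀ k g, S k g → S (k + 1) (v * u (lawR s r x + lawL s r y) * g)),
    ∃ a g, S k g ∧ FreeGroup.lift (fun i => u (s i) * w * u (r i)) w₀ = u a * g := by
  classical
  obtain ⟨x, L, hL⟩ : ∃ x L, w₀.toWord = x :: L := by
    cases h : w₀.toWord with
    | nil => exact absurd (FreeGroup.toWord_eq_nil_iff.1 h) hw
    | cons x L => exact ⟨x, L, rfl⟩
  refine ⟨L.length, ((x :: L).map Prod.fst).sum, ?_⟩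
  intro G A _ _ u hu w s r S hbase hstep
  have hred : FreeGroup.IsReduced (x :: L) := hL ▸ FreeGroup.isReduced_toWord
  obtain ⟨g, hg, e⟩ := pingpong_list u hu w s r S (fun i => i ≤ ((x :: L).map Prod.fst).sum) hbase hstep
    L x hred (fun y hy => List.single_le_sum (by simp) _ (List.mem_map_of_mem hy))
  refine ⟨lawL s r x, g, hg, ?_⟩
  rw [← FreeGroup.mk_toWord (x := w₀), hL, FreeGroup.lift_mk, e]

end Abstract

section Poly
variable {F : Type*} [Field F]

theorem natDegree_pm (a b : ℕ) (hab : a ≠ b) (c d : F) (hc : c ≠ 0) (hd : d ≠ 0) :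
    (C c * X ^ a + C d * X ^ b : F[X]).natDegree = max a b := by
  rcases lt_or_gt_of_ne hab with h | h
  · rw [natDegree_add_eq_right_of_natDegree_lt] <;>
      simp only [natDegree_C_mul_X_pow _ _ hc, natDegree_C_mul_X_pow _ _ hd]
    · omega
    · exact h
  · rw [natDegree_add_eq_left_of_natDegree_lt] <;>
      simp only [natDegree_C_mul_X_pow _ _ hc, natDegree_C_mul_X_pow _ _ hd]
    · omega
    · exact h

/-- The junction polynomials have positive bounded degree. -/
theorem law_junction (D : ℕ) (x y : ℕ × Bool) (hx : x.1 ≤ D) (hy : y.1 ≤ D) (h : x.1 = y.1 → x.2 = y.2) :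
    1 ≤ (lawR (fun i => (X ^ (2 * i + 1) : F[X])) (fun i => X ^ (2 * i + 2)) x
        + lawL (fun i => (X ^ (2 * i + 1) : F[X])) (fun i => X ^ (2 * i + 2)) y).natDegree ∧
    (lawR (fun i => (X ^ (2 * i + 1) : F[X])) (fun i => X ^ (2 * i + 2)) x
        + lawL (fun i => (X ^ (2 * i + 1) : F[X])) (fun i => X ^ (2 * i + 2)) y).natDegree ≤ 2 * D + 2 := by
  obtain ⟨i, b⟩ := x
  obtain ⟨j, c⟩ := y
  simp only at hx hy h
  cases b <;> cases c <;> simp only [lawL, lawR, cond_true, cond_false]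
  · have := natDegree_pm (F := F) (2 * i + 1) (2 * j + 2) (by omega) (-1) (-1) (by simp) (by simp)
    simp only [map_neg, map_one, neg_mul, one_mul] at this
    rw [this]; omega
  · have hij : i ≠ j := fun e => by simpa using h e
    have := natDegree_pm (F := F) (2 * i + 1) (2 * j + 1) (by omega) (-1) 1 (by simp) (by simp)
    simp only [map_neg, map_one, neg_mul, one_mul] at this
    rw [this]; omega
  · have hij : i ≠ j := fun e => by simpa using h e
    have := natDegree_pm (F := F) (2 * i + 2) (2 * j + 2) (by omega) 1 (-1) (by simp) (by simp)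
    simp only [map_neg, map_one, neg_mul, one_mul] at this
    rw [this]; omega
  · have := natDegree_pm (F := F) (2 * i + 2) (2 * j + 1) (by omega) 1 1 (by simp) (by simp)
    simp only [map_one, one_mul] at this
    rw [this]; omega

theorem exists_eval_ne_zero [Fintype F] (p : F[X]) (hp : p ≠ 0) (h : p.natDegree < Fintype.card F) :
    ∃ t : F, p.eval t ≠ 0 := by
  by_contra hc
  push Not at hc
  exact hp (eq_zero_of_natDegree_lt_card_of_eval_eq_zero p Function.injective_id hc h)

end Poly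

theorem map_lift {G H : Type*} [Group G] [Group H] (φ : G →* H) (f : ℕ → G) (w : FreeGroup ℕ) :
    FreeGroup.lift (fun i => φ (f i)) w = φ (FreeGroup.lift f w) := by
  symm
  exact FreeGroup.lift_unique (φ.comp (FreeGroup.lift f)) (by simp)

end Cfsg.Agent.H65
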