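import Cfsg.Agent.H65.Law

/-! A nontrivial word takes a value with nonzero lower left entry on `SL₂` over large finite fields. -/

set_option autoImplicit false

namespace Cfsg.Agent.H65

open Polynomial Matrix

universe v

/-- upper unitriangular element of `SL₂` -/
def uSL {R : Type*} [CommRing R] (c : R) : SpecialLinearGroup (Fin 2) R :=
  ⟨!![1, c; 0, 1], by simp [Matrix.det_fin_two]⟩

/-- Weyl element of `SL₂` -/
def wSL (R : Type*) [CommRing R] : SpecialLinearGroup (Fin 2) R :=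
  ⟨!![0, 1; -1, 0], by simp [Matrix.det_fin_two]⟩

@[simp] theorem coe_uSL {R : Type*} [CommRing R] (c : R) : (uSL c).1 = !![1, c; 0, 1] := rfl

@[simp] theorem coe_wSL {R : Type*} [CommRing R] : (wSL R).1 = !![0, 1; -1, 0] := rfl

theorem uSL_add {R : Type*} [CommRing R] (a b : R) : uSL (a + b) = uSL a * uSL b := by
  ext i j
  fin_cases i <;> fin_cases j <;> simp [Matrix.mul_apply, Fin.sum_univ_two, add_comm]

theorem coe_wSL_inv (R : Type*) [CommRing R] :
    (((wSL R)⁻¹ : SpecialLinearGroup (Fin 2) R) : Matrix (Fin 2) (Fin 2) R) = !![0, -1; 1, 0] := by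
  simp [Matrix.SpecialLinearGroup.coe_inv, Matrix.adjugate_fin_two]

theorem exists_word_entry_ne_zero (w : FreeGroup ℕ) (hw : w ≠ 1) :
    ∃ N : ℕ, ∀ (F : Type v) [Field F] [Fintype F], N ≤ Fintype.card F →
      ∃ f : ℕ → SpecialLinearGroup (Fin 2) F,
        (FreeGroup.lift f w : SpecialLinearGroup (Fin 2) F).1 1 0 ≠ 0 := by
  obtain ⟨k, D, h⟩ := pingpong.{v, v} w hw
  refine ⟨k * (2 * D + 2) + 1, fun F _ _ hF => ?_⟩
  let S : ℕ → SpecialLinearGroup (Fin 2) F[X] → Prop := fun k g =>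
    (g.1 0 0).degree < (g.1 1 0).degree ∧ (g.1 1 0).natDegree ≤ k * (2 * D + 2)
  have hv : ∀ v : SpecialLinearGroup (Fin 2) F[X], (v = wSL F[X] ∨ v = (wSL F[X])⁻¹) →
      ∃ e : F[X], (e = 1 ∨ e = -1) ∧ v.1 = !![0, e; -e, 0] := by
    rintro v (rfl | rfl)
    · exact ⟨1, Or.inl rfl, rfl⟩
    · exact ⟨-1, Or.inr rfl, by rw [coe_wSL_inv, neg_neg]⟩
  have hbase : ∀ (v : SpecialLinearGroup (Fin 2) F[X]), (v = wSL F[X] ∨ v = (wSL F[X])⁻¹) → ∀ a, S 0 (v * uSL a) := by
    intro v hv' a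
    obtain ⟨e, he, hve⟩ := hv v hv'
    rcases he with rfl | rfl <;> simp [S, hve, Matrix.mul_apply, Fin.sum_univ_two]
  have hstep : ∀ (v : SpecialLinearGroup (Fin 2) F[X]), (v = wSL F[X] ∨ v = (wSL F[X])⁻¹) →
      ∀ (x y : ℕ × Bool), x.1 ≤ D → y.1 ≤ D → (x.1 = y.1 → x.2 = y.2) → ∀ k g, S k g →
      S (k + 1) (v * uSL (lawR (fun i => (X ^ (2 * i + 1) : F[X])) (fun i => X ^ (2 * i + 2)) x
        + lawL (fun i => (X ^ (2 * i + 1) : F[X])) (fun i => X ^ (2 * i + 2)) y) * g) := by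
    intro v hv' x y hx hy hxy k g hg
    obtain ⟨e, he, hve⟩ := hv v hv'
    obtain ⟨h1, h2⟩ := law_junction (F := F) D x y hx hy hxy
    set c := lawR (fun i => (X ^ (2 * i + 1) : F[X])) (fun i => X ^ (2 * i + 2)) x
        + lawL (fun i => (X ^ (2 * i + 1) : F[X])) (fun i => X ^ (2 * i + 2)) y with hc
    clear_value c
    have hne : g.1 1 0 ≠ 0 := by
      intro h0
      have := hg.1
      rw [h0] at this
      simp at this
    have hc0 : c ≠ 0 := by rintro rfl; simp at h1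
    have hlt : (g.1 1 0).degree < (c * g.1 1 0).degree := by
      apply degree_lt_degree
      rw [natDegree_mul hc0 hne]; omega
    have hdeg : (g.1 0 0 + c * g.1 1 0).degree = (c * g.1 1 0).degree :=
      degree_add_eq_right_of_degree_lt (hg.1.trans hlt)
    have e0 : (v * uSL c * g).1 0 0 = e * g.1 1 0 := by
      simp [hve, Matrix.mul_apply, Fin.sum_univ_two]
    have e1 : (v * uSL c * g).1 1 0 = -e * (g.1 0 0 + c * g.1 1 0) := by
      simp [hve, Matrix.mul_apply, Fin.sum_univ_two]; ring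
    simp only [S, e0, e1]
    have hn : (g.1 0 0 + c * g.1 1 0).natDegree = (c * g.1 1 0).natDegree :=
      natDegree_eq_natDegree hdeg
    rw [natDegree_mul hc0 hne] at hn
    have := hg.2
    rcases he with rfl | rfl
    · simp only [one_mul, neg_mul, degree_neg, natDegree_neg, hdeg, hn]
      exact ⟨hlt, by nlinarith⟩
    · simp only [one_mul, neg_mul, neg_neg, degree_neg, hdeg, hn]
      exact ⟨hlt, by nlinarith⟩
  obtain ⟨a, g, hg, e⟩ := h (uSL (R := F[X])) uSL_add (wSL F[X]) (fun i => X ^ (2 * i + 1))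
    (fun i => X ^ (2 * i + 2)) S hbase hstep
  · have hne : g.1 1 0 ≠ 0 := by
      intro h0
      have := hg.1
      rw [h0] at this
      simp at this
    obtain ⟨t, ht⟩ := exists_eval_ne_zero _ hne (lt_of_le_of_lt hg.2 hF)
    let φ := SpecialLinearGroup.map (n := Fin 2) (Polynomial.evalRingHom t)
    refine ⟨fun i => φ (uSL (X ^ (2 * i + 1)) * wSL F[X] * uSL (X ^ (2 * i + 2))), ?_⟩
    rw [map_lift, e]
    simpa [φ, Matrix.mul_apply, Fin.sum_univ_two] using ht

end Cfsg.Agent.H65
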