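import Cfsg.Agent.H65.SLd
import Cfsg.Agent.H66.OrthNum2
set_option autoImplicit false

/-! Weight spaces of the Eichler groups of an orthogonal group. -/

namespace Cfsg.Agent.H65

open Module QuadraticMap H11 H66

variable {F V : Type*} [Field F] [AddCommGroup V] [Module F V] {Q : QuadraticForm F V}

local notation "𝐟" => polar Q

theorem finrank_insert_le [FiniteDimensional F V] (z : V) (s : Set V) :
    finrank F (Submodule.span F (insert z s)) ≤ finrank F (Submodule.span F s) + 1 := by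
  rw [Submodule.span_insert, add_comm]
  refine (Submodule.finrank_add_le_finrank_add_finrank _ _).trans (Nat.add_le_add_right ?_ _)
  simpa using finrank_span_le_card (R := F) ({z} : Set V)

theorem finrank_pair_le [FiniteDimensional F V] (u w : V) : finrank F (Submodule.span F {u, w}) ≤ 2 :=
  (finrank_insert_le _ _).trans (by simpa using finrank_span_le_card (R := F) ({w} : Set V))

theorem trans_pair [Finite F] [FiniteDimensional F V] (hQ : ND Q) (h6 : 6 ≤ finrank F V) {u w u' w' : V} (hu : Q u = 0)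
    (h0 : u ≠ 0) (hu' : Q u' = 0) (h0' : u' ≠ 0) (h1 : 𝐟 u w = 0) (h1' : 𝐟 u' w' = 0) (h2 : w ∉ Submodule.span F {u})
    (h2' : w' ∉ Submodule.span F {u'}) (h : Q w = Q w') : ∃ g : EG Q, ap g.1 u = u' ∧ ap g.1 w = w' := by
  obtain ⟨g, hg, rfl⟩ := hQ.EG_trans_sing (by omega) hu h0 hu' h0'
  obtain ⟨w', rfl⟩ : ∃ x, ap g x = w' := ⟨_, ap_ap_inv g w'⟩
  rw [polar_ap] at h1'
  rw [Q_ap] at h
  replace h2' : w' ∉ Submodule.span F {u} := fun e => h2' (by
    obtain ⟨c, rfl⟩ := Submodule.mem_span_singleton.1 e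
    exact Submodule.mem_span_singleton.2 ⟨c, (ap_smul _ _ _).symm⟩)
  obtain ⟨v, hv, huv⟩ := hQ.exists_partner hu h0
  let S := hypSplit hu hv huv
  have e : ∀ x, 𝐟 u x = 0 → S.j (S.p x) = x - 𝐟 x v • u := fun x hx => by
    rw [S.jp, show 𝐟 x S.u = 0 from polar_comm Q u x ▸ hx, zero_smul, sub_zero]; rfl
  have n0 : ∀ x, 𝐟 u x = 0 → x ∉ Submodule.span F {u} → S.p x ≠ 0 := fun x hx hx' h => hx' (by
    have := e x hx
    rw [h, map_zero, eq_comm, sub_eq_zero] at this
    exact Submodule.mem_span_singleton.2 ⟨_, this.symm⟩)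
  have hd := S.finrank_eq
  obtain ⟨g₁, hg₁, h3⟩ := (S.nd hQ).EG_trans (by omega) (n0 w h1 h2) (n0 w' h1' h2') (by
    rw [← S.Qj, ← S.Qj, e w h1, e w' h1']; qsimp; simp [hu, h, polar_comm Q _ u, h1, h1'])
  obtain ⟨y, y1, y2⟩ := exists_polar_one hQ h2' (𝐟 w v - 𝐟 w' v)
  have y2 := y2 u rfl
  refine ⟨⟨g, hg⟩ * Ei Q u y * ⟨S.ext g₁, ext_mem_EG S hg₁⟩, ?_, ?_⟩ <;> simp only [Subgroup.coe_mul, ap_mul] <;> congr 1
  · rw [show ap (S.ext g₁) u = u from S.ap_ext_u g₁, ap_Ei_fix hu y2 (by qsimp; simp [hu]) y2]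
  · rw [S.ap_ext', h3, e w h1, e w' h1', ap_Ei_of_perp hu y2 (by qsimp; simp [hu, h1'])]
    qsimp
    rw [y1, y2]
    module

/-- the hyperplane perpendicular to a vector -/
abbrev Ku (Q : QuadraticForm F V) (u : V) : Submodule F V := LinearMap.ker (polarBilin Q u)

variable {K M : Type*} [Field K] [AddCommGroup M] [Module K M] (ρ : EG Q →* End K M) (ψ : AddChar F K)

/-- the Eichler transformations with centre `u` -/
noncomputable def tO (u : V) (y : Ku Q u) : End K M := ρ (Ei Q u y)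

/-- the character of the Eichler group given by a vector -/
def chO (Q : QuadraticForm F V) (u w : V) : AddChar (Ku Q u) K :=
  ψ.compAddMonoidHom (polarBilin Q w ∘ₗ (Ku Q u).subtype).toAddMonoidHom

/-- the weight space -/
noncomputable def OS (u w : V) : Submodule K M := ws (tO ρ u) (chO ψ Q u w)

variable {ρ ψ}

theorem mem_OS {u w : V} {x : M} : x ∈ OS ρ ψ u w ↔ ∀ y, 𝐟 u y = 0 → ρ (Ei Q u y) x = ψ (𝐟 w y) • x :=
  mem_ws.trans Subtype.forall

theorem tO_add {u : V} (hu : Q u = 0) (y y' : Ku Q u) : tO ρ u (y + y') = tO ρ u y * tO ρ u y' := by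
  rw [tO, tO, tO, ← map_mul, ← Ei_add (x := y.1) (y := y'.1) hu y.2 y'.2]; rfl

theorem tO_comm {u : V} (hu : Q u = 0) (y y' : Ku Q u) : Commute (tO ρ u y) (tO ρ u y') := by
  rw [Commute, SemiconjBy, ← tO_add hu, ← tO_add hu, add_comm]

theorem map_OS (g : EG Q) {u w : V} (hu : Q u = 0) {x : M} (hx : x ∈ OS ρ ψ u w) :
    ρ g x ∈ OS ρ ψ (ap g.1 u) (ap g.1 w) := mem_OS.2 fun y hy => by
  obtain ⟨y, rfl⟩ : ∃ x, ap g.1 x = y := ⟨_, ap_ap_inv g.1 y⟩
  rw [polar_ap] at hy ⊢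
  rw [← Ei_conj g hu hy, ← End.mul_apply, ← map_mul, inv_mul_cancel_right, map_mul, End.mul_apply, mem_OS.1 hx y hy,
    map_smul]

theorem OS_smul {a : F} (ha : a ≠ 0) {u : V} (hu : Q u = 0) (w : V) (c : F) :
    OS ρ ψ (a • u) (a • w + c • u) = OS ρ ψ u w := by
  have key : ∀ (a : F), a ≠ 0 → ∀ (u w : V) (c : F), Q u = 0 → OS ρ ψ u w ≤ OS ρ ψ (a • u) (a • w + c • u) :=
    fun a ha u w c hu x hx => mem_OS.2 fun y hy => by
      have : 𝐟 u y = 0 := by simpa [polar_smul_left', ha] using hy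
      rw [Ei_smul hu this, mem_OS.1 hx _ (by simp [this])]
      qsimp
      simp [this]
  refine le_antisymm ((key a⁻¹ (inv_ne_zero ha) _ _ (-(c * a⁻¹ * a⁻¹)) (by simp [Q_smul, hu])).trans (le_of_eq ?_))
    (key a ha u w c hu)
  congr 1 <;> match_scalars <;> field_simp
  ring

theorem finrank_OS_le [FiniteDimensional K M] (g : EG Q) {u : V} (hu : Q u = 0) (w : V) :
    finrank K (OS ρ ψ u w) ≤ finrank K (OS ρ ψ (ap g.1 u) (ap g.1 w)) :=
  LinearMap.finrank_le_finrank_of_injective (f := (ρ g).restrict fun _ => map_OS g hu) fun x y e =>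
    Subtype.ext (sub_eq_zero.1 (by_contra fun h => map_ne_zero_of_rep ρ g h (by
      rw [map_sub, sub_eq_zero]; exact congrArg Subtype.val e)))

theorem OS_self {g : EG Q} {u w : V} (hu : Q u = 0) (h1 : ap g.1 u = u) (h2 : ap g.1 w = w) :
    ∀ x ∈ OS ρ ψ u w, ρ g x ∈ OS ρ ψ u w := fun x hx => by
  have := map_OS g hu hx
  rwa [h1, h2] at this

theorem OS_eq_bot (hψ : ψ ≠ 1) {u w : V} (hu : Q u = 0) (h : 𝐟 w u ≠ 0) : OS ρ ψ u w = ⊥ :=
  (Submodule.eq_bot_iff _).2 fun x hx => by_contra fun h0 => h (eq_of_char hψ fun c => by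
    have := mem_OS.1 hx (c • u) (by qsimp; simp [hu])
    rw [Ei_self hu, map_one, End.one_apply, polar_smul_right'] at this
    rw [mul_zero, AddChar.map_zero_eq_one]
    exact smul_left_injective K h0 (this.symm.trans (one_smul K x).symm))

variable [FiniteDimensional F V]

theorem chO_eq_iff (hQ : ND Q) (hψ : ψ ≠ 1) {u w w' : V} :
    chO ψ Q u w = chO ψ Q u w' ↔ w - w' ∈ Submodule.span F {u} := by
  refine ⟨fun h => mem_span_of_perp hQ fun y hy => ?_, fun h => AddChar.ext _ _ fun y => ?_⟩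
  · have hy := hy u rfl
    rw [polar_sub_left, sub_eq_zero]
    exact eq_of_char hψ fun c => by
      simp only [← polar_smul_right']
      exact DFunLike.congr_fun h ⟨c • y, by simp [hy]⟩
  · obtain ⟨c, hc⟩ := Submodule.mem_span_singleton.1 h
    have : 𝐟 w y.1 = 𝐟 w' y.1 := by
      rw [← sub_eq_zero, ← polar_sub_left, ← hc, polar_smul_left', show 𝐟 u y.1 = 0 from y.2, mul_zero]
    exact congrArg ψ this

variable [Finite F]

theorem fix_AC (hQ : ND Q) {u w y : V} (hu : Q u = 0) (hy : Q y = 0) (h1 : 𝐟 y u = 0) (h2 : 𝐟 y w = 0)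
    (hm : finrank K (OS ρ ψ u w) = 1) {s : Set V} (su : u ∈ Submodule.span F s) (sw : w ∈ Submodule.span F s)
    (sy : y ∈ Submodule.span F s) (h5 : 5 ≤ finrank F V) (hd : 2 * finrank F (Submodule.span F s) + 1 < finrank F V)
    (hA : ∀ z, Q z = 0 → (∀ a ∈ s, 𝐟 a z = 0) →
      ¬ H28.perp Q (Submodule.span F (insert z s)) ≤ Submodule.span F (insert z s))
    {z : V} (hz : ∀ a ∈ s, 𝐟 a z = 0) : ∀ x ∈ OS ρ ψ u w, ρ (Ei Q y z) x = x := by
  have key : ∀ g : EG Q, (∀ a ∈ Submodule.span F s, ap g.1 a = a) → ∀ t, (∀ a ∈ s, 𝐟 a t = 0) →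
      ∀ x ∈ OS ρ ψ u w, ρ (Ei Q y (ap g.1 t - t)) x = x := fun g hg t ht => by
    have h3 := polar_span ht sy
    have h4 : 𝐟 y (ap g.1 t) = 0 := by rw [← hg y sy, polar_ap, h3]
    refine triv_of_conj ρ hm (OS_self hu (hg u su) (hg w sw)) (OS_self (g := Ei Q y t) hu
      (ap_Ei_fix hy h3 h1 (polar_span ht su)) (ap_Ei_fix hy h3 h2 (polar_span ht sw))) ?_
    rw [← Ei_add hy h3 (by rw [polar_sub_right, h3, h4, sub_zero]), add_sub_cancel, ← eq_mul_inv_iff_mul_eq.1
      (Ei_conj g hy h3).symm, hg y sy]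
  have add : ∀ a b, (∀ c ∈ s, 𝐟 c a = 0) → (∀ c ∈ s, 𝐟 c b = 0) → (∀ x ∈ OS ρ ψ u w, ρ (Ei Q y a) x = x) →
      (∀ x ∈ OS ρ ψ u w, ρ (Ei Q y b) x = x) → ∀ x ∈ OS ρ ψ u w, ρ (Ei Q y (a + b)) x = x :=
    fun a b ha hb ha' hb' x hx => by
      rw [Ei_add hy (polar_span ha sy) (polar_span hb sy), map_mul, End.mul_apply, hb' x hx, ha' x hx]
  have sing : ∀ z, Q z = 0 → (∀ a ∈ s, 𝐟 a z = 0) → ∀ x ∈ OS ρ ψ u w, ρ (Ei Q y z) x = x := fun z hz hz' => by
    obtain ⟨t, t1, t2⟩ := SetLike.not_le_iff_exists.1 (hA z hz hz')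
    obtain ⟨t', t3, t4⟩ := exists_polar_one hQ t2 (-1)
    rw [mem_perp_span] at t1
    have := key (Ei Q z t') (fun a ha => ap_Ei_fix hz (t4 z (.inl rfl)) (polar_comm Q a z ▸ polar_span hz' ha)
      (polar_span (fun b hb => t4 b (.inr hb)) ha)) t fun b hb => t1 b (.inr hb)
    rwa [ap_Ei_of_perp hz (t4 z (.inl rfl)) (t1 z (.inl rfl)), t3, neg_smul, one_smul, sub_neg_eq_add,
      add_sub_cancel_left] at this
  have big : ∀ z, ∃ t, (∀ a ∈ s, 𝐟 a t = 0) ∧ t ∉ Submodule.span F (insert z s) := fun z => by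
    by_contra! h
    have h3 := Submodule.finrank_mono (show H28.perp Q (Submodule.span F s) ≤ _ from fun t ht => h t (mem_perp_span.1 ht))
    have := finrank_insert_le (F := F) z s
    rw [H28.finrank_perp hQ.nondegenerate] at h3
    omega
  have out : ∀ z ∉ Submodule.span F s, (∀ a ∈ s, 𝐟 a z = 0) → ∀ x ∈ OS ρ ψ u w, ρ (Ei Q y z) x = x := fun z z1 z2 => by
    by_cases z3 : Q z = 0
    · exact sing z z3 z2
    obtain ⟨t, t1, t2, t3⟩ : ∃ t, (∀ a ∈ s, 𝐟 a t = 0) ∧ 𝐟 z t ≠ 0 ∧ t ∉ Submodule.span F (insert z s) := by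
      obtain ⟨t, t1, t2⟩ := exists_polar_one hQ z1 1
      obtain ⟨t', t3, t4⟩ := big z
      by_cases h : t ∈ Submodule.span F (insert z s)
      · by_cases h' : 𝐟 z t' = 0
        · exact ⟨t + t', fun a ha => by simp [t2 a ha, t3 a ha], by simp [t1, h'],
            fun e => t4 ((Submodule.add_mem_iff_right _ h).1 e)⟩
        · exact ⟨t', t3, h', t4⟩
      · exact ⟨t, t2, by simp [t1], h⟩
    by_cases t4 : Q t = 0
    · have := add ((Q z / 𝐟 z t) • t) (z - (Q z / 𝐟 z t) • t) (fun a ha => by simp [t1 a ha])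
        (fun a ha => by simp [t1 a ha, z2 a ha]) (sing _ (by simp [Q_smul, t4]) fun a ha => by simp [t1 a ha])
        (sing _ (by qsimp; simp [t4, t2]) fun a ha => by simp [t1 a ha, z2 a ha])
      rwa [add_sub_cancel] at this
    · have h3 : z ∉ Submodule.span F (insert (ap (refl Q t) z) s) := fun e => by
        obtain ⟨c, a, ha, e⟩ := Submodule.mem_span_insert.1 e
        rw [ap_refl] at e
        have hc : c ≠ 0 := by rintro rfl; exact z1 (by rwa [e, zero_smul, zero_add])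
        refine t3 (Submodule.mem_span_insert.2 ⟨(c - 1) / (c * ((Q t)⁻¹ * 𝐟 z t)), (c * ((Q t)⁻¹ * 𝐟 z t))⁻¹ • a,
          Submodule.smul_mem _ _ ha, ?_⟩)
        rw [← sub_eq_iff_eq_add'.2 e]
        match_scalars <;> field_simp
        ring
      obtain ⟨t', t5, t6⟩ := exists_polar_one hQ h3 (-Q z)
      have := key ⟨refl Q z * refl Q (ap (refl Q t) z), hQ.omega_eq h5 ▸ hQ.refl_mul_refl_mem z3 (Q_ap _ _).symm⟩
        (fun a ha => by
          rw [ap_mul, ap_refl_of_perp (x := a) (by rw [ap_refl]; simp [polar_span z2 ha, polar_span t1 ha]),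
            ap_refl_of_perp (polar_span z2 ha)]) t' fun b hb => t6 b (.inr hb)
      rwa [ap_mul, ap_refl_of_perp (x := t') (polar_comm Q t' _ ▸ t6 _ (.inl rfl)), ap_refl, polar_comm, t5,
        mul_neg, inv_mul_cancel₀ z3, neg_smul, one_smul, sub_neg_eq_add, add_sub_cancel_left] at this
  by_cases h : z ∈ Submodule.span F s
  · obtain ⟨t, t1, t2⟩ := big z
    replace t2 : t ∉ Submodule.span F s := fun e => t2 (Submodule.span_mono (Set.subset_insert _ _) e)
    have := add t (z - t) t1 (fun a ha => by simp [t1 a ha, hz a ha]) (out t t2 t1)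
      (out _ (fun e => t2 ((Submodule.sub_mem_iff_right _ h).1 e)) fun a ha => by simp [t1 a ha, hz a ha])
    rwa [add_sub_cancel] at this
  · exact out z h hz

omit [Finite F] in
theorem not_perp_le (hQ : ND Q) {S : Submodule F V} (h : 2 * finrank F S < finrank F V) : ¬ H28.perp Q S ≤ S := fun e => by
  have := Submodule.finrank_mono e
  rw [H28.finrank_perp hQ.nondegenerate] at this
  omega

/-- conditions under which one-dimensional weight spaces are fixed -/
def OGood (Q : QuadraticForm F V) (γ : F) : Prop :=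
  (γ = 0 ∧ ∃ a : F, a ≠ 0 ∧ a * a ≠ 1) ∨ 9 ≤ finrank F V ∨ (8 ≤ finrank F V ∧ WittLe Q 3 ∧ (γ = 0 ∨ (2 : F) ≠ 0))

theorem fix_OS (hQ : ND Q) (h7 : 7 ≤ finrank F V) {u w y z : V} (hG : OGood Q (Q w)) (hu : Q u = 0) (hy : Q y = 0)
    (h0 : 𝐟 u w = 0) (h1 : 𝐟 y u = 0) (h2 : 𝐟 y w = 0) (hm : finrank K (OS ρ ψ u w) = 1) (h3 : 𝐟 u z = 0) (h4 : 𝐟 w z = 0)
    (h5 : 𝐟 y z = 0) : ∀ x ∈ OS ρ ψ u w, ρ (Ei Q y z) x = x := by
  have hp := finrank_pair_le (F := F) u w
  have hs3 := finrank_insert_le (F := F) y {u, w}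
  have su : u ∈ Submodule.span F {u, w} := Submodule.subset_span (.inl rfl)
  have sw : w ∈ Submodule.span F {u, w} := Submodule.subset_span (.inr rfl)
  have A : ∀ y z, Q y = 0 → 𝐟 y u = 0 → 𝐟 y w = 0 → y ∈ Submodule.span F {u, w} → 𝐟 u z = 0 → 𝐟 w z = 0 →
      ∀ x ∈ OS ρ ψ u w, ρ (Ei Q y z) x = x := fun y z a b c d e f =>
    fix_AC hQ hu a b c hm su sw d (by omega) (by omega) (fun t _ _ => not_perp_le hQ (by
      have := finrank_insert_le (F := F) t {u, w}; omega)) (by simp [e, f])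
  have B : 8 ≤ finrank F V → (∀ t, Q t = 0 → (∀ a ∈ ({y, u, w} : Set V), 𝐟 a t = 0) → ¬ H28.perp Q (Submodule.span F
      (insert t {y, u, w})) ≤ Submodule.span F (insert t {y, u, w})) → ∀ x ∈ OS ρ ψ u w, ρ (Ei Q y z) x = x := fun a b =>
    fix_AC hQ hu hy h1 h2 hm (s := {y, u, w}) (Submodule.subset_span (by simp)) (Submodule.subset_span (by simp))
      (Submodule.subset_span (by simp)) (by omega) (by omega) b (by simp [h3, h4, h5])
  rcases hG with ⟨hw, a, ha, ha'⟩ | h9 | ⟨h8, hW, h⟩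
  · by_cases e : y ∈ Submodule.span F {z, u, w}
    · obtain ⟨c, b, hb, e⟩ := Submodule.mem_span_insert.1 e
      by_cases hc : c = 0
      · exact A y z hy h1 h2 (by simpa [e, hc] using hb) h3 h4
      obtain ⟨α, β, rfl⟩ := Submodule.mem_span_pair.1 hb
      have e1 : Q (c⁻¹ • (α • u + β • w)) = 0 := by qsimp; simp [hu, hw, h0]
      have e2 : 𝐟 y (c⁻¹ • (α • u + β • w)) = 0 := by simp [h1, h2]
      rw [show z = -(c⁻¹ • (α • u + β • w)) + c⁻¹ • y by rw [e]; match_scalars <;> field_simp <;> ring,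
        Ei_add_self hy (by rw [polar_neg_right, e2, neg_zero]), Ei_neg hy e2, ← Ei_swap hy e1 e2]
      exact A _ y e1 (by qsimp; simp [hu, polar_comm Q w, h0]) (by qsimp; simp [hw, h0]) (Submodule.smul_mem _ _ hb)
        (polar_comm Q y u ▸ h1) (polar_comm Q y w ▸ h2)
    · obtain ⟨t, t1, t2⟩ := exists_polar_one hQ e 1
      simp only [Set.mem_insert_iff, Set.mem_singleton_iff, forall_eq_or_imp, forall_eq] at t2
      obtain ⟨t, t0, t1, t2, t3, t4⟩ : ∃ t, Q t = 0 ∧ 𝐟 y t = 1 ∧ 𝐟 z t = 0 ∧ 𝐟 u t = 0 ∧ 𝐟 w t = 0 :=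
        ⟨t - Q t • y, by qsimp; simp [hy, polar_comm Q t, t1], by qsimp; simp [hy, t1], by simp [t2, polar_comm Q z y, h5],
          by simp [t2, polar_comm Q u y, h1], by simp [t2, polar_comm Q w y, h2]⟩
      let g : EG Q := ⟨refl Q (y + t) * refl Q (a⁻¹ • y + a • t), hQ.omega_eq (by omega) ▸
        hQ.refl_mul_refl_mem (by qsimp; simp [hy, t0, t1]) (by qsimp; simp [hy, t0, t1, ha])⟩
      have g1 : ∀ x, 𝐟 y x = 0 → 𝐟 x t = 0 → ap g.1 x = x := fun x a b => by
        rw [ap_mul, ap_refl_of_perp (x := x) (by simp [polar_comm Q x y, a, b]),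
          ap_refl_of_perp (by simp [polar_comm Q x y, a, b])]
      have g2 : ap g.1 y = (a * a) • y := by
        rw [ap_mul, ap_refl, ap_refl]
        qsimp
        simp only [hy, t0, t1, polar_comm Q t y]
        match_scalars <;> field_simp <;> ring
      have h6 : 𝐟 y ((a * a - 1)⁻¹ • z) = 0 := by simp [h5]
      refine triv_of_conj ρ hm (OS_self hu (g1 u h1 t3) (g1 w h2 t4)) (OS_self (g := Ei Q y ((a * a - 1)⁻¹ • z)) hu
        (ap_Ei_fix hy h6 h1 (by simp [h3])) (ap_Ei_fix hy h6 h2 (by simp [h4]))) ?_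
      rw [← Ei_add hy h6 h5, ← mul_inv_eq_iff_eq_mul, Ei_conj g hy h6, g2, g1 _ h6 (by simp [t2]), Ei_smul hy h6]
      congr 1
      match_scalars
      linear_combination mul_inv_cancel₀ (sub_ne_zero.2 ha')
  · exact B (by omega) fun t _ _ => not_perp_le hQ (by have := finrank_insert_le (F := F) t {y, u, w}; omega)
  · refine B h8 fun t t1 t2 e => ?_
    have h6 := finrank_insert_le (F := F) t {y, u, w}
    have h9 := Submodule.finrank_mono e
    have h10 := Submodule.eq_of_le_of_finrank_le e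
    rw [H28.finrank_perp hQ.nondegenerate] at h9 h10
    have h11 : ∀ a ∈ Submodule.span F (insert t {y, u, w}), ∀ b ∈ Submodule.span F (insert t {y, u, w}), 𝐟 a b = 0 :=
      fun a ha b hb => (h10 (by omega)).ge hb a ha
    have hw : Q w = 0 := h.elim id fun h => by
      simpa [polar_self', h] using h11 w (Submodule.subset_span (by simp)) w (Submodule.subset_span (by simp))
    have := hW _ fun x (hx : x ∈ Submodule.span F (insert t {y, u, w})) => by
      induction hx using Submodule.span_induction with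
      | mem a ha => rcases ha with rfl | rfl | rfl | rfl <;> assumption
      | zero => exact map_zero _
      | add a b ha' hb' ha hb => rw [Q_add, ha, hb, h11 a ha' b hb']; simp
      | smul c a _ ha => rw [Q_smul, ha, mul_zero]
    rw [Module.natCard_eq_pow_finrank (K := F), Nat.pow_le_pow_iff_right Finite.one_lt_card] at this
    omega

end Cfsg.Agent.H65
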