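import Cfsg.Agent.H65.OrA
set_option autoImplicit false

/-! Projection calculus for the Eichler groups; counting vectors of given norm. -/

namespace Cfsg.Agent.H65

open Module QuadraticMap H11 H66 Finset

variable {F V : Type*} [Field F] [Fintype F] [AddCommGroup V] [Module F V] [Fintype V] [DecidableEq V]
  {Q : QuadraticForm F V}

local notation "𝐟" => polar Q
local notation "𝐪" => (Fintype.card F : ℂ)
local notation "𝐋" u => SW (Submodule.span F {u})

/-- the perpendicular space -/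
def Pp (Q : QuadraticForm F V) (W : Submodule F V) : Submodule F V := H28.perp Q W

local notation "𝐏" => Pp Q

section
omit [Fintype F] [Fintype V] [DecidableEq V]

theorem mem_Pp {W : Submodule F V} {x : V} : x ∈ 𝐏 W ↔ ∀ y ∈ W, 𝐟 y x = 0 := Iff.rfl

theorem mem_Pp_span {s : Set V} {x : V} : x ∈ 𝐏 (Submodule.span F s) ↔ ∀ y ∈ s, 𝐟 y x = 0 :=
  ⟨fun h a ha => h a (Submodule.subset_span ha), fun h _ ha => polar_span h ha⟩

theorem pp {W : Submodule F V} {x y : V} (h : x ∈ 𝐏 W) (hy : y ∈ W) : 𝐟 y x = 0 := h y hy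

theorem pp' {W : Submodule F V} {x y : V} (h : x ∈ 𝐏 W) (hy : y ∈ W) : 𝐟 x y = 0 := (polar_comm Q x y).trans (h y hy)

theorem tsp {T : Submodule F V} (hT : ∀ t ∈ T, Q t = 0) {s t : V} (hs : s ∈ T) (ht : t ∈ T) : 𝐟 s t = 0 :=
  polar_of_sing (hT s hs) (hT t ht) (hT _ (T.add_mem hs ht))

theorem le_perp {T : Submodule F V} (hT : ∀ t ∈ T, Q t = 0) : T ≤ 𝐏 T := fun _ ht _ hs => tsp hT hs ht

end

omit [DecidableEq V] in
theorem card_fibre [DecidableEq F] {T : Submodule F V} {S : Finset V} (hS : ∀ x ∈ S, ∀ t ∈ T, x + t ∈ S) {g : V → F}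
    (hg : ∀ x ∈ S, ∃ l : Dual F V, (∃ t ∈ T, l t ≠ 0) ∧ ∀ t ∈ T, g (x + t) = g x + l t) (γ : F) :
    #{x ∈ S | g x = γ} * Fintype.card F = #S := by
  have fib : ∀ l : Dual F V, (∃ t ∈ T, l t ≠ 0) → ∀ c, #{t ∈ SW T | l t = c} * Fintype.card F = #(SW T) := by
    rintro l ⟨t, ht, h⟩ c
    rw [card_eq_sum_card_fiberwise (f := l) (s := SW T) (t := univ) fun _ _ => mem_univ _, mul_comm, ← smul_eq_mul, ← card_univ,
      ← sum_const]
    refine sum_congr rfl fun c' _ => card_equiv (Equiv.addRight (((c' - c) / l t) • t)) fun x => ?_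
    simp [h, Submodule.add_mem_iff_left _ (T.smul_mem _ ht), add_sub, sub_eq_iff_eq_add, add_comm c']
  have h1 : ∀ t ∈ SW T, #{x ∈ S | g (x + t) = γ} = #{x ∈ S | g x = γ} := fun t ht =>
    card_equiv (Equiv.addRight t) fun x => by
      simp only [mem_filter, Equiv.coe_addRight]
      exact and_congr_left' ⟨fun h => hS x h t (mem_SW.1 ht), fun h => by simpa using hS _ h _ (T.neg_mem (mem_SW.1 ht))⟩
  refine Nat.eq_of_mul_eq_mul_left (card_pos.2 ⟨0, mem_SW.2 T.zero_mem⟩) ?_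
  rw [← mul_assoc, ← smul_eq_mul (#(SW T)), ← sum_const, ← sum_congr rfl h1, mul_comm _ #S, ← smul_eq_mul #S, ← sum_const]
  simp only [card_filter]
  rw [sum_comm, sum_mul]
  refine sum_congr rfl fun x hx => ?_
  obtain ⟨l, h2, h3⟩ := hg x hx
  rw [← fib l h2 (γ - g x), card_filter]
  exact congrArg (· * _) (sum_congr rfl fun t ht => by simp only [h3 t (mem_SW.1 ht), eq_sub_iff_add_eq'])

omit [DecidableEq V] in
theorem card_perp (hQ : ND Q) (A : Submodule F V) : (#(SW (𝐏 A)) : ℂ) = 𝐪 ^ (finrank F V - finrank F A) := by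
  rw [card_SW, Pp, H28.finrank_perp hQ.nondegenerate, Nat.cast_pow]

theorem cnt_perp [DecidableEq F] (hQ : ND Q) {A T : Submodule F V} (hT : ∀ t ∈ T, Q t = 0) (hAT : T ≤ 𝐏 A) (γ : F) :
    (#{x ∈ SW (𝐏 A) \ SW (𝐏 T) | Q x = γ} : ℂ) * 𝐪 =
      𝐪 ^ (finrank F V - finrank F A) - 𝐪 ^ (finrank F V - finrank F (A ⊔ T : Submodule F V)) := by
  rw [← Nat.cast_mul, card_fibre (T := T) (fun x hx t ht => by
    simp only [mem_sdiff, mem_SW] at hx ⊢
    exact ⟨add_mem hx.1 (hAT ht), fun e => hx.2 ((Submodule.add_mem_iff_left _ (le_perp hT ht)).1 e)⟩)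
    fun x hx => ⟨polarBilin Q x, by
      by_contra! h
      exact mem_SW.not.1 (mem_sdiff.1 hx).2 fun t ht => (polar_comm Q t x).trans (h t ht),
      fun t ht => by rw [Q_add, hT t ht, add_zero]; rfl⟩, ← card_perp hQ, ← card_perp hQ, card_sdiff,
    Nat.cast_sub (card_le_card inter_subset_right)]
  congr 3
  ext x
  simp only [mem_inter, mem_SW, mem_Pp]
  exact ⟨fun h y hy => by
    obtain ⟨a, ha, b, hb, rfl⟩ := Submodule.mem_sup.1 hy
    rw [polar_add_left, h.1 b hb, h.2 a ha, add_zero],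
    fun h => ⟨fun y hy => h y (Submodule.mem_sup_right hy), fun y hy => h y (Submodule.mem_sup_left hy)⟩⟩

omit [Fintype F] [Fintype V] [AddCommGroup V] in
theorem sum_sdiff_cst {S T : Finset V} (h : T ⊆ S) {f : V → ℂ} {a : ℂ} (hf : ∀ x ∈ S, x ∉ T → f x = a) :
    ∑ x ∈ S \ T, f x = (#S - #T : ℂ) * a := by
  rw [sum_congr rfl fun x hx => hf x (mem_sdiff.1 hx).1 (mem_sdiff.1 hx).2, sum_const, nsmul_eq_mul,
    card_sdiff_of_subset h, Nat.cast_sub (card_le_card h)]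

omit [DecidableEq V] in
theorem card_Ln {u : V} (h : u ≠ 0) : (#(𝐋 u) : ℂ) = 𝐪 := by rw [card_SW, finrank_span_singleton h, pow_one]

omit [DecidableEq V] in
theorem sum_pair {N : Type*} [AddCommMonoid N] {u v : V} (h : LinearIndependent F ![u, v]) (g : V → N) :
    ∑ y ∈ SW (Submodule.span F {u, v}), g y = ∑ a : F × F, g (a.1 • u + a.2 • v) := by
  refine (sum_bij (fun a _ => a.1 • u + a.2 • v) (fun a _ => mem_SW.2 (Submodule.mem_span_pair.2 ⟨_, _, rfl⟩))
    (fun a _ b _ e => ?_) (fun y hy => ?_) fun _ _ => rfl).symm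
  · have := LinearIndependent.pair_iff.1 h (a.1 - b.1) (a.2 - b.2) (by linear_combination (norm := module) e)
    exact Prod.ext (sub_eq_zero.1 this.1) (sub_eq_zero.1 this.2)
  · obtain ⟨a, b, e⟩ := Submodule.mem_span_pair.1 (mem_SW.1 hy)
    exact ⟨(a, b), mem_univ _, e⟩

omit [Fintype F] [Fintype V] [DecidableEq V] in
theorem indep_of_notMem {u w : V} (hu : u ≠ 0) (hw : w ∉ Submodule.span F {u}) : LinearIndependent F ![u, w] :=
  (LinearIndependent.pair_iff' hu).2 fun a e => hw (Submodule.mem_span_singleton.2 ⟨a, e⟩)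

omit [Fintype F] [Fintype V] [DecidableEq V] in
theorem finrank_pair {u w : V} (hu : u ≠ 0) (hw : w ∉ Submodule.span F {u}) : finrank F (Submodule.span F {u, w}) = 2 := by
  rw [← Matrix.range_cons_cons_empty u w ![], finrank_span_eq_card (indep_of_notMem hu hw), Fintype.card_fin]

omit [Fintype F] [DecidableEq V] in
theorem eq_span_pair {W : Submodule F V} (hW : finrank F W = 2) {u w : V} (hu : u ≠ 0) (hw : w ∉ Submodule.span F {u})
    (h1 : u ∈ W) (h2 : w ∈ W) : W = Submodule.span F {u, w} :=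
  (Submodule.eq_of_le_of_finrank_eq (Submodule.span_le.2 (Set.pair_subset h1 h2)) ((finrank_pair hu hw).trans hW.symm)).symm

omit [Fintype F] [Fintype V] [DecidableEq V] in
theorem notMem_swap {u w : V} (hu : u ≠ 0) (hw : w ∉ Submodule.span F {u}) : u ∉ Submodule.span F {w} := fun e => by
  obtain ⟨a, e⟩ := Submodule.mem_span_singleton.1 e
  refine hw ?_
  rw [← e, Submodule.span_singleton_smul_eq (left_ne_zero_of_smul (e ▸ hu)).isUnit]
  exact Submodule.mem_span_singleton_self w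

variable {M : Type*} [AddCommGroup M] [Module ℂ M]

noncomputable instance fintypeKu (u : V) : Fintype (Ku Q u) := Fintype.ofFinite _

/-- the projection onto a weight space -/
noncomputable def pO (ρ : EG Q →* End ℂ M) (ψ : AddChar F ℂ) (u w : V) : End ℂ M := prj (tO ρ u) (chO ψ Q u w)

variable {ρ : EG Q →* End ℂ M} {ψ : AddChar F ℂ}

section
omit [Fintype F] [DecidableEq V]

theorem pO_mem {u : V} (hu : Q u = 0) (w : V) (x : M) : pO ρ ψ u w x ∈ OS ρ ψ u w :=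
  (isProj_prj (tO_add hu) _).map_mem x

theorem pO_id {u w : V} (hu : Q u = 0) {x : M} (hx : x ∈ OS ρ ψ u w) : pO ρ ψ u w x = x :=
  (isProj_prj (tO_add hu) _).map_id x hx

theorem trace_pO [FiniteDimensional ℂ M] {u : V} (hu : Q u = 0) (w : V) :
    LinearMap.trace ℂ M (pO ρ ψ u w) = finrank ℂ (OS ρ ψ u w) := (isProj_prj (tO_add hu) _).trace

theorem pO_zero (hQ : ND Q) (hψ : ψ ≠ 1) {u w w' : V} {x : M} (hx : x ∈ OS ρ ψ u w')
    (h : w' - w ∉ Submodule.span F {u}) : pO ρ ψ u w x = 0 := by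
  classical
  exact (prj_of_mem hx).trans (if_neg fun e => h ((chO_eq_iff hQ hψ).1 e))

theorem pO_line (hQ : ND Q) (hψ : ψ ≠ 1) {u w : V} (h : w ∈ Submodule.span F {u}) : pO ρ ψ u w = pO ρ ψ u 0 := by
  rw [pO, (chO_eq_iff hQ hψ (w' := 0)).2 (by rwa [sub_zero]), pO]

end

omit [DecidableEq V] in
theorem sum_pO (hQ : ND Q) (hψ : ψ ≠ 1) {u : V} {W : Submodule F V} (hu : u ∈ W) (h0 : u ≠ 0) :
    𝐪 ^ (finrank F V - 1) • ∑ w ∈ SW W, pO ρ ψ u w = (#(SW W) : ℂ) • ∑ y ∈ SW (𝐏 W), ρ (Ei Q u y) := by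
  classical
  have h1 : (Fintype.card (Ku Q u) : ℂ) = 𝐪 ^ (finrank F V - 1) := by
    have := Module.Dual.finrank_ker_add_one_of_ne_zero (f := polarBilin Q u) fun e => h0 (hQ u (LinearMap.congr_fun e))
    rw [Module.card_eq_pow_finrank (K := F), ← this, Nat.cast_pow, Nat.add_sub_cancel]
  simp only [pO, prj, ← Finset.smul_sum, h1]
  rw [smul_inv_smul₀ (by simp), sum_comm]
  have h2 : ∀ y : Ku Q u, ∑ w ∈ SW W, chO ψ Q u w (-y) • tO ρ u y =
      if y.1 ∈ 𝐏 W then (#(SW W) : ℂ) • ρ (Ei Q u y.1) else 0 := fun y => by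
    rw [← Finset.sum_smul, show ∑ w ∈ SW W, chO ψ Q u w (-y) = ∑ w ∈ SW W, ψ ((polarBilin Q).flip (-y.1) w) from rfl,
      sum_char_SW hψ]
    simp [tO, mem_Pp]
  rw [sum_congr rfl fun y _ => h2 y, ← Finset.sum_subtype (SW (Ku Q u)) (fun _ => mem_SW)
    fun y => if y ∈ 𝐏 W then (#(SW W) : ℂ) • ρ (Ei Q u y) else 0, ← sum_filter, Finset.smul_sum]
  refine sum_congr (Finset.ext fun y => ?_) fun _ _ => rfl
  simp only [mem_filter, mem_SW, and_iff_right_iff_imp]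
  exact fun h => h u hu

omit [DecidableEq V] in
theorem sum_pO_top (hQ : ND Q) (hψ : ψ ≠ 1) {u : V} (hu : Q u = 0) (h0 : u ≠ 0) : ∑ w, pO ρ ψ u w = 𝐪 • 1 := by
  have := sum_pO (ρ := ρ) hQ hψ (W := ⊤) trivial h0
  rw [show SW (⊤ : Submodule F V) = univ by ext; simp, show SW (𝐏 ⊤) = {0} from Finset.ext fun x => by
    simpa [mem_Pp] using ⟨fun h => hQ x fun y => polar_comm Q y x ▸ h y, fun h => by simp [h]⟩] at this
  refine smul_right_injective _ (pow_ne_zero (finrank F V - 1) (Nat.cast_ne_zero.2 (Fintype.card_ne_zero (α := F))))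
    (this.trans ?_)
  have : 0 < finrank F V := finrank_pos_iff_exists_ne_zero.2 ⟨u, h0⟩
  simp [Ei_zero hu, smul_smul, ← pow_succ, Nat.sub_add_cancel this, Module.card_eq_pow_finrank (K := F) (V := V)]

omit [DecidableEq V] in
theorem ext_OS (hQ : ND Q) (hψ : ψ ≠ 1) {u : V} (hu : Q u = 0) (h0 : u ≠ 0) {f g : End ℂ M}
    (h : ∀ w, ∀ x ∈ OS ρ ψ u w, f x = g x) : f = g := by
  refine smul_right_injective _ (Nat.cast_ne_zero.2 (Fintype.card_ne_zero (α := F)) : (𝐪) ≠ 0) ?_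
  have : ∀ f : End ℂ M, 𝐪 • f = ∑ w, f * pO ρ ψ u w := fun f => by
    rw [← Finset.mul_sum, sum_pO_top hQ hψ hu h0, mul_smul_comm, mul_one]
  simp only [this]
  exact sum_congr rfl fun w _ => LinearMap.ext fun x => h w _ (pO_mem hu w x)

omit [DecidableEq V] in
theorem conj_pO (hQ : ND Q) (hψ : ψ ≠ 1) (g : EG Q) {u : V} (hu : Q u = 0) (h0 : u ≠ 0) (w : V) :
    ρ g * pO ρ ψ u w = pO ρ ψ (ap g.1 u) (ap g.1 w) * ρ g := by
  refine ext_OS (ρ := ρ) hQ hψ hu h0 fun w' x hx => ?_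
  rw [End.mul_apply, End.mul_apply]
  by_cases h : w' - w ∈ Submodule.span F {u}
  · rw [OS, (chO_eq_iff hQ hψ).2 h] at hx
    rw [pO_id hu hx, pO_id (by rwa [Q_ap]) (map_OS g hu hx)]
  · rw [pO_zero hQ hψ hx h, pO_zero hQ hψ (map_OS g hu hx) fun e => h ?_, map_zero]
    obtain ⟨c, hc⟩ := Submodule.mem_span_singleton.1 e
    exact Submodule.mem_span_singleton.2 ⟨c, ap_injective g.1 (by rwa [ap_smul, ap_sub])⟩

theorem sumO_split (hQ : ND Q) (hψ : ψ ≠ 1) {u : V} (h0 : u ≠ 0) {S : Finset V} (hS : (𝐋 u) ⊆ S) {N : Type*}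
    [AddCommGroup N] [Module ℂ N] (f : End ℂ M → N) :
    ∑ w ∈ S, f (pO ρ ψ u w) = 𝐪 • f (pO ρ ψ u 0) + ∑ w ∈ S \ 𝐋 u, f (pO ρ ψ u w) := by
  rw [← sum_sdiff hS, add_comm, sum_congr rfl fun w hw => by rw [pO_line hQ hψ (mem_SW.1 hw)], sum_const, card_SW,
    finrank_span_singleton h0, pow_one, Nat.cast_smul_eq_nsmul]

/-- the sum of the projections onto the fixed spaces of the Eichler groups -/
noncomputable def eO (ρ : EG Q →* End ℂ M) (ψ : AddChar F ℂ) (S : Finset V) : End ℂ M := ∑ y ∈ S, pO ρ ψ y 0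

omit [Fintype F] [Fintype V] in
theorem sum_ap {N : Type*} [AddCommMonoid N] (g : OG Q) {S : Finset V} (hS : ∀ y ∈ S, ap g y ∈ S) (f : V → N) :
    ∑ y ∈ S, f (ap g y) = ∑ y ∈ S, f y := by
  conv_rhs => rw [← Finset.eq_of_subset_of_card_le (image_subset_iff.2 hS) (card_image_of_injective S (ap_injective g)).ge]
  rw [sum_image fun _ _ _ _ e => ap_injective g e]

theorem conj_eO (hQ : ND Q) (hψ : ψ ≠ 1) (g : EG Q) {S : Finset V} (h0 : ∀ y ∈ S, Q y = 0 ∧ y ≠ 0)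
    (hS : ∀ y ∈ S, ap g.1 y ∈ S) : ρ g * eO ρ ψ S = eO ρ ψ S * ρ g := by
  rw [eO, Finset.mul_sum, Finset.sum_mul, sum_congr rfl fun y hy => conj_pO hQ hψ g (h0 y hy).1 (h0 y hy).2 0, ap_zero]
  exact sum_ap g.1 hS fun y => pO ρ ψ y 0 * ρ g

theorem trace_conj {Γ : Type*} [Group Γ] (ρ : Γ →* End ℂ M) (g : Γ) {A A' : End ℂ M} (h : ρ g * A = A' * ρ g) :
    LinearMap.trace ℂ M A = LinearMap.trace ℂ M A' := by
  rw [← one_mul A, ← map_one ρ, ← inv_mul_cancel g, map_mul ρ, mul_assoc, h, LinearMap.trace_mul_comm, mul_assoc,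
    ← map_mul, mul_inv_cancel, map_one, mul_one]

omit [DecidableEq V] in
/-- the root subgroup of a totally singular line, summed -/
theorem sum_Ei_line {W : Submodule F V} (hW : finrank F W = 2) (hs : ∀ x ∈ W, Q x = 0) {u v : V} (h1 : u ∈ W) (h2 : v ∈ W)
    (hu : u ≠ 0) (hv : v ≠ 0) : ∑ y ∈ SW W, ρ (Ei Q u y) = ∑ y ∈ SW W, ρ (Ei Q v y) := by
  have key : ∀ u ∈ W, ∀ v ∈ W, u ≠ 0 → v ∉ Submodule.span F {u} →
      ∑ y ∈ SW W, ρ (Ei Q u y) = ∑ y ∈ SW W, ρ (Ei Q v y) := fun u h1 v h2 hu hv => by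
    have h3 := polar_of_sing (hs u h1) (hs v h2) (hs _ (W.add_mem h1 h2))
    have h4 := polar_comm Q u v ▸ h3
    rw [eq_span_pair hW hu hv h1 h2, sum_pair (indep_of_notMem hu hv), sum_pair (indep_of_notMem hu hv)]
    refine Fintype.sum_equiv ((Equiv.prodComm F F).trans ((Equiv.neg F).prodCongr (Equiv.refl F))) _ _ fun a => ?_
    simp only [Equiv.trans_apply, Equiv.prodComm_apply, Equiv.prodCongr_apply, Prod.map, Prod.fst_swap, Prod.snd_swap,
      Equiv.neg_apply, Equiv.refl_apply]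
    rw [add_comm, Ei_add_self (hs u h1) (by simp [h3]), Ei_add_self (hs v h2) (by simp [h4]), neg_smul,
      Ei_neg (hs v h2) (by simp [h4]), ← Ei_smul (hs v h2) h4,
      ← Ei_swap (by simp [Q_smul, hs v h2]) (hs u h1) (by simp [h4])]
  by_cases h : v ∈ Submodule.span F {u}
  · obtain ⟨w, h3, h4⟩ := SetLike.not_le_iff_exists.1 fun e : W ≤ Submodule.span F {u} => by
      have := Submodule.finrank_mono e
      rw [finrank_span_singleton hu] at this
      omega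
    exact (key u h1 w h3 hu h4).trans (key v h2 w h3 hv fun e =>
      h4 ((Submodule.span_singleton_le_iff_mem _ _).2 h e)).symm
  · exact key u h1 v h2 hu h

end Cfsg.Agent.H65
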