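import Cfsg.Agent.H65.OrB
set_option autoImplicit false

/-! Traces in a module of an orthogonal group with one-dimensional weight spaces. -/

namespace Cfsg.Agent.H65

open Module QuadraticMap H11 H66 Finset

variable {F V : Type*} [Field F] [Fintype F] [DecidableEq F] [AddCommGroup V] [Module F V] [Fintype V] [DecidableEq V]
  {Q : QuadraticForm F V} {M : Type*} [AddCommGroup M] [Module ℂ M] [FiniteDimensional ℂ M]
  {ρ : EG Q →* End ℂ M} {ψ : AddChar F ℂ} {γ : F} {c r : ℕ}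

local notation "𝐟" => polar Q
local notation "𝐪" => (Fintype.card F : ℂ)
local notation "𝐑" => (Fintype.card F : ℂ) ^ r
local notation "𝐋" u => SW (Submodule.span F {u})
local notation "𝐏" => Pp Q
local notation "τ" => LinearMap.trace ℂ M

/-- all weights have norm `γ` and multiplicity one -/
structure MO (ρ : EG Q →* End ℂ M) (ψ : AddChar F ℂ) (γ : F) (c r : ℕ) : Prop where
  hQ : ND Q
  hN : finrank F V = r + 3
  hr : 4 ≤ r
  hψ : ψ ≠ 1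
  m : ∀ u w, Q u = 0 → u ≠ 0 → polar Q u w = 0 → w ∉ Submodule.span F {u} →
    finrank ℂ (OS ρ ψ u w) = if Q w = γ then 1 else 0
  c : ∀ u, Q u = 0 → u ≠ 0 → finrank ℂ (OS ρ ψ u 0) = c
  good : OGood Q γ

theorem cnt_ts (hQ : ND Q) {T : Submodule F V} (hT : ∀ t ∈ T, Q t = 0) (γ : F) :
    (#{x ∈ SW (𝐏 T) \ SW T | Q x = γ} : ℂ) * 𝐪 = #{x | Q x = γ} * 𝐪 - 𝐪 ^ finrank F V +
      𝐪 ^ (finrank F V - finrank F T) - if γ = 0 then 𝐪 ^ (finrank F T + 1) else 0 := by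
  have h1 := cnt_perp hQ (A := ⊥) hT (fun _ _ => by simp [mem_Pp]) γ
  rw [bot_sup_eq, finrank_bot, Nat.sub_zero, show SW (𝐏 ⊥) = univ by ext; simp [mem_Pp]] at h1
  have h2 : SW T ⊆ SW (𝐏 T) := fun x hx => mem_SW.2 (le_perp hT (mem_SW.1 hx))
  have h3 : (#{x ∈ SW T | Q x = γ} : ℂ) * 𝐪 = if γ = 0 then 𝐪 ^ (finrank F T + 1) else 0 := by
    split_ifs with h
    · rw [filter_true_of_mem fun x hx => h ▸ hT x (mem_SW.1 hx), card_SW, pow_succ, Nat.cast_pow]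
    · rw [filter_false_of_mem fun x hx (e : Q x = γ) => h (e ▸ hT x (mem_SW.1 hx))]; simp
  have h4 : #{x | Q x = γ} = #{x ∈ univ \ SW (𝐏 T) | Q x = γ} + (#{x ∈ SW (𝐏 T) \ SW T | Q x = γ} +
      #{x ∈ SW T | Q x = γ}) := by
    simp only [card_filter]
    rw [sum_sdiff h2, sum_sdiff (subset_univ _)]
  rw [h4]
  push_cast
  linear_combination -h1 - h3

omit [DecidableEq F] [DecidableEq V] [FiniteDimensional ℂ M] in
theorem pO_kill (hQ : ND Q) (hψ : ψ ≠ 1) {u w y : V} (hu : Q u = 0) (h0 : u ≠ 0) (hy : 𝐟 u y = 0) {x : M} {a : F}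
    (hx : ∀ t : F, ρ (Ei Q u (t • y)) x = ψ (t * a) • x) (ha : 𝐟 w y ≠ a) : pO ρ ψ u w x = 0 := by
  refine by_contra fun h => ha (eq_of_char hψ fun t => smul_left_injective ℂ h ?_)
  have : pO ρ ψ u w * ρ (Ei Q u (t • y)) = ψ (t * 𝐟 w y) • pO ρ ψ u w := ext_OS (ρ := ρ) hQ hψ hu h0 fun w' x hx => by
    rw [End.mul_apply, mem_OS.1 hx _ (by simp [hy]), map_smul, LinearMap.smul_apply]
    by_cases h : w' - w ∈ Submodule.span F {u}
    · obtain ⟨b, hb⟩ := Submodule.mem_span_singleton.1 h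
      simp [sub_eq_iff_eq_add.1 hb.symm, hy]
    · simp [pO_zero hQ hψ hx h]
  simpa [hx] using (LinearMap.congr_fun this x).symm

omit [DecidableEq F] [DecidableEq V] [Fintype F] [FiniteDimensional ℂ M] in
theorem tr_move (hQ : ND Q) (hψ : ψ ≠ 1) {g : EG Q} {u w : V} (hu : Q u = 0) (h1 : ap g.1 u = u)
    (h2 : ap g.1 w - w ∉ Submodule.span F {u}) : τ (ρ g * pO ρ ψ u w) = 0 := by
  rw [show pO ρ ψ u w = pO ρ ψ u w * pO ρ ψ u w from LinearMap.ext fun x => (pO_id hu (pO_mem hu _ _)).symm,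
    ← mul_assoc, LinearMap.trace_mul_comm, show pO ρ ψ u w * (ρ g * pO ρ ψ u w) = 0 from
      LinearMap.ext fun x => pO_zero hQ hψ (show ρ g _ ∈ _ by simpa only [h1] using map_OS g hu (pO_mem hu w x)) h2, map_zero]

/-- the projection onto the commutator space of a root subgroup -/
noncomputable def nO (ρ : EG Q →* End ℂ M) (ψ : AddChar F ℂ) (v : V) (W : Submodule F V) : End ℂ M :=
  ∑ w ∈ univ \ SW (𝐏 W), pO ρ ψ v w

section
omit [DecidableEq V]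

omit [Fintype F] in
theorem MO.p0 (h : MO ρ ψ γ c r) {u w : V} (hu : Q u = 0) (h0 : u ≠ 0) (hw : w ∉ Submodule.span F {u})
    (h1 : ¬(𝐟 u w = 0 ∧ Q w = γ)) : pO ρ ψ u w = 0 := by
  have : OS ρ ψ u w = ⊥ := by
    by_cases h2 : 𝐟 u w = 0
    · exact Submodule.finrank_eq_zero.1 ((h.m u w hu h0 h2 hw).trans (if_neg fun e => h1 ⟨h2, e⟩))
    · exact OS_eq_bot h.hψ hu (by rwa [polar_comm])
  exact LinearMap.ext fun x => (Submodule.mem_bot ℂ).1 (this ▸ pO_mem hu w x)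

omit [Fintype F] in
theorem MO.tr (h : MO ρ ψ γ c r) {u w : V} (hu : Q u = 0) (h0 : u ≠ 0) (hw : w ∉ Submodule.span F {u}) :
    τ (pO ρ ψ u w) = if 𝐟 u w = 0 ∧ Q w = γ then 1 else 0 := by
  split_ifs with h1
  · rw [trace_pO hu, h.m u w hu h0 h1.1 hw, if_pos h1.2, Nat.cast_one]
  · rw [h.p0 hu h0 hw h1, map_zero]

theorem MO.fix (h : MO ρ ψ γ c r) {u w y z : V} (hu : Q u = 0) (h0 : u ≠ 0) (hw : w ∉ Submodule.span F {u})
    (hy : Q y = 0) (h1 : 𝐟 y u = 0) (h2 : 𝐟 y w = 0) (h3 : 𝐟 u z = 0) (h4 : 𝐟 w z = 0) (h5 : 𝐟 y z = 0) :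
    ρ (Ei Q y z) * pO ρ ψ u w = pO ρ ψ u w := by
  by_cases h6 : 𝐟 u w = 0 ∧ Q w = γ
  · exact LinearMap.ext fun x => fix_OS h.hQ (by have := h.hN; have := h.hr; omega) (h6.2 ▸ h.good) hu hy h6.1 h1 h2
      ((h.m u w hu h0 h6.1 hw).trans (if_pos h6.2)) h3 h4 h5 _ (pO_mem hu w x)
  · rw [h.p0 hu h0 hw h6, mul_zero]

end

variable {W : Submodule F V}

omit [FiniteDimensional ℂ M] in
theorem MO.nO_eq (h : MO ρ ψ γ c r) (hW : finrank F W = 2) (hs : ∀ x ∈ W, Q x = 0) {v : V} (hv : v ∈ W) (h0 : v ≠ 0) :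
    𝐪 • nO ρ ψ v W = 𝐪 ^ 2 • 1 - ∑ y ∈ SW W, ρ (Ei Q v y) := by
  have h1 := sum_pO (ρ := ρ) h.hQ h.hψ (le_perp hs hv) h0
  rw [card_perp h.hQ, h.hN, hW, show SW (𝐏 (𝐏 W)) = SW W from Finset.ext fun x => by
    simp only [mem_SW]
    exact ⟨fun e => H28.mem_of_perp_perp h.hQ.nondegenerate W fun y hy => (polar_comm Q x y).trans (e y hy),
      fun e y hy => (polar_comm Q y x).trans (hy x e)⟩,
    show r + 3 - 1 = r + 1 + 1 from rfl, show r + 3 - 2 = r + 1 from rfl, pow_succ _ (r + 1), mul_smul] at h1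
  rw [← smul_right_injective _ (pow_ne_zero _ (Nat.cast_ne_zero.2 Fintype.card_ne_zero)) h1, nO, sum_sdiff_eq_sub
    (subset_univ _), sum_pO_top h.hQ h.hψ (hs v hv) h0, smul_sub, smul_smul, pow_two]

omit [FiniteDimensional ℂ M] in
theorem MO.nO_congr (h : MO ρ ψ γ c r) (hW : finrank F W = 2) (hs : ∀ x ∈ W, Q x = 0) {u v : V} (hu : u ∈ W) (hv : v ∈ W)
    (h0 : u ≠ 0) (h1 : v ≠ 0) : nO ρ ψ u W = nO ρ ψ v W :=
  smul_right_injective _ (Nat.cast_ne_zero.2 (Fintype.card_ne_zero (α := F)) : (𝐪) ≠ 0) (by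
    simp only [h.nO_eq hW hs hu h0, h.nO_eq hW hs hv h1, sum_Ei_line hW hs hu hv h0 h1])

theorem MO.tr_nO (h : MO ρ ψ γ c r) (hW : finrank F W = 2) (hs : ∀ x ∈ W, Q x = 0) {v : V} (hv : v ∈ W) (h0 : v ≠ 0) :
    τ (nO ρ ψ v W) = (𝐪 - 1) * 𝐑 := by
  have h2 := (Submodule.span_singleton_le_iff_mem _ _).2 hv
  have h1 := cnt_perp h.hQ (A := Submodule.span F {v}) hs (fun x hx y hy => tsp hs (h2 hy) hx) γ
  rw [sup_eq_right.2 h2, finrank_span_singleton h0, h.hN, hW, show r + 3 - 1 = r + 2 from rfl,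
    show r + 3 - 2 = r + 1 from rfl] at h1
  rw [nO, map_sum, sum_congr rfl fun w hw => h.tr (hs v hv) h0 fun e => (mem_sdiff.1 hw).2 (mem_SW.2 (le_perp hs (h2 e))),
    sum_boole, show {w ∈ univ \ SW (𝐏 W) | 𝐟 v w = 0 ∧ Q w = γ} =
      {x ∈ SW (𝐏 (Submodule.span F {v})) \ SW (𝐏 W) | Q x = γ} by ext; simp [mem_Pp_span, and_assoc, and_left_comm]]
  exact mul_right_cancel₀ (Nat.cast_ne_zero.2 (Fintype.card_ne_zero (α := F))) (by linear_combination h1)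

theorem MO.tb (h : MO ρ ψ γ c r) (hW : finrank F W = 2) (hs : ∀ x ∈ W, Q x = 0) {v u : V} (hv : v ∈ W) (h0 : v ≠ 0)
    (hu : Q u = 0) (h1 : u ∈ 𝐏 W) (h2 : u ∉ W) : 𝐪 ^ 2 * τ (nO ρ ψ v W * pO ρ ψ u 0) = (𝐪 - 1) * 𝐑 := by
  have u0 : u ≠ 0 := fun e => h2 (e ▸ W.zero_mem)
  have h3 := sumO_split (ρ := ρ) h.hQ h.hψ u0 (subset_univ _) fun f => τ (𝐪 • nO ρ ψ v W * f)
  have h4 := cnt_perp h.hQ (A := Submodule.span F {u}) hs
    (fun x hx => mem_Pp_span.2 (by simpa using pp' h1 hx)) γ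
  have h5 : finrank F (Submodule.span F {u} ⊔ W : Submodule F V) = 3 := by
    have := Submodule.finrank_sup_add_finrank_inf_eq (Submodule.span F {u}) W
    rw [((Submodule.disjoint_span_singleton' u0).2 h2).symm.eq_bot, finrank_bot, finrank_span_singleton u0] at this
    omega
  rw [h5, finrank_span_singleton u0, h.hN, show r + 3 - 1 = r + 2 from rfl, Nat.add_sub_cancel] at h4
  have Lv : (𝐋 v) ⊆ SW W := fun x hx => mem_SW.2 ((Submodule.span_singleton_le_iff_mem _ _).2 hv (mem_SW.1 hx))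
  rw [← map_sum, ← Finset.mul_sum, sum_pO_top h.hQ h.hψ hu u0, sum_congr rfl (g := fun w => (𝐪 ^ 2 - 𝐪) *
    if w ∈ SW (𝐏 (Submodule.span F {u})) \ SW (𝐏 W) ∧ Q w = γ then 1 else 0) fun w hw => ?_, ← Finset.mul_sum,
    sum_boole, show {w ∈ univ \ 𝐋 u | w ∈ SW (𝐏 (Submodule.span F {u})) \ SW (𝐏 W) ∧ Q w = γ} =
      {x ∈ SW (𝐏 (Submodule.span F {u})) \ SW (𝐏 W) | Q x = γ} from Finset.ext fun x => by
        simpa using fun _ e _ e' => e ((Submodule.span_singleton_le_iff_mem _ _).2 h1 e')] at h3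
  · simp only [smul_mul_assoc, mul_smul_comm, map_smul, smul_eq_mul, mul_one, h.tr_nO hW hs hv h0] at h3
    linear_combination -h3 - (𝐪 - 1) * h4
  have hw := mem_SW.not.1 (mem_sdiff.1 hw).2
  rw [h.nO_eq hW hs hv h0, sub_mul, Finset.sum_mul, map_sub, map_sum, smul_mul_assoc, one_mul, map_smul, smul_eq_mul]
  classical
  simp only [mem_sdiff, mem_SW, mem_Pp_span, Set.mem_singleton_iff, forall_eq]
  by_cases h6 : 𝐟 u w = 0 ∧ Q w = γ
  swap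
  · simp [h.p0 hu u0 hw h6, show ¬ ((𝐟 u w = 0 ∧ w ∉ 𝐏 W) ∧ Q w = γ) from fun e => h6 ⟨e.1.1, e.2⟩]
  by_cases h7 : w ∈ 𝐏 W
  · rw [sum_congr rfl fun y hy => by
      rw [h.fix hu u0 hw (hs v hv) (pp h1 hv) (pp h7 hv) (pp' h1 (mem_SW.1 hy))
        (pp' h7 (mem_SW.1 hy)) (tsp hs hv (mem_SW.1 hy))]]
    simp [card_SW, hW, h7]
  · rw [← sum_sdiff Lv, sum_eq_zero fun y hy => tr_move h.hQ h.hψ hu (ap_Ei_fix (hs v hv)
      (tsp hs hv (mem_SW.1 (mem_sdiff.1 hy).1)) (pp h1 hv)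
      (pp' h1 (mem_SW.1 (mem_sdiff.1 hy).1))) fun e => h7 ?_,
      sum_congr rfl (g := fun _ => τ (pO ρ ψ u w)) fun y hy => by
        obtain ⟨a, rfl⟩ := Submodule.mem_span_singleton.1 (mem_SW.1 hy)
        rw [Ei_self (hs v hv), map_one, one_mul], sum_const, nsmul_eq_mul, card_Ln h0, h.tr hu u0 hw]
    · simp [h6, h7]
    have y1 := mem_SW.1 (mem_sdiff.1 hy).1
    have y2 := mem_SW.not.1 (mem_sdiff.1 hy).2
    rw [ap_Ei (hs v hv) (tsp hs hv y1), hs y y1] at e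
    have := (Submodule.disjoint_def.1 ((Submodule.disjoint_span_singleton' u0).2 h2)) (𝐟 w v • y + -𝐟 w y • v)
      (add_mem (W.smul_mem _ y1) (W.smul_mem _ hv)) (by convert e using 1; module)
    have := LinearIndependent.pair_iff.1 (indep_of_notMem h0 y2) _ _ ((add_comm _ _).trans this)
    rw [eq_span_pair hW h0 y2 hv y1, mem_Pp_span]
    simpa [polar_comm Q _ w, and_comm] using this

theorem MO.beta (h : MO ρ ψ γ c r) (hW : finrank F W = 2) (hs : ∀ x ∈ W, Q x = 0) {v u w : V} (hv : v ∈ W) (h0 : v ≠ 0)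
    (hu : u ∈ W) (h1 : u ∉ Submodule.span F {v}) (h2 : w ∈ 𝐏 W) (h3 : w ∉ W) (h4 : Q w = γ) :
    𝐪 * τ (pO ρ ψ u 0 * pO ρ ψ v w) = 1 := by
  have u0 : u ≠ 0 := fun e => h1 (e ▸ zero_mem _)
  have hw : w ∉ Submodule.span F {v} := fun e => h3 ((Submodule.span_singleton_le_iff_mem _ _).2 hv e)
  have h5 := congrArg (fun f => τ (f * pO ρ ψ v w)) (sum_pO (ρ := ρ) h.hQ h.hψ hu u0)
  obtain ⟨z, z1, z2⟩ := H28.exists_polar_orth h.hQ.nondegenerate W h3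
  have h6 := congrArg (Nat.cast (R := ℂ)) (card_fibre (T := 𝐏 W) (S := SW (𝐏 W)) (g := 𝐟 w)
    (fun x hx t ht => mem_SW.2 (add_mem (mem_SW.1 hx) ht))
    (fun x _ => ⟨polarBilin Q w, ⟨z, z2, by simp [z1]⟩, fun t _ => polar_add_right _ _ _ _⟩) 0)
  simp only [smul_mul_assoc, Finset.sum_mul, map_smul, map_sum, smul_eq_mul] at h5
  rw [sumO_split h.hQ h.hψ u0 (fun x hx => mem_SW.2 ((Submodule.span_singleton_le_iff_mem _ _).2 hu (mem_SW.1 hx)))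
    fun f => τ (f * pO ρ ψ v w), sum_eq_zero fun w' hw' => ?_, sum_congr rfl (g := fun y => if 𝐟 w y = 0 then 1 else 0)
    fun y hy => ?_, sum_boole, card_SW, hW, h.hN, show r + 3 - 1 = r + 2 from rfl] at h5
  · rw [Nat.cast_mul, card_perp h.hQ, hW, h.hN, show r + 3 - 2 = r + 1 from rfl] at h6
    refine mul_left_cancel₀ (pow_ne_zero (r + 2) (Nat.cast_ne_zero.2 (Fintype.card_ne_zero (α := F)))) ?_
    push_cast at h5
    linear_combination h5 + 𝐪 * h6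
  · have hy := mem_SW.1 hy
    split_ifs with h7
    · rw [h.fix (hs v hv) h0 hw (hs u hu) (tsp hs hu hv) (pp h2 hu) (pp hy hv) h7 (pp hy hu), h.tr (hs v hv) h0 hw,
        if_pos ⟨pp h2 hv, h4⟩]
    · refine tr_move h.hQ h.hψ (hs v hv) (ap_Ei_fix (hs u hu) (pp hy hu) (tsp hs hu hv) (pp hy hv)) fun e => h1 ?_
      rwa [ap_Ei_of_perp (hs u hu) (pp hy hu) (pp h2 hu), sub_sub_cancel_left, neg_mem_iff,
        Submodule.smul_mem_iff _ h7] at e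
  · have w1 := mem_SW.1 (mem_sdiff.1 hw').1
    rw [LinearMap.trace_mul_comm, show pO ρ ψ v w * pO ρ ψ u w' = 0 from LinearMap.ext fun x =>
      pO_kill h.hQ h.hψ (hs v hv) h0 (z2 v hv) (a := 0) (fun t => by
        rw [← End.mul_apply, h.fix (hs u hu) u0 (mem_SW.not.1 (mem_sdiff.1 hw').2) (hs v hv) (tsp hs hv hu)
          (tsp hs hv w1) (by simp [z2 u hu]) (by simp [z2 w' w1]) (by simp [z2 v hv])]
        simp) (by simp [z1]), map_zero]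

/-- the local term -/
noncomputable def zO (ρ : EG Q →* End ℂ M) (ψ : AddChar F ℂ) (u v : V) : ℂ :=
  ∑ w ∈ SW (Submodule.span F {v, u}) \ 𝐋 v, τ (pO ρ ψ u 0 * pO ρ ψ v w)

theorem MO.tc (h : MO ρ ψ γ c r) (hW : finrank F W = 2) (hs : ∀ x ∈ W, Q x = 0) {u : V} (hu : Q u = 0) (h1 : u ∉ 𝐏 W) :
    ∃ v ∈ W, v ≠ 0 ∧ 𝐟 v u = 0 ∧ u ∉ Submodule.span F {v} ∧ 𝐪 ^ 2 * τ (pO ρ ψ u 0 * nO ρ ψ v W) =
      (𝐪 - 1) * #{x ∈ SW (𝐏 (Submodule.span F {v, u})) \ SW (Submodule.span F {v, u}) | Q x = γ} + 𝐪 ^ 2 * zO ρ ψ u v := by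
  obtain ⟨v', v1, v2⟩ : ∃ v' ∈ W, 𝐟 v' u ≠ 0 := by simpa [mem_Pp] using h1
  obtain ⟨v, v3, v4, v5⟩ : ∃ v ∈ W, v ≠ 0 ∧ 𝐟 v u = 0 := by
    obtain ⟨w, h3, h4⟩ := SetLike.not_le_iff_exists.1 fun e : W ≤ Submodule.span F {v'} => by
      have := (Submodule.finrank_mono e).trans (finrank_span_le_card _)
      simp at this
      omega
    exact ⟨w - (𝐟 w u / 𝐟 v' u) • v', sub_mem h3 (W.smul_mem _ v1), fun e => h4 (Submodule.mem_span_singleton.2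
      ⟨_, (sub_eq_zero.1 e).symm⟩), by simp [v2]⟩
  have v6 := tsp hs v1 v3
  have h2 : u ∉ Submodule.span F {v} := fun e => by
    obtain ⟨a, rfl⟩ := Submodule.mem_span_singleton.1 e
    simp [v6] at v2
  have h3 : v' ∉ Submodule.span F {v} := fun e => by
    obtain ⟨a, rfl⟩ := Submodule.mem_span_singleton.1 e
    simp [v5] at v2
  refine ⟨v, v3, v4, v5, h2, ?_⟩
  set P := Submodule.span F {v, u}
  have vP : v ∈ P := Submodule.subset_span (.inl rfl)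
  have uP : u ∈ P := Submodule.subset_span (.inr rfl)
  have hP : ∀ x ∈ P, Q x = 0 := fun x hx => by
    obtain ⟨a, b, rfl⟩ := Submodule.mem_span_pair.1 hx
    qsimp
    simp [hu, hs v v3, v5]
  have mW : ∀ x, x ∈ 𝐏 W ↔ 𝐟 v x = 0 ∧ 𝐟 v' x = 0 := fun x => by
    rw [eq_span_pair hW v4 h3 v3 v1, mem_Pp_span]; simp
  have mP : ∀ x, x ∈ 𝐏 P ↔ 𝐟 v x = 0 ∧ 𝐟 u x = 0 := fun x => by rw [mem_Pp_span]; simp
  set S := {x ∈ SW (𝐏 P) \ SW P | Q x = γ}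
  have mS : ∀ x, x ∈ S ↔ (x ∈ 𝐏 P ∧ x ∉ P) ∧ Q x = γ := fun x => by simp [S]
  have h4 := congrArg (Nat.cast (R := ℂ)) (card_fibre (T := Submodule.span F {u}) (S := S) (g := 𝐟 v') (fun x hx t ht => by
    have ht := (Submodule.span_singleton_le_iff_mem _ _).2 uP ht
    rw [mS] at hx ⊢
    exact ⟨⟨add_mem hx.1.1 (le_perp hP ht), fun e => hx.1.2 ((P.add_mem_iff_left ht).1 e)⟩,
      by rw [Q_add, hx.2, hP t ht, pp' hx.1.1 ht, add_zero, add_zero]⟩)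
    (fun x _ => ⟨polarBilin Q v', ⟨u, Submodule.mem_span_singleton_self u, v2⟩, fun t _ => polar_add_right _ _ _ _⟩) 0)
  have h5 := congrArg (Nat.cast (R := ℂ)) (card_filter_add_card_filter_not (s := S) fun x => 𝐟 v' x = 0)
  have h6 : SW P \ (𝐋 v) ⊆ univ \ SW (𝐏 W) := fun x hx => by
    simp only [mem_sdiff, mem_SW, mem_univ, true_and, mW] at hx ⊢
    obtain ⟨a, b, rfl⟩ := Submodule.mem_span_pair.1 hx.1
    refine fun e => hx.2 (Submodule.mem_span_singleton.2 ⟨a, ?_⟩)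
    simp [show b = 0 by simpa [v6, v2] using e.2]
  have h7 := sum_congr rfl fun x (hx : x ∈ {x ∈ S | ¬ 𝐟 v' x = 0}) => h.beta (finrank_pair v4 h2) hP vP v4 uP h2
    ((mS x).1 (mem_filter.1 hx).1).1.1 ((mS x).1 (mem_filter.1 hx).1).1.2 ((mS x).1 (mem_filter.1 hx).1).2
  rw [← Finset.mul_sum, sum_const, nsmul_eq_mul] at h7
  rw [nO, Finset.mul_sum, map_sum, ← sum_sdiff h6, ← zO, ← sum_subset (s₁ := {x ∈ S | ¬ 𝐟 v' x = 0}) (fun x hx => by
    simp only [mem_filter, mS, mem_sdiff, mem_SW, mem_univ, true_and, mW] at hx ⊢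
    exact ⟨fun e => hx.2 e.2, fun e => hx.1.1.2 e.1⟩) fun x x1 x2 => ?_]
  · push_cast at h4 h5
    linear_combination 𝐪 * h7 + 𝐪 * h5 - h4
  simp only [mem_filter, mS, mem_sdiff, mem_SW, mem_univ, true_and, mW, mP] at x1 x2
  have x3 : x ∉ Submodule.span F {v} := fun e => by
    obtain ⟨a, rfl⟩ := Submodule.mem_span_singleton.1 e
    exact x1.1 ⟨by simp [tsp hs v3 v3], by simp [v6]⟩
  by_cases h8 : 𝐟 v x = 0 ∧ Q x = γ
  · rw [show pO ρ ψ u 0 * pO ρ ψ v x = 0 from LinearMap.ext fun y => pO_kill h.hQ h.hψ hu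
      (fun e => h2 (e ▸ zero_mem _)) ((polar_comm Q u v).trans v5) (a := -𝐟 x u) (fun t => by
        rw [← Ei_smul hu ((polar_comm Q u v).trans v5), Ei_swap (hs v v3) (by simp [Q_smul, hu]) (by simp [v5]),
          ← Ei_neg (hs v v3) (by simp [v5]), mem_OS.1 (pO_mem (hs v v3) x y) _ (by simp [v5])]
        simp) (by
        simp only [polar_zero_left, ne_eq, zero_eq_neg, polar_comm Q x]
        tauto), map_zero]
  · rw [h.p0 (hs v v3) v4 x3 h8, mul_zero, map_zero]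

end Cfsg.Agent.H65
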