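import Cfsg.Agent.H65.OrC
set_option autoImplicit false

/-! The degree of a module of an orthogonal group with one-dimensional weight spaces. -/

namespace Cfsg.Agent.H65

open Module QuadraticMap H11 H66 Finset

variable {F V : Type*} [Field F] [Fintype F] [DecidableEq F] [AddCommGroup V] [Module F V] [Fintype V] [DecidableEq V]
  {Q : QuadraticForm F V} {M : Type*} [AddCommGroup M] [Module ℂ M] [FiniteDimensional ℂ M]
  {ρ : EG Q →* End ℂ M} {ψ : AddChar F ℂ} {γ : F} {c r : ℕ}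

local notation "𝐟" => polar Q
local notation "𝐪" => (Fintype.card F : ℂ)
local notation "𝐑" => (Fintype.card F : ℂ) ^ r
local notation "𝐋" u => SW (Submodule.span F {u})
local notation "𝐏" => Pp Q
local notation "τ" => LinearMap.trace ℂ M

omit [FiniteDimensional ℂ M] in
theorem MO.zO_const (h : MO ρ ψ γ c r) {u v u' v' : V} (hu : Q u = 0) (hv : Q v = 0) (h0 : v ≠ 0) (h1 : 𝐟 v u = 0)
    (h2 : u ∉ Submodule.span F {v}) (hu' : Q u' = 0) (hv' : Q v' = 0) (h0' : v' ≠ 0) (h1' : 𝐟 v' u' = 0)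
    (h2' : u' ∉ Submodule.span F {v'}) : zO ρ ψ u v = zO ρ ψ u' v' := by
  obtain ⟨g, rfl, rfl⟩ := trans_pair h.hQ (by have := h.hN; have := h.hr; omega) hv h0 hv' h0' h1 h1' h2 h2'
    (hu.trans hu'.symm)
  have key : ∀ (s : Set V) x, ap g.1 x ∈ Submodule.span F (ap g.1 '' s) ↔ x ∈ Submodule.span F s := fun s x =>
    Submodule.apply_mem_span_image_iff_mem_span (f := (g.1.1 : V →ₗ[F] V)) (ap_injective g.1)
  refine sum_equiv g.1.1.toEquiv (fun w => ?_) fun w _ => trace_conj ρ g ?_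
  · simp only [mem_sdiff, mem_SW, ← key {v, u}, ← key {v}, Set.image_pair, Set.image_singleton]
    rfl
  · rw [← mul_assoc, conj_pO h.hQ h.hψ g hu fun e => h2 (e ▸ zero_mem _), mul_assoc, conj_pO h.hQ h.hψ g hv h0, ap_zero,
      mul_assoc]
    rfl

omit [Fintype F] in
theorem MO.zO_zero (h : MO ρ ψ γ c r) (hγ : γ ≠ 0) {u v : V} (hu : Q u = 0) (hv : Q v = 0) (h0 : v ≠ 0) (h1 : 𝐟 v u = 0) :
    zO ρ ψ u v = 0 := sum_eq_zero fun w hw => by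
  rw [h.p0 hv h0 (mem_SW.not.1 (mem_sdiff.1 hw).2) fun e => hγ ?_, mul_zero, map_zero]
  obtain ⟨a, b, rfl⟩ := Submodule.mem_span_pair.1 (mem_SW.1 (mem_sdiff.1 hw).1)
  rw [← e.2]
  qsimp
  simp [hu, hv, h1]

theorem MO.zO_eq (h : MO ρ ψ 0 c r) {u v : V} (hv : Q v = 0) (hu : Q u = 0) (h0 : u ≠ 0) (h1 : 𝐟 u v = 0)
    (h2 : v ∉ Submodule.span F {u}) : ∃ d : ℕ, Fintype.card F - 1 ≤ d ∧ zO ρ ψ v u * d = (𝐪 ^ 2 - 1) * (d - 𝐪 + 1) := by
  have hψ := h.hψ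
  have hQ := h.hQ
  have h6 : 6 ≤ finrank F V := by have := h.hN; have := h.hr; omega
  set P := Submodule.span F {u, v} with hP'
  have hP : finrank F P = 2 := finrank_pair h0 h2
  have uP : u ∈ P := Submodule.subset_span (.inl rfl)
  have vP : v ∈ P := Submodule.subset_span (.inr rfl)
  have hs : ∀ x ∈ P, Q x = 0 := fun x hx => by
    obtain ⟨a, b, rfl⟩ := Submodule.mem_span_pair.1 hx
    qsimp
    simp [hu, hv, h1]
  have LP : ∀ y ∈ P, (𝐋 y) ⊆ SW P := fun y hy x hx =>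
    mem_SW.2 ((Submodule.span_singleton_le_iff_mem _ _).2 hy (mem_SW.1 hx))
  have cP : (#(SW P) : ℂ) = 𝐪 ^ 2 := by rw [card_SW, hP, Nat.cast_pow]
  have cP' : (#((SW P).erase 0) : ℂ) = 𝐪 ^ 2 - 1 := by rw [cast_card_erase_of_mem (mem_SW.2 (zero_mem _)), cP]
  have hq : (𝐪) ≠ 0 := Nat.cast_ne_zero.2 Fintype.card_ne_zero
  have hq1 : (𝐪) - 1 ≠ 0 := sub_ne_zero.2 (by exact_mod_cast (Fintype.one_lt_card (α := F)).ne')
  have hm : ∀ y ∈ P, y ≠ 0 → ∀ w ∈ P, w ∉ Submodule.span F {y} → finrank ℂ (OS ρ ψ y w) = 1 := fun y y1 y2 w w1 w2 =>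
    (h.m y w (hs y y1) y2 (tsp hs y1 w1) w2).trans (if_pos (hs w w1))
  have hE : ∀ g : EG Q, ap g.1 u ∈ P → ap g.1 v ∈ P →
      ρ g * eO ρ ψ ((SW P).erase 0) = eO ρ ψ ((SW P).erase 0) * ρ g := fun g g1 g2 =>
    conj_eO hQ hψ g (fun y hy => ⟨hs y (mem_SW.1 (mem_of_mem_erase hy)), ne_of_mem_erase hy⟩) fun y hy =>
      mem_erase.2 ⟨ap_eq_zero.not.2 (ne_of_mem_erase hy), mem_SW.2 (by
        obtain ⟨a, b, rfl⟩ := Submodule.mem_span_pair.1 (mem_SW.1 (mem_of_mem_erase hy))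
        rw [ap_add, ap_smul, ap_smul]
        exact add_mem (P.smul_mem _ g1) (P.smul_mem _ g2))⟩
  obtain ⟨s', hs'⟩ : ∃ s' : ℂ, ∀ y ∈ P, y ≠ 0 → ∀ w ∈ P, w ∉ Submodule.span F {y} → ∀ x ∈ OS ρ ψ y w,
      eO ρ ψ ((SW P).erase 0) x = s' • x := by
    obtain ⟨⟨x, hx⟩, -, h4⟩ := finrank_eq_one_iff'.1 (hm u uP h0 v vP h2)
    obtain ⟨s', hs'⟩ := h4 ⟨eO ρ ψ ((SW P).erase 0) x, mem_OS.2 fun y hy => by
      rw [← End.mul_apply, hE _ (by rwa [ap_Ei_fix hu hy (tsp hs uP uP) hy]) (by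
        rw [ap_Ei_of_perp hu hy h1]; exact sub_mem vP (P.smul_mem _ uP)), End.mul_apply, mem_OS.1 hx y hy, map_smul]⟩
    refine ⟨s', fun y y1 y2 w w1 w2 z hz => ?_⟩
    obtain ⟨g, g1, g2⟩ := trans_pair hQ h6 hu h0 (hs y y1) y2 h1 (tsp hs y1 w1) h2 w2 (hv.trans (hs w w1).symm)
    have h5 := map_OS g⁻¹ (hs y y1) hz
    rw [← g1, ← g2, Subgroup.coe_inv, ap_inv_ap, ap_inv_ap] at h5
    obtain ⟨a, ha⟩ := h4 ⟨_, h5⟩
    rw [show z = ρ g (ρ g⁻¹ z) by rw [← End.mul_apply, ← map_mul, mul_inv_cancel, map_one, End.one_apply],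
      ← End.mul_apply, ← hE g (g1 ▸ y1) (g2 ▸ w1), End.mul_apply, ← show a • x = ρ g⁻¹ z from congrArg Subtype.val ha,
      map_smul, ← show s' • x = eO ρ ψ ((SW P).erase 0) x from congrArg Subtype.val hs', smul_comm, map_smul]
  have e4 := sum_sdiff_cst (LP u uP) (f := fun y => ∑ w ∈ SW P \ 𝐋 u, τ (pO ρ ψ y 0 * pO ρ ψ u w))
    (a := zO ρ ψ v u) fun y y1 y2 => by
    rw [← h.zO_const (hs y (mem_SW.1 y1)) hu h0 (tsp hs uP (mem_SW.1 y1)) (mem_SW.not.1 y2) hv hu h0 h1 h2, zO,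
      ← eq_span_pair hP h0 (mem_SW.not.1 y2) uP (mem_SW.1 y1)]
  rw [sum_comm, sum_sdiff_cst (LP u uP) (a := s') fun w w1 w2 => by
      rw [sum_subset (s₂ := (SW P).erase 0) (fun y hy => mem_erase.2 ⟨fun e => (mem_sdiff.1 hy).2
        (e ▸ mem_SW.2 (zero_mem _)), (mem_sdiff.1 hy).1⟩) fun y y1 y2 => by
          obtain ⟨a, rfl⟩ := Submodule.mem_span_singleton.1 (show y ∈ Submodule.span F {u} by simp_all)
          have := OS_smul (ρ := ρ) (ψ := ψ) (left_ne_zero_of_smul (ne_of_mem_erase y1)) hu 0 0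
          rw [smul_zero, zero_smul, add_zero] at this
          rw [LinearMap.trace_mul_comm, show pO ρ ψ u w * pO ρ ψ (a • u) 0 = 0 from LinearMap.ext fun x => pO_zero hQ hψ
            (this ▸ pO_mem (hs _ (P.smul_mem a uP)) 0 x) (by simpa using w2), map_zero],
        ← map_sum, ← Finset.sum_mul, ← eO, show eO ρ ψ ((SW P).erase 0) * pO ρ ψ u w = s' • pO ρ ψ u w from
        LinearMap.ext fun x => hs' u uP h0 w (mem_SW.1 w1) (mem_SW.not.1 w2) _ (pO_mem hu _ _), map_smul, trace_pO hu,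
        hm u uP h0 w (mem_SW.1 w1) (mem_SW.not.1 w2), Nat.cast_one, smul_eq_mul, mul_one], cP, card_Ln h0] at e4
  let U : Submodule ℂ M :=
    { carrier := {x | (∀ y ∈ P, ∀ z ∈ 𝐏 P, ρ (Ei Q y z) x = x) ∧ eO ρ ψ ((SW P).erase 0) x = s' • x}
      add_mem' := fun ha hb => ⟨fun y hy φ hφ => by rw [map_add, ha.1 y hy φ hφ, hb.1 y hy φ hφ],
        by rw [map_add, ha.2, hb.2, smul_add]⟩
      zero_mem' := by simp
      smul_mem' := fun a x ha => ⟨fun y hy φ hφ => by rw [map_smul, ha.1 y hy φ hφ], by rw [map_smul, ha.2, smul_comm]⟩ }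
  have hU : ∀ y ∈ P, y ≠ 0 → ∀ w ∈ P, w ∉ Submodule.span F {y} → OS ρ ψ y w ≤ U := fun y y1 y2 w w1 w2 x hx =>
    ⟨fun z z1 t ht => by
      rw [← pO_id (hs y y1) hx, ← End.mul_apply, h.fix (hs y y1) y2 w2 (hs z z1) (tsp hs z1 y1) (tsp hs z1 w1)
        (pp ht y1) (pp ht w1) (pp ht z1)], hs' y y1 y2 w w1 w2 x hx⟩
  have e5 := trace_of_range (f := ∑ y ∈ (SW P).erase 0, ∑ w ∈ SW P \ 𝐋 y, pO ρ ψ y w) (U := U)
    (c := 𝐪 * (𝐪 ^ 2 - 1) - 𝐪 * s') (fun x => by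
      simp only [LinearMap.sum_apply]
      exact sum_mem fun y hy => sum_mem fun w hw => hU y (mem_SW.1 (mem_of_mem_erase hy)) (ne_of_mem_erase hy) w
        (mem_SW.1 (mem_sdiff.1 hw).1) (mem_SW.not.1 (mem_sdiff.1 hw).2)
        (pO_mem (hs y (mem_SW.1 (mem_of_mem_erase hy))) _ _)) fun x hx => by
      have h3 : ∀ y ∈ (SW P).erase 0, (∑ w ∈ SW P \ 𝐋 y, pO ρ ψ y w) x = 𝐪 • x - 𝐪 • pO ρ ψ y 0 x := fun y hy => by
        have y1 := mem_SW.1 (mem_of_mem_erase hy)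
        have h4 := LinearMap.congr_fun (sum_pO (ρ := ρ) hQ hψ y1 (ne_of_mem_erase hy)) x
        rw [sumO_split hQ hψ (ne_of_mem_erase hy) (LP y y1) fun f => f, cP, LinearMap.smul_apply, LinearMap.smul_apply,
          LinearMap.sum_apply (SW (𝐏 P)), sum_congr rfl fun φ hφ => hx.1 y y1 φ (mem_SW.1 hφ), sum_const,
          ← Nat.cast_smul_eq_nsmul ℂ, card_perp hQ, smul_smul, ← pow_add, hP, show 2 + (finrank F V - 2)
            = finrank F V - 1 + 1 by omega, pow_succ, mul_smul] at h4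
        exact eq_sub_of_add_eq' (smul_right_injective M (pow_ne_zero _ hq) h4)
      rw [LinearMap.sum_apply, sum_congr rfl h3, sum_sub_distrib, ← Finset.smul_sum, ← Finset.smul_sum,
        ← LinearMap.sum_apply, ← eO, hx.2, sum_const, ← Nat.cast_smul_eq_nsmul ℂ, cP', sub_smul (𝐪 * _), mul_smul, mul_smul]
  rw [map_sum, sum_congr rfl (g := fun _ => 𝐪 ^ 2 - 𝐪) fun y hy => by
    have y1 := mem_SW.1 (mem_of_mem_erase hy)
    rw [map_sum, sum_sdiff_cst (LP y y1) (a := 1) fun w w1 hw => by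
      rw [trace_pO (hs y y1), hm y y1 (ne_of_mem_erase hy) w (mem_SW.1 w1) (mem_SW.not.1 hw), Nat.cast_one], cP,
      card_Ln (ne_of_mem_erase hy), mul_one], sum_const, nsmul_eq_mul, cP'] at e5
  refine ⟨finrank ℂ U, ?_, ?_⟩
  · have h3 : ∀ b : Fˣ, b.1 • v ∉ Submodule.span F {u} := fun b => by rwa [Submodule.smul_mem_iff _ b.ne_zero]
    choose x x1 x2 using fun b : Fˣ => (Submodule.ne_bot_iff _).1
      (Submodule.one_le_finrank_iff.1 (hm u uP h0 _ (P.smul_mem _ vP) (h3 b)).ge)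
    rw [← Fintype.card_units, ← Nat.card_eq_fintype_card]
    refine card_le_finrank_sub (tO_comm (ρ := ρ) hu) (γ := fun b : Fˣ => chO ψ Q u (b.1 • v)) (fun b b' e => ?_) x2 x1
      fun b => hU u uP h0 _ (P.smul_mem _ vP) (h3 b) (x1 b)
    have := (chO_eq_iff hQ hψ).1 (DFunLike.coe_injective e)
    rw [← sub_smul] at this
    exact Units.ext (sub_eq_zero.1 (by_contra fun e => h2 ((Submodule.smul_mem_iff _ e).1 this)))
  · rw [← mul_left_cancel₀ (mul_ne_zero hq hq1) (show 𝐪 * (𝐪 - 1) * s' = 𝐪 * (𝐪 - 1) * zO ρ ψ v u by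
      linear_combination e4)]
    exact mul_left_cancel₀ hq (by linear_combination e5)

theorem cnt_G (hQ : ND Q) (hN : finrank F V = r + 3) {u : V} (hu : Q u = 0) (h0 : u ≠ 0) (γ : F) :
    (#{x ∈ SW (𝐏 (Submodule.span F {u})) \ 𝐋 u | Q x = γ} : ℂ) =
      #{x | Q x = γ} - (𝐪 - 1) * (𝐪 * 𝐑) - if γ = 0 then 𝐪 else 0 := by
  have := cnt_ts hQ (T := Submodule.span F {u}) (fun t ht => by
    obtain ⟨a, rfl⟩ := Submodule.mem_span_singleton.1 ht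
    simp [Q_smul, hu]) γ
  rw [finrank_span_singleton h0, hN, show r + 3 - 1 = r + 2 from rfl] at this
  refine mul_right_cancel₀ (Nat.cast_ne_zero.2 (Fintype.card_ne_zero (α := F))) ?_
  split_ifs at this ⊢ <;> linear_combination this

theorem MO.main (h : MO ρ ψ γ c r) (hS : ∀ f : End ℂ M, (∀ g, f * ρ g = ρ g * f) → ∃ s : ℂ, f = s • 1) :
    ∃ u v, Q u = 0 ∧ Q v = 0 ∧ v ≠ 0 ∧ 𝐟 v u = 0 ∧ u ∉ Submodule.span F {v} ∧
      𝐪 * finrank ℂ M * ((𝐪 ^ 2 - 1) * (#{x | Q x = 0} - #{x | Q x = γ} + 𝐪 ^ 2 * 𝐑 + if γ = 0 then 𝐪 ^ 2 else 0) -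
        𝐪 ^ 2 * (𝐪 + 1) * zO ρ ψ u v) = 𝐪 ^ 2 * (#{x | Q x = 0} - 1) *
        (#{x | Q x = γ} - (𝐪 - 1) * (𝐪 * 𝐑) - if γ = 0 then 𝐪 else 0) := by
  have hψ := h.hψ
  have hQ := h.hQ
  have hN := h.hN
  have hr := h.hr
  obtain ⟨v, hv, h0⟩ := exists_sing Q (by omega)
  obtain ⟨u, t, hu, -, t1, h1, t2⟩ := exists_hyp_perp hQ {v} (by simp; omega)
  replace h1 := h1 v (mem_singleton_self v)
  have h2 : u ∉ Submodule.span F {v} := fun e => by
    obtain ⟨a, rfl⟩ := Submodule.mem_span_singleton.1 e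
    simp [t2 v (mem_singleton_self v)] at t1
  refine ⟨u, v, hu, hv, h0, h1, h2, ?_⟩
  have ts : ∀ u v, Q u = 0 → Q v = 0 → 𝐟 v u = 0 → ∀ x ∈ Submodule.span F {v, u}, Q x = 0 := fun u v hu hv h1 x hx => by
    obtain ⟨a, b, rfl⟩ := Submodule.mem_span_pair.1 hx
    qsimp
    simp [hu, hv, h1]
  have hs := ts u v hu hv h1
  have hW := finrank_pair h0 h2
  set W := Submodule.span F {v, u}
  have vW : v ∈ W := Submodule.subset_span (.inl rfl)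
  have hq : (𝐪) ≠ 0 := Nat.cast_ne_zero.2 Fintype.card_ne_zero
  have hq1 : (𝐪) - 1 ≠ 0 := sub_ne_zero.2 (by exact_mod_cast (Fintype.one_lt_card (α := F)).ne')
  have e1 := sumO_split (ρ := ρ) hQ hψ h0 (subset_univ _) τ
  rw [← map_sum, sum_pO_top hQ hψ hv h0, map_smul, LinearMap.trace_one, sum_congr rfl fun w hw =>
    h.tr hv h0 (mem_SW.not.1 (mem_sdiff.1 hw).2), sum_boole, show {w ∈ univ \ 𝐋 v | 𝐟 v w = 0 ∧ Q w = γ} =
      {x ∈ SW (𝐏 (Submodule.span F {v})) \ 𝐋 v | Q x = γ} by ext; simp [mem_Pp_span, and_assoc, and_left_comm],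
    cnt_G hQ hN hv h0, trace_pO hv, h.c v hv h0, smul_eq_mul, smul_eq_mul] at e1
  obtain ⟨s, hs'⟩ := hS (eO ρ ψ (({x | Q x = 0} : Finset V).erase 0)) fun g => (conj_eO hQ hψ g (by simp +contextual)
    (by simp +contextual [ap_eq_zero])).symm
  have e2 := congrArg τ hs'
  rw [eO, map_sum, sum_congr rfl fun y hy => by
    rw [trace_pO (mem_filter.1 (mem_of_mem_erase hy)).2, h.c _ (mem_filter.1 (mem_of_mem_erase hy)).2 (ne_of_mem_erase hy)],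
    sum_const, nsmul_eq_mul, cast_card_erase_of_mem (by simp), map_smul, LinearMap.trace_one, smul_eq_mul] at e2
  have e3 := congrArg (fun f => 𝐪 ^ 2 * τ (f * nO ρ ψ v W)) hs'
  simp only [eO, Finset.sum_mul, map_sum, Finset.mul_sum, smul_mul_assoc, one_mul, map_smul, h.tr_nO hW hs vW h0,
    smul_eq_mul] at e3
  have hC : ∀ u v, Q u = 0 → Q v = 0 → v ≠ 0 → 𝐟 v u = 0 → u ∉ Submodule.span F {v} → ∀ γ,
      (#{x ∈ SW (𝐏 (Submodule.span F {v, u})) \ SW (Submodule.span F {v, u}) | Q x = γ} : ℂ) =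
      #{x | Q x = γ} - (𝐪 ^ 2 - 1) * 𝐑 - if γ = 0 then 𝐪 ^ 2 else 0 := fun u v a b c d e γ => by
    have := cnt_ts hQ (ts u v a b d) γ
    rw [finrank_pair c e, hN, show r + 3 - 2 = r + 1 from rfl] at this
    refine mul_right_cancel₀ hq ?_
    split_ifs at this ⊢ <;> linear_combination this
  have e4 := cnt_perp hQ (A := ⊥) hs (fun _ _ => by simp [mem_Pp]) 0
  rw [bot_sup_eq, finrank_bot, Nat.sub_zero, show SW (𝐏 ⊥) = univ by ext; simp [mem_Pp], hW, hN,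
    show r + 3 - 2 = r + 1 from rfl] at e4
  rw [← filter_ne', filter_filter, sum_filter, ← sum_sdiff (subset_univ (SW (𝐏 W))),
    ← sum_sdiff (s₁ := SW W) fun x hx => mem_SW.2 (le_perp hs (mem_SW.1 hx)),
    sum_eq_zero (s := SW W) fun y hy => ite_eq_right_iff.2 fun e => ?_,
    sum_congr (s₁ := SW (𝐏 W) \ SW W) rfl (g := fun y => (𝐪 - 1) * 𝐑 * if Q y = 0 then 1 else 0) fun y hy => ?_,
    sum_congr (s₁ := univ \ SW (𝐏 W)) rfl (g := fun y => ((𝐪 - 1) * (#{x | Q x = γ} - (𝐪 ^ 2 - 1) * 𝐑 -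
      if γ = 0 then 𝐪 ^ 2 else 0) + 𝐪 ^ 2 * zO ρ ψ u v) * if Q y = 0 then 1 else 0) fun y hy => ?_,
    ← Finset.mul_sum, ← Finset.mul_sum, sum_boole, sum_boole, hC u v hu hv h0 h1 h2, if_pos rfl,
    show (#{y ∈ univ \ SW (𝐏 W) | Q y = 0} : ℂ) = (𝐪 ^ 2 - 1) * 𝐑 from
      mul_right_cancel₀ hq (by linear_combination e4)] at e3
  · refine mul_left_cancel₀ (mul_ne_zero hq1 (pow_ne_zero r hq)) ?_
    split_ifs at e1 e3 ⊢ <;> linear_combination (𝐪 - 1) * 𝐑 * 𝐪 ^ 2 * (#{x | Q x = 0} - 1) * e1 +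
      (𝐪 - 1) * 𝐑 * 𝐪 ^ 3 * e2 - 𝐪 * finrank ℂ M * e3
  · have y1 := mem_SW.not.1 (mem_sdiff.1 hy).2
    by_cases e : Q y = 0
    · obtain ⟨v', a1, a2, a3, a4, a5⟩ := h.tc hW hs e y1
      rw [if_pos ⟨e, fun e => y1 (e ▸ zero_mem _)⟩, if_pos e, h.nO_congr hW hs vW a1 h0 a2, a5,
        hC y v' e (hs v' a1) a2 a3 a4, h.zO_const e (hs v' a1) a2 a3 a4 hu hv h0 h1 h2, mul_one]
    · simp [e]
  · have y1 := mem_SW.not.1 (mem_sdiff.1 hy).2
    by_cases e : Q y = 0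
    · rw [if_pos ⟨e, fun e => y1 (e ▸ zero_mem _)⟩, if_pos e, LinearMap.trace_mul_comm,
        h.tb hW hs vW h0 e (mem_SW.1 (mem_sdiff.1 hy).1) y1, mul_one]
    · simp [e]
  · rw [h.nO_congr hW hs vW (mem_SW.1 hy) h0 e.2, nO, Finset.mul_sum, sum_eq_zero (f := fun w => pO ρ ψ y 0 * pO ρ ψ y w)
      fun w hw => LinearMap.ext fun x => pO_zero hQ hψ (pO_mem e.1 w x) fun e' => (mem_sdiff.1 hw).2 (mem_SW.2 (le_perp hs
        ((Submodule.span_singleton_le_iff_mem _ _).2 (mem_SW.1 hy) (sub_zero w ▸ e')))), map_zero, mul_zero]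

end Cfsg.Agent.H65
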