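import Cfsg.Agent.H65.OrD
set_option autoImplicit false

/-! The three cases for the degree of an irreducible module of an orthogonal group. -/

namespace Cfsg.Agent.H65

open Module QuadraticMap H11 H66 Finset

/-- the number of weights of given norm, times `q` -/
noncomputable def Gz {F V : Type*} [Field F] [Fintype F] [DecidableEq F] [AddCommGroup V] [Module F V]
    (Q : QuadraticForm F V) (r : ℕ) (γ : F) : ℤ :=
  cnt Q γ - (Fintype.card F - 1) * (Fintype.card F * Fintype.card F ^ r) - if γ = 0 then (Fintype.card F : ℤ) else 0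

/-- the possibilities for the degree -/
def OCases {F V : Type*} [Field F] [Fintype F] [DecidableEq F] [AddCommGroup V] [Module F V]
    (Q : QuadraticForm F V) (r : ℕ) (q k : ℤ) : Prop :=
  (∃ γ γ', Gz Q r γ + Gz Q r γ' ≤ q * k) ∨
    (∃ d : ℤ, q - 1 ≤ d ∧ q * k * (q ^ 2 - 1) * ((q ^ r + 1) * d - (q + 1) * (d - q + 1)) = (cnt Q 0 - 1) * Gz Q r 0 * d) ∨
    ∃ γ, γ ≠ 0 ∧ (∀ a : F, a ≠ 0 → a * a = 1) ∧ Gz Q r γ ≤ q * k ∧ (OGood Q γ →
      q * k * (q ^ 2 - 1) * (cnt Q 0 - cnt Q γ + q ^ 2 * q ^ r) = q ^ 2 * (cnt Q 0 - 1) * Gz Q r γ)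

section
variable {F V : Type*} [Field F] [Fintype F] [DecidableEq F] [AddCommGroup V] [Module F V] [Fintype V] [DecidableEq V]
  {Q : QuadraticForm F V} {M : Type*} [AddCommGroup M] [Module ℂ M] [FiniteDimensional ℂ M]
  {ρ : EG Q →* End ℂ M} {r : ℕ}

local notation "𝐟" => polar Q
local notation "𝐋" u => SW (Submodule.span F {u})
local notation "𝐏" => Pp Q

theorem orth_cases (hQ : ND Q) (hN : finrank F V = r + 3) (hr : 4 ≤ r) (hG : OGood Q 0)
    (hS : ∀ f : End ℂ M, (∀ g, f * ρ g = ρ g * f) → ∃ s : ℂ, f = s • 1) (hnt : ¬ ∀ g, ρ g = 1) :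
    OCases Q r (Fintype.card F) (finrank ℂ M) := by
  obtain ⟨ψ, hψ⟩ := exists_addChar (F := F) (K := ℂ) (Nat.cast_ne_zero.2 (CharP.ringChar_ne_zero_of_finite F))
  have hc : ∀ γ, #{x | Q x = γ} = cnt Q γ := fun γ => card_filter_eq _
  let P : F → ℕ → Prop := fun γ j => ∃ u w, Q u = 0 ∧ u ≠ 0 ∧ 𝐟 u w = 0 ∧ w ∉ Submodule.span F {u} ∧ Q w = γ ∧
    j ≤ finrank ℂ (OS ρ ψ u w)
  have hP : ∀ γ j, P γ j → ∀ u w, Q u = 0 → u ≠ 0 → 𝐟 u w = 0 → w ∉ Submodule.span F {u} → Q w = γ →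
      j ≤ finrank ℂ (OS ρ ψ u w) := by
    rintro _ j ⟨u, w, a, b, c, d, rfl, e⟩ u' w' a' b' c' d' e'
    obtain ⟨g, rfl, rfl⟩ := trans_pair hQ (by omega) a b a' b' c c' d d' e'.symm
    exact e.trans (finrank_OS_le g a w)
  obtain ⟨u, hu, h0⟩ := exists_sing Q (by omega)
  have hG' : ∀ γ, (#{x ∈ SW (𝐏 (Submodule.span F {u})) \ 𝐋 u | Q x = γ} : ℤ) = Gz Q r γ := fun γ =>
    Int.cast_injective (α := ℂ) (by
      rw [Int.cast_natCast, cnt_G hQ hN hu h0, hc, Gz]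
      push_cast
      rfl)
  have e1 := sumO_split (ρ := ρ) hQ hψ h0 (subset_univ _) (LinearMap.trace ℂ M)
  rw [← map_sum, sum_pO_top hQ hψ hu h0, map_smul, LinearMap.trace_one] at e1
  simp only [trace_pO hu, smul_eq_mul] at e1
  have e2 : ∀ (T : Finset V) (j : ℕ), (∀ w ∈ T, w ∉ Submodule.span F {u} ∧ j ≤ finrank ℂ (OS ρ ψ u w)) →
      (#T * j : ℤ) ≤ Fintype.card F * finrank ℂ M := fun T j hT => by
    have h1 := (card_nsmul_le_sum T _ j fun w hw => (hT w hw).2).trans (sum_le_sum_of_subset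
      (show T ⊆ univ \ 𝐋 u from fun w hw => by simpa using (hT w hw).1))
    have h2 : Fintype.card F * finrank ℂ M = Fintype.card F * finrank ℂ (OS ρ ψ u 0) +
      ∑ w ∈ univ \ 𝐋 u, finrank ℂ (OS ρ ψ u w) := by exact_mod_cast e1
    rw [smul_eq_mul] at h1
    exact_mod_cast h1.trans (h2 ▸ Nat.le_add_left _ _)
  have e3 : ∀ γ j, P γ j → ∀ w ∈ {x ∈ SW (𝐏 (Submodule.span F {u})) \ 𝐋 u | Q x = γ},
      w ∉ Submodule.span F {u} ∧ j ≤ finrank ℂ (OS ρ ψ u w) := fun γ j h w hw => by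
    simp only [mem_filter, mem_sdiff, mem_SW, mem_Pp_span, Set.mem_singleton_iff, forall_eq] at hw
    exact ⟨hw.1.2, hP γ j h u w hu h0 hw.1.1 hw.1.2 hw.2⟩
  obtain ⟨γ, hγ⟩ : ∃ γ, P γ 1 := by
    by_contra! h
    refine hnt fun g => ?_
    suffices ∀ u y, Q u = 0 → 𝐟 u y = 0 → Ei Q u y ∈ ρ.ker by
      obtain ⟨g', h1, h2⟩ := EG_le (K := ρ.ker.map (EG Q).subtype)
        (fun u y hu hy => ⟨Ei Q u y, this u y hu hy, Ei_coe hu hy⟩) g.2
      exact Subtype.ext h2 ▸ h1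
    intro u y hu hy
    by_cases h0 : u = 0
    · subst h0
      exact (show Ei Q 0 y = 1 from Subtype.ext ((Ei_coe hu hy).trans (eich_of_zero hu hy))) ▸ one_mem ρ.ker
    refine ext_OS (ρ := ρ) hQ hψ hu h0 fun w x hx => ?_
    by_cases h1 : w ∈ Submodule.span F {u}
    · obtain ⟨c, rfl⟩ := Submodule.mem_span_singleton.1 h1
      simp [mem_OS.1 hx y hy, hy]
    have : OS ρ ψ u w = ⊥ := by
      by_cases h2 : 𝐟 u w = 0
      · exact Submodule.finrank_eq_zero.1 (by_contra fun e => h _ ⟨u, w, hu, h0, h2, h1, rfl, by omega⟩)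
      · exact OS_eq_bot hψ hu (by rwa [polar_comm])
    simp [(Submodule.mem_bot ℂ).1 (this ▸ hx)]
  by_cases h2 : P γ 2
  · have := e2 _ 2 (e3 γ 2 h2)
    exact .inl ⟨γ, γ, by rw [hG'] at this; push_cast at this; linarith⟩
  by_cases h3 : ∃ γ', γ' ≠ γ ∧ P γ' 1
  · obtain ⟨γ', h3, h4⟩ := h3
    have := e2 _ 1 fun w hw => (mem_union.1 hw).elim (e3 γ 1 hγ w) (e3 γ' 1 h4 w)
    rw [card_union_of_disjoint (disjoint_filter.2 fun _ _ a b => h3 (b.symm.trans a)), Nat.cast_add, hG', hG'] at this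
    exact .inl ⟨γ, γ', by simpa using this⟩
  have hM : OGood Q γ → MO ρ ψ γ (finrank ℂ (OS ρ ψ u 0)) r := fun hg => ⟨hQ, hN, hr, hψ, fun a b c d e f => by
      split_ifs with h
      · exact le_antisymm (by_contra fun e' => h2 ⟨a, b, c, d, e, f, h, by omega⟩) (hP γ 1 hγ a b c d e f h)
      · exact by_contra fun e' => h3 ⟨_, h, a, b, c, d, e, f, rfl, by omega⟩,
    fun a b c => by
      obtain ⟨g, g1, g2⟩ := hQ.EG_trans_sing (by omega) b c hu h0
      obtain ⟨g', g3, g4⟩ := hQ.EG_trans_sing (by omega) hu h0 b c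
      exact ((finrank_OS_le ⟨g, g1⟩ b 0).trans_eq (by rw [g2, ap_zero])).antisymm
        ((finrank_OS_le ⟨g', g3⟩ hu 0).trans_eq (by rw [g4, ap_zero])), hg⟩
  right
  by_cases h4 : γ = 0
  · subst h4
    obtain ⟨a, b, a1, a2, a3, a4, a5, a6⟩ := (hM hG).main hS
    obtain ⟨d, d1, d2⟩ := (hM hG).zO_eq a1 a2 a3 a4 a5
    refine .inl ⟨d, by omega, Int.cast_injective (α := ℂ) (mul_left_cancel₀ (pow_ne_zero 2
      (Nat.cast_ne_zero.2 (Fintype.card_ne_zero (α := F)))) ?_)⟩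
    simp only [hc, if_true] at a6
    simp only [Gz, if_true]
    push_cast
    linear_combination d * a6 + Fintype.card F ^ 3 * finrank ℂ M * (Fintype.card F + 1) * d2
  · refine .inr ⟨γ, h4, fun a ha => by_contra fun e => h3 ⟨a * a * γ, by simpa [h4] using e, ?_⟩,
      by simpa [hG'] using e2 _ 1 (e3 γ 1 hγ), fun hg => Int.cast_injective (α := ℂ) ?_⟩
    · obtain ⟨u, w, a1, a2, a3, a4, a5, a6⟩ := hγ
      have := OS_smul (ρ := ρ) (ψ := ψ) ha a1 w 0
      rw [zero_smul, add_zero] at this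
      exact ⟨a • u, a • w, by simp [Q_smul, a1], smul_ne_zero ha a2, by simp [a3], by
        rwa [Submodule.span_singleton_smul_eq ha.isUnit, Submodule.smul_mem_iff _ ha], by rw [Q_smul, a5], this ▸ a6⟩
    · obtain ⟨a, b, a1, a2, a3, a4, -, a6⟩ := (hM hg).main hS
      simp only [hc, if_neg h4, (hM hg).zO_zero h4 a1 a2 a3 a4] at a6
      simp only [Gz, if_neg h4]
      push_cast
      linear_combination a6

end

theorem omega_cases {F : Type*} [Field F] [Fintype F] [DecidableEq F] {ι : Type} [Fintype ι] [DecidableEq ι]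
    {Q : QuadraticForm F (ι → F)} {f : (ι → F) → F} (hf : ∀ x, f x = Q x) (hQ : ND Q) {r : ℕ} (hN : Fintype.card ι = r + 3)
    (hr : 4 ≤ r) (hG : OGood Q 0) {k : ℕ} (ρ : Representation ℂ (Omega F f) (Fin k → ℂ)) (hρ : ρ.IsIrreducible)
    (hk : 2 ≤ k) : OCases Q r (Fintype.card F) k := by
  have hN' : finrank F (ι → F) = r + 3 := by simpa using hN
  let e : EG Q ≃* Omega F f :=
    (MulEquiv.subgroupCongr (hQ.omega_eq (by omega)).symm).trans (commEquiv (isoOG Q f hf)).symm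
  have := orth_cases (ρ := MonoidHom.comp ρ e.toMonoidHom) hQ hN' hr hG
    (fun f h => H5.exists_scalar_of_comm ρ f fun g => by simpa using h (e.symm g)) fun h => by
      have := finrank_le_one_of_trivial ρ hρ fun g => by simpa using h (e.symm g)
      simp at this
      omega
  rwa [finrank_fin_fun] at this

theorem exists_mul_self_ne_one {F : Type*} [Field F] [Fintype F] (h : 3 < Fintype.card F) : ∃ a : F, a ≠ 0 ∧ a * a ≠ 1 := by
  by_contra! h'
  have := Nat.le_of_dvd two_pos ((FiniteField.forall_pow_eq_one_iff F 2).1 fun x => Units.ext (by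
    simpa [pow_two] using h' x x.ne_zero))
  omega

theorem not_dvd_of {y t : ℤ} (h0 : t ≠ 0) (h1 : t < y) (h2 : -y < t) {a : ℤ} (h : y * a = t) : False :=
  h0 (Int.eq_zero_of_abs_lt_dvd ⟨a, h.symm⟩ (abs_lt.2 ⟨h2, h1⟩))

theorem odd_arith {q x k d : ℤ} (hq : 2 ≤ q) (hx : q ^ 2 ≤ x) (hk : 0 ≤ k) (hd : q - 1 ≤ d)
    (h : q * k * (q ^ 2 - 1) * ((x ^ 2 + 1) * d - (q + 1) * (d - q + 1)) = (q ^ 2 * x ^ 2 - 1) * (q * x ^ 2 - q) * d) :
    q ^ 2 * x ^ 2 - 1 ≤ (q ^ 2 - 1) * k := by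
  have h1 : q ^ 4 ≤ x ^ 2 := by nlinarith [pow_le_pow_left₀ (by positivity) hx 2]
  have h2 : 4 ≤ q ^ 2 := by nlinarith
  have h3 : 4 * q ^ 2 ≤ q ^ 4 := by nlinarith
  obtain rfl | hd := hd.eq_or_lt
  · exact (not_dvd_of (y := x ^ 2 + 1) (t := 2 * (q ^ 2 + 1)) (a := k * (q ^ 2 - 1) - q ^ 2 * x ^ 2 + 2 * q ^ 2 + 1)
      (by positivity) (by linarith) (by linarith)
      (mul_left_cancel₀ (show q * (q - 1) ≠ 0 by nlinarith) (by linear_combination h))).elim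
  obtain rfl | hd := (show q ≤ d by omega).eq_or_lt
  · exact (not_dvd_of (y := q * x ^ 2 - 1) (t := -(q - 1) ^ 2) (a := k * (q ^ 2 - 1) - q ^ 2 * x ^ 2 + q ^ 2 - q + 1)
      (by nlinarith) (by nlinarith) (by nlinarith)
      (mul_left_cancel₀ (show q ≠ 0 by omega) (by linear_combination h))).elim
  have h4 : 0 ≤ q * k * (q ^ 2 - 1) * ((q - 1) * (d - q - 1)) :=
    mul_nonneg (mul_nonneg (mul_nonneg (by omega) hk) (by omega)) (mul_nonneg (by omega) (by omega))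
  have h5 : 0 < q * (x ^ 2 - 1) * d := mul_pos (mul_pos (by omega) (by omega)) (by omega)
  have : 0 ≤ q * (x ^ 2 - 1) * d * ((q ^ 2 - 1) * k - (q ^ 2 * x ^ 2 - 1)) := by linear_combination h4 - h
  have := (mul_nonneg_iff_of_pos_left h5).1 this
  omega

theorem even_arith {q x k d ε : ℤ} (hε : ε = 1 ∨ ε = -1) (hq : 2 ≤ q) (hx : x = q ^ 2 ∨ q ^ 3 ≤ x) (hk : 0 ≤ k)
    (hd : q - 1 ≤ d) (h : q * k * (q ^ 2 - 1) * ((q * x ^ 2 + 1) * d - (q + 1) * (d - q + 1)) =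
      (q ^ 2 * x - ε) * (q * x + ε) * (q * (q * x - ε) * (x + ε)) * d) :
    (q ^ 2 * x - ε) * (q * (x + ε)) ≤ (q ^ 2 - 1) * k := by
  have h2 : 4 ≤ q ^ 2 := by nlinarith
  have h3 : 2 * q ^ 2 ≤ q ^ 3 := by nlinarith
  have hx' : 4 ≤ x := by omega
  obtain rfl | hd := hd.eq_or_lt
  · have h1 : (q * x ^ 2 + 1) * (k * (q ^ 2 - 1) - q ^ 3 * x ^ 2 + q ^ 2 + 2 * q - q * ε * x * (q ^ 2 - 1)) =
        (q + 1) ^ 2 * (1 - ε * x * (q - 1)) := mul_left_cancel₀ (show q * (q - 1) ≠ 0 by nlinarith) (by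
      rcases hε with rfl | rfl <;> linear_combination h)
    exfalso
    obtain ⟨p, rfl⟩ : ∃ p, q = p + 2 := ⟨q - 2, by ring⟩
    have hp : 0 ≤ p := by omega
    rcases hx with rfl | hx
    · rcases hε with rfl | rfl
      · refine not_dvd_of (y := (p + 2) * ((p + 2) ^ 2) ^ 2 + 1) (t := 6 - 10 * p - 16 * p ^ 2 - 7 * p ^ 3 - p ^ 4)
          (fun e => ?_) (by nlinarith [pow_nonneg hp 2, pow_nonneg hp 3, pow_nonneg hp 4, pow_nonneg hp 5])
          (by nlinarith [pow_nonneg hp 2, pow_nonneg hp 3, pow_nonneg hp 4, pow_nonneg hp 5]) (a := _ + 1)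
          (by rw [mul_add, h1]; ring)
        obtain rfl | hp := hp.eq_or_lt
        · simp at e
        · nlinarith [pow_pos hp 2, pow_pos hp 3, pow_pos hp 4]
      · exact not_dvd_of (y := (p + 2) * ((p + 2) ^ 2) ^ 2 + 1) (t := 12 + 22 * p + 18 * p ^ 2 + 7 * p ^ 3 + p ^ 4)
          (by positivity) (by nlinarith [pow_nonneg hp 2, pow_nonneg hp 3, pow_nonneg hp 4, pow_nonneg hp 5])
          (by nlinarith [pow_nonneg hp 2, pow_nonneg hp 3, pow_nonneg hp 4, pow_nonneg hp 5]) (a := _ - 1)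
          (by rw [mul_sub, h1]; ring)
    · have h4 : (p + 3) ^ 2 * (p + 1) + (p + 3) ^ 2 ≤ (p + 2) * x + 2 := by
        nlinarith [pow_nonneg hp 2, pow_nonneg hp 3, pow_nonneg hp 4, mul_le_mul_of_nonneg_left hx (show 0 ≤ p + 2 by omega)]
      have h5 : 0 < (p + 3) ^ 2 := by positivity
      have h6 : 0 ≤ (p + 3) ^ 2 * (p + 1) := by positivity
      have h7 : 3 ≤ x * (p + 1) - 1 := by nlinarith
      rcases hε with rfl | rfl
      · exact not_dvd_of (by nlinarith) (by nlinarith) (by nlinarith) h1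
      · exact not_dvd_of (by nlinarith) (by nlinarith) (by nlinarith) h1
  have h4 : 0 ≤ q * k * (q ^ 2 - 1) * ((q ^ 2 - 1) * (d - q)) :=
    mul_nonneg (mul_nonneg (mul_nonneg (by omega) hk) (by omega)) (mul_nonneg (by omega) (by omega))
  have h5 : 0 < q * (q ^ 2 * x ^ 2 - 1) * d := mul_pos (mul_pos (by omega) (by nlinarith)) (by omega)
  have : 0 ≤ q * (q ^ 2 * x ^ 2 - 1) * d * ((q ^ 2 - 1) * k - (q ^ 2 * x - ε) * (q * (x + ε))) := by
    rcases hε with rfl | rfl <;> linear_combination h4 - q * h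
  have := (mul_nonneg_iff_of_pos_left h5).1 this
  omega

end Cfsg.Agent.H65
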