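import Cfsg.Agent.H65.OreLang

set_option autoImplicit false

/-! Project ORE: determinants, the middle geometry, moving one vector of a frame. -/

namespace Cfsg.Agent.H65.Ore

open Polynomial Matrix Module

variable {F V G : Type*} [Field F] [AddCommGroup V] [Module F V] [Group G]

namespace Fr

variable {Γ : Geo F V G} {ι : Type*} [DecidableEq ι] [Fintype ι] (Φ : Fr Γ ι)

/-- The decomposition of the space along a frame. -/
noncomputable def eqv : ((ι → F) × (ι → F) × Φ.M) ≃ₗ[F] V :=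
  LinearEquiv.ofLinearMap (Φ.E.coprod (Φ.swap.E.coprod Φ.M.subtype))
    (Φ.π.prod (Φ.swap.π.prod (Φ.π₀.codRestrict Φ.M Φ.π₀_mem)))
    (LinearMap.ext fun v => by
      conv_rhs => rw [LinearMap.id_apply, Φ.decomp v, add_assoc]
      rfl)
    (LinearMap.ext fun p => by
      obtain ⟨u, w, m, hm⟩ := p
      simp [Φ.π_of_M hm, Φ.π'_of_M hm, Φ.π₀_of_M hm, Subtype.ext_iff])

theorem eqv_apply (u w : ι → F) (m : Φ.M) : Φ.eqv (u, w, m) = Φ.E u + (Φ.swap.E w + m) := rfl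

/-- The action of the pointwise stabiliser of the frame on the complement. -/
def midρ : Φ.Mid →* End F Φ.M where
  toFun a := (Γ.ρ a).restrict fun _ hm => Φ.mid_M a.2 hm
  map_one' := LinearMap.ext fun m => Subtype.ext (Γ.ρ_one m)
  map_mul' a b := LinearMap.ext fun m => Subtype.ext (Γ.ρ_mul a b m)

omit [Fintype ι] in
theorem midρ_apply (a : Φ.Mid) (m : Φ.M) : (Φ.midρ a m : V) = Γ.ρ a m := rfl

theorem det_lev [FiniteDimensional F V] (A : GL ι F) (a : Φ.Mid) : LinearMap.det (Γ.ρ (Φ.lev A * a)) =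
    A.1.det * (Γ.σ A.1.det)⁻¹ * LinearMap.det (Φ.midρ a) := by
  have : Γ.ρ (Φ.lev A * a) = Φ.eqv.toLinearMap ∘ₗ (A.1.mulVecLin.prodMap
      ((shp Γ.σ A).1.mulVecLin.prodMap (Φ.midρ a))) ∘ₗ Φ.eqv.symm.toLinearMap := by
    refine LinearMap.ext fun v => ?_
    obtain ⟨⟨u, w, m⟩, rfl⟩ := Φ.eqv.surjective v
    simp only [LinearMap.comp_apply, LinearEquiv.coe_coe, LinearEquiv.symm_apply_apply]
    simp only [LinearMap.prodMap_apply, eqv_apply, map_add, Γ.ρ_mul, mid_E _ a.2, mid_E' _ a.2, lev_E, lev_E', lev_M _ _ (Φ.mid_M a.2 m.2),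
      mulVecLin_apply, midρ_apply]
  rw [this, LinearMap.det_conj, LinearMap.det_prodMap, LinearMap.det_prodMap, ← toLin'_apply', ← toLin'_apply',
    LinearMap.det_toLin', LinearMap.det_toLin', shp_val, det_transpose, ← RingHom.mapMatrix_apply,
    ← RingHom.map_det, coe_units_inv, det_nonsing_inv, Ring.inverse_eq_inv', map_inv₀, mul_assoc]

theorem det_lev' [FiniteDimensional F V] (A : GL ι F) :
    LinearMap.det (Γ.ρ (Φ.lev A)) = A.1.det * (Γ.σ A.1.det)⁻¹ := by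
  simpa using Φ.det_lev A 1

theorem det_mid [FiniteDimensional F V] (a : Φ.Mid) : LinearMap.det (Γ.ρ a) = LinearMap.det (Φ.midρ a) := by
  simpa using Φ.det_lev 1 a

theorem nondeg_M {m : V} (hm : m ∈ Φ.M) (h : ∀ y ∈ Φ.M, Γ.B m y = 0) : m = 0 := Γ.nondeg _ fun y => by
  rw [Φ.decomp y, map_add, map_add, Φ.B_M_E hm, Φ.B_M_E' hm, h _ (Φ.π₀_mem y), add_zero, add_zero]

theorem exists_mid (μ : End F V) (h0 : ∀ m ∈ Φ.M, μ m ∈ Φ.M)
    (h1 : ∀ m ∈ Φ.M, ∀ m' ∈ Φ.M, Γ.B (μ m) (μ m') = Γ.B m m') (h2 : ∀ m ∈ Φ.M, Γ.Q (μ m) = Γ.Q m) :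
    ∃ z ∈ Φ.Mid, ∀ m ∈ Φ.M, Γ.ρ z m = μ m := by
  obtain ⟨z, a, b, c⟩ := Φ.exists_iso Φ μ h0 h1 h2
  exact ⟨z, ⟨fun i => by rw [← Φ.E_single, a], fun i => by
    have := b (Pi.single i 1); rwa [Φ.swap.E_single] at this⟩, c⟩

/-- The geometry on the complement of a frame. -/
def mid : Geo F Φ.M Φ.Mid where
  σ := Γ.σ
  ε := Γ.ε
  τ := Γ.τ
  B := Γ.B.domRestrict₁₂ Φ.M Φ.M
  Q m := Γ.Q m
  ρ := Φ.midρ
  σσ := Γ.σσ
  εε := Γ.εε
  symm _ _ := Γ.symm _ _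
  nondeg m h := Subtype.ext (Φ.nondeg_M m.2 fun y hy => h ⟨y, hy⟩)
  Q_add _ _ := Γ.Q_add _ _
  Q_smul _ _ := Γ.Q_smul _ _
  B_self _ := Γ.B_self _
  sing _ _ := Γ.sing _ _
  inj a b h := Subtype.ext (Φ.mid_eq a.2 b.2 fun m hm => congrArg (fun T : End F Φ.M => (T ⟨m, hm⟩ : V)) h)
  ρB a _ _ := Γ.ρB a _ _
  ρQ a _ := Γ.ρQ a _
  full T h1 h2 := by
    have k : ∀ m (hm : m ∈ Φ.M), (Φ.M.subtype ∘ₗ T ∘ₗ Φ.π₀.codRestrict Φ.M Φ.π₀_mem) m = T ⟨m, hm⟩ := fun m hm =>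
      congrArg (fun x : Φ.M => (T x : V)) (Subtype.ext (Φ.π₀_of_M hm))
    obtain ⟨z, hz, e⟩ := Φ.exists_mid (Φ.M.subtype ∘ₗ T ∘ₗ Φ.π₀.codRestrict Φ.M Φ.π₀_mem)
      (fun m hm => (T _).2) (fun m hm m' hm' => by rw [k m hm, k m' hm']; exact h1 _ _)
      fun m hm => by rw [k m hm]; exact h2 _
    exact ⟨⟨z, hz⟩, LinearMap.ext fun m => Subtype.ext ((e m m.2).trans (k m m.2))⟩

theorem mid_isU {q : ℕ} (h : Γ.IsU q) : Φ.mid.IsU q := ⟨h.card, h.σ_eq, h.ε_eq, h.τ_eq, fun _ => h.Q_eq _⟩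

omit [Fintype ι] in
theorem aeval_mid (a : Φ.Mid) (p : F[X]) (h : aeval (Φ.midρ a) p = 0) : ∀ m ∈ Φ.M, aeval (Γ.ρ a) p m = 0 :=
  fun m hm => by
    have := aeval_semiconj Φ.M.subtype (A := Φ.midρ a) (D := Γ.ρ a) (fun _ => rfl) p ⟨m, hm⟩
    rw [h] at this
    exact this.symm

theorem det_gauss [FiniteDimensional F V] {g v s u : G} {l : GL ι F} (hv : v ∈ Γ.R Φ.swap.W) (hu : u ∈ Γ.R Φ.W)
    (e : g = v * Φ.lev l * s * u) :
    LinearMap.det (Γ.ρ g) = l.1.det * (Γ.σ l.1.det)⁻¹ * LinearMap.det (Γ.ρ s) := by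
  rw [e]
  simp only [map_mul, Γ.det_R hv, Γ.det_R hu, det_lev', one_mul, mul_one]

section opt

variable {κ : Type*} [DecidableEq κ] [Fintype κ] (Φ : Fr Γ (Option κ))

theorem shp_dsum (σ : F →+* F) (c : Fˣ) (C : GL κ F) :
    shp σ (dsum (c, C)) = dsum (Units.map σ.toMonoidHom c⁻¹, shp σ C) := by
  refine Units.ext ?_
  rw [shp_val, ← map_inv, Prod.inv_mk, dsum_val, dsum_val, shp_val]
  ext i j
  cases i <;> cases j <;> simp [dsumM, -coe_units_inv]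

theorem ker_dsum {c : F} {C : Matrix κ κ F} {q r : F[X]} (h : aeval C q = 0) (hc : IsCoprime q r)
    (u : Option κ → F) (hu : aeval (dsumM c C) r *ᵥ u = 0) : ∃ t : F, u = t • Pi.single none 1 := by
  rw [aeval_dsumM, dsumM_mulVec] at hu
  have : (fun j => u (some j)) = 0 := eq_zero_of_coprime (D := C.mulVecLin) hc
    (by rw [aeval_mulVecLin, h, zero_mulVec]) (by rw [aeval_mulVecLin]; exact funext fun j => congrFun hu (some j))
  refine ⟨u none, funext fun i => ?_⟩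
  cases i with
  | none => simp
  | some j => simpa using congrFun this j

/-- The orthogonal case: an eigenvalue `±1` of multiplicity one is allowed. -/
theorem fpf_O [Finite G] (hτ : ∀ c, Γ.τ c = 0 → c = 0) {c : Fˣ} (hc : c.1 * Γ.σ c.1 = 1) {D : GL κ F} {a : G}
    (ha : a ∈ Φ.Mid) {q p : F[X]} (h1 : aeval D.1 q = 0) (h3 : ∀ m ∈ Φ.M, aeval (Γ.ρ a) p m = 0)
    (hg : Good Γ.σ q p) (hg' : Good Γ.σ q (X - C c.1)) (hp : IsCoprime (X - C c.1) p) :
    Φ.FPF (Φ.lev (dsum (c, D)) * a) := by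
  have h2 := (Φ.sub some (Option.some_injective κ)).aeval_shp h1
  have e : ∀ (D : GL κ F) (q : F[X]), aeval D.1 q = 0 → aeval (dsum (c, D)).1 ((X - C c.1) * q) = 0 := fun D q h => by
    rw [dsum_val, aeval_dsumM, map_mul, h]
    ext i j
    cases i <;> cases j <;> simp [dsumM]
  have ec : shp Γ.σ (dsum (c, D)) = dsum (c, shp Γ.σ D) := by
    rw [shp_dsum]
    congr 2
    refine Units.ext ?_
    simp [eq_inv_of_mul_eq_one_right hc]
  refine ⟨fun u hu => Φ.fpf_half ha (e D q h1) (ec ▸ e _ _ h2) h3 (hp.mul_left hg.2.1)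
    (ker_dsum h1 (hg'.2.1.mul_right hg.1)) (Or.inr hτ) hu, fun u hu => ?_⟩
  rw [lev_swap]
  refine Φ.swap.fpf_half (r' := (X - C c.1) * q) (Φ.swap_Mid ▸ ha) (ec ▸ e _ _ h2) (by rw [shp_shp]; exact e D q h1)
    (Φ.swap_M ▸ h3) (hp.mul_left hg.2.2) (u₀ := Pi.single none 1) ?_ (Or.inr hτ) hu
  rw [ec]
  exact ker_dsum h2 (hg'.2.2.mul_right hg.1.symm)

omit [Fintype κ] in
theorem B_adj {n : V} (hn : n ∈ Φ.M) (t : F) (i : Option κ) :
    Γ.B (Φ.e i) (Φ.f none + n + t • Φ.e none) = if i = none then 1 else 0 := by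
  rw [map_add, map_add, Φ.ef, Γ.B_comm.1 ((Φ.mem_M.1 hn).2 i), LinearMap.map_smulₛₗ, Φ.ee, smul_zero, add_zero,
    add_zero]

/-- Moving the distinguished vector of the second half. -/
def adj {n : V} (hn : n ∈ Φ.M) {t : F} (h : Γ.Q (Φ.f none + n + t • Φ.e none) = 0) : Fr Γ (Option κ) where
  e := Φ.e
  f i := i.elim (Φ.f none + n + t • Φ.e none) fun j => Φ.f (some j)
  Qe := Φ.Qe
  Qf i := by cases i; exacts [h, Φ.Qf _]
  ee := Φ.ee
  ff i j := by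
    have k : ∀ j, Γ.B (Φ.f none + n + t • Φ.e none) (Φ.f (some j)) = 0 := fun j => by
      simp [Φ.ff, (Φ.mem_M.1 hn).1, Φ.ef]
    cases i <;> cases j
    exacts [Γ.B_self _ h, k _, Γ.B_comm.1 (k _), Φ.ff _ _]
  ef i j := by
    cases j
    exacts [Φ.B_adj hn t i, Φ.ef _ _]

theorem adj_lm {n : V} (hn : n ∈ Φ.M) {t : F} (h : Γ.Q (Φ.f none + n + t • Φ.e none) = 0) {g : G}
    (hl : IsUnit (Φ.lm g)) {u : Option κ → F} (hu : Φ.lm g *ᵥ u = Pi.single none 1) :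
    ((Φ.adj hn h).lm g).det = Γ.B (Γ.ρ g (Φ.E u)) (Φ.f none + n + t • Φ.e none) * (Φ.lm g).det ∧
      (Φ.adj hn h).lm g *ᵥ u = Γ.B (Γ.ρ g (Φ.E u)) (Φ.f none + n + t • Φ.e none) • Pi.single none 1 := by
  have e2 : (Φ.adj hn h).lm g *ᵥ u = Γ.B (Γ.ρ g (Φ.E u)) (Φ.f none + n + t • Φ.e none) • Pi.single none 1 := by
    rw [lm_mulVec] at hu ⊢
    ext i
    cases i with
    | none => simp only [Pi.smul_apply, Pi.single_eq_same, smul_eq_mul, mul_one]; rfl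
    | some j => exact (congrFun hu (some j)).trans (by simp)
  refine ⟨?_, e2⟩
  obtain ⟨l, hl⟩ := hl
  set χ := (Φ.adj hn h).lm g none ᵥ* l⁻¹.1 with hχ
  have e1 : (Φ.adj hn h).lm g = (Φ.lm g).updateRow none (∑ k, χ k • Φ.lm g k) := by
    rw [← vecMul_eq_sum, hχ, ← hl, vecMul_vecMul, Units.inv_mul, vecMul_one, hl]
    ext i j
    cases i with
    | none => simp
    | some i => rw [updateRow_ne (by simp)]; rfl
  have e3 : χ none = Γ.B (Γ.ρ g (Φ.E u)) (Φ.f none + n + t • Φ.e none) := by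
    have := congrFun e2 none
    simp only [Pi.smul_apply, Pi.single_eq_same, smul_eq_mul, mul_one] at this
    rw [← this, ← mul_one (χ none), ← dotProduct_single, ← hu, dotProduct_mulVec, hχ, ← hl, vecMul_vecMul,
      Units.inv_mul, vecMul_one]
    rfl
  rw [e1, det_updateRow_sum, e3, smul_eq_mul]

omit [Fintype κ] in
theorem ns_of {l : Matrix (Option κ) (Option κ) F} [Fintype κ] {u : Option κ → F} {d : F} (hd : d ≠ 0)
    (hu : ∀ c : F, u ≠ c • Pi.single none 1) (h : l *ᵥ u = d • Pi.single none 1) (c : F) : l ≠ c • 1 := by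
  rintro rfl
  rw [smul_mulVec, one_mulVec] at h
  have hc : c ≠ 0 := by
    rintro rfl
    simpa [hd.symm] using congrFun h none
  exact hu (c⁻¹ * d) (by rw [mul_smul, ← h, smul_smul, inv_mul_cancel₀ hc, one_smul])

/-- The frame without its distinguished pair. -/
abbrev tl : Fr Γ κ := Φ.sub some (Option.some_injective κ)

omit [Fintype κ] in
theorem tl_lm (g : G) : Φ.tl.lm g = (Φ.lm g).submatrix some some := rfl

omit [Fintype κ] in
theorem e_mem_tl : Φ.e none ∈ Φ.tl.M := Φ.tl.mem_M.2 ⟨fun i => (Φ.ef _ _).trans (by simp), fun _ => Φ.ee _ _⟩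

omit [Fintype κ] in
theorem f_mem_tl : Φ.f none ∈ Φ.tl.M := Φ.tl.mem_M.2 ⟨fun _ => Φ.ff _ _, fun i => (Φ.fe _ _).trans (by simp)⟩

theorem E_opt (u : Option κ → F) : Φ.E u = u none • Φ.e none + Φ.tl.E fun j => u (some j) := by
  rw [E_apply, Fintype.sum_option]; rfl

theorem E'_opt (u : Option κ → F) : Φ.swap.E u = u none • Φ.f none + Φ.tl.swap.E fun j => u (some j) :=
  Φ.swap.E_opt u

end opt

end Fr

end Cfsg.Agent.H65.Ore
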