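import Cfsg.Agent.H65.OreCyc

set_option autoImplicit false

/-! Project ORE: the factorisation theorem of Buenger and Nielsen. -/

namespace Cfsg.Agent.H65.Ore

open Polynomial Matrix

variable {F : Type*} [Field F] {κ : Type*} [Fintype κ] [DecidableEq κ]

namespace BNAux

open Module Submodule

section lin

variable {K H M : Type*} [AddCommGroup K] [Module F K] [AddCommGroup H] [Module F H]
  [AddCommGroup M] [Module F M]

/-- no non-zero subspace has the same image under both maps -/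
def Sep (g i : K →ₗ[F] H) : Prop := ∀ W : Submodule F K, W.map g = W.map i → W = ⊥

theorem Sep.of_le [FiniteDimensional F H] {g i : K →ₗ[F] H} (h : Sep g i)
    (hg : Function.Injective g) (hi : Function.Injective i) {W : Submodule F K}
    (hW : W.map i ≤ W.map g) : W = ⊥ :=
  h W (eq_of_le_of_finrank_eq hW ((equivMapOfInjective i hi W).finrank_eq.symm.trans
    (equivMapOfInjective g hg W).finrank_eq)).symm

theorem exists_notMem [FiniteDimensional F K] {δ : M →ₗ[F] K} (hδ : Function.Injective δ)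
    (hd : finrank F M + 1 = finrank F K) : ∃ k, k ∉ LinearMap.range δ := by
  by_contra! h
  have := LinearMap.finrank_range_of_inj hδ
  rw [eq_top_iff'.2 h, finrank_top] at this
  omega

theorem split [FiniteDimensional F K] [FiniteDimensional F M] {δ : M →ₗ[F] K}
    (hδ : Function.Injective δ) (hd : finrank F M + 1 = finrank F K) :
    ∃ e : (M × F) ≃ₗ[F] K, ∀ m, e (m, 0) = δ m := by
  obtain ⟨k, hk⟩ := exists_notMem hδ hd
  have hi : Function.Injective (δ.coprod (LinearMap.toSpanSingleton F K k)) := by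
    rw [injective_iff_map_eq_zero]
    rintro ⟨m, c⟩ e
    change δ m + c • k = 0 at e
    obtain rfl : c = 0 := by
      by_contra hc
      refine hk ⟨-(c⁻¹ • m), ?_⟩
      rw [map_neg, map_smul, eq_neg_of_add_eq_zero_left e, smul_neg, neg_neg, inv_smul_smul₀ hc]
    rw [zero_smul, add_zero, map_eq_zero_iff _ hδ] at e
    rw [e]; rfl
  exact ⟨LinearMap.linearEquivOfInjective _ hi (by rw [finrank_prod, finrank_self, hd]),
    fun m => by simp⟩

theorem extend [FiniteDimensional F K] [FiniteDimensional F M] {δ : M →ₗ[F] K}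
    (hδ : Function.Injective δ) (hd : finrank F M + 1 = finrank F K) {γ : M →ₗ[F] H}
    (hγ : Function.Injective γ) {h : H} (hh : h ∉ LinearMap.range γ) :
    ∃ g : K →ₗ[F] H, Function.Injective g ∧ g ∘ₗ δ = γ ∧ ∀ Y : Submodule F H,
      LinearMap.range γ ≤ Y → h ∉ Y → ∀ k, g k ∈ Y → k ∈ LinearMap.range δ := by
  obtain ⟨e, he⟩ := split hδ hd
  let g := γ.coprod (LinearMap.toSpanSingleton F H h) ∘ₗ e.symm.toLinearMap
  have g1 : ∀ m c, g (e (m, c)) = γ m + c • h := fun m c => by simp [g]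
  have key : ∀ Y : Submodule F H, LinearMap.range γ ≤ Y → h ∉ Y → ∀ k, g k ∈ Y →
      k ∈ LinearMap.range δ := fun Y hY hh k hk => by
    obtain ⟨⟨m, c⟩, rfl⟩ := e.surjective k
    rw [g1, Submodule.add_mem_iff_right _ (hY ⟨m, rfl⟩)] at hk
    obtain rfl : c = 0 := by
      by_contra hc
      exact hh ((smul_mem_iff _ hc).1 hk)
    exact ⟨m, (he m).symm⟩
  have g2 : ∀ m, g (δ m) = γ m := fun m => by rw [← he, g1, zero_smul, add_zero]
  refine ⟨g, ?_, LinearMap.ext g2, key⟩
  rw [injective_iff_map_eq_zero]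
  intro k hk
  obtain ⟨m, rfl⟩ := key _ le_rfl hh k (hk ▸ zero_mem _)
  rw [g2, map_eq_zero_iff _ hγ] at hk
  rw [hk, map_zero]

end lin

universe u

theorem pencil (n : ℕ) : ∀ (K H : Type u) [AddCommGroup K] [Module F K] [AddCommGroup H]
    [Module F H] [FiniteDimensional F K] [FiniteDimensional F H], finrank F K = n →
    finrank F H = n + 1 → ∀ i j : K →ₗ[F] H, Function.Injective i → Function.Injective j →
    ∃ g : K →ₗ[F] H, Function.Injective g ∧ Sep g i ∧ Sep g j := by
  induction n with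
  | zero =>
    intro K H _ _ _ _ _ _ hK _ i j hi _
    have := finrank_zero_iff.1 hK
    exact ⟨i, hi, fun W _ => Subsingleton.elim _ _, fun W _ => Subsingleton.elim _ _⟩
  | succ n ih =>
    intro K H _ _ _ _ _ _ hK hH i j hi hj
    have ri := (LinearMap.finrank_range_of_inj hi).trans hK
    have rj := (LinearMap.finrank_range_of_inj hj).trans hK
    obtain ⟨x, hx⟩ := exists_notMem hi (hK ▸ hH.symm)
    obtain ⟨y, hy⟩ := exists_notMem hj (hK ▸ hH.symm)
    by_cases e : LinearMap.range i = LinearMap.range j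
    · have : Nontrivial K := nontrivial_of_finrank_eq_succ hK
      obtain ⟨k, hk⟩ := exists_ne (0 : K)
      obtain ⟨f, hf⟩ := not_forall.1 (mt (forall_dual_apply_eq_zero_iff F k).1 hk)
      have hd := Dual.finrank_ker_add_one_of_ne_zero (f := f) fun e => hf (by rw [e]; rfl)
      have inj : ∀ {t : K →ₗ[F] H} (h : ∀ c, (t ∘ₗ f.ker.subtype) c ∈ LinearMap.range i),
          Function.Injective t → Function.Injective ((t ∘ₗ f.ker.subtype).codRestrict _ h) :=
        fun h ht a b e => Subtype.ext (ht (congrArg Subtype.val e))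
      obtain ⟨g', g1, g2, g3⟩ := ih f.ker (LinearMap.range i) (by omega) ri _ _
        (inj (fun c => ⟨_, rfl⟩) hi) (inj (fun c => e ▸ ⟨_, rfl⟩) hj)
      have hle : LinearMap.range ((LinearMap.range i).subtype ∘ₗ g') ≤ LinearMap.range i := by
        rintro _ ⟨a, rfl⟩; exact (g' a).2
      obtain ⟨g, a1, a2, a3⟩ := extend f.ker.injective_subtype hd
        ((LinearMap.range i).injective_subtype.comp g1 :
          Function.Injective ((LinearMap.range i).subtype ∘ₗ g')) fun c => hx (hle c)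
      have key : ∀ {t : K →ₗ[F] H} (h : ∀ c, (t ∘ₗ f.ker.subtype) c ∈ LinearMap.range i),
          LinearMap.range t ≤ LinearMap.range i →
          Sep g' ((t ∘ₗ f.ker.subtype).codRestrict _ h) → Sep g t := fun {t} h ht hs W hW => by
        have h1 : (W.comap f.ker.subtype).map f.ker.subtype = W :=
          map_comap_eq_of_le fun w hw => a3 _ hle hx w
            (ht (LinearMap.map_le_range (hW ▸ mem_map_of_mem hw : g w ∈ W.map t)))
        rw [← h1, hs (W.comap f.ker.subtype) (map_injective_of_injective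
          (LinearMap.range i).injective_subtype (by
            rw [← Submodule.map_comp, ← Submodule.map_comp, ← a2, LinearMap.subtype_comp_codRestrict, Submodule.map_comp,
              Submodule.map_comp, h1, hW])), Submodule.map_bot]
      exact ⟨g, a1, key _ le_rfl g2, key _ e.ge g3⟩
    have hd : finrank F ↥(LinearMap.range i ⊓ LinearMap.range j) = n := by
      have h1 := finrank_sup_add_finrank_inf_eq (LinearMap.range i) (LinearMap.range j)
      have h2 : LinearMap.range i < LinearMap.range i ⊔ LinearMap.range j :=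
        left_lt_sup.2 fun c => e (eq_of_le_of_finrank_eq c (rj.trans ri.symm)).symm
      have h3 := finrank_lt_finrank_of_lt h2
      have h4 := (LinearMap.range i ⊔ LinearMap.range j).finrank_le
      omega
    obtain ⟨h, h1, h2⟩ : ∃ h, h ∉ LinearMap.range i ∧ h ∉ LinearMap.range j := by
      by_cases c1 : x ∈ LinearMap.range j
      · by_cases c2 : y ∈ LinearMap.range i
        · exact ⟨x + y, fun c => hx ((Submodule.add_mem_iff_left _ c2).1 c),
            fun c => hy ((Submodule.add_mem_iff_right _ c1).1 c)⟩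
        · exact ⟨y, c2, hy⟩
      · exact ⟨x, hx, c1⟩
    have inv : ∀ {t : K →ₗ[F] H}, Function.Injective t →
        LinearMap.range i ⊓ LinearMap.range j ≤ LinearMap.range t →
        ∃ s : ↥(LinearMap.range i ⊓ LinearMap.range j) →ₗ[F] K, Function.Injective s ∧
          t ∘ₗ s = Submodule.subtype _ := fun {t} ht hle =>
      ⟨(LinearEquiv.ofInjective t ht).symm.toLinearMap ∘ₗ inclusion hle,
        (LinearEquiv.ofInjective t ht).symm.injective.comp (inclusion_injective hle), LinearMap.ext fun a => by simp⟩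
    obtain ⟨i', i1, i2⟩ := inv hi inf_le_left
    obtain ⟨j', j1, j2⟩ := inv hj inf_le_right
    obtain ⟨δ, d1, d2, d3⟩ := ih _ K hd hK i' j' i1 j1
    obtain ⟨g, a1, a2, a3⟩ := extend d1 (by rw [hd, hK])
      (LinearMap.range i ⊓ LinearMap.range j).injective_subtype (h := h) (by
        rw [range_subtype]; exact fun c => h1 c.1)
    have key : ∀ {t : K →ₗ[F] H} {s : ↥(LinearMap.range i ⊓ LinearMap.range j) →ₗ[F] K},
        Function.Injective t → t ∘ₗ s = Submodule.subtype _ → h ∉ LinearMap.range t →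
        Sep δ s → Sep g t := fun {t s} ht hts hh hs W hW => by
      have b1 : (W.comap δ).map δ = W := map_comap_eq_of_le fun w hw => a3 _
        (hts ▸ LinearMap.range_comp_le_range s t) hh w
        (LinearMap.map_le_range (hW ▸ mem_map_of_mem hw : g w ∈ W.map t))
      rw [← b1, hs (W.comap δ) (map_injective_of_injective ht (by
        rw [b1, ← Submodule.map_comp, hts, ← a2, Submodule.map_comp, b1, hW])), Submodule.map_bot]
    exact ⟨g, a1, key hi i2 h1 d2, key hj j2 h2 d3⟩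

omit [DecidableEq κ] in
theorem observable {n : ℕ} (hn : Fintype.card κ = n + 1) (ψ : (κ → F) →ₗ[F] F)
    (T : Module.End F (κ → F))
    (h : ∀ W : Submodule F (κ → F), W ≤ LinearMap.ker ψ → W.map T ≤ W → W = ⊥) :
    ∃ v, (∀ i < n, ψ ((T ^ i) v) = 0) ∧ ψ ((T ^ n) v) ≠ 0 := by
  by_contra! hc
  let L : (κ → F) →ₗ[F] (Fin n → F) := LinearMap.pi fun i => ψ ∘ₗ (T ^ (i : ℕ))
  have hL : ∀ v, v ∈ LinearMap.ker L ↔ ∀ i < n, ψ ((T ^ i) v) = 0 := fun v =>
    ⟨fun h i hi => congrFun h ⟨i, hi⟩, fun h => funext fun i => h i i.2⟩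
  have h1 : ∀ v ∈ LinearMap.ker L, ∀ i ≤ n, ψ ((T ^ i) v) = 0 := fun v hv i hi =>
    hi.lt_or_eq.elim ((hL v).1 hv i) fun e => e ▸ hc v ((hL v).1 hv)
  refine LinearMap.ker_ne_bot_of_finrank_lt (f := L) (by simp [hn]) (h _ (fun v hv => ?_) ?_)
  · exact h1 v hv 0 n.zero_le
  · rintro _ ⟨v, hv, rfl⟩
    exact (hL _).2 fun i hi => by
      rw [← Module.End.mul_apply, ← pow_succ]; exact h1 v hv _ hi

theorem companion {n : ℕ} (hn : Fintype.card κ = n + 1) (ψ : (κ → F) →ₗ[F] F)
    (T : Module.End F (κ → F))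
    (h : ∀ W : Submodule F (κ → F), W ≤ LinearMap.ker ψ → W.map T ≤ W → W = ⊥) {q : F[X]}
    (hq : q.Monic) (hd : q.natDegree = Fintype.card κ) :
    ∃ u, Cyc (LinearMap.toMatrix' (T - ψ.smulRight u)) q := by
  obtain ⟨v, v1, v2⟩ := observable hn ψ T h
  refine ⟨(ψ ((T ^ n) v))⁻¹ • aeval T q v, ?_⟩
  obtain ⟨S, hS⟩ : ∃ S : Module.End F (κ → F),
    S = T - ψ.smulRight ((ψ ((T ^ n) v))⁻¹ • aeval T q v) := ⟨_, rfl⟩
  rw [← hS]
  have p1 : ∀ i ≤ n, (S ^ i) v = (T ^ i) v := fun i hi => by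
    induction i with
    | zero => rfl
    | succ i ih =>
      rw [pow_succ', pow_succ', Module.End.mul_apply, Module.End.mul_apply, ih (by omega), hS]
      simp [v1 i hi]
  have p2 : aeval S q v = 0 := by
    have e : (S ^ (n + 1)) v = (T ^ (n + 1)) v - aeval T q v := by
      rw [pow_succ', pow_succ', Module.End.mul_apply, Module.End.mul_apply, p1 n le_rfl, hS]
      simp [smul_inv_smul₀ v2]
    have hc : q.coeff (n + 1) = 1 := by rw [← hn, ← hd]; exact hq
    have e2 := aeval_eq_sum_range' (p := q) (n := n + 2) (by omega) T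
    rw [aeval_eq_sum_range' (n := n + 2) (by omega), Finset.sum_range_succ, hc, one_smul,
      LinearMap.add_apply, e, e2, Finset.sum_range_succ _ (n + 1), hc, one_smul,
      LinearMap.add_apply, LinearMap.sum_apply, LinearMap.sum_apply,
      Finset.sum_congr rfl fun i hi => by
        rw [LinearMap.smul_apply, p1 i (Nat.lt_succ_iff.1 (Finset.mem_range.1 hi)),
          ← LinearMap.smul_apply]]
    abel
  have p3 : ∀ a : F[X], a.natDegree ≤ n → ψ (aeval S a v) = a.coeff n * ψ ((T ^ n) v) :=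
    fun a ha => by
      rw [aeval_eq_sum_range' (Nat.lt_succ_of_le ha), Finset.sum_range_succ, LinearMap.add_apply,
        LinearMap.sum_apply, map_add, map_sum, Finset.sum_eq_zero fun i hi => by
          rw [LinearMap.smul_apply, map_smul, p1 i (Finset.mem_range.1 hi).le,
            v1 i (Finset.mem_range.1 hi), smul_zero], zero_add, LinearMap.smul_apply, map_smul,
        p1 n le_rfl, smul_eq_mul]
  let L : degreeLT F (n + 1) →ₗ[F] (κ → F) :=
    LinearMap.applyₗ v ∘ₗ (aeval S).toLinearMap ∘ₗ Submodule.subtype _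
  have hL : Function.Injective L := by
    rw [injective_iff_map_eq_zero]
    rintro ⟨a, ha⟩ e
    by_contra a0
    have a1 : a ≠ 0 := fun c => a0 (Subtype.ext c)
    have a2 : a.natDegree ≤ n := Nat.lt_succ_iff.1
      ((natDegree_lt_iff_degree_lt a1).2 (mem_degreeLT.1 ha))
    have e' : aeval S a v = 0 := e
    have := p3 (X ^ (n - a.natDegree) * a) (natDegree_mul_le.trans (by
      rw [natDegree_X_pow]; omega))
    rw [map_mul, Module.End.mul_apply, e', map_zero, map_zero, eq_comm, mul_eq_zero,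
      coeff_X_pow_mul', if_pos (Nat.sub_le _ _), Nat.sub_sub_self a2] at this
    exact this.elim (leadingCoeff_ne_zero.2 a1) v2
  have : FiniteDimensional F (degreeLT F (n + 1)) := (degreeLTEquiv F (n + 1)).symm.finiteDimensional
  have hs := (LinearMap.injective_iff_surjective_of_finrank_eq_finrank (by
    rw [(degreeLTEquiv F (n + 1)).finrank_eq]; simp [hn])).1 hL
  have tm : ∀ a : F[X], aeval (LinearMap.toMatrix' S) a = LinearMap.toMatrix' (aeval S a) :=
    fun a => aeval_algHom_apply (LinearMap.toMatrixAlgEquiv' (R := F) (n := κ)) S a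
  refine ⟨?_, v, fun x => ?_⟩
  · rw [tm, show aeval S q = 0 from LinearMap.ext fun x => ?_, map_zero]
    obtain ⟨a, rfl⟩ := hs x
    change aeval S q (aeval S a.1 v) = 0
    rw [← Module.End.mul_apply, ← map_mul, mul_comm, map_mul, Module.End.mul_apply, p2, map_zero]
  · obtain ⟨a, rfl⟩ := hs x
    exact ⟨a.1, by rw [tm, LinearMap.toMatrix'_mulVec]; rfl⟩

theorem unit_of_cyc {A : Matrix κ κ F} {q : F[X]} (hq : q.Monic)
    (hd : q.natDegree = Fintype.card κ) (h0 : q.coeff 0 ≠ 0) (h : Cyc A q) :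
    ∃ B : GL κ F, B.1 = A :=
  ⟨GeneralLinearGroup.mkOfDetNeZero A (by
    rw [h.det hq hd]; exact mul_ne_zero (pow_ne_zero _ (neg_ne_zero.2 one_ne_zero)) h0), rfl⟩

theorem core (r : (κ → F) →ₗ[F] F) (hr : r ≠ 0) (m : Module.End F (κ → F))
    (hm : ∀ x, r x = 0 → m x = 0 → x = 0) {q : F[X]} (hq : q.Monic)
    (hd : q.natDegree = Fintype.card κ) (h0 : q.coeff 0 ≠ 0) :
    ∃ (u : κ → F) (A B : GL κ F), Cyc A.1 q ∧ Cyc B.1 q ∧
      ∀ x, A.1 *ᵥ x = m (B.1 *ᵥ x) - r (B.1 *ᵥ x) • u := by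
  have hk := Dual.finrank_ker_add_one_of_ne_zero (f := r) hr
  have hn : Fintype.card κ = finrank F r.ker + 1 := by rw [hk, finrank_fintype_fun_eq_card]
  have hj : Function.Injective (m ∘ₗ r.ker.subtype) := by
    rw [injective_iff_map_eq_zero]
    exact fun a ha => Subtype.ext (hm a a.2 ha)
  obtain ⟨g, g1, g2, g3⟩ := pencil _ r.ker (κ → F) rfl hk.symm _ _ r.ker.injective_subtype hj
  obtain ⟨e, he⟩ := split g1 hk
  have he' : ∀ k, e.symm (g k) = (k, 0) := fun k => by rw [← he, e.symm_apply_apply]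
  obtain ⟨u, hu⟩ := companion hn (LinearMap.snd F _ F ∘ₗ e.symm.toLinearMap)
    (r.ker.subtype ∘ₗ LinearMap.fst F _ F ∘ₗ e.symm.toLinearMap) (fun W h1 h2 => by
      have b1 : (W.comap g).map g = W := map_comap_eq_of_le fun w hw => by
        obtain ⟨⟨k, c⟩, rfl⟩ := e.surjective w
        obtain rfl : c = 0 := by simpa using h1 hw
        exact ⟨k, (he k).symm⟩
      rw [← b1, g2.of_le g1 r.ker.injective_subtype (W := W.comap g) (by
        rintro _ ⟨k, hk, rfl⟩
        rw [b1]
        exact h2 ⟨g k, hk, by simp [he']⟩), Submodule.map_bot]) hq hd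
  obtain ⟨B, hB⟩ := unit_of_cyc hq hd h0 hu
  have B1 : ∀ k, B.1 *ᵥ g k = k := fun k => by
    rw [hB, LinearMap.toMatrix'_mulVec]; simp [he']
  have B2 : Function.Injective B.1.mulVec := mulVec_injective_iff_isUnit.2 B.isUnit
  obtain ⟨w, hw⟩ := companion hn (r ∘ₗ toLin' B.1) (m ∘ₗ toLin' B.1) (fun W h1 h2 => by
      have b1 : (W.comap g).map g = W := map_comap_eq_of_le fun w hw =>
        ⟨⟨B.1 *ᵥ w, h1 hw⟩, B2 (B1 _)⟩
      rw [← b1, g3.of_le g1 hj (W := W.comap g) (by
        rintro _ ⟨k, hk, rfl⟩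
        rw [b1]
        exact h2 ⟨g k, hk, by simp [B1]⟩), Submodule.map_bot]) hq hd
  obtain ⟨A, hA⟩ := unit_of_cyc hq hd h0 hw
  exact ⟨w, A, B, hA ▸ hw, hB ▸ hu, fun x => by rw [hA, LinearMap.toMatrix'_mulVec]; simp⟩

omit [DecidableEq κ] in
theorem frame (f : (Option κ → F) →ₗ[F] F) (ι : (κ → F) →ₗ[F] (Option κ → F))
    (hι : Function.Injective ι) (h0 : ∀ z, f (ι z) = 0) {w : Option κ → F} (hw : f w = 1) :
    ∃ E : (Option κ → F) ≃ₗ[F] (Option κ → F), ∀ y, E y = y none • w + ι fun i => y (some i) := by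
  let L : (Option κ → F) →ₗ[F] (Option κ → F) :=
    (LinearMap.proj none).smulRight w + ι ∘ₗ LinearMap.funLeft F F some
  have hL : ∀ y, L y = y none • w + ι fun i => y (some i) := fun _ => rfl
  refine ⟨LinearEquiv.ofInjectiveEndo L ?_, hL⟩
  rw [injective_iff_map_eq_zero]
  intro y hy
  have h1 := congrArg f hy
  rw [hL, map_add, map_smul, h0, hw, map_zero, add_zero, smul_eq_mul, mul_one] at h1
  rw [hL, h1, zero_smul, zero_add, map_eq_zero_iff _ hι] at hy
  exact funext fun i => i.rec h1 fun i => congrFun hy i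

/-- block matrices -/
def blk (a : F) (r s : κ → F) (M : Matrix κ κ F) : Matrix (Option κ) (Option κ) F :=
  Matrix.of fun i j => match i, j with
    | none, none => a
    | some i, some j => M i j
    | none, some j => r j
    | some i, none => s i

omit [DecidableEq κ] in
theorem blk_mul (a b : F) (r s r' s' : κ → F) (M N : Matrix κ κ F) :
    blk a r s M * blk b r' s' N =
      blk (a * b + r ⬝ᵥ s') (a • r' + r ᵥ* N) (b • s + M *ᵥ s') (vecMulVec s r' + M * N) := by
  ext i j
  cases i <;> cases j <;>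
    simp [blk, Matrix.mul_apply, Fintype.sum_option, dotProduct, vecMul, mulVec, vecMulVec_apply,
      mul_comm]

omit [Fintype κ] [DecidableEq κ] in
theorem dsumM_eq (c : F) (C : Matrix κ κ F) : dsumM c C = blk c 0 0 C := by
  ext i j
  cases i <;> cases j <;> rfl

omit [Fintype κ] in
theorem blk_one : blk (1 : F) 0 0 (1 : Matrix κ κ F) = 1 := by rw [← dsumM_eq, dsumM_one]

/-- upper unitriangular block matrices -/
def up (r : κ → F) : GL (Option κ) F :=
  ⟨blk 1 r 0 1, blk 1 (-r) 0 1, by rw [blk_mul, ← blk_one]; simp,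
    by rw [blk_mul, ← blk_one]; simp⟩

/-- lower unitriangular block matrices -/
def lo (s : κ → F) : GL (Option κ) F :=
  ⟨blk 1 0 s 1, blk 1 0 (-s) 1, by rw [blk_mul, ← blk_one]; simp,
    by rw [blk_mul, ← blk_one]; simp⟩

theorem det_up (r : κ → F) : (up r).1.det = 1 := by
  have : (up r).1 = (fromBlocks 1 0 (Matrix.of fun (_ : PUnit.{1}) j => r j) 1).submatrix
      (Equiv.optionEquivSumPUnit κ) (Equiv.optionEquivSumPUnit κ) := by
    ext i j
    cases i <;> cases j <;> simp [up, blk]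
  rw [this, det_submatrix_equiv_self, det_fromBlocks_zero₁₂, det_one, det_one, mul_one]

theorem det_lo (s : κ → F) : (lo s).1.det = 1 := by
  have : (lo s).1 = (fromBlocks 1 (Matrix.of fun i (_ : PUnit.{1}) => s i) 0 1).submatrix
      (Equiv.optionEquivSumPUnit κ) (Equiv.optionEquivSumPUnit κ) := by
    ext i j
    cases i <;> cases j <;> simp [lo, blk]
  rw [this, det_submatrix_equiv_self, det_fromBlocks_zero₂₁, det_one, det_one, mul_one]

theorem conj_up (c : Fˣ) (A : GL κ F) (h : IsUnit (scalar κ c.1 - A.1)) (r : κ → F) :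
    IsConj (dsum (c, A)) (up r * dsum (c, A)) := by
  obtain ⟨y, hy⟩ := vecMul_surjective_iff_isUnit.2 h (-(r ᵥ* A.1))
  refine isConj_iff.2 ⟨up y, ?_⟩
  rw [mul_inv_eq_iff_eq_mul]
  refine Units.ext ?_
  beta_reduce at hy
  rw [vecMul_sub, scalar_apply, ← smul_one_eq_diagonal, vecMul_smul, vecMul_one,
    sub_eq_iff_eq_add] at hy
  simp only [Units.val_mul, dsum_val, dsumM_eq, up, blk_mul]
  simp [hy]

theorem conj_lo (c : Fˣ) (A : GL κ F) (h : IsUnit (scalar κ c.1 - A.1)) (s : κ → F) :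
    IsConj (dsum (c, A)) (lo s * dsum (c, A)) := by
  obtain ⟨y, hy⟩ := mulVec_surjective_iff_isUnit.2 h (c.1 • s)
  refine isConj_iff.2 ⟨lo y, ?_⟩
  rw [mul_inv_eq_iff_eq_mul]
  refine Units.ext ?_
  rw [sub_mulVec, scalar_apply, ← smul_one_eq_diagonal, smul_mulVec, one_mulVec,
    sub_eq_iff_eq_add] at hy
  simp only [Units.val_mul, dsum_val, dsumM_eq, lo, blk_mul]
  simp [hy]

end BNAux

open BNAux CycAux

theorem bnB (l : GL (Option κ) F) (φ : Option κ → F) (hφ : ∃ x, φ ⬝ᵥ x = 0 ∧ φ ⬝ᵥ (l.1 *ᵥ x) ≠ 0)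
    {q : F[X]} (hq : q.Monic) (hd : q.natDegree = Fintype.card κ) (h0 : q.coeff 0 ≠ 0) :
    ∃ (P : GL (Option κ) F) (A B : GL κ F), φ ᵥ* P.1 = Pi.single none 1 ∧ Cyc A.1 q ∧ Cyc B.1 q ∧
      (P⁻¹ * l * P).1.submatrix some some * B.1 = A.1 := by
  obtain ⟨x, x1, x2⟩ := hφ
  let f : (Option κ → F) →ₗ[F] F := dotProductBilin F F φ
  have hf : ∀ y, f y = φ ⬝ᵥ y := fun _ => rfl
  have f0 : f ≠ 0 := fun e => x2 (by rw [← hf, e]; rfl)
  have hk := Module.Dual.finrank_ker_add_one_of_ne_zero (f := f) f0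
  let e1 : (κ → F) ≃ₗ[F] f.ker := LinearEquiv.ofFinrankEq _ _ (by
    simp only [Module.finrank_fintype_fun_eq_card, Fintype.card_option] at hk ⊢
    omega)
  let ι : (κ → F) →ₗ[F] (Option κ → F) := f.ker.subtype ∘ₗ e1.toLinearMap
  have ι1 : Function.Injective ι := f.ker.injective_subtype.comp e1.injective
  have ι2 : ∀ z, f (ι z) = 0 := fun z => (e1 z).2
  obtain ⟨w, hw⟩ : ∃ w, f w = 1 :=
    ⟨(φ ⬝ᵥ (l.1 *ᵥ x))⁻¹ • l.1 *ᵥ x, by rw [map_smul, hf, smul_eq_mul, inv_mul_cancel₀ x2]⟩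
  obtain ⟨E, hE⟩ := frame f ι ι1 ι2 hw
  let r : (κ → F) →ₗ[F] F := f ∘ₗ toLin' l.1 ∘ₗ ι
  let m : Module.End F (κ → F) := LinearMap.funLeft F F some ∘ₗ E.symm.toLinearMap ∘ₗ toLin' l.1 ∘ₗ ι
  have rel : ∀ z, l.1 *ᵥ ι z = r z • w + ι (m z) := fun z => by
    have h1 := hE (E.symm (l.1 *ᵥ ι z))
    rw [E.apply_symm_apply] at h1
    have h2 := congrArg f h1
    rw [map_add, map_smul, ι2, hw, add_zero, smul_eq_mul, mul_one] at h2
    rw [← h2] at h1
    exact h1
  obtain ⟨u, A, B, hA, hB, e⟩ := core r (fun e => x2 (by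
      have : r (e1.symm ⟨x, x1⟩) = 0 := by rw [e]; rfl
      simpa [r, ι, hf] using this)) m (fun z h1 h2 => ι1 (mulVec_injective_iff_isUnit.2 l.isUnit
      (by rw [rel, h1, h2]; simp))) hq hd h0
  have hw' : f (w + ι u) = 1 := by rw [map_add, hw, ι2, add_zero]
  obtain ⟨P, hP⟩ := frame f ι ι1 ι2 hw'
  refine ⟨glOf P, A, B, funext fun i => ?_, hA, hB, Matrix.ext_of_mulVec_single fun i => ?_⟩
  · rw [← dotProduct_single_one (φ ᵥ* (glOf P).1) i, ← dotProduct_mulVec, glOf_mulVec, hP, ← hf,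
      map_add, map_smul, hw', ι2, add_zero, smul_eq_mul, mul_one, Pi.single_apply, Pi.single_apply]
    simp only [eq_comm]
  · rw [← mulVec_mulVec, e]
    generalize B.1 *ᵥ Pi.single i 1 = z
    have h1 : (glOf P).1 *ᵥ (fun o : Option κ => o.elim 0 z) = ι z := by
      rw [glOf_mulVec, hP]; simp
    have h2 : (glOf P).1 *ᵥ (fun o : Option κ => o.elim (r z) (m z - r z • u)) = l.1 *ᵥ ι z := by
      rw [glOf_mulVec, hP, rel]
      change r z • _ + ι (m z - r z • u) = _
      rw [map_sub, map_smul, smul_add]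
      abel
    have h3 : ((glOf P)⁻¹ * l * glOf P).1 *ᵥ (fun o : Option κ => o.elim 0 z) =
        fun o : Option κ => o.elim (r z) (m z - r z • u) := by
      rw [Units.val_mul, Units.val_mul, ← mulVec_mulVec, ← mulVec_mulVec, h1, ← h2, mulVec_mulVec,
        Units.inv_mul, one_mulVec]
    funext j
    have := congrFun h3 (some j)
    simpa [mulVec, dotProduct, Fintype.sum_option] using this

theorem cs1 (l : GL (Option κ) F) (hd1 : l.1.det = 1) (hl : ∀ c : F, l.1 ≠ c • 1) {q : F[X]} (hq : q.Monic)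
    (hd : q.natDegree = Fintype.card κ) {D : GL κ F} (hD : Cyc D.1 q) (c : Fˣ) (hc : q.eval c.1 ≠ 0) :
    ∃ A B : GL (Option κ) F, IsConj (dsum (c, D)) A ∧ IsConj (dsum (c, D)) B ∧ l * B = A := by
  have h0 : q.coeff 0 ≠ 0 := fun e => D.det_ne_zero (by rw [hD.det hq hd, e, mul_zero])
  obtain ⟨φ, hφ⟩ : ∃ φ : Option κ → F, ∃ x, φ ⬝ᵥ x = 0 ∧ φ ⬝ᵥ (l.1 *ᵥ x) ≠ 0 := by
    by_contra! h
    have h1 : ∀ i j, i ≠ j → l.1 i j = 0 := fun i j hij => by
      simpa using h (Pi.single i 1) (Pi.single j 1) (by simp [hij])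
    refine hl (l.1 none none) (Matrix.ext fun i j => ?_)
    by_cases hij : i = j
    · subst hij
      by_cases hi : i = none
      · simp [hi]
      have := h (Pi.single i 1 - Pi.single none 1) (Pi.single i 1 + Pi.single none 1)
        (by simp [hi, Ne.symm hi])
      simp only [mulVec_add, mulVec_single_one, sub_dotProduct, single_one_dotProduct,
        Pi.add_apply, col_apply, h1 _ _ hi, h1 _ _ (Ne.symm hi), add_zero, zero_add] at this
      simpa using sub_eq_zero.1 this
    · simp [h1 i j hij, hij]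
  obtain ⟨P, A, B, -, hA, hB, e⟩ := bnB l φ hφ hq hd h0
  obtain ⟨k, hk⟩ : ∃ k, k = P⁻¹ * l * P := ⟨_, rfl⟩
  rw [← hk] at e
  have k1 : k.1.det = 1 := by rw [hk, Units.val_mul, Units.val_mul, det_units_conj', hd1]
  have e1 : k.1.submatrix some some = (A * B⁻¹).1 := by
    rw [Units.val_mul, ← e, Units.mul_inv_cancel_right]
  obtain ⟨n, hn⟩ : ∃ n, n = A * B⁻¹ := ⟨_, rfl⟩
  rw [← hn] at e1
  have n1 : n.1.det = 1 := by
    have := congrArg det e
    rw [det_mul, e1, hA.det hq hd, ← hB.det hq hd] at this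
    exact (mul_eq_right₀ B.det_ne_zero).1 this
  obtain ⟨r, hr⟩ := vecMul_surjective_iff_isUnit.2 n.isUnit fun j => k.1 none (some j)
  obtain ⟨s, hs⟩ := mulVec_surjective_iff_isUnit.2 n.isUnit fun i => k.1 (some i) none
  have dec : k.1 = (up r).1 * dsumM (k.1 none none - (r ᵥ* n.1) ⬝ᵥ s) n.1 * (lo s).1 := by
    simp only [dsumM_eq, up, lo, blk_mul]
    simp only at hr hs
    ext i j
    cases i <;> cases j <;> simp [blk, hr, hs]
    exact congrFun (congrFun e1 _) _
  have σ1 : k.1 none none - (r ᵥ* n.1) ⬝ᵥ s = 1 := by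
    have := congrArg det dec
    rwa [det_mul, det_mul, det_up, det_lo, det_dsumM, k1, n1, one_mul, mul_one, mul_one,
      eq_comm] at this
  rw [σ1] at dec
  have dec' : k = up r * dsum (1, n) * lo s := Units.ext dec
  have un : ∀ X : GL κ F, Cyc X.1 q → IsUnit (scalar κ c.1 - X.1) := fun X hX => by
    rw [isUnit_iff_isUnit_det, ← eval_charpoly, hX.charpoly hq hd]
    exact hc.isUnit
  have cj : ∀ X : GL κ F, Cyc X.1 q → IsConj (dsum (c, D)) (dsum (c, X)) := fun X hX => by
    obtain ⟨g, rfl⟩ := isConj_iff.1 (hD.isConj hq hd hX)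
    exact dsum.map_isConj (isConj_iff.2 ⟨(1, g), by simp⟩)
  refine ⟨P * (up r * dsum (c, A)) * P⁻¹, P * (lo (-s) * dsum (c, B)) * P⁻¹,
    ((cj A hA).trans (conj_up c A (un A hA) r)).trans (isConj_iff.2 ⟨P, rfl⟩),
    ((cj B hB).trans (conj_lo c B (un B hB) _)).trans (isConj_iff.2 ⟨P, rfl⟩), ?_⟩
  have e2 : dsum (c, A) = dsum (1, n) * dsum (c, B) := by rw [← map_mul, hn]; simp
  rw [show lo (-s) = (lo s)⁻¹ from Units.ext rfl, e2, show l = P * k * P⁻¹ by rw [hk]; group, dec']
  group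

end Cfsg.Agent.H65.Ore
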