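import Cfsg.Agent.H28.SpinorCalc

/-! If `-1` lies in `Ω`, it is a commutator in `Ω` (dimension at least six). -/

set_option autoImplicit false
set_option linter.unusedSectionVars false

namespace Cfsg.Agent.H65.Ore

open Cfsg Cfsg.Agent.H28

section Aux

open QuadraticMap

variable {F : Type*} [Field F] {κ : Type} [Fintype κ] [DecidableEq κ]
variable {Q : QuadraticForm F (κ → F)} {ι : Type} [Fintype ι] [DecidableEq ι]

theorem cenO_ext (h2 : (2 : F) ≠ 0) (hι : Fintype.card ι = Fintype.card κ) [Nonempty ι]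
    {v : ι → κ → F} (h0 : ∀ i, Q (v i) ≠ 0) (ho : ∀ i j, i ≠ j → polar Q (v i) (v j) = 0)
    {g h : O Q} (e : ∀ i, rho Q g (v i) = rho Q h (v i)) : g = h := by
  have li : LinearIndependent F v := LinearMap.linearIndependent_of_isOrthoᵢ (B := polarBilin Q)
    (fun i j hij => ho i j hij) fun i hi => by
      have : polar Q (v i) (v i) = 0 := hi
      rw [B_self] at this
      exact mul_ne_zero h2 (h0 i) this
  have := (basisOfLinearIndependentOfCardEqFinrank li (by simp [hι])).ext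
    (f₁ := rho Q g) (f₂ := rho Q h) (by simpa using e)
  exact O_ext fun x => by rw [this]

variable [Finite F] (hQ : (polarBilin Q).Nondegenerate) (h2 : (2 : F) ≠ 0)
include hQ h2

theorem cenO_mem {g : O Q} {ε : ZMod 2} {c : F} (H : IsLift Q g ε c) :
    g ∈ Omega F ⇑Q ↔ ε = 0 ∧ IsSquare c := by
  rw [← exists_mem_omega_iff hQ (eichOK_of_two_ne_zero h2) rfl H]
  exact ⟨fun h => ⟨g, h, rfl⟩, fun ⟨g', h, e⟩ => O_ext_mat e ▸ h⟩

theorem cenO_part (q : ι → F) (hq : ∀ i, q i ≠ 0) (s : Finset ι)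
    (hs : s.card < Fintype.card κ) : ∃ (v : ι → κ → F) (W : Submodule F (κ → F)), NondegOn Q W ∧
      Fintype.card κ ≤ Module.finrank F W + s.card ∧ (∀ i ∈ s, Q (v i) = q i) ∧
      (∀ i ∈ s, ∀ j ∈ s, i ≠ j → polar Q (v i) (v j) = 0) ∧
      ∀ i ∈ s, ∀ x ∈ W, polar Q (v i) x = 0 := by
  induction s using Finset.induction_on with
  | empty => exact ⟨0, ⊤, nondegOn_top hQ, by simp, by simp, by simp, by simp⟩
  | insert a s ha ih =>
    rw [Finset.card_insert_of_notMem ha] at hs ⊢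
    obtain ⟨v, W, h1, h3, h4, h5, h6⟩ := ih (by omega)
    obtain ⟨x, hx, e⟩ := h1.exists_eq (by omega) (q a)
    have h7 := finrank_le_inf_ker W (polarBilin Q x)
    have ne : ∀ i ∈ s, Function.update v a x i = v i := fun i hi =>
      Function.update_of_ne (fun e : i = a => ha (e ▸ hi)) _ _
    refine ⟨Function.update v a x, _, h1.inf_ker h2 hx (e ▸ hq a), by omega, ?_, ?_, ?_⟩
    · simp only [Finset.forall_mem_insert, Function.update_self]
      exact ⟨e, fun i hi => by rw [ne i hi, h4 i hi]⟩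
    · simp only [Finset.forall_mem_insert, Function.update_self]
      exact ⟨⟨fun h => (h rfl).elim, fun j hj _ => by rw [ne j hj, polar_comm, h6 j hj x hx]⟩,
        fun i hi => ⟨fun _ => by rw [ne i hi, h6 i hi x hx],
          fun j hj hij => by rw [ne i hi, ne j hj, h5 i hi j hj hij]⟩⟩
    · simp only [Finset.forall_mem_insert, Function.update_self]
      exact ⟨fun y hy => hy.2, fun i hi y hy => by rw [ne i hi, h6 i hi y hy.1]⟩

theorem cenO_basis {g : O Q} (hg : g ∈ Omega F ⇑Q) (hc : ∀ x, rho Q g x = -x)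
    (hι : Fintype.card ι = Fintype.card κ) [Nonempty ι] (q : ι → F) (hq : ∀ i, q i ≠ 0)
    (sq : IsSquare (∏ i, q i)) : Even (Fintype.card κ) ∧
      ∃ v : ι → κ → F, (∀ i, Q (v i) = q i) ∧ ∀ i j, i ≠ j → polar Q (v i) (v j) = 0 := by
  obtain ⟨a⟩ := ‹Nonempty ι›
  have hpos : 0 < Fintype.card ι := Fintype.card_pos
  have hs : (Finset.univ.erase a).card = Fintype.card κ - 1 := by simp [hι]
  obtain ⟨v, W, h1, h3, h4, h5, h6⟩ := cenO_part hQ h2 q hq (Finset.univ.erase a) (by omega)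
  obtain ⟨x, hx, x0⟩ := h1.exists_nonsingular fun e => by
    rw [e, finrank_bot] at h3
    omega
  have m : ∀ {i}, i ≠ a → i ∈ Finset.univ.erase a := fun h => by simpa using h
  have orth : ∀ y ∈ W, ∀ i j, i ≠ j →
      polar Q (Function.update v a y i) (Function.update v a y j) = 0 := fun y hy i j hij => by
    by_cases hi : i = a
    · subst hi
      rw [Function.update_self, Function.update_of_ne hij.symm, polar_comm, h6 _ (m hij.symm) y hy]
    · rw [Function.update_of_ne hi]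
      by_cases hj : j = a
      · rw [hj, Function.update_self, h6 _ (m hi) y hy]
      · rw [Function.update_of_ne hj, h5 _ (m hi) _ (m hj) hij]
  have val : ∀ y i, Q (Function.update v a y i) = Function.update q a (Q y) i := fun y i => by
    by_cases hi : i = a
    · rw [hi, Function.update_self, Function.update_self]
    · rw [Function.update_of_ne hi, Function.update_of_ne hi, h4 _ (m hi)]
  have v0 : ∀ i, Q (Function.update v a x i) ≠ 0 := fun i => by
    rw [val]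
    by_cases hi : i = a
    · rwa [hi, Function.update_self]
    · rw [Function.update_of_ne hi]; exact hq i
  obtain ⟨k, k1, k2, -⟩ := exists_prod_refl Finset.univ _ (fun i _ => v0 i)
    fun i _ j _ => orth x hx i j
  obtain rfl : k = g := cenO_ext h2 hι v0 (orth x hx) fun i => by rw [hc, k2 i (Finset.mem_univ i)]
  obtain ⟨e1, e2⟩ := (cenO_mem hQ h2 k1).1 hg
  refine ⟨by rwa [Finset.card_univ, hι, ZMod.natCast_eq_zero_iff_even] at e1, ?_⟩
  simp only [val] at e2
  rw [Finset.prod_update_of_mem (Finset.mem_univ a)] at e2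
  rw [← Finset.mul_prod_erase _ _ (Finset.mem_univ a), ← Finset.sdiff_singleton_eq_erase] at sq
  have p0 : ∏ i ∈ Finset.univ \ {a}, q i ≠ 0 := Finset.prod_ne_zero_iff.2 fun i _ => hq i
  obtain ⟨r, hr⟩ := e2.mul sq
  generalize ∏ i ∈ Finset.univ \ {a}, q i = p at p0 hr
  refine ⟨Function.update v a ((r / (p * Q x)) • x), fun i => ?_, orth _ (W.smul_mem _ hx)⟩
  rw [val, Q_smul, show (r / (p * Q x)) ^ 2 * Q x = q a by
    field_simp; linear_combination -hr, Function.update_eq_self]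

omit hQ [Finite F] in
theorem cenO_swap {u u' : ι → κ → F} (hq : ∀ i, Q (u' i) = Q (u i)) (h0 : ∀ i, Q (u i) ≠ 0)
    (o1 : ∀ i j, i ≠ j → polar Q (u i) (u j) = 0) (o2 : ∀ i j, i ≠ j → polar Q (u' i) (u' j) = 0)
    (o3 : ∀ i j, polar Q (u i) (u' j) = 0) :
    ∃ s n : O Q, IsLift Q s (Fintype.card ι : ℕ) (2 ^ Fintype.card ι * ∏ i, Q (u i)) ∧
      IsLift Q n (Fintype.card ι : ℕ) (∏ i, Q (u i)) ∧
      (∀ i, rho Q s (u i) = u' i ∧ rho Q s (u' i) = u i ∧ rho Q n (u i) = u i ∧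
        rho Q n (u' i) = -u' i) ∧
      ∀ x, (∀ i, polar Q (u i) x = 0) → (∀ i, polar Q (u' i) x = 0) →
        rho Q s x = x ∧ rho Q n x = x := by
  have o4 : ∀ i j, polar Q (u' i) (u j) = 0 := fun i j => by rw [polar_comm, o3]
  have q2 : ∀ i, Q (u i - u' i) = 2 * Q (u i) := fun i => by rw [Q_sub, hq, o3]; ring
  obtain ⟨s, s1, s2, s3⟩ := exists_prod_refl (Q := Q) Finset.univ (fun i => u i - u' i)
    (fun i _ => q2 i ▸ mul_ne_zero h2 (h0 i)) fun i _ j _ hij => by
      simp only [polar_sub_left, polar_sub_right, o1 i j hij, o2 i j hij, o3, o4, sub_zero]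
  obtain ⟨n, n1, n2, n3⟩ := exists_prod_refl (Q := Q) Finset.univ u'
    (fun i _ => hq i ▸ h0 i) fun i _ j _ hij => o2 i j hij
  simp only [q2, Finset.prod_mul_distrib, Finset.prod_const, Finset.card_univ] at s1
  simp only [hq, Finset.card_univ] at n1
  refine ⟨s, n, s1, n1, fun i => ?_, fun x h1 h3 => ⟨s3 x fun i _ => by
    rw [polar_sub_left, h1, h3, sub_zero], n3 x fun i _ => h3 i⟩⟩
  have a := s2 i (Finset.mem_univ i)
  have b := s3 (u i + u' i) fun j _ => by
    by_cases hij : j = i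
    · simp only [hij, polar_sub_left, polar_add_right, B_self, hq, o3, o4]; ring
    · simp only [polar_sub_left, polar_add_right, o1 j i hij, o2 j i hij, o3, o4]; ring
  rw [map_sub] at a
  rw [map_add] at b
  refine ⟨smul_right_injective _ h2 ?_, smul_right_injective _ h2 ?_,
    n3 _ fun j _ => o4 j i, n2 i (Finset.mem_univ i)⟩
  · linear_combination (norm := module) a + b
  · linear_combination (norm := module) b - a

omit hQ [Finite F] in
theorem cenO_comm (hι : Fintype.card ι = Fintype.card κ) [Nonempty ι]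
    {v : ι → κ → F} (h0 : ∀ i, Q (v i) ≠ 0) (ho : ∀ i j, i ≠ j → polar Q (v i) (v j) = 0)
    {g a b : O Q} (hc : ∀ x, rho Q g x = -x)
    (e : ∀ i, rho Q a (rho Q b (v i)) = -rho Q b (rho Q a (v i))) : g = a * b * a⁻¹ * b⁻¹ := by
  have : a * b = g * (b * a) := cenO_ext h2 hι h0 ho fun i => by
    rw [rho_mul, rho_mul, rho_mul, hc, e]
  rw [this]; group

theorem cenO_four {g : O Q} (hg : g ∈ Omega F ⇑Q) (hc : ∀ x, rho Q g x = -x) {k : ℕ}
    (hk : Fintype.card κ = 4 * (k + 1)) :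
    ∃ a ∈ Omega F ⇑Q, ∃ b ∈ Omega F ⇑Q, g = a * b * a⁻¹ * b⁻¹ := by
  have hι : Fintype.card (Fin (2 * (k + 1)) ⊕ Fin (2 * (k + 1))) = Fintype.card κ := by
    simp [hk]; ring
  obtain ⟨-, v, v1, v2⟩ := cenO_basis hQ h2 hg hc hι (fun _ => 1) (fun _ => one_ne_zero) (by simp)
  have v0 : ∀ i, Q (v i) ≠ 0 := fun i => v1 i ▸ one_ne_zero
  obtain ⟨s, n, s1, n1, e, -⟩ := cenO_swap (Q := Q) h2 (u := fun i => v (.inl i))
    (u' := fun i => v (.inr i)) (fun i => by rw [v1, v1]) (fun i => v0 _)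
    (fun i j h => v2 _ _ (by simpa)) (fun i j h => v2 _ _ (by simpa)) fun i j => v2 _ _ (by simp)
  have ev : ((Fintype.card (Fin (2 * (k + 1))) : ℕ) : ZMod 2) = 0 :=
    ZMod.natCast_eq_zero_iff_even.2 (by simp)
  refine ⟨s, (cenO_mem hQ h2 s1).2 ⟨ev, 2 ^ (k + 1), by simp [v1]; ring⟩, n,
    (cenO_mem hQ h2 n1).2 ⟨ev, by simp [v1]⟩, cenO_comm h2 hι v0 v2 hc ?_⟩
  rintro (i | i) <;> simp [e i]

theorem cenO_six {g : O Q} (hg : g ∈ Omega F ⇑Q) (hc : ∀ x, rho Q g x = -x) {k : ℕ}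
    (hk : Fintype.card κ = 4 * (k + 1) + 2) :
    ∃ a ∈ Omega F ⇑Q, ∃ b ∈ Omega F ⇑Q, g = a * b * a⁻¹ * b⁻¹ := by
  have hι : Fintype.card ((Fin (2 * (k + 1)) ⊕ Fin (2 * (k + 1))) ⊕ Bool) = Fintype.card κ := by
    simp [hk]; ring
  obtain ⟨q, hq⟩ : ∃ q : Fin (2 * (k + 1)) → F, q = Function.update (fun _ => 1) 0 2 := ⟨_, rfl⟩
  have q0 : ∀ i, q i ≠ 0 := fun i => by
    by_cases hi : i = 0 <;> simp [hq, hi, h2]
  have q1 : ∏ i, q i = 2 := by simp [hq, Finset.prod_update_of_mem]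
  have q2 : q 0 = 2 := by simp [hq]
  obtain ⟨-, v, v1, v2⟩ := cenO_basis hQ h2 hg hc hι (Sum.elim (Sum.elim q q) 1)
    (by rintro ((i | i) | i) <;> simp [q0]) (by simp [q1])
  have v0 : ∀ i, Q (v i) ≠ 0 := by rintro ((i | i) | i) <;> simp [v1, q0]
  obtain ⟨s, n, s1, n1, e, f⟩ := cenO_swap (Q := Q) h2 (u := fun i => v (.inl (.inl i)))
    (u' := fun i => v (.inl (.inr i))) (fun i => by simp [v1]) (fun i => v0 _)
    (fun i j h => v2 _ _ (by simpa)) (fun i j h => v2 _ _ (by simpa)) fun i j => v2 _ _ (by simp)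
  have ev : ((Fintype.card (Fin (2 * (k + 1))) : ℕ) : ZMod 2) = 0 :=
    ZMod.natCast_eq_zero_iff_even.2 (by simp)
  replace f := fun b => f (v (.inr b)) (fun i => v2 _ _ (by simp)) fun i => v2 _ _ (by simp)
  have d : Q (v (.inr true) - v (.inr false)) = 2 := by
    rw [Q_sub, v2 _ _ (by simp), v1, v1]; simp; ring
  have r1 : ∀ i j, i ≠ j → rho Q (refl Q (v i)) (v j) = v j := fun i j h =>
    rho_refl_of_orth (v2 i j h)
  have r2 : ∀ i, rho Q (refl Q (v i)) (v i) = -v i := fun i => rho_refl_self (v0 i)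
  have t1 : rho Q (refl Q (v (.inr true) - v (.inr false))) (v (.inr true)) = v (.inr false) :=
    rho_refl_sub (by simp [v1]) (d ▸ h2)
  have t2 : rho Q (refl Q (v (.inr true) - v (.inr false))) (v (.inr false)) = v (.inr true) := by
    have := congrArg (rho Q (refl Q (v (.inr true) - v (.inr false)))) t1
    rw [← this, ← rho_mul, refl_mul_self, map_one]; rfl
  have t3 : ∀ i, rho Q (refl Q (v (.inr true) - v (.inr false))) (v (.inl i)) = v (.inl i) :=
    fun i => rho_refl_of_orth (by rw [polar_sub_left, v2 _ _ (by simp), v2 _ _ (by simp), sub_zero])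
  have a1 := (s1.mul (isLift_refl (v0 (.inl (.inl 0))))).mul (isLift_refl (v0 (.inr true)))
  have b1 := (n1.mul (isLift_refl (d ▸ h2 : Q (v (.inr true) - v (.inr false)) ≠ 0))).mul
    (isLift_refl (v0 (.inr true)))
  refine ⟨_, (cenO_mem hQ h2 a1).2 ⟨by rw [ev]; rfl, 2 ^ (k + 2), by simp [v1, q1, q2]; ring⟩, _,
    (cenO_mem hQ h2 b1).2 ⟨by rw [ev]; rfl, 2, by simp [v1, q1, d]⟩, cenO_comm h2 hι v0 v2 hc ?_⟩
  rintro ((i | i) | (_ | _))
  · by_cases hi : i = 0
    · subst hi; simp [r1, r2, t3, e 0]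
    · simp [r1, t3, e i, Ne.symm hi]
  · by_cases hi : i = 0
    · subst hi; simp [r1, t3, e 0]
    · simp [r1, t3, e i]
  · simp [r1, r2, t2, f]
  · simp [r1, r2, t1, f]

end Aux

theorem cen_O {F : Type*} [Field F] [Finite F] {κ : Type} [Fintype κ] [DecidableEq κ]
    {Q : QuadraticForm F (κ → F)} (hQ : (QuadraticMap.polarBilin Q).Nondegenerate) (h6 : 6 ≤ Fintype.card κ)
    {g : O Q} (hg : g ∈ Omega F ⇑Q) {c : F} (hc : rho Q g = c • 1) :
    ∃ a ∈ Omega F ⇑Q, ∃ b ∈ Omega F ⇑Q, g = a * b * a⁻¹ * b⁻¹ := by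
  obtain ⟨x, hx⟩ := exists_Q_eq hQ (by omega) 1
  have h1 : c ^ 2 = 1 := by
    have := Q_rho g x
    rwa [hc, LinearMap.smul_apply, Module.End.one_apply, Q_smul, hx, mul_one] at this
  by_cases h3 : c = 1
  · exact ⟨1, one_mem _, 1, one_mem _, O_ext fun v => by simp [hc, h3]⟩
  obtain rfl := (sq_eq_one_iff.1 h1).resolve_left h3
  have h2 : (2 : F) ≠ 0 := fun e => h3 (by linear_combination -e)
  have h4 : ∀ x, rho Q g x = -x := fun x => by simp [hc]
  have : Nonempty κ := Fintype.card_pos_iff.1 (by omega)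
  obtain ⟨⟨m, hm⟩, -⟩ := cenO_basis hQ h2 hg h4 rfl (fun _ => 1) (fun _ => one_ne_zero) (by simp)
  rcases Nat.even_or_odd' m with ⟨k, hk | hk⟩
  · exact cenO_four hQ h2 hg h4 (k := k - 1) (by omega)
  · exact cenO_six hQ h2 hg h4 (k := k - 1) (by omega)

end Cfsg.Agent.H65.Ore
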