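import Cfsg.Prelude.Def_Classical
import Cfsg.Agent.N9.Defs
import Cfsg.Agent.H10.UFrame
import Cfsg.Agent.H30.Ore7

set_option autoImplicit false
set_option linter.unusedSectionVars false

namespace Cfsg.Agent.H65.Ore

namespace CenU

open Cfsg Cfsg.Geo Cfsg.Agent.H98 Cfsg.Agent.H99 Cfsg.Agent.H10 Cfsg.Agent.N9 Matrix

variable {F : Type*} [Field F] [Fintype F] {q n : ℕ} [hF : Fact (Fintype.card F = q ^ 2)]

local notation "σ" => sig F q
local notation "ι" => Fin (n + 2)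

variable (q) in
/-- the Hermitian form pairing `e_i` with `e_(i+s)` -/
def fs (s : ι) (u v : ι → F) : F := ∑ i, u i * σ (v (i + s))

theorem isSesq_fs {s : ι} (hs : s + s = 0) : IsSesq σ 1 (fs (F := F) q s) where
  invol := sig_sig
  eps := Or.inl rfl
  add_left x y v := by simp [fs, add_mul, Finset.sum_add_distrib]
  smul_left c x v := by simp [fs, Finset.mul_sum, mul_assoc]
  herm v w := by
    rw [one_mul, fs, fs, map_sum, ← Equiv.sum_comp (Equiv.addRight s)]
    refine Finset.sum_congr rfl fun i _ => ?_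
    rw [Equiv.coe_addRight, map_mul, sig_sig, add_assoc, hs, add_zero, mul_comm]
  nondeg v hv := by
    obtain ⟨i, hi⟩ := Function.ne_iff.1 hv
    refine ⟨⟨Pi.single (i + s) 1, ?_⟩, ⟨Pi.single (i + s) 1, ?_⟩⟩
    · rw [fs, Finset.sum_eq_single (i + s) (fun b _ hb => by simp [hb]) (by simp), add_assoc, hs]
      simpa using hi
    · rw [fs, Finset.sum_eq_single i (fun b _ hb => by simp [hb]) (by simp)]
      simpa using hi

theorem dg_mem {s : ι} {t : ι → Fˣ} (h : ∀ i, (t i : F) * σ (t (i + s)) = 1) :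
    dg t ∈ isoG (fs (F := F) q s) := mem_isoG.2 fun u v => by
  simp only [fs, coe_dg, mulVec_diagonal, map_mul]
  exact Finset.sum_congr rfl fun i _ => by linear_combination (u i * σ (v (i + s))) * h i

theorem pm_mem {s : ι} : pm F (Equiv.addRight (1 : ι))⁻¹ ∈ isoG (fs (F := F) q s) :=
  mem_isoG.2 fun u v => by
    simp only [fs, pm_mulVec, inv_inv, Equiv.coe_addRight]
    rw [← Equiv.sum_comp (Equiv.addRight (1 : ι)) fun i => u i * σ (v (i + s))]
    exact Finset.sum_congr rfl fun i _ => by rw [Equiv.coe_addRight, add_right_comm]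

omit hF in
theorem det_pm : ((pm F (Equiv.addRight (1 : ι))⁻¹ : GL ι F) : Matrix ι ι F).det = (-1) ^ (n + 1) := by
  have e : Equiv.addRight (1 : ι) = finRotate (n + 2) := Equiv.ext fun i => (finRotate_apply i).symm
  have := det_permutation (R := F) (Equiv.addRight (1 : ι))⁻¹⁻¹
  rw [inv_inv, e, sign_finRotate] at this
  rw [e]
  exact this.trans (by simp)

omit hF in
theorem pw_add {c : Fˣ} (hc : c ^ (n + 2) = 1) (i j : ι) : c ^ (i + j).val = c ^ i.val * c ^ j.val := by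
  rw [Fin.val_add, ← pow_eq_pow_mod _ hc, pow_add]

theorem exists_pair {c k : Fˣ} (hc : c ^ (n + 2) = 1) (hN : (c : F) * σ c = 1) {s : ι}
    (hs : s + s = 0) (hk : (k : F) * σ k = c ^ s.val) (hd : k ^ (n + 2) * ∏ i : ι, c ^ i.val = 1) :
    ∃ a ∈ SUG (n + 2) F q, ∃ b ∈ SUG (n + 2) F q, scal ι c = a * b * a⁻¹ * b⁻¹ := by
  obtain ⟨x, x0, hx⟩ := exists_div_cj_eq (F := F) (q := q) (t := (-1) ^ (n + 1))
    (by rw [map_pow, map_neg, map_one, ← mul_pow]; simp)
  let x' : Fˣ := Units.mk0 x x0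
  let y' : Fˣ := (Units.mk0 (σ x) (by simpa using x0))⁻¹
  let t : ι → Fˣ := Pi.mulSingle 0 x' * Pi.mulSingle s y'
  let d : ι → Fˣ := fun i => k * c ^ i.val
  have sx : σ x ≠ 0 := by simpa using x0
  have ht : dg t ∈ isoG (fs (F := F) q s) := dg_mem fun i => by
    have e1 : i + s = 0 ↔ i = s := by rw [← hs, add_left_inj]
    simp only [t, Pi.mul_apply, Pi.mulSingle_apply, e1, add_eq_right]
    split_ifs <;> simp [x', y', sig_sig, x0, sx]
    field_simp
  have hdm : dg d ∈ isoG (fs (F := F) q s) := dg_mem fun i => by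
    have e : ∀ j : ℕ, (c : F) ^ j * σ c ^ j = 1 := fun j => by rw [← mul_pow, hN, one_pow]
    simp only [d, pw_add hc, Units.val_mul, Units.val_pow_eq_pow_val, map_mul, map_pow]
    linear_combination ((c : F) ^ i.val * σ c ^ i.val * σ c ^ s.val) * hk +
      ((c : F) ^ s.val * σ c ^ s.val) * e i.val + e s.val
  have dt : dg t * pm F (Equiv.addRight (1 : ι))⁻¹ ∈ specialLinear ι F := by
    rw [mem_sl, Units.val_mul, det_mul, det_pm, coe_dg, det_diagonal, ← Units.coe_prod]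
    simp only [t, Pi.mul_apply, Finset.prod_mul_distrib, Finset.prod_pi_mulSingle', Finset.mem_univ,
      if_true]
    have : ((x' * y' : Fˣ) : F) = (-1) ^ (n + 1) := by
      rw [← hx]; simp [x', y', div_eq_mul_inv, sig_apply]
    rw [this, ← mul_pow]; simp
  have dd : dg d ∈ specialLinear ι F := by
    rw [mem_sl, coe_dg, det_diagonal, ← Units.coe_prod]
    simp only [d, Finset.prod_mul_distrib, Finset.prod_const, Finset.card_univ, Fintype.card_fin]
    rw [hd, Units.val_one]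
  have key : scal ι c = dg t * pm F (Equiv.addRight (1 : ι))⁻¹ * dg d *
      (dg t * pm F (Equiv.addRight (1 : ι))⁻¹)⁻¹ * (dg d)⁻¹ := by
    rw [_root_.mul_inv_rev, ← mul_assoc, mul_assoc (dg t), mul_assoc (dg t), pm_dg, ← map_inv, ← map_inv,
      ← map_mul, ← map_mul, ← map_mul, ← dg_const]
    congr 1
    ext1 i
    simp only [d, Pi.mul_apply, Pi.inv_apply, inv_inv, Equiv.coe_addRight, pw_add hc, Fin.val_one]
    rw [pow_one, mul_right_comm (t i), mul_inv_cancel, one_mul, ← mul_assoc, mul_comm _ c,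
      mul_inv_cancel_right]
  obtain ⟨P, hP⟩ := exists_isONF (isSesq_fs (F := F) (q := q) hs) (Equiv.refl ι)
  have k1 : ∀ {g : GL ι F}, g ∈ isoG (fs (F := F) q s) → g ∈ specialLinear ι F →
      (frmG (Equiv.refl ι) P).symm g ∈ SUG (n + 2) F q := fun {g} h1 h2 =>
    ⟨hP.mem_isoG.1 (by rwa [MulEquiv.apply_symm_apply]), (frmG_symm_mem_sl _ _).2 h2⟩
  refine ⟨_, k1 (mul_mem ht pm_mem) dt, _, k1 hdm dd, (frmG (Equiv.refl ι) P).injective ?_⟩
  simp only [map_mul (frmG (Equiv.refl ι) P), map_inv (frmG (Equiv.refl ι) P),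
    MulEquiv.apply_symm_apply, frmG_scal]
  exact key

theorem exists_data {c : Fˣ} (hc : c ^ (n + 2) = 1) (hN : (c : F) * σ c = 1) :
    ∃ (k : Fˣ) (s : ι), s + s = 0 ∧ (k : F) * σ k = c ^ s.val ∧
      k ^ (n + 2) * ∏ i : ι, c ^ i.val = 1 := by
  have hp : ∏ i : ι, c ^ i.val = c ^ ((n + 2) * (n + 1) / 2) := by
    rw [Finset.prod_pow_eq_pow_sum, Fin.sum_univ_eq_sum_range (fun i => i), Finset.sum_range_id]; rfl
  rw [hp]
  by_cases h1 : c ^ ((n + 2) * (n + 1) / 2) = 1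
  · exact ⟨1, 0, by simp, by simp, by simp [h1]⟩
  obtain ⟨m, hm⟩ : Even (n + 2) := by
    by_contra ho
    obtain ⟨m, hm⟩ := Nat.not_even_iff_odd.1 ho
    refine h1 ?_
    rw [show (n + 2) * (n + 1) / 2 = (n + 2) * m by
      rw [show n + 1 = 2 * m by omega, ← mul_assoc, mul_comm _ 2, mul_assoc]; simp, pow_mul, hc, one_pow]
  have e1 : (n + 2) * (n + 1) / 2 = m * (n + 1) := by rw [hm, ← two_mul, mul_assoc]; simp
  rw [e1, pow_mul] at h1 ⊢
  have hm2 : c ^ m * c ^ m = 1 := by rw [← pow_add, ← hm, hc]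
  have hm1 : c ^ m ≠ 1 := fun e => h1 (by rw [e, one_pow])
  have cm : c ^ m = -1 := Units.ext ((mul_self_eq_one_iff.1 (by
    rw [← Units.val_mul, hm2, Units.val_one])).resolve_left fun e => hm1 (Units.ext e))
  obtain ⟨j, hj⟩ : Odd q := by
    by_contra ho
    have e : σ (-1) = (-1) ^ q := rfl
    rw [map_neg, map_one, (Nat.not_odd_iff_even.1 ho).neg_one_pow] at e
    exact hm1 (cm.trans (Units.ext e))
  obtain ⟨x, x0, hx⟩ := exists_div_cj_eq (F := F) (q := q) hN
  let k : Fˣ := (Units.mk0 x x0 ^ j)⁻¹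
  have hk : k * k = c := Units.ext (by
    rw [← hx, H10.cj_apply, hj, pow_succ, two_mul, pow_add]
    simp [k]
    field_simp)
  have hd : k ^ (n + 2) * (c ^ m) ^ (n + 1) = 1 := by
    rw [hm, ← two_mul, pow_mul, sq, hk, ← pow_succ', hm, ← two_mul, pow_mul, sq, hm2, one_pow]
  have hs : ((k : F) * σ k) * ((k : F) * σ k) = 1 := by
    rw [← hN, ← hk, Units.val_mul, map_mul]; ring
  rcases mul_self_eq_one_iff.1 hs with e | e
  · exact ⟨k, 0, by simp, by simp [e], hd⟩
  · refine ⟨k, ⟨m, by omega⟩, Fin.ext ?_, by rw [e, ← Units.val_pow_eq_pow_val, cm]; rfl, hd⟩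
    rw [Fin.val_add, ← hm]; simp

omit hF in
theorem sp_one_iff (A : Matrix (Fin 1 ⊕ Fin 1) (Fin 1 ⊕ Fin 1) F) (h : A.det = 1) :
    A ∈ symplecticGroup (Fin 1) F := by
  rw [← det_submatrix_equiv_self (finSumFinEquiv (m := 1) (n := 1)).symm, det_fin_two] at h
  change A (.inl 0) (.inl 0) * A (.inr 0) (.inr 0) - A (.inl 0) (.inr 0) * A (.inr 0) (.inl 0) = 1 at h
  rw [SymplecticGroup.mem_iff]
  ext (i | i) (j | j) <;> fin_cases i <;> fin_cases j <;>
    simp [Matrix.mul_apply, Fintype.sum_sum_type, J] <;>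
    first | ring1 | linear_combination h | linear_combination -h

end CenU

theorem cen_U {F : Type*} [Field F] [Fintype F] {n q : ℕ} (hn : 3 ≤ n) (hF : Fintype.card F = q ^ 2)
    (g : Cfsg.SU n F q) {c : F} (hc : g.1.1 = c • 1) : ∃ a b : Cfsg.SU n F q, g = a * b * a⁻¹ * b⁻¹ := by
  haveI : Fact (Fintype.card F = q ^ 2) := ⟨hF⟩
  obtain ⟨n, rfl⟩ : ∃ m, n = m + 2 := ⟨n - 2, by omega⟩
  have h1 : c ^ (n + 2) = 1 := by simpa [hc] using g.1.2
  have c0 : c ≠ 0 := by rintro rfl; simp at h1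
  have h2 : c * H10.sig F q c = 1 := by
    have := (H10.isSesq_herm (q := q)).smul_left c (Pi.single (0 : Fin (n + 2)) 1) (c • Pi.single 0 1)
    have e : Cfsg.hermForm (n + 2) F q (Pi.single 0 1) (Pi.single 0 1) = 1 := by
      rw [← H10.sumHerm_eq_herm, H99.sumHerm, Finset.sum_eq_single 0 (fun b _ hb => by simp [hb])
        (by simp)]
      simp
    have k : Cfsg.hermForm (n + 2) F q (g.1.1.mulVec (Pi.single 0 1)) (g.1.1.mulVec (Pi.single 0 1)) = _ :=
      g.2 _ _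
    rw [hc, Matrix.smul_mulVec, Matrix.one_mulVec, this, H10.isSesq_herm.smul_right, e, mul_one] at k
    exact k
  obtain ⟨k, s, a1, a2, a3⟩ := CenU.exists_data (q := q) (c := Units.mk0 c c0) (Units.ext h1) h2
  obtain ⟨a, ha, b, hb, e⟩ := CenU.exists_pair (c := Units.mk0 c c0) (Units.ext h1) h2 a1 a2 a3
  rw [← H10.range_suToGL] at ha hb
  obtain ⟨a, rfl⟩ := ha
  obtain ⟨b, rfl⟩ := hb
  refine ⟨a, b, H10.suToGL_injective ?_⟩
  simp only [map_mul, map_inv]
  rw [← e]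
  exact Units.ext (hc.trans (H98.coe_scal (Units.mk0 c c0)).symm)

theorem cen_Sp {F : Type*} [Field F] [Fintype F] {m : ℕ} (g : Matrix.symplecticGroup (Fin m) F) {c : F}
    (hc : g.1 = c • 1) : ∃ a b : Matrix.symplecticGroup (Fin m) F, g = a * b * a⁻¹ * b⁻¹ := by
  by_cases h1 : g = 1
  · exact ⟨1, 1, by simp [h1]⟩
  have h2 : c * c = 1 := by
    rcases Nat.eq_zero_or_pos m with rfl | hm
    · exact absurd (Subtype.ext (Subsingleton.elim _ _)) h1
    have := congrFun (congrFun (SymplecticGroup.mem_iff.1 g.2) (.inr ⟨0, hm⟩)) (.inl ⟨0, hm⟩)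
    simpa [hc, Matrix.J] using this
  have c1 : c ≠ 1 := fun e => h1 (Subtype.ext (by rw [hc, e, one_smul]; rfl))
  obtain rfl := (mul_self_eq_one_iff.1 h2).resolve_left c1
  obtain ⟨x, y, h⟩ := H30.Ore.exists_sq_add_sq (F := F) (fun e => c1 (by linear_combination -e)) (-1)
  let b : Matrix.symplecticGroup (Fin m) F := ⟨Matrix.fromBlocks (x • 1) (y • 1) (y • 1) (-x • 1), by
    rw [SymplecticGroup.mem_iff, Matrix.J, Matrix.fromBlocks_transpose, Matrix.fromBlocks_multiply,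
      Matrix.fromBlocks_multiply, Matrix.fromBlocks_inj]
    simp only [Matrix.transpose_smul, Matrix.transpose_one, Matrix.mul_zero, Matrix.mul_one,
      Matrix.mul_neg, zero_add, add_zero, Matrix.neg_mul, Matrix.smul_mul, Matrix.mul_smul,
      Matrix.one_mul, Matrix.transpose_neg, neg_smul]
    refine ⟨?_, ?_, ?_, ?_⟩
    · module
    · linear_combination (norm := module) h • (1 : Matrix (Fin m) (Fin m) F)
    · linear_combination (norm := module) (-h) • (1 : Matrix (Fin m) (Fin m) F)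
    · module⟩
  refine ⟨SymplecticGroup.symJ _ _, b, ?_⟩
  rw [eq_mul_inv_iff_mul_eq, eq_mul_inv_iff_mul_eq]
  apply Subtype.ext
  change g.1 * b.1 * Matrix.J _ _ = Matrix.J _ _ * b.1
  simp [hc, b, Matrix.J, Matrix.fromBlocks_multiply, Matrix.fromBlocks_neg]

theorem sp_one {F : Type*} [Field F] [Fintype F] (h4 : 4 ≤ Fintype.card F) (g : Matrix.symplecticGroup (Fin 1) F) :
    ∃ a b : Matrix.symplecticGroup (Fin 1) F, g = a * b * a⁻¹ * b⁻¹ := by
  have hd : g.1.det = 1 := SymplecticGroup.det_eq_one g.2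
  have h1 := (H30.Ore.comm_all 2 (fun _ => h4)
    (g.1.submatrix (finSumFinEquiv (m := 1) (n := 1)).symm (finSumFinEquiv (m := 1) (n := 1)).symm)
    (by rw [Matrix.det_submatrix_equiv_self, hd])).reindex (finSumFinEquiv (m := 1) (n := 1))
  rw [Matrix.submatrix_submatrix, Equiv.symm_comp_self, Matrix.submatrix_id_id] at h1
  obtain ⟨a, b, e⟩ := H30.Ore.Comm.commutator ⟨g.1, hd⟩ h1
  refine ⟨⟨a.1, CenU.sp_one_iff _ a.2⟩, ⟨b.1, CenU.sp_one_iff _ b.2⟩, ?_⟩
  rw [eq_mul_inv_iff_mul_eq, eq_mul_inv_iff_mul_eq]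
  have k := eq_mul_inv_iff_mul_eq.1 (eq_mul_inv_iff_mul_eq.1 e)
  have k2 := congrArg (fun x : Matrix.SpecialLinearGroup (Fin 1 ⊕ Fin 1) F => x.1) k
  exact Subtype.ext k2

end Cfsg.Agent.H65.Ore
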