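import Cfsg.Agent.H65.OreGL

set_option autoImplicit false

/-! Project ORE: cyclic matrices. -/

namespace Cfsg.Agent.H65.Ore

open Polynomial Matrix

variable {F : Type*} [Field F] {κ : Type*} [Fintype κ] [DecidableEq κ]

namespace CycAux

/-- the invertible matrix of a linear automorphism -/
noncomputable def glOf (e : (κ → F) ≃ₗ[F] (κ → F)) : GL κ F :=
  ⟨LinearMap.toMatrix' e.toLinearMap, LinearMap.toMatrix' e.symm.toLinearMap,
    by rw [← LinearMap.toMatrix'_comp, LinearEquiv.comp_symm, LinearMap.toMatrix'_id],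
    by rw [← LinearMap.toMatrix'_comp, LinearEquiv.symm_comp, LinearMap.toMatrix'_id]⟩

theorem glOf_mulVec (e : (κ → F) ≃ₗ[F] (κ → F)) (x : κ → F) : (glOf e).1 *ᵥ x = e x :=
  LinearMap.toMatrix'_mulVec _ x

theorem model {A : Matrix κ κ F} {q : F[X]} (hq : q.Monic) (hd : q.natDegree = Fintype.card κ) (hA : Cyc A q) :
    ∃ (ψ : AdjoinRoot q →ₐ[F] Matrix κ κ F) (Φ : AdjoinRoot q ≃ₗ[F] (κ → F)),
      (∀ a, ψ (AdjoinRoot.mk q a) = aeval A a) ∧ ∀ y x, Φ (y * x) = ψ y *ᵥ Φ x := by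
  obtain ⟨h0, v, hv⟩ := hA
  let ψ : AdjoinRoot q →ₐ[F] Matrix κ κ F := Ideal.Quotient.liftₐ (Ideal.span {q}) (aeval A)
    fun a ha => by
      obtain ⟨b, rfl⟩ := Ideal.mem_span_singleton'.1 ha
      rw [map_mul, h0, mul_zero]
  let L : AdjoinRoot q →ₗ[F] (κ → F) :=
    { toFun := fun x => ψ x *ᵥ v
      map_add' := fun x y => by rw [map_add, add_mulVec]
      map_smul' := fun c x => by rw [map_smul, smul_mulVec]; rfl }
  have hs : Function.Surjective L := fun x => by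
    obtain ⟨a, rfl⟩ := hv x
    exact ⟨AdjoinRoot.mk q a, rfl⟩
  have hf : Module.finrank F (AdjoinRoot q) = Module.finrank F (κ → F) := by
    rw [Module.finrank_fintype_fun_eq_card, ← hd]
    exact finrank_quotient_span_eq_natDegree
  have : Module.Finite F (AdjoinRoot q) := (AdjoinRoot.powerBasis' hq).finite
  exact ⟨ψ, LinearEquiv.ofBijective L
    ⟨(LinearMap.injective_iff_surjective_of_finrank_eq_finrank hf).2 hs, hs⟩, fun _ => rfl,
    fun y x => by
      change ψ (y * x) *ᵥ v = ψ y *ᵥ ψ x *ᵥ v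
      rw [map_mul, mulVec_mulVec]⟩

theorem cyc_nil (hκ : Fintype.card κ = 2)
    (two : ∀ {A : Matrix κ κ F}, (∀ c : F, A ≠ c • 1) → Cyc A A.charpoly) {N : Matrix κ κ F}
    (h2 : N * N = 0) (h0 : N ≠ 0) {c : F} (hc : c ≠ 0) :
    ∃ A : GL κ F, A.1 = c • (1 + N) ∧ Cyc A.1 ((X - C c) ^ 2) := by
  refine ⟨⟨c • (1 + N), c⁻¹ • (1 - N), ?_, ?_⟩, rfl, ?_, (two fun d e => h0 ?_).2⟩
  · rw [smul_mul_smul_comm, mul_inv_cancel₀ hc, one_smul, add_mul, mul_sub, mul_sub, h2]; simp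
  · rw [smul_mul_smul_comm, inv_mul_cancel₀ hc, one_smul, sub_mul, mul_add, mul_add, h2]; simp
  · change aeval (c • (1 + N)) _ = 0
    rw [map_pow, map_sub, aeval_X, aeval_C, Algebra.algebraMap_eq_smul_one, smul_add,
      add_sub_cancel_left, sq, smul_mul_smul_comm, h2, smul_zero]
  · have e1 : N = (c⁻¹ * d - 1) • 1 := by
      have e2 : c • (1 + N) = d • 1 := e
      rw [sub_smul, mul_smul, ← e2, inv_smul_smul₀ hc, one_smul, add_sub_cancel_left]
    have : Nonempty κ := Fintype.card_pos_iff.1 (by omega)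
    rw [e1, smul_mul_smul_comm, mul_one, smul_eq_zero, mul_self_eq_zero] at h2
    rw [e1, h2.resolve_right one_ne_zero, zero_smul]

end CycAux

open CycAux

theorem Cyc.isConj {A B : GL κ F} {q : F[X]} (hq : q.Monic) (hd : q.natDegree = Fintype.card κ)
    (hA : Cyc A.1 q) (hB : Cyc B.1 q) : IsConj A B := by
  obtain ⟨ψ, Φ, h1, h2⟩ := model hq hd hA
  obtain ⟨ψ', Φ', h1', h2'⟩ := model hq hd hB
  refine isConj_iff.2 ⟨glOf (Φ.symm.trans Φ'), ?_⟩
  rw [mul_inv_eq_iff_eq_mul]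
  refine Units.ext (Matrix.ext_of_mulVec_single fun i => ?_)
  obtain ⟨x, hx⟩ := Φ.surjective (Pi.single i 1)
  have e1 := h2 (AdjoinRoot.mk q X) x
  have e2 := h2' (AdjoinRoot.mk q X) x
  rw [h1, aeval_X] at e1
  rw [h1', aeval_X] at e2
  rw [Units.val_mul, Units.val_mul, ← mulVec_mulVec, ← mulVec_mulVec, ← hx, ← e1, glOf_mulVec,
    glOf_mulVec]
  simpa using e2

theorem Cyc.charpoly {A : Matrix κ κ F} {q : F[X]} (hq : q.Monic) (hd : q.natDegree = Fintype.card κ)
    (hA : Cyc A q) : A.charpoly = q := by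
  obtain ⟨ψ, Φ, h1, h2⟩ := model hq hd hA
  have h3 := h2 (AdjoinRoot.mk q A.charpoly) 1
  rw [h1, aeval_self_charpoly, zero_mulVec, mul_one, Φ.map_eq_zero_iff, AdjoinRoot.mk_eq_zero] at h3
  exact eq_of_monic_of_dvd_of_natDegree_le hq A.charpoly_monic h3
    (by rw [charpoly_natDegree_eq_dim, hd])

theorem Cyc.det {A : Matrix κ κ F} {q : F[X]} (hq : q.Monic) (hd : q.natDegree = Fintype.card κ)
    (hA : Cyc A q) : A.det = (-1) ^ Fintype.card κ * q.coeff 0 := by
  rw [det_eq_sign_charpoly_coeff, hA.charpoly hq hd]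

theorem exists_cyc {q : F[X]} (hq : q.Monic) (hd : q.natDegree = Fintype.card κ) (h0 : q.coeff 0 ≠ 0) :
    ∃ C : GL κ F, Cyc C.1 q := by
  let b : Module.Basis κ F (AdjoinRoot q) := (AdjoinRoot.powerBasis' hq).basis.reindex
    (Fintype.equivFinOfCardEq hd.symm).symm
  have e : ∀ a, aeval (Algebra.leftMulMatrix b (AdjoinRoot.root q)) a =
      Algebra.leftMulMatrix b (AdjoinRoot.mk q a) := fun a => by
    rw [aeval_algHom_apply, AdjoinRoot.aeval_eq]
  have h : Cyc (Algebra.leftMulMatrix b (AdjoinRoot.root q)) q := by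
    refine ⟨by rw [e, AdjoinRoot.mk_self, map_zero], b.repr 1, fun x => ?_⟩
    obtain ⟨a, ha⟩ := AdjoinRoot.mk_surjective (b.equivFun.symm x)
    refine ⟨a, ?_⟩
    rw [e, Algebra.leftMulMatrix_mulVec_repr, mul_one, ha]
    exact (b.equivFun.apply_symm_apply x).symm
  exact ⟨GeneralLinearGroup.mkOfDetNeZero _ (by
    rw [h.det hq hd]; exact mul_ne_zero (pow_ne_zero _ (neg_ne_zero.2 one_ne_zero)) h0), h⟩

theorem Cyc.norm_surj [Finite F] {A : Matrix κ κ F} {q : F[X]} (hq : q.Monic) (hi : Irreducible q)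
    (hd : q.natDegree = Fintype.card κ) (hA : Cyc A q) {c : F} (hc : c ≠ 0) :
    ∃ T : GL κ F, T.1 * A = A * T.1 ∧ T.1.det = c := by
  obtain ⟨ψ, Φ, h1, h2⟩ := model hq hd hA
  have := Fact.mk hi
  have : Module.Finite F (AdjoinRoot q) := (AdjoinRoot.powerBasis' hq).finite
  have : Finite (AdjoinRoot q) := Module.finite_of_finite F
  obtain ⟨y, hy⟩ := FiniteField.norm_surjective F (AdjoinRoot q) c
  have h3 : (ψ y).det = c := by
    rw [← hy, Algebra.norm_apply, ← LinearMap.det_conj _ Φ, ← LinearMap.det_toLin']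
    congr 1
    refine LinearMap.ext fun x => ?_
    obtain ⟨x, rfl⟩ := Φ.surjective x
    simp [h2]
  refine ⟨GeneralLinearGroup.mkOfDetNeZero (ψ y) (h3 ▸ hc), ?_, h3⟩
  change ψ y * A = A * ψ y
  rw [← aeval_X (R := F) A, ← h1, ← map_mul, ← map_mul, mul_comm]

theorem cyc_two (hκ : Fintype.card κ = 2) {A : Matrix κ κ F} (hA : ∀ c : F, A ≠ c • 1) :
    Cyc A A.charpoly := by
  obtain ⟨v, hv⟩ : ∃ v, LinearIndependent F ![v, toLin' A v] := by
    by_contra! h
    obtain ⟨a, ha⟩ := LinearMap.exists_eq_smul_id_of_forall_notLinearIndependent h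
    exact hA a (toLin'.injective (by rw [ha, map_smul, toLin'_one]; rfl))
  refine ⟨aeval_self_charpoly A, v, fun x => ?_⟩
  have h1 := hv.span_eq_top_of_card_eq_finrank' (by simp [hκ])
  obtain ⟨c, hc⟩ := (Submodule.mem_span_range_iff_exists_fun F).1 (h1 ▸ Submodule.mem_top (x := x))
  refine ⟨C (c 0) + C (c 1) * X, ?_⟩
  rw [← hc]
  simp [Algebra.algebraMap_eq_smul_one, add_mulVec, smul_mulVec]

theorem cs2 (hκ : Fintype.card κ = 2) (hF : ∃ a : F, a ≠ 0 ∧ a ≠ 1) (l : GL κ F) (hd : l.1.det = 1)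
    (hl : ∀ c : F, l.1 ≠ c • 1) {c : F} (hc : c ≠ 0) :
    ∃ A B : GL κ F, Cyc A.1 ((X - C c) ^ 2) ∧ Cyc B.1 ((X - C c) ^ 2) ∧ l * B = A := by
  have hp := charpoly_of_card_eq_two (M := l.1) hκ
  suffices h : ∃ N M : Matrix κ κ F, N * N = 0 ∧ N ≠ 0 ∧ M * M = 0 ∧ M ≠ 0 ∧
      l.1 * (1 + M) = 1 + N by
    obtain ⟨N, M, n2, n0, m2, m0, e⟩ := h
    obtain ⟨A, a1, a2⟩ := cyc_nil hκ (cyc_two hκ) n2 n0 hc
    obtain ⟨B, b1, b2⟩ := cyc_nil hκ (cyc_two hκ) m2 m0 hc
    exact ⟨A, B, a2, b2, Units.ext (by rw [Units.val_mul, a1, b1, Matrix.mul_smul, e])⟩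
  by_cases ht : l.1.trace = 2
  · obtain ⟨a, a0, a1⟩ := hF
    have n2 : (l.1 - 1) * (l.1 - 1) = 0 := by
      have := aeval_self_charpoly l.1
      rw [hp, ht, hd] at this
      simp only [map_add, map_sub, map_pow, map_mul, aeval_X, map_one, map_ofNat] at this
      rw [← this]
      noncomm_ring
    have n0 : l.1 - 1 ≠ 0 := fun e => hl 1 (by rw [one_smul, sub_eq_zero.1 e])
    refine ⟨a • (l.1 - 1), (a - 1) • (l.1 - 1), by rw [smul_mul_smul_comm, n2, smul_zero],
      smul_ne_zero a0 n0, by rw [smul_mul_smul_comm, n2, smul_zero],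
      smul_ne_zero (sub_ne_zero.2 a1) n0, ?_⟩
    obtain ⟨N, hN⟩ : ∃ N, N = l.1 - 1 := ⟨_, rfl⟩
    rw [← hN] at n2 ⊢
    rw [show l.1 = 1 + N by rw [hN, add_sub_cancel], add_mul, mul_add, mul_add, Matrix.mul_smul,
      Matrix.mul_smul, n2]
    simp only [one_mul, mul_one, smul_zero, add_zero]
    module
  obtain ⟨i, j, hij⟩ := Fintype.exists_pair_of_one_lt_card (α := κ) (by omega)
  have hs : l.1.trace - 2 ≠ 0 := sub_ne_zero.2 ht
  obtain ⟨s, hs'⟩ : ∃ s, s = l.1.trace - 2 := ⟨_, rfl⟩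
  rw [← hs'] at hs
  have d1 : (transvection j i (1 : F) * transvection i j s).det = 1 := by
    rw [det_mul, det_transvection_of_ne _ _ hij.symm, det_transvection_of_ne _ _ hij, mul_one]
  have t1 : (transvection j i (1 : F) * transvection i j s).trace = l.1.trace := by
    rw [transvection, transvection, add_mul, mul_add, mul_add, single_mul_single_same]
    simp [trace_single_eq_of_ne, hij, hij.symm, hκ, hs']
  let m := GeneralLinearGroup.mkOfDetNeZero (transvection j i (1 : F) * transvection i j s)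
    (by rw [d1]; exact one_ne_zero)
  have hm : Cyc m.1 l.1.charpoly := by
    have := cyc_two hκ (A := transvection j i (1 : F) * transvection i j s) fun d e => by
      have := congrFun (congrFun e j) i
      rw [transvection, transvection, add_mul, mul_add, mul_add, single_mul_single_same] at this
      simp [hij, hij.symm] at this
    rwa [charpoly_of_card_eq_two _ hκ, d1.trans hd.symm, t1, ← hp] at this
  obtain ⟨g, hg⟩ := isConj_iff.1 (hm.isConj l.1.charpoly_monic (charpoly_natDegree_eq_dim _)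
    (cyc_two hκ hl))
  have sq : ∀ (a b : κ) (t : F), a ≠ b → t ≠ 0 →
      g.1 * single a b t * g⁻¹.1 * (g.1 * single a b t * g⁻¹.1) = 0 ∧
        g.1 * single a b t * g⁻¹.1 ≠ 0 := fun a b t hab t0 => by
    refine ⟨?_, fun e => t0 ?_⟩
    · simp only [mul_assoc, Units.inv_mul_cancel_left]
      rw [← mul_assoc (single a b t), single_mul_single_of_ne _ _ _ _ hab.symm]
      simp
    · rw [Units.mul_left_eq_zero, Units.mul_right_eq_zero] at e
      simpa using congrFun (congrFun e a) b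
  refine ⟨_, _, (sq j i 1 hij.symm one_ne_zero).1, (sq j i 1 hij.symm one_ne_zero).2,
    (sq i j (-s) hij (neg_ne_zero.2 hs)).1, (sq i j (-s) hij (neg_ne_zero.2 hs)).2, ?_⟩
  have e : ∀ (a b : κ) (t : F), 1 + g.1 * single a b t * g⁻¹.1 = g.1 * transvection a b t * g⁻¹.1 :=
    fun a b t => by rw [transvection, mul_add, add_mul, mul_one, Units.mul_inv]
  rw [e, e, ← hg]
  change g.1 * (transvection j i 1 * transvection i j s) * g⁻¹.1 * _ = _
  rw [mul_assoc g.1 (transvection i j _), mul_assoc _ g⁻¹.1, Units.inv_mul_cancel_left, mul_assoc,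
    mul_assoc, ← mul_assoc (transvection i j s), transvection_mul_transvection_same _ _ hij,
    add_neg_cancel, transvection_zero, one_mul, mul_assoc]

end Cfsg.Agent.H65.Ore
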