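import Cfsg.Agent.H65.OreGeo

set_option autoImplicit false

namespace Cfsg.Agent.H65.Ore

open Matrix Module

variable {F V G : Type*} [Field F] [AddCommGroup V] [Module F V] [Group G] [FiniteDimensional F V]
  {Γ : Geo F V G} {ι κ : Type*} [Fintype ι] [DecidableEq ι] [Fintype κ] [DecidableEq κ]

namespace Ex

open Submodule

section basic

omit [FiniteDimensional F V]

theorem mem_perp_span {s : Set V} {v : V} : v ∈ Γ.perp (span F s) ↔ ∀ x ∈ s, Γ.B v x = 0 := by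
  refine ⟨fun h x hx => h _ (subset_span hx), fun h x hx => ?_⟩
  induction hx using span_induction with
  | mem y hy => exact h y hy
  | zero => simp
  | add y z _ _ a b => rw [map_add, a, b, add_zero]
  | smul c y _ a => rw [LinearMap.map_smulₛₗ, a, smul_zero]

theorem mem_perp_one {x v : V} : v ∈ Γ.perp (span F {x}) ↔ Γ.B v x = 0 := by
  simp [mem_perp_span]

theorem mem_perp_sup {H K : Submodule F V} {v : V} : v ∈ Γ.perp (H ⊔ K) ↔ v ∈ Γ.perp H ∧ v ∈ Γ.perp K := by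
  refine ⟨fun h => ⟨fun x hx => h x (mem_sup_left hx), fun x hx => h x (mem_sup_right hx)⟩, fun h x hx => ?_⟩
  obtain ⟨y, hy, z, hz, rfl⟩ := mem_sup.1 hx
  rw [map_add, h.1 y hy, h.2 z hz, add_zero]

theorem le_perp_comm {H K : Submodule F V} (h : H ≤ Γ.perp K) : K ≤ Γ.perp H :=
  fun x hx _ hy => Γ.B_comm.1 (h hy x hx)

theorem B_smul (c : F) (x y : V) : Γ.B x (c • y) = Γ.σ c * Γ.B x y := by
  rw [LinearMap.map_smulₛₗ, smul_eq_mul]

theorem smul_B (c : F) (x y : V) : Γ.B (c • x) y = c * Γ.B x y := by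
  rw [map_smul, LinearMap.smul_apply, smul_eq_mul]

theorem add_B (x y z : V) : Γ.B (x + y) z = Γ.B x z + Γ.B y z := by
  rw [map_add, LinearMap.add_apply]

theorem sub_B (x y z : V) : Γ.B (x - y) z = Γ.B x z - Γ.B y z := by
  rw [map_sub, LinearMap.sub_apply]

theorem ts_sup {H : Submodule F V} (hH : Γ.TS H) {f : V} (hf : Γ.Q f = 0) (hp : f ∈ Γ.perp H) :
    Γ.TS (H ⊔ span F {f}) := by
  refine ⟨fun x hx => ?_, sup_le (fun x hx => mem_perp_sup.2 ⟨hH.2 hx, mem_perp_one.2 (Γ.B_comm.1 (hp x hx))⟩)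
    ((span_singleton_le_iff_mem _ _).2 (mem_perp_sup.2 ⟨hp, mem_perp_one.2 (Γ.B_self f hf)⟩))⟩
  obtain ⟨y, hy, z, hz, rfl⟩ := mem_sup.1 hx
  obtain ⟨c, rfl⟩ := mem_span_singleton.1 hz
  rw [Γ.Q_add_of, hH.1 y hy, Γ.Q_smul, hf, mul_zero, add_zero]
  rw [B_smul, Γ.B_comm.1 (hp y hy), mul_zero]

theorem ts_bot : Γ.TS ⊥ := ⟨fun x hx => by rw [(mem_bot F).1 hx, Γ.Q_zero], bot_le⟩

theorem ts_map {W : Submodule F V} (hW : Γ.TS W) (g : G) : Γ.TS (W.map (Γ.ρ g)) := by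
  refine ⟨?_, ?_⟩
  · rintro _ ⟨x, hx, rfl⟩
    rw [Γ.ρQ, hW.1 x hx]
  · rintro _ ⟨x, hx, rfl⟩ _ ⟨y, hy, rfl⟩
    rw [Γ.ρB, hW.2 hx y hy]

theorem inv_step {W H : Submodule F V} (iW : ∀ h ∈ H, h ∈ Γ.perp W → h = 0) {a f : V} (ha : a ∈ W)
    (hp : a ∈ Γ.perp H) (hf : Γ.B a f ≠ 0) : ∀ h ∈ H ⊔ span F {f}, h ∈ Γ.perp W → h = 0 := by
  intro x hx hw
  obtain ⟨y, hy, z, hz, rfl⟩ := mem_sup.1 hx
  obtain ⟨c, rfl⟩ := mem_span_singleton.1 hz
  have h1 := Γ.B_comm.1 (hw a ha)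
  rw [map_add, hp y hy, zero_add, B_smul, mul_eq_zero, or_iff_left hf, Γ.σ_eq_zero] at h1
  subst h1
  rw [zero_smul, add_zero] at hw ⊢
  exact iW y hy hw

end basic

theorem finrank_perp (H : Submodule F V) : finrank F (Γ.perp H) + finrank F H = finrank F V := by
  let b := Module.finBasis F H
  have li : LinearIndependent F (Γ.B.flip.toAddMonoidHom ∘ fun i => (b i : V)) :=
    (b.linearIndependent.map' H.subtype H.ker_subtype).map_of_surjective_injective Γ.σ _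
      (fun c => ⟨Γ.σ c, Γ.σσ c⟩) (fun m hm => Γ.nondeg' m fun y => LinearMap.congr_fun hm y)
      fun r m => LinearMap.map_smulₛₗ Γ.B.flip r m
  have h1 := Subspace.finrank_add_finrank_dualCoannihilator_eq (span F (Set.range
    (Γ.B.flip.toAddMonoidHom ∘ fun i => (b i : V))))
  rw [finrank_span_eq_card li, Fintype.card_fin] at h1
  have h2 : span F (Set.range fun i => (b i : V)) = H := by
    rw [show (fun i => (b i : V)) = H.subtype ∘ b from rfl, Set.range_comp, ← map_span, b.span_eq, map_subtype_top]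
  have h3 : (span F (Set.range (Γ.B.flip.toAddMonoidHom ∘ fun i => (b i : V)))).dualCoannihilator = Γ.perp H := by
    ext v
    rw [← congrArg Γ.perp h2, mem_perp_span, mem_dualCoannihilator, Set.forall_mem_range]
    refine ⟨fun h i => h _ (subset_span ⟨i, rfl⟩), fun h φ hφ => ?_⟩
    induction hφ using span_induction with
    | mem y hy => obtain ⟨i, rfl⟩ := hy; exact h i
    | zero => rfl
    | add y z _ _ a b => rw [LinearMap.add_apply, a, b, add_zero]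
    | smul c y _ a => rw [LinearMap.smul_apply, a, smul_zero]
  rw [h3] at h1
  omega

theorem perp_perp (H : Submodule F V) : Γ.perp (Γ.perp H) = H := by
  have h1 := finrank_perp (Γ := Γ) H
  have h2 := finrank_perp (Γ := Γ) (Γ.perp H)
  exact (eq_of_le_of_finrank_le (le_perp_comm le_rfl) (by omega)).symm

theorem exists_perp_ne {D : Submodule F V} {a : V} (ha : a ∉ D) : ∃ u ∈ Γ.perp D, Γ.B a u ≠ 0 := by
  by_contra! h
  exact ha (perp_perp (Γ := Γ) D ▸ h)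

theorem exists_ne_zero {W D : Submodule F V} (h : finrank F D < finrank F W) : ∃ a ∈ W, a ∈ Γ.perp D ∧ a ≠ 0 := by
  have h1 := finrank_perp (Γ := Γ) D
  have h2 := finrank_sup_add_finrank_inf_eq W (Γ.perp D)
  have h3 := finrank_le (W ⊔ Γ.perp D)
  obtain ⟨a, ha, h0⟩ := exists_mem_ne_zero_of_ne_bot (p := W ⊓ Γ.perp D) fun e => by
    rw [e, finrank_bot] at h2
    omega
  exact ⟨a, ha.1, ha.2, h0⟩

theorem eq_zero_of_perp {W H : Submodule F V} (iW : ∀ h ∈ H, h ∈ Γ.perp W → h = 0) (hd : finrank F H = finrank F W)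
    {w : V} (hw : w ∈ W) (hp : w ∈ Γ.perp H) : w = 0 := by
  have h1 := finrank_perp (Γ := Γ) W
  have h2 := finrank_sup_add_finrank_inf_eq H (Γ.perp W)
  have h3 : H ⊓ Γ.perp W = ⊥ := eq_bot_iff.2 fun x hx => iW x hx.1 hx.2
  rw [h3, finrank_bot] at h2
  have h4 : H ⊔ Γ.perp W = ⊤ := eq_top_of_finrank_eq (by omega)
  have h5 : w ∈ Γ.perp (H ⊔ Γ.perp W) := mem_perp_sup.2 ⟨hp, le_perp_comm le_rfl hw⟩
  exact Γ.nondeg w fun y => h5 y (h4 ▸ mem_top)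

omit [FiniteDimensional F V] in
theorem finrank_W (Φ : Fr Γ ι) : finrank F Φ.W = Fintype.card ι := by
  have h : LinearMap.range Φ.E = Φ.W := by
    ext v
    rw [Φ.mem_W, LinearMap.mem_range]
  rw [← h, LinearMap.finrank_range_of_inj (Function.LeftInverse.injective Φ.π_E), finrank_fintype_fun_eq_card]

/-- Totally singular subspaces extend to the dimension of a frame. -/
theorem exists_ext (Φ₀ : Fr Γ ι) (k : ℕ) : ∀ X : Submodule F V, Γ.TS X → finrank F X + k = Fintype.card ι →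
    ∃ W, Γ.TS W ∧ X ≤ W ∧ finrank F W = Fintype.card ι := by
  induction k with
  | zero => exact fun X hX h => ⟨X, hX, le_rfl, h⟩
  | succ k ih =>
    intro X hX h
    obtain ⟨x, hx, hn⟩ : ∃ x ∈ Γ.perp X ⊓ Φ₀.W, x ∉ X := by
      by_contra! hc
      have h1 : Γ.perp X ⊓ Φ₀.W ≤ X ⊓ Φ₀.W := fun x hx => ⟨hc x hx, hx.2⟩
      have h2 : Γ.perp X ⊔ Φ₀.W ≤ Γ.perp (X ⊓ Φ₀.W) :=
        sup_le (fun x hx y hy => hx y hy.1) fun x hx y hy => Φ₀.ts_W.2 hx y hy.2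
      have h3 := finrank_mono h1
      have h4 := finrank_mono h2
      have h5 := finrank_perp (Γ := Γ) X
      have h6 := finrank_perp (Γ := Γ) (X ⊓ Φ₀.W)
      have h7 := finrank_sup_add_finrank_inf_eq (Γ.perp X) Φ₀.W
      have h8 := finrank_W Φ₀
      omega
    obtain ⟨W, h1, h2, h3⟩ := ih _ (ts_sup hX (Φ₀.ts_W.1 x hx.2) hx.1) (by rw [finrank_sup_span_singleton hn]; omega)
    exact ⟨W, h1, le_sup_left.trans h2, h3⟩

/-- A singular vector opposite to two given ones. -/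
theorem exists_opp {D H : Submodule F V} (hD : ∀ x ∈ D, x ∈ Γ.perp D → x ∈ H) {a b : V} (qa : Γ.Q a = 0)
    (qb : Γ.Q b = 0) (pa : a ∈ Γ.perp D) (pb : b ∈ Γ.perp D) (na : a ∉ D) (nb : b ∉ D)
    (h : (∃ t, t ≠ 0 ∧ Γ.τ t = 0) ∨ finrank F H + finrank F D + 2 < finrank F V) :
    ∃ f ∈ Γ.perp D, Γ.Q f = 0 ∧ Γ.B a f ≠ 0 ∧ Γ.B b f ≠ 0 := by
  have aa := Γ.B_self a qa
  have bb := Γ.B_self b qb
  by_cases hab : Γ.B a b = 0
  · obtain ⟨u, hu, h1, h2⟩ : ∃ u ∈ Γ.perp D, Γ.B a u ≠ 0 ∧ Γ.B b u ≠ 0 := by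
      obtain ⟨u, hu, h1⟩ := exists_perp_ne (Γ := Γ) na
      obtain ⟨v, hv, h2⟩ := exists_perp_ne (Γ := Γ) nb
      by_cases h3 : Γ.B b u = 0
      · by_cases h4 : Γ.B a v = 0
        · exact ⟨u + v, add_mem hu hv, by rwa [map_add, h4, add_zero], by rwa [map_add, h3, zero_add]⟩
        · exact ⟨v, hv, h4, h2⟩
      · exact ⟨u, hu, h1, h3⟩
    obtain ⟨t, ht⟩ := Γ.sing u a qa (mt Γ.B_comm.1 h1)
    refine ⟨u + t • a, add_mem hu (smul_mem _ _ pa), ht, ?_, ?_⟩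
    · rwa [map_add, B_smul, aa, mul_zero, add_zero]
    · rwa [map_add, B_smul, Γ.B_comm.1 hab, mul_zero, add_zero]
  have hba : Γ.B b a ≠ 0 := mt Γ.B_comm.1 hab
  by_cases h0 : ∃ t, t ≠ 0 ∧ Γ.τ t = 0
  · obtain ⟨t, t0, ht⟩ := h0
    have e : Γ.B a (Γ.σ (t / Γ.B a b) • b) = t := by rw [B_smul, Γ.σσ, div_mul_cancel₀ _ hab]
    refine ⟨a + Γ.σ (t / Γ.B a b) • b, add_mem pa (smul_mem _ _ pb), ?_, ?_, ?_⟩
    · rw [Γ.Q_add, e, ht, Γ.Q_smul, qa, qb, mul_zero, add_zero, add_zero]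
    · rwa [map_add, e, aa, zero_add]
    · rwa [map_add, B_smul, bb, mul_zero, add_zero]
  have hd := h.resolve_left h0
  push Not at h0
  obtain ⟨n, hn, qn⟩ : ∃ n ∈ Γ.perp ((D ⊔ span F {a}) ⊔ span F {b}), Γ.Q n ≠ 0 := by
    by_contra! hc
    have h1 : Γ.perp ((D ⊔ span F {a}) ⊔ span F {b}) ≤ H := fun x hx => by
      have h2 : x ∈ (D ⊔ span F {a}) ⊔ span F {b} := by
        rw [← perp_perp (Γ := Γ) ((D ⊔ span F {a}) ⊔ span F {b})]
        intro y hy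
        by_contra h3
        have := Γ.Q_add x y
        rw [hc _ (add_mem hx hy), hc _ hx, hc _ hy, add_zero, zero_add] at this
        exact h0 _ h3 this.symm
      rw [mem_perp_sup, mem_perp_sup, mem_perp_one, mem_perp_one] at hx
      obtain ⟨y, hy, z, hz, rfl⟩ := mem_sup.1 h2
      obtain ⟨d, hd, w, hw, rfl⟩ := mem_sup.1 hy
      obtain ⟨s, rfl⟩ := mem_span_singleton.1 hw
      obtain ⟨t, rfl⟩ := mem_span_singleton.1 hz
      obtain ⟨⟨x1, x2⟩, x3⟩ := hx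
      rw [add_B, add_B, smul_B, smul_B, Γ.B_comm.1 (pa d hd), aa, mul_zero, add_zero, zero_add, mul_eq_zero,
        or_iff_left hba] at x2
      rw [add_B, add_B, smul_B, smul_B, Γ.B_comm.1 (pb d hd), bb, mul_zero, add_zero, zero_add, mul_eq_zero,
        or_iff_left hab] at x3
      subst x2 x3
      simp only [zero_smul, add_zero] at x1 ⊢
      exact hD d hd x1
    have h2 := finrank_mono h1
    have h3 := finrank_perp (Γ := Γ) ((D ⊔ span F {a}) ⊔ span F {b})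
    have h4 := finrank_add_le_finrank_add_finrank (D ⊔ span F {a}) (span F {b})
    have h5 := finrank_sup_span_singleton na
    have h6 : finrank F (span F {b}) = 1 := finrank_span_singleton fun e => nb (e ▸ D.zero_mem)
    omega
  rw [mem_perp_sup, mem_perp_sup, mem_perp_one, mem_perp_one] at hn
  obtain ⟨⟨n1, n2⟩, n3⟩ := hn
  obtain ⟨t, ht⟩ := Γ.sing (a + n) b qb (by rwa [add_B, n3, add_zero])
  have t0 : t ≠ 0 := by
    rintro rfl
    rw [zero_smul, add_zero, Γ.Q_add_of (Γ.B_comm.1 n2), qa, zero_add] at ht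
    exact qn ht
  refine ⟨a + n + t • b, add_mem (add_mem pa n1) (smul_mem _ _ pb), ht, ?_, ?_⟩
  · rw [map_add, map_add, B_smul, aa, Γ.B_comm.1 n2, add_zero, zero_add]
    exact mul_ne_zero (mt Γ.σ_eq_zero.1 t0) hab
  · rwa [map_add, map_add, B_smul, bb, Γ.B_comm.1 n3, mul_zero, add_zero, add_zero]

/-- One step of the greedy construction. -/
theorem step {W Y H C : Submodule F V} (hW : Γ.TS W) (hY : Γ.TS Y) (hHC : H ≤ Γ.perp C)
    (hC : ∀ c ∈ C, c ∈ Γ.perp C → c = 0) (iW : ∀ h ∈ H, h ∈ Γ.perp W → h = 0) (iY : ∀ h ∈ H, h ∈ Γ.perp Y → h = 0)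
    {a b : V} (ha : a ∈ W) (hb : b ∈ Y) (a0 : a ≠ 0) (b0 : b ≠ 0) (pa : a ∈ Γ.perp (H ⊔ C)) (pb : b ∈ Γ.perp (H ⊔ C))
    (h : (∃ t, t ≠ 0 ∧ Γ.τ t = 0) ∨ 2 * finrank F H + finrank F C + 2 < finrank F V) :
    ∃ f ∈ Γ.perp (H ⊔ C), Γ.Q f = 0 ∧ Γ.B a f ≠ 0 ∧ Γ.B b f ≠ 0 := by
  have hD : ∀ x ∈ H ⊔ C, x ∈ Γ.perp (H ⊔ C) → x ∈ H := fun x hx hp => by
    obtain ⟨y, hy, z, hz, rfl⟩ := mem_sup.1 hx
    have : z ∈ Γ.perp C := by
      have := sub_mem (mem_perp_sup.1 hp).2 (hHC hy)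
      rwa [add_sub_cancel_left] at this
    rwa [hC z hz this, add_zero]
  refine exists_opp hD (hW.1 a ha) (hY.1 b hb) pa pb (fun e => a0 (iW a (hD a e pa) (hW.2 ha)))
    (fun e => b0 (iY b (hD b e pb) (hY.2 hb))) (h.imp_right fun h => ?_)
  have := finrank_add_le_finrank_add_finrank H C
  omega

/-- The greedy construction of a common opposite. -/
theorem greedy {W Y Z T : Submodule F V} (hW : Γ.TS W) (hY : Γ.TS Y) (hZ : Z ≤ W) (hT : T ≤ Y)
    (hC : ∀ c ∈ Z ⊔ T, c ∈ Γ.perp (Z ⊔ T) → c = 0) {r m : ℕ} (dZ : finrank F Z ≤ r) (dT : finrank F T ≤ r)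
    (dW : finrank F W = m) (dY : finrank F Y = m) (h : (∃ t, t ≠ 0 ∧ Γ.τ t = 0) ∨ 2 * m < finrank F V) (j : ℕ) :
    j + r ≤ m → ∃ H, Γ.TS H ∧ finrank F H = j ∧ H ≤ Γ.perp (Z ⊔ T) ∧ (∀ h ∈ H, h ∈ Γ.perp W → h = 0) ∧
      ∀ h ∈ H, h ∈ Γ.perp Y → h = 0 := by
  induction j with
  | zero => exact fun _ => ⟨⊥, ts_bot, finrank_bot F V, bot_le, fun _ hx _ => hx, fun _ hx _ => hx⟩
  | succ j ih =>
    intro hj
    obtain ⟨H, hH, dH, hHC, iW, iY⟩ := ih (by omega)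
    have e1 := finrank_add_le_finrank_add_finrank H T
    have e2 := finrank_add_le_finrank_add_finrank H Z
    have e3 := finrank_add_le_finrank_add_finrank Z T
    obtain ⟨a, ha, pa, a0⟩ := exists_ne_zero (Γ := Γ) (W := W) (D := H ⊔ T) (by omega)
    obtain ⟨b, hb, pb, b0⟩ := exists_ne_zero (Γ := Γ) (W := Y) (D := H ⊔ Z) (by omega)
    rw [mem_perp_sup] at pa pb
    obtain ⟨f, pf, qf, af, bf⟩ := step hW hY hHC hC iW iY ha hb a0 b0
      (mem_perp_sup.2 ⟨pa.1, mem_perp_sup.2 ⟨fun x hx => hW.2 ha x (hZ hx), pa.2⟩⟩)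
      (mem_perp_sup.2 ⟨pb.1, mem_perp_sup.2 ⟨pb.2, fun x hx => hY.2 hb x (hT hx)⟩⟩) (h.imp_right fun h => by omega)
    rw [mem_perp_sup] at pf
    exact ⟨H ⊔ span F {f}, ts_sup hH qf pf.1, by rw [finrank_sup_span_singleton fun e => af (pa.1 f e), dH],
      sup_le hHC ((span_singleton_le_iff_mem _ _).2 pf.2), inv_step iW ha pa.1 af, inv_step iY hb pb.1 bf⟩

/-- The frame defined by a totally singular subspace and an opposite family. -/
theorem exists_frame {W : Submodule F V} (hW : Γ.TS W) (dW : finrank F W = Fintype.card ι) (g : G) {f : ι → V}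
    (hH : Γ.TS (span F (Set.range f))) (dH : finrank F (span F (Set.range f)) = Fintype.card ι)
    (iW : ∀ h ∈ span F (Set.range f), h ∈ Γ.perp W → h = 0)
    (iY : ∀ h ∈ span F (Set.range f), h ∈ Γ.perp (W.map (Γ.ρ g)) → h = 0) :
    ∃ Φ : Fr Γ ι, Φ.f = f ∧ Φ.W = W ∧ IsUnit (Φ.lm g) := by
  have fm : ∀ i, f i ∈ span F (Set.range f) := fun i => subset_span ⟨i, rfl⟩
  let φ : W →ₗ[F] (ι → F) := (LinearMap.pi fun i => Γ.B.flip (f i)) ∘ₗ W.subtype
  have inj : Function.Injective φ := (injective_iff_map_eq_zero _).2 fun w hw => Subtype.ext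
    (eq_zero_of_perp iW (dH.trans dW.symm) w.2 (mem_perp_span.2 (Set.forall_mem_range.2 fun i => congrFun hw i)))
  have sur : Function.Surjective φ :=
    (LinearMap.injective_iff_surjective_of_finrank_eq_finrank (by rw [dW, finrank_fintype_fun_eq_card])).1 inj
  choose e he using fun i : ι => sur (Pi.single i 1)
  let Φ : Fr Γ ι :=
    { e := fun i => e i
      f := f
      Qe := fun i => hW.1 _ (e i).2
      Qf := fun i => hH.1 _ (fm i)
      ee := fun i j => hW.2 (e i).2 _ (e j).2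
      ff := fun i j => hH.2 (fm i) _ (fm j)
      ef := fun i j => (congrFun (he i) j).trans (by rw [Pi.single_apply]; simp only [eq_comm]) }
  have hΦ : Φ.W = W := eq_of_le_of_finrank_le (span_le.2 (Set.range_subset_iff.2 fun i => (e i).2))
    (by rw [dW, finrank_W])
  refine ⟨Φ, rfl, hΦ, mulVec_injective_iff_isUnit.1 ?_⟩
  change Function.Injective (Φ.lm g).mulVecLin
  refine (injective_iff_map_eq_zero _).2 fun u hu => ?_
  rw [mulVecLin_apply, Φ.lm_mulVec] at hu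
  have dY : finrank F (W.map (Γ.ρ g)) = finrank F W := (LinearEquiv.finrank_eq (equivMapOfInjective _ (Γ.ρ_inj g) W)).symm
  have h0 := eq_zero_of_perp iY (by rw [dH, dY, dW]) (mem_map_of_mem (hΦ ▸ Φ.E_mem u))
    (mem_perp_span.2 (Set.forall_mem_range.2 fun i => congrFun hu i))
  have h1 : Φ.E u = 0 := Γ.ρ_inj g (by rw [h0, map_zero])
  rw [← Φ.π_E u, h1, map_zero]

omit [DecidableEq ι] in
theorem exists_fam {H : Submodule F V} (dH : finrank F H = Fintype.card ι) : ∃ f : ι → V, span F (Set.range f) = H := by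
  let b := (Module.finBasisOfFinrankEq F H dH).reindex (Fintype.equivFin ι).symm
  refine ⟨H.subtype ∘ b, ?_⟩
  rw [Set.range_comp, ← map_span, b.span_eq, map_subtype_top]

/-- Hyperbolic pairs. -/
structure HP (Γ : Geo F V G) (e f : V) : Prop where
  qe : Γ.Q e = 0
  qf : Γ.Q f = 0
  ef : Γ.B e f = 1

section scalar

omit [FiniteDimensional F V]

theorem HP.fe {e f : V} (h : HP Γ e f) : Γ.B f e = Γ.ε := by rw [Γ.symm, h.ef, map_one, mul_one]

theorem HP.swap {e f : V} (h : HP Γ e f) : HP Γ f (Γ.ε • e) :=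
  ⟨h.qf, by rw [Γ.Q_smul, h.qe, mul_zero], by rw [B_smul, h.fe, Γ.σε, Γ.εε]⟩

theorem HP.ne {e f : V} (h : HP Γ e f) : e ≠ 0 := fun e0 => by simpa [e0] using h.ef

theorem HP.dec {e f : V} (h : HP Γ e f) (v : V) :
    ∃ (s t : F) (n : V), v = s • e + t • f + n ∧ Γ.B n e = 0 ∧ Γ.B n f = 0 := by
  refine ⟨Γ.B v f, Γ.ε * Γ.B v e, v - Γ.B v f • e - (Γ.ε * Γ.B v e) • f, by abel, ?_, ?_⟩
  · rw [sub_B, sub_B, smul_B, smul_B, Γ.B_self e h.qe, h.fe]
    linear_combination -Γ.B v e * Γ.εε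
  · rw [sub_B, sub_B, smul_B, smul_B, Γ.B_self f h.qf, h.ef]
    ring

end scalar

variable {g : G} (H : ∀ z y : V, Γ.Q z = 0 → Γ.Q y = 0 → Γ.B y z = 0 → (∀ c : F, y ≠ c • z) → Γ.B (Γ.ρ g y) z = 0)
include H

theorem eig {e f y : V} (h : HP Γ e f) (qy : Γ.Q y = 0) (y0 : y ≠ 0) (ye : Γ.B y e = 0) (yf : Γ.B y f = 0) :
    ∃ c : F, c ≠ 0 ∧ Γ.ρ g y = c • y := by
  have k : ∀ z w : V, Γ.Q z = 0 → Γ.B y z = 0 → Γ.B z w ≠ 0 → Γ.B y w = 0 → Γ.B (Γ.ρ g y) z = 0 :=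
    fun z w qz yz zw yw => H z y qz qy yz fun c hc => by
      rw [hc, smul_B, mul_eq_zero, or_iff_left zw] at yw
      exact y0 (by rw [hc, yw, zero_smul])
  have h1 := k e f h.qe ye (by rw [h.ef]; exact one_ne_zero) yf
  have h2 := k f e h.qf yf (by rw [h.fe]; exact Γ.ε_ne) ye
  have h3 : Γ.ρ g y ∈ span F {y} := by
    rw [← perp_perp (Γ := Γ) (span F {y})]
    intro v hv
    obtain ⟨s, t, n, rfl, ne, nf⟩ := h.dec v
    have yn : Γ.B y n = 0 := by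
      have := Γ.B_comm.1 (mem_perp_one.1 hv)
      rwa [map_add, map_add, B_smul, B_smul, ye, yf, mul_zero, mul_zero, add_zero, zero_add] at this
    have e1 : Γ.B (e + n) f = 1 := by rw [add_B, h.ef, nf, add_zero]
    obtain ⟨u, hu⟩ := Γ.sing (e + n) f h.qf (by rw [e1]; exact one_ne_zero)
    have h4 := k _ f hu (by rw [map_add, map_add, B_smul, ye, yn, yf, mul_zero, add_zero, add_zero])
      (by rw [add_B, e1, smul_B, Γ.B_self f h.qf, mul_zero, add_zero]; exact one_ne_zero) yf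
    rw [map_add, map_add, B_smul, h1, h2, mul_zero, add_zero, zero_add] at h4
    rw [map_add, map_add, B_smul, B_smul, h1, h2, h4, mul_zero, mul_zero, add_zero, add_zero]
  obtain ⟨c, hc⟩ := mem_span_singleton.1 h3
  refine ⟨c, ?_, hc.symm⟩
  rintro rfl
  exact y0 (Γ.ρ_inj g (by rw [← hc, zero_smul, map_zero]))

theorem eig_eq {e f e' f' : V} (h : HP Γ e f) (h' : HP Γ e' f') (ee : Γ.B e e' = 0) (ef : Γ.B e f' = 0)
    (fe : Γ.B f e' = 0) (ff : Γ.B f f' = 0) {c : F} (hc : Γ.ρ g e = c • e) : Γ.ρ g e' = c • e' := by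
  obtain ⟨c', -, hc'⟩ := eig H h h'.qe h'.ne (Γ.B_comm.1 ee) (Γ.B_comm.1 fe)
  have p : HP Γ e (f - f') := ⟨h.qe, by
    rw [sub_eq_add_neg, Γ.Q_add_of (by rw [map_neg, ff, neg_zero]), Γ.Q_neg, h.qf, h'.qf, add_zero],
    by rw [map_sub, h.ef, ef, sub_zero]⟩
  have e1 : Γ.B (e + e') f = 1 := by rw [add_B, h.ef, Γ.B_comm.1 fe, add_zero]
  have e2 : Γ.B (e + e') f' = 1 := by rw [add_B, h'.ef, ef, zero_add]
  obtain ⟨d, -, hd⟩ := eig H (y := e + e') p (by rw [Γ.Q_add_of ee, h.qe, h'.qe, add_zero])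
    (fun e0 => by simp [e0] at e1) (by rw [add_B, Γ.B_self e h.qe, Γ.B_comm.1 ee, add_zero])
    (by rw [map_sub, e1, e2, sub_self])
  rw [map_add, hc, hc'] at hd
  have d1 := congrArg (fun v => Γ.B v f) hd
  have d2 := congrArg (fun v => Γ.B v f') hd
  simp only [add_B, smul_B, h.ef, h'.ef, ef, Γ.B_comm.1 fe, mul_one, mul_zero, add_zero, zero_add] at d1 d2
  rw [hc', d2, d1]

theorem scalar {e f e' f' : V} (h : HP Γ e f) (h' : HP Γ e' f') (ee : Γ.B e e' = 0) (ef : Γ.B e f' = 0)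
    (fe : Γ.B f e' = 0) (ff : Γ.B f f' = 0) : ∃ c : F, Γ.ρ g = c • 1 := by
  obtain ⟨c, c0, c1⟩ := eig H h' h.qe h.ne ee ef
  have c2 := eig_eq H h h' ee ef fe ff c1
  have c3 := eig_eq H h h'.swap ef (by rw [B_smul, ee, mul_zero]) ff (by rw [B_smul, fe, mul_zero]) c1
  have c4 := eig_eq H h' h.swap (Γ.B_comm.1 fe) (by rw [B_smul, Γ.B_comm.1 ee, mul_zero]) (Γ.B_comm.1 ff)
    (by rw [B_smul, Γ.B_comm.1 ef, mul_zero]) c2
  refine ⟨c, LinearMap.ext fun v => ?_⟩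
  obtain ⟨s, t, n', rfl, ne, nf⟩ := h.dec v
  obtain ⟨s', t', n, rfl, ne', nf'⟩ := h'.dec n'
  rw [add_B, add_B, smul_B, smul_B, Γ.B_comm.1 ee, Γ.B_comm.1 ef, mul_zero, mul_zero, add_zero, zero_add] at ne
  rw [add_B, add_B, smul_B, smul_B, Γ.B_comm.1 fe, Γ.B_comm.1 ff, mul_zero, mul_zero, add_zero, zero_add] at nf
  have e1 : Γ.B (e + n) f = 1 := by rw [add_B, h.ef, nf, add_zero]
  obtain ⟨u, hu⟩ := Γ.sing (e + n) f h.qf (by rw [e1]; exact one_ne_zero)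
  have e2 : Γ.B (e + n + u • f) f = 1 := by rw [add_B, e1, smul_B, Γ.B_self f h.qf, mul_zero, add_zero]
  obtain ⟨d, -, hd⟩ := eig H h' hu (fun e0 => by simp [e0] at e2)
    (by rw [add_B, add_B, smul_B, ee, ne', fe, mul_zero, add_zero, add_zero])
    (by rw [add_B, add_B, smul_B, ef, nf', ff, mul_zero, add_zero, add_zero])
  have e3 : Γ.B (Γ.ρ g n) f = 0 := by
    have := Γ.ρB g n f
    rwa [c4, B_smul, nf, mul_eq_zero, Γ.σ_eq_zero, or_iff_right c0] at this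
  rw [map_add, map_add, map_smul, c1, c4] at hd
  have e4 := congrArg (fun v => Γ.B v f) hd
  beta_reduce at e4
  rw [smul_B d, e2, add_B, add_B, smul_B, smul_B, smul_B, h.ef, e3,
    Γ.B_self f h.qf, mul_zero, mul_zero, add_zero, add_zero, mul_one, mul_one] at e4
  subst e4
  have c5 : Γ.ρ g n = c • n := by
    linear_combination (norm := module) hd
  simp only [map_add, map_smul, c1, c2, c3, c4, c5, LinearMap.smul_apply, Module.End.one_apply]

end Ex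

open Submodule in
theorem exists_F0 [Nonempty κ] (Φ₀ : Fr Γ (Option κ)) (g : G) (hg : ∀ c : F, Γ.ρ g ≠ c • 1)
    (h : (∃ t, t ≠ 0 ∧ Γ.τ t = 0) ∨ 2 * Fintype.card (Option κ) < finrank F V) :
    ∃ (Φ : Fr Γ (Option κ)) (u : Option κ → F), IsUnit (Φ.lm g) ∧ (∀ c : F, u ≠ c • Pi.single none 1) ∧
      Φ.lm g *ᵥ u = Pi.single none 1 ∧ Γ.B (Γ.ρ g (Φ.E u)) (Φ.e none) ≠ 0 := by
  obtain ⟨z, y, qz, qy, yz, ny, hB⟩ : ∃ z y : V, Γ.Q z = 0 ∧ Γ.Q y = 0 ∧ Γ.B y z = 0 ∧ (∀ c : F, y ≠ c • z) ∧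
      Γ.B (Γ.ρ g y) z ≠ 0 := by
    by_contra! H
    obtain ⟨i⟩ := ‹Nonempty κ›
    obtain ⟨c, hc⟩ := Ex.scalar H (e := Φ₀.e none) (f := Φ₀.f none) (e' := Φ₀.e (some i)) (f' := Φ₀.f (some i))
      ⟨Φ₀.Qe _, Φ₀.Qf _, by simp [Φ₀.ef]⟩ ⟨Φ₀.Qe _, Φ₀.Qf _, by simp [Φ₀.ef]⟩ (Φ₀.ee _ _) (by simp [Φ₀.ef])
      (by simp [Φ₀.fe]) (Φ₀.ff _ _)
    exact hg c hc
  have z0 : z ≠ 0 := fun e => hB (by rw [e, map_zero])
  have y0 : Γ.ρ g y ≠ 0 := fun e => hB (by rw [e, map_zero, LinearMap.zero_apply])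
  have hX : Γ.TS ((⊥ ⊔ span F {z}) ⊔ span F {y}) :=
    Ex.ts_sup (Ex.ts_sup Ex.ts_bot qz (by simp [Γ.mem_perp])) qy (by rw [bot_sup_eq, Ex.mem_perp_one]; exact yz)
  rw [bot_sup_eq] at hX
  have d1 : ∀ v : V, finrank F (span F {v}) ≤ 1 := fun v => finrank_span_le_card ({v} : Set V)
  have d2 := finrank_add_le_finrank_add_finrank (span F {z}) (span F {y})
  have d3 : 0 < Fintype.card κ := Fintype.card_pos
  have d4 : Fintype.card (Option κ) = Fintype.card κ + 1 := Fintype.card_option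
  obtain ⟨W, hW, hXW, dW⟩ := Ex.exists_ext Φ₀ (Fintype.card (Option κ) - finrank F ↥(span F {z} ⊔ span F {y})) _ hX
    (by have := d1 z; have := d1 y; omega)
  have hz : z ∈ W := hXW (mem_sup_left (mem_span_singleton_self z))
  have hy : y ∈ W := hXW (mem_sup_right (mem_span_singleton_self y))
  have hY := Ex.ts_map hW g
  have hy' : Γ.ρ g y ∈ W.map (Γ.ρ g) := mem_map_of_mem hy
  have dY : finrank F (W.map (Γ.ρ g)) = finrank F W := (LinearEquiv.finrank_eq (equivMapOfInjective _ (Γ.ρ_inj g) W)).symm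
  obtain ⟨H, hH, dH, hHC, iW, iY⟩ := Ex.greedy hW hY ((span_singleton_le_iff_mem _ _).2 hz)
    ((span_singleton_le_iff_mem _ _).2 hy') (fun x hx hp => by
      rw [Ex.mem_perp_sup, Ex.mem_perp_one, Ex.mem_perp_one] at hp
      obtain ⟨a, ha, b, hb, rfl⟩ := mem_sup.1 hx
      obtain ⟨s, rfl⟩ := mem_span_singleton.1 ha
      obtain ⟨t, rfl⟩ := mem_span_singleton.1 hb
      obtain ⟨p1, p2⟩ := hp
      rw [Ex.add_B, Ex.smul_B, Ex.smul_B, Γ.B_self z qz, mul_zero, zero_add, mul_eq_zero, or_iff_left hB] at p1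
      rw [Ex.add_B, Ex.smul_B, Ex.smul_B, hY.2 hy' _ hy', mul_zero, add_zero, mul_eq_zero,
        or_iff_left (mt Γ.B_comm.1 hB)] at p2
      rw [p1, p2, zero_smul, zero_smul, add_zero]) (d1 _) (d1 _) dW (dY.trans dW) h (Fintype.card κ) d4.ge
  have pC := Ex.le_perp_comm hHC
  have pz : z ∈ Γ.perp H := pC (mem_sup_left (mem_span_singleton_self _))
  have py : Γ.ρ g y ∈ Γ.perp H := pC (mem_sup_right (mem_span_singleton_self _))
  obtain ⟨f₀, pf, qf, zf, yf⟩ := Ex.step (C := ⊥) hW hY (fun x _ w hw => by rw [(mem_bot F).1 hw, map_zero])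
    (fun _ hx _ => hx) iW iY hz hy' z0 y0 (by rwa [sup_bot_eq]) (by rwa [sup_bot_eq])
    (h.imp_right fun h => by rw [finrank_bot]; omega)
  rw [sup_bot_eq] at pf
  obtain ⟨f, rfl⟩ := Ex.exists_fam dH
  have fm : ∀ i, f i ∈ span F (Set.range f) := fun i => subset_span ⟨i, rfl⟩
  have e : span F (Set.range fun o : Option κ => o.elim f₀ f) = span F (Set.range f) ⊔ span F {f₀} := by
    rw [← span_union]
    congr 1
    ext v
    simp only [Set.mem_range, Option.exists, Option.elim, Set.mem_union, Set.mem_singleton_iff, or_comm, eq_comm]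
  obtain ⟨Φ, hf, hΦ, hu⟩ := Ex.exists_frame hW dW g (f := fun o : Option κ => o.elim f₀ f)
    (by rw [e]; exact Ex.ts_sup hH qf pf) (by rw [e, finrank_sup_span_singleton fun e => zf (pz _ e), dH, d4])
    (by rw [e]; exact Ex.inv_step iW hz pz zf) (by rw [e]; exact Ex.inv_step iY hy' py yf)
  have key : ∀ v ∈ Γ.perp (span F (Set.range f)), Φ.π v = Γ.B v f₀ • Pi.single none 1 := fun v hv => by
    ext o
    rw [Φ.π_apply, hf]
    cases o with
    | none => simp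
    | some i => simp [hv _ (fm i)]
  obtain ⟨w, rfl⟩ := Φ.mem_W.1 (hΦ ▸ hy)
  obtain ⟨w', rfl⟩ := Φ.mem_W.1 (hΦ ▸ hz)
  have k1 := key _ pz
  have k2 := key _ py
  rw [Φ.π_E] at k1
  obtain ⟨s, hs⟩ : ∃ s, s = Γ.B (Φ.E w') f₀ := ⟨_, rfl⟩
  obtain ⟨t, ht⟩ : ∃ t, t = Γ.B (Γ.ρ g (Φ.E w)) f₀ := ⟨_, rfl⟩
  rw [← hs] at k1 zf
  rw [← ht] at k2 yf
  subst k1
  refine ⟨Φ, t⁻¹ • w, hu, fun c hc => ny (t * c * s⁻¹) ?_, ?_, ?_⟩
  · rw [← map_smul, smul_smul, inv_mul_cancel_right₀ zf, mul_smul, ← hc, smul_inv_smul₀ yf]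
  · rw [mulVec_smul, Φ.lm_mulVec, k2, inv_smul_smul₀ yf]
  · rw [map_smul, map_smul, Ex.smul_B]
    rw [map_smul, Φ.E_single, Ex.B_smul] at hB
    exact mul_ne_zero (inv_ne_zero yf) (right_ne_zero_of_mul hB)

open Submodule in
theorem exists_F1 (Φ₀ : Fr Γ ι) (g : G) {X : Submodule F V} (hX : Γ.TS X) (hd : finrank F X ≤ Fintype.card ι)
    (h : (∃ t, t ≠ 0 ∧ Γ.τ t = 0) ∨ 2 * Fintype.card ι < finrank F V) :
    ∃ Φ : Fr Γ ι, IsUnit (Φ.lm g) ∧ X ≤ Φ.W := by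
  obtain ⟨W, hW, hXW, dW⟩ := Ex.exists_ext Φ₀ (Fintype.card ι - finrank F X) X hX (by omega)
  have dY : finrank F (W.map (Γ.ρ g)) = finrank F W := (LinearEquiv.finrank_eq (equivMapOfInjective _ (Γ.ρ_inj g) W)).symm
  obtain ⟨H, hH, dH, -, iW, iY⟩ := Ex.greedy hW (Ex.ts_map hW g) bot_le bot_le (fun x hx _ => by simpa using hx)
    (finrank_bot F V).le (finrank_bot F V).le dW (dY.trans dW) h (Fintype.card ι) le_rfl
  obtain ⟨f, rfl⟩ := Ex.exists_fam dH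
  obtain ⟨Φ, -, hΦ, hu⟩ := Ex.exists_frame hW dW g hH dH iW iY
  exact ⟨Φ, hu, hΦ ▸ hXW⟩

end Cfsg.Agent.H65.Ore
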