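import Cfsg.Agent.H65.OreGeo
import Mathlib.FieldTheory.ChevalleyWarning

set_option autoImplicit false

namespace Cfsg.Agent.H65.Ore

open Matrix Module

variable {F V G : Type*} [Field F] [AddCommGroup V] [Module F V] [Group G] [FiniteDimensional F V]
  {Γ : Geo F V G} {ι κ : Type*} [Fintype ι] [DecidableEq ι] [Fintype κ] [DecidableEq κ]

omit [FiniteDimensional F V] in
theorem ex2_pair {e u : V} (he : Γ.Q e = 0) (h : Γ.B e u ≠ 0) :
    ∃ c t : F, Γ.Q (c • (u + t • e)) = 0 ∧ Γ.B e (c • (u + t • e)) = 1 := by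
  obtain ⟨t, ht⟩ := Γ.sing u e he (mt Γ.B_comm.1 h)
  exact ⟨Γ.σ (Γ.B e u)⁻¹, t, by rw [Γ.Q_smul, ht, mul_zero], by simp [Γ.σσ, Γ.B_self e he, h]⟩

omit [FiniteDimensional F V] in
theorem ex2_cons (Ψ : Fr Γ κ) {e : V} (he : e ∈ Ψ.M) (h0 : e ≠ 0) (hQ : Γ.Q e = 0) :
    ∃ Φ : Fr Γ (Option κ), (∀ i, Φ.e (some i) = Ψ.e i) ∧ ∀ i, Φ.f (some i) = Ψ.f i := by
  obtain ⟨y, hy⟩ := not_forall.1 (mt (Γ.nondeg e) h0)
  rw [Ψ.decomp y, map_add, map_add, Ψ.B_M_E he, Ψ.B_M_E' he, zero_add, zero_add] at hy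
  obtain ⟨c, t, h1, h2⟩ := ex2_pair hQ hy
  obtain ⟨f1, f2⟩ := Ψ.mem_M.1 (Ψ.M.smul_mem c (Ψ.M.add_mem (Ψ.π₀_mem y) (Ψ.M.smul_mem t he)))
  obtain ⟨e1, e2⟩ := Ψ.mem_M.1 he
  refine ⟨⟨fun i => i.elim e Ψ.e, fun i => i.elim (c • (Ψ.π₀ y + t • e)) Ψ.f, ?_, ?_, ?_, ?_, ?_⟩, fun _ => rfl, fun _ => rfl⟩
  · rintro (_ | i); exacts [hQ, Ψ.Qe i]
  · rintro (_ | i); exacts [h1, Ψ.Qf i]
  · rintro (_ | i) (_ | j); exacts [Γ.B_self _ hQ, e2 j, Γ.B_comm.1 (e2 i), Ψ.ee i j]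
  · rintro (_ | i) (_ | j); exacts [Γ.B_self _ h1, f1 j, Γ.B_comm.1 (f1 i), Ψ.ff i j]
  · rintro (_ | i) (_ | j)
    exacts [h2, e1 j, Γ.B_comm.1 (f2 i), (Ψ.ef i j).trans (by simp)]

theorem ex2_perp (X C : Submodule F V) : finrank F X ≤ finrank F ↥(X ⊓ Γ.perp C) + finrank F C := by
  let b := Module.finBasis F C
  let L : X →ₗ[F] Fin (finrank F C) → F := (LinearMap.pi fun i => Γ.B.flip (b i)) ∘ₗ X.subtype
  have h1 := L.finrank_range_add_finrank_ker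
  have h2 := (LinearMap.range L).finrank_le
  rw [Module.finrank_fin_fun] at h2
  have h3 : finrank F ((LinearMap.ker L).map X.subtype) ≤ finrank F ↥(X ⊓ Γ.perp C) := Submodule.finrank_mono (by
    rintro _ ⟨x, hx, rfl⟩
    refine ⟨x.2, fun y hy => ?_⟩
    have : ∀ i, Γ.B x (b i) = 0 := fun i => congrFun hx i
    rw [show y = ∑ i, b.repr ⟨y, hy⟩ i • (b i : V) from (congrArg Subtype.val (b.sum_repr ⟨y, hy⟩)).symm.trans (by
      simp only [AddSubmonoidClass.coe_finset_sum, SetLike.val_smul])]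
    simp [this])
  rw [Submodule.finrank_map_subtype_eq] at h3
  omega

omit [FiniteDimensional F V] in
theorem ex2_W (Φ : Fr Γ ι) : finrank F Φ.W = Fintype.card ι := by
  rw [show Φ.W = LinearMap.range Φ.E from Submodule.ext fun _ => Φ.mem_W,
    LinearMap.finrank_range_of_inj (Function.LeftInverse.injective Φ.π_E), Module.finrank_fintype_fun_eq_card]

theorem exists_frame_ext (Φ₀ : Fr Γ ι) (Ψ : Fr Γ κ) (j : κ → ι) (hj : Function.Injective j) :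
    ∃ Φ : Fr Γ ι, (∀ i, Φ.e (j i) = Ψ.e i) ∧ ∀ i, Φ.f (j i) = Ψ.f i := by
  induction h : Fintype.card ι - Fintype.card κ generalizing κ with
  | zero =>
    let e := Equiv.ofBijective j ((Fintype.bijective_iff_injective_and_card j).2
      ⟨hj, (Fintype.card_le_of_injective j hj).antisymm (by omega)⟩)
    exact ⟨Ψ.sub e.symm e.symm.injective, fun i => congrArg Ψ.e (e.symm_apply_apply i),
      fun i => congrArg Ψ.f (e.symm_apply_apply i)⟩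
  | succ n ih =>
    obtain ⟨i₀, hi⟩ := not_forall.1 fun h' : Function.Surjective j => by
      have := Fintype.card_le_of_surjective j h'; omega
    obtain ⟨x, ⟨hx, hx'⟩, h0⟩ : ∃ x ∈ Φ₀.W ⊓ Γ.perp Ψ.W, x ∉ Ψ.W := by
      by_contra! hc
      obtain ⟨C, hC⟩ := (Φ₀.W ⊓ Ψ.W).exists_isCompl
      have e1 : Φ₀.W ⊓ Ψ.W ⊔ C ⊓ Ψ.W = Ψ.W := by
        rw [← sup_inf_assoc_of_le C inf_le_right, hC.sup_eq_top, top_inf_eq]
      have e2 := Submodule.finrank_sup_add_finrank_inf_eq (Φ₀.W ⊓ Ψ.W) (C ⊓ Ψ.W)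
      rw [e1, ← inf_assoc, hC.inf_eq_bot, bot_inf_eq, finrank_bot, ex2_W] at e2
      have e3 := ex2_perp (Γ := Γ) Φ₀.W (C ⊓ Ψ.W)
      have e4 : finrank F ↥(Φ₀.W ⊓ Γ.perp (C ⊓ Ψ.W)) ≤ finrank F ↥(Φ₀.W ⊓ Ψ.W) := Submodule.finrank_mono fun x hx =>
        ⟨hx.1, hc x ⟨hx.1, fun y hy => by
          obtain ⟨a, ha, b, hb, rfl⟩ := Submodule.mem_sup.1 (e1.ge hy)
          rw [map_add, Φ₀.ts_W.2 hx.1 a ha.1, hx.2 b hb, add_zero]⟩⟩
      rw [ex2_W] at e3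
      omega
    have e1 : Ψ.swap.π x = 0 := Ψ.swap.mem_perp_W'.1 (by rwa [Fr.swap_swap_W])
    have e2 := Ψ.Q_sum (Ψ.π x) (Ψ.swap.π x) (Ψ.π₀_mem x)
    rw [← Ψ.decomp, Φ₀.ts_W.1 x hx, e1] at e2
    obtain ⟨Ψ', h1, h2⟩ := ex2_cons Ψ (Ψ.π₀_mem x) (fun e => h0 (by
      rw [Ψ.decomp x, e, e1]; simpa using Ψ.E_mem _)) (by simpa [dotProduct] using e2.symm)
    obtain ⟨Φ, h3, h4⟩ := ih Ψ' (fun i => i.elim i₀ j) (by
      rintro (_ | a) (_ | b) e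
      exacts [rfl, (hi ⟨b, e.symm⟩).elim, (hi ⟨a, e⟩).elim, congrArg some (hj e)]) (by simp; omega)
    exact ⟨Φ, fun i => (h3 (some i)).trans (h1 i), fun i => (h4 (some i)).trans (h2 i)⟩

theorem finrank_M (Φ : Fr Γ ι) : finrank F Φ.M + 2 * Fintype.card ι = finrank F V := by
  have := (Φ.π.prod Φ.swap.π).finrank_range_add_finrank_ker
  rw [LinearMap.range_eq_top.2 fun x => ⟨Φ.E x.1 + Φ.swap.E x.2, by simp⟩, LinearMap.ker_prod, finrank_top,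
    Module.finrank_prod, Module.finrank_fintype_fun_eq_card] at this
  change _ + finrank F Φ.M = _ at this
  omega

theorem ex2_gen [Finite F] {q : ℕ} (h : Nat.card F = q ^ 2) :
    2 ≤ q ∧ ∃ z : Fˣ, orderOf z = (q + 1) * (q - 1) ∧ ∀ c : Fˣ, ∃ k : ℕ, z ^ k = c := by
  have h2 : 2 ≤ q := by
    by_contra h'
    have := Finite.one_lt_card (α := F)
    interval_cases q <;> omega
  obtain ⟨z, hz⟩ := IsCyclic.exists_monoid_generator (α := Fˣ)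
  refine ⟨h2, z, ?_, hz⟩
  rw [orderOf_eq_card_of_forall_mem_powers hz, Nat.card_units, h, ← Nat.sq_sub_sq, one_pow]

omit [FiniteDimensional F V] in
theorem ex2_ne [Finite F] {q : ℕ} (hU : Γ.IsU q) : ∃ y, Γ.σ y ≠ y := by
  obtain ⟨h2, z, hz, -⟩ := ex2_gen hU.card
  refine ⟨z, fun h => ?_⟩
  have : z ^ (q - 1) = 1 := mul_left_cancel (a := z) (Units.ext (by
    rw [← pow_succ', Nat.sub_add_cancel (by omega), mul_one, Units.val_pow_eq_pow_val, ← hU.σ_eq, h]))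
  have := Nat.le_of_dvd (by omega) (hz ▸ orderOf_dvd_of_pow_eq_one this)
  have : 3 * (q - 1) ≤ (q + 1) * (q - 1) := Nat.mul_le_mul_right _ (by omega)
  omega

theorem Geo.IsU.norm_surj [Finite F] {q : ℕ} (hU : Γ.IsU q) {c : F} (hc : Γ.σ c = c) : ∃ x, x * Γ.σ x = c := by
  obtain rfl | h0 := eq_or_ne c 0
  · exact ⟨0, zero_mul _⟩
  obtain ⟨h2, z, hz, h⟩ := ex2_gen hU.card
  obtain ⟨k, hk⟩ := h (Units.mk0 c h0)
  have : z ^ (k * (q - 1)) = 1 := mul_left_cancel (a := z ^ k) (Units.ext (by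
    rw [pow_mul, ← pow_succ', Nat.sub_add_cancel (by omega), mul_one, hk, Units.val_pow_eq_pow_val, Units.val_mk0,
      ← hU.σ_eq, hc]))
  obtain ⟨l, rfl⟩ := Nat.dvd_of_mul_dvd_mul_right (by omega) (hz ▸ orderOf_dvd_of_pow_eq_one this)
  exact ⟨z ^ l, by rw [hU.σ_eq, ← pow_succ', ← pow_mul, mul_comm, ← Units.val_pow_eq_pow_val, hk]; rfl⟩

theorem Geo.IsU.hilbert [Finite F] {q : ℕ} (hU : Γ.IsU q) {c : F} (hc : c * Γ.σ c = 1) :
    ∃ x, x ≠ 0 ∧ x = c * Γ.σ x := by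
  obtain ⟨y, hy⟩ : ∃ y, c * Γ.σ y + y ≠ 0 := by
    by_contra! h
    obtain ⟨y, hy⟩ := ex2_ne hU
    have h1 := h 1
    rw [map_one] at h1
    exact hy (by linear_combination Γ.σ y * h1 - h y)
  exact ⟨_, hy, by rw [map_add, map_mul, Γ.σσ]; linear_combination -y * hc⟩

theorem Geo.IsU.skew [Finite F] {q : ℕ} (hU : Γ.IsU q) : ∃ t, t ≠ 0 ∧ Γ.τ t = 0 := by
  obtain ⟨y, hy⟩ := ex2_ne hU
  exact ⟨Γ.σ y - y, sub_ne_zero.2 hy, by rw [hU.τ_eq, map_sub, Γ.σσ]; ring⟩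

theorem ex2_iso [Finite F] {q : ℕ} (hU : Γ.IsU q) {D : Submodule F V} (h : 2 ≤ finrank F D) :
    ∃ e ∈ D, e ≠ 0 ∧ Γ.Q e = 0 := by
  by_contra! hc
  obtain ⟨x, hx, x0⟩ := Submodule.exists_mem_ne_zero_of_ne_bot (p := D) (by rintro rfl; simp at h)
  obtain ⟨y, ⟨hy, hy'⟩, y0⟩ := Submodule.exists_mem_ne_zero_of_ne_bot (p := D ⊓ Γ.perp (Submodule.span F {x})) fun e => by
    have := ex2_perp (Γ := Γ) D (Submodule.span F {x})
    rw [e, finrank_bot, finrank_span_singleton x0] at this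
    omega
  have b0 : Γ.B x y = 0 := Γ.B_comm.1 (hy' x (Submodule.mem_span_singleton_self x))
  have k : ∀ x, Γ.σ (Γ.Q x) = Γ.Q x := fun x => by simpa [hU.ε_eq, hU.Q_eq] using (Γ.symm x x).symm
  obtain ⟨c, e⟩ := hU.norm_surj (c := -Γ.Q x / Γ.Q y) (by simp [k])
  refine hc (x + c • y) (D.add_mem hx (D.smul_mem c hy)) (fun e => hc x hx x0 ?_) ?_
  · simpa [b0, hU.Q_eq] using congrArg (Γ.B x) e
  · have := hc y hy y0
    rw [Γ.Q_add_of (by simp [b0]), Γ.Q_smul, e]; field_simp; ring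

theorem exists_frU [Finite F] {q : ℕ} (hU : Γ.IsU q) (h : 2 * Fintype.card ι ≤ finrank F V) :
    Nonempty (Fr Γ ι) := by
  have : ∀ k, 2 * k ≤ finrank F V → Nonempty (Fr Γ (Fin k)) := fun k => by
    induction k with
    | zero => exact fun _ => ⟨⟨Fin.elim0, Fin.elim0, by simp, by simp, by simp, by simp, by simp⟩⟩
    | succ k ih =>
      intro h
      obtain ⟨Ψ⟩ := ih (by omega)
      obtain ⟨e, he, h0, hQ⟩ := ex2_iso hU (D := Ψ.M) (by have := finrank_M Ψ; rw [Fintype.card_fin] at this; omega)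
      obtain ⟨Φ, -⟩ := ex2_cons Ψ he h0 hQ
      exact ⟨Φ.sub _ (finSuccEquiv k).injective⟩
  exact (this _ h).map fun Φ => Φ.sub _ (Fintype.equivFin ι).injective

theorem ex2_scalar [Finite F] {q : ℕ} (hU : Γ.IsU q) (h2 : 2 ≤ finrank F V) {T : End F V}
    (h : ∀ z, Γ.Q z = 0 → Γ.B (T z) z = 0) : ∃ c : F, T = c • 1 := by
  obtain ⟨Φ⟩ := exists_frU (ι := Unit) hU (by simpa using h2)
  obtain ⟨s, s0, hs⟩ := hU.skew
  obtain ⟨a, ha⟩ := ex2_ne hU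
  rw [hU.τ_eq] at hs
  have k : ∀ {e f}, Γ.Q f = 0 → Γ.Q e = 0 → Γ.B e f = 1 → ∀ m, Γ.B m f = 0 →
      Γ.B (T (e + m)) f = Γ.B (T f) (e + m) ∧ ∃ t : F, Γ.Q (e + m + t • f) = 0 := fun {e f} hf he hef m hm => by
    obtain ⟨t, ht⟩ := Γ.sing (e + m) f hf (by simp [hef, hm])
    have h1 := h _ ht
    have h2 := h (e + m + t • f + s • f) (by
      rw [Γ.Q_add, ht, Γ.Q_smul, hf, hU.τ_eq]; simp [hef, hm, Γ.B_self f hf, Γ.σσ]; linear_combination hs)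
    refine ⟨mul_left_cancel₀ s0 ?_, t, ht⟩
    simp only [map_add, map_smul, LinearMap.add_apply, LinearMap.smul_apply, LinearMap.map_smulₛₗ, smul_eq_mul, h f hf,
      RingHom.id_apply] at h1 h2 ⊢
    linear_combination h1 - h2 + (Γ.B (T e) f + Γ.B (T m) f) * hs
  have k2 : ∀ {e f}, Γ.Q f = 0 → Γ.Q e = 0 → Γ.B e f = 1 → ∀ m, Γ.B m f = 0 → Γ.B (T m) f = 0 ∧ Γ.B (T f) m = 0 :=
    fun {e f} hf he hef m hm => by
      have h0 := (k hf he hef 0 (by simp)).1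
      have h1 := (k hf he hef m hm).1
      have h2 := (k hf he hef (a • m) (by simp [hm])).1
      simp only [map_add, map_smul, LinearMap.add_apply, LinearMap.smul_apply, LinearMap.map_smulₛₗ, smul_eq_mul,
        add_zero, RingHom.id_apply] at h0 h1 h2
      have : Γ.B (T f) m = 0 := (mul_eq_zero.1 (show (Γ.σ a - a) * Γ.B (T f) m = 0 by
        linear_combination a * h1 - h2 + (1 - a) * h0)).resolve_left (sub_ne_zero.2 ha)
      exact ⟨by linear_combination h1 - h0 + this, this⟩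
  obtain ⟨e, f, he, hf, ef⟩ : ∃ e f, Γ.Q e = 0 ∧ Γ.Q f = 0 ∧ Γ.B e f = 1 := ⟨Φ.e (), Φ.f (), Φ.Qe _, Φ.Qf _, Φ.ef _ _⟩
  have fe : Γ.B f e = 1 := by simp [Γ.symm e f, ef, hU.ε_eq]
  have ee := Γ.B_self e he
  have ff := Γ.B_self f hf
  have c0 : Γ.B (T e) f = Γ.B (T f) e := by simpa using (k hf he ef 0 (by simp)).1
  have k3 : ∀ m, Γ.B m e = 0 → Γ.B m f = 0 → Γ.B (T m) m = Γ.B (T e) f * Γ.B m m := fun m m1 m2 => by
    obtain ⟨t, ht⟩ := (k hf he ef m m2).2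
    have h1 := h _ ht
    rw [hU.Q_eq] at ht
    simp only [map_add, map_smul, LinearMap.add_apply, LinearMap.smul_apply, LinearMap.map_smulₛₗ, smul_eq_mul, h f hf,
      h e he, RingHom.id_apply, k2 hf he ef m m2, k2 he hf fe m m1, m1, m2, Γ.B_comm.1 m1, Γ.B_comm.1 m2, ee, ff, ef, fe,
      ← c0] at h1 ht
    linear_combination h1 - Γ.B (T e) f * ht
  have k4 : ∀ m n, Γ.B m e = 0 → Γ.B m f = 0 → Γ.B n e = 0 → Γ.B n f = 0 → Γ.B (T m) n = Γ.B (T e) f * Γ.B m n :=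
    fun m n m1 m2 n1 n2 => by
      have h1 := k3 (m + n) (by simp [m1, n1]) (by simp [m2, n2])
      have h2 := k3 (a • m + n) (by simp [m1, n1]) (by simp [m2, n2])
      simp only [map_add, map_smul, LinearMap.add_apply, LinearMap.smul_apply, LinearMap.map_smulₛₗ, smul_eq_mul,
        RingHom.id_apply, k3 m m1 m2, k3 n n1 n2] at h1 h2
      exact sub_eq_zero.1 ((mul_eq_zero.1 (show (Γ.σ a - a) * _ = 0 by
        linear_combination Γ.σ a * h1 - h2)).resolve_left (sub_ne_zero.2 ha))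
  have d : ∀ v, ∃ (x y : F) (m : V), Γ.B m e = 0 ∧ Γ.B m f = 0 ∧ v = x • e + y • f + m := fun v =>
    ⟨Γ.B v f, Γ.B v e, v - Γ.B v f • e - Γ.B v e • f, by simp [ee, fe], by simp [ff, ef], by abel⟩
  refine ⟨Γ.B (T e) f, LinearMap.ext fun v => sub_eq_zero.1 (Γ.nondeg _ fun w => ?_)⟩
  obtain ⟨x, y, m, m1, m2, rfl⟩ := d v
  obtain ⟨x', y', n, n1, n2, rfl⟩ := d w
  simp only [map_add, map_sub, map_smul, LinearMap.add_apply, LinearMap.sub_apply, LinearMap.smul_apply,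
    LinearMap.map_smulₛₗ, smul_eq_mul, h f hf, h e he, RingHom.id_apply, k2 hf he ef m m2, k2 he hf fe m m1,
    k2 hf he ef n n2, k2 he hf fe n n1, m1, m2, Γ.B_comm.1 n1, Γ.B_comm.1 n2, ee, ff, ef, fe, ← c0, k4 m n m1 m2 n1 n2,
    End.one_apply]
  ring

theorem exists_F0_three [Finite F] {q : ℕ} (hU : Γ.IsU q) (h3 : finrank F V = 3) (g : G)
    (hg : ∀ c : F, Γ.ρ g ≠ c • 1) : ∃ (Φ : Fr Γ (Option (Fin 0))) (u : Option (Fin 0) → F), IsUnit (Φ.lm g) ∧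
      Φ.lm g *ᵥ u = Pi.single none 1 ∧ Γ.B (Γ.ρ g (Φ.E u)) (Φ.e none) ≠ 0 := by
  obtain ⟨z, hz, h⟩ : ∃ z, Γ.Q z = 0 ∧ Γ.B (Γ.ρ g z) z ≠ 0 := by
    by_contra! h
    exact (ex2_scalar hU (by omega) h).elim hg
  obtain ⟨s, s0, hs⟩ := hU.skew
  have h' : Γ.B z (Γ.ρ g z) ≠ 0 := mt Γ.B_comm.1 h
  have zz := Γ.B_self z hz
  have e1 : Γ.B z (z + Γ.σ (s / Γ.B z (Γ.ρ g z)) • Γ.ρ g z) = s := by simp [zz, Γ.σσ, h']
  have e2 : Γ.Q (Γ.σ s⁻¹ • (z + Γ.σ (s / Γ.B z (Γ.ρ g z)) • Γ.ρ g z)) = 0 := by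
    rw [Γ.Q_smul, Γ.Q_add, Γ.Q_smul, Γ.ρQ, hz]; simp [Γ.σσ, h', hs]
  let Φ : Fr Γ (Option (Fin 0)) := ⟨fun _ => z, fun _ => Γ.σ s⁻¹ • (z + Γ.σ (s / Γ.B z (Γ.ρ g z)) • Γ.ρ g z),
    fun _ => hz, fun _ => e2, fun _ _ => zz, fun _ _ => Γ.B_self _ e2, fun i j => by
      rw [LinearMap.map_smulₛₗ, e1, Γ.σσ, if_pos (Subsingleton.elim _ _)]; simp [s0]⟩
  have e3 : ∀ i j, Φ.lm g i j = s⁻¹ * Γ.B (Γ.ρ g z) z := fun i j => by simp [Fr.lm, Φ, Γ.σσ, Γ.ρB, zz]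
  refine ⟨Φ, fun _ => s * (Γ.B (Γ.ρ g z) z)⁻¹, ?_, funext fun i => ?_, ?_⟩
  · rw [Matrix.isUnit_iff_isUnit_det, Matrix.det_eq_elem_of_subsingleton _ none, e3]; simp [s0, h]
  · rw [Subsingleton.elim i none]; simp [mulVec, dotProduct, e3]; field_simp
  · simp [Fr.E_apply, Φ, s0, h]

theorem ex2_cw [Finite F] (A : Fin 3 → Fin 3 → F) : ∃ a : Fin 3 → F, a ≠ 0 ∧ ∑ i, ∑ j, A i j * (a i * a j) = 0 := by
  classical
  cases nonempty_fintype F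
  obtain ⟨p, hp⟩ := CharP.exists F
  by_contra! h
  have := char_dvd_card_solutions p (f := ∑ i, ∑ j, MvPolynomial.C (A i j) * (MvPolynomial.X i * MvPolynomial.X j)) (by
    refine (MvPolynomial.totalDegree_finsetSum_le (d := 2) fun i _ => MvPolynomial.totalDegree_finsetSum_le fun j _ =>
      (MvPolynomial.totalDegree_mul _ _).trans ?_).trans_lt (by simp)
    have := MvPolynomial.totalDegree_mul (MvPolynomial.X i : MvPolynomial (Fin 3) F) (MvPolynomial.X j)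
    simpa using this)
  rw [Fintype.card_eq_one_iff.2 ⟨⟨0, by simp⟩, fun x => Subtype.ext (by_contra fun h0 => h _ h0 (by simpa using x.2))⟩]
    at this
  exact CharP.char_ne_one F p (Nat.dvd_one.1 this)

/-- A noncentral symplectic element over a field with two or three elements. -/
theorem sp_small [Finite F] (hS : Γ.IsSp) (hF : ∀ c : F, c ≠ 0 → c = 1 ∨ c = -1) (g : G) :
    (∃ x, Γ.B x (Γ.ρ g x) = 0 ∧ ∀ c : F, Γ.ρ g x ≠ c • x) ∨ ∃ c : F, (c = 1 ∨ c = -1) ∧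
      ((Γ.TS (LinearMap.range (Γ.ρ g - c • 1)) ∧ finrank F (LinearMap.range (Γ.ρ g - c • 1)) ≤ 2) ∨
        ∃ e f, Γ.B e f = 1 ∧ (∀ v, Γ.B v e = 0 → Γ.B v f = 0 → Γ.ρ g v = c • v) ∧
          ∀ x y : F, Γ.B (x • e + y • f) (Γ.ρ g (x • e + y • f)) = 0 → x = 0 ∧ y = 0) := by
  refine or_iff_not_imp_left.2 fun H => ?_
  have σ1 : ∀ c, Γ.σ c = c := fun c => by rw [hS.σ_eq]; rfl
  have bs : ∀ x, Γ.B x x = 0 := fun x => Γ.B_self x (hS.Q_eq x)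
  have sy : ∀ x y, Γ.B y x = -Γ.B x y := fun x y => by rw [Γ.symm x y, hS.ε_eq, σ1, neg_one_mul]
  have H1 : ∀ x, Γ.B x (Γ.ρ g x) = 0 → Γ.ρ g x = x ∨ Γ.ρ g x = -x := fun x hx => by
    obtain ⟨c, hc⟩ : ∃ c : F, Γ.ρ g x = c • x := by_contra fun h => H ⟨x, hx, not_exists.1 h⟩
    obtain rfl | h0 := eq_or_ne c 0
    · rw [Γ.ρ_inj g (hc.trans ((zero_smul _ _).trans (map_zero _).symm))]; simp
    · rcases hF c h0 with rfl | rfl <;> simp [hc]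
  obtain ⟨c, hc, hZ⟩ : ∃ c : F, (c = 1 ∨ c = -1) ∧ ∀ x, Γ.B x (Γ.ρ g x) = 0 → Γ.ρ g x = c • x := by
    by_cases h : ∀ x, Γ.B x (Γ.ρ g x) = 0 → Γ.ρ g x = x
    · exact ⟨1, .inl rfl, by simpa using h⟩
    push Not at h
    obtain ⟨a, ha, ha'⟩ := h
    have h1 := (H1 a ha).resolve_left ha'
    refine ⟨-1, .inr rfl, fun x hx => ?_⟩
    rw [neg_one_smul]
    refine (H1 x hx).elim (fun h2 => ?_) id
    have h3 := Γ.ρB g x a
    rw [h1, h2, map_neg] at h3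
    rcases H1 (x + a) (by simp [h1, h2, bs, sy x a]; linear_combination h3) with h | h <;> rw [map_add, h1, h2] at h
    · exact (ha' (h1.trans (add_left_cancel h))).elim
    · rw [neg_add] at h; exact h2.trans (add_right_cancel h)
  have cc : c * c = 1 := by rcases hc with rfl | rfl <;> simp
  set T := Γ.ρ g - c • (1 : End F V) with hT
  have T1 : ∀ v, T v = Γ.ρ g v - c • v := fun v => rfl
  have NZ : ∀ n ∈ LinearMap.range T, ∀ z, Γ.ρ g z = c • z → Γ.B n z = 0 := by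
    rintro _ ⟨v, rfl⟩ z hz
    have := Γ.ρB g v z
    rw [hz, LinearMap.map_smulₛₗ, σ1, smul_eq_mul] at this
    rw [T1, map_sub, map_smul, LinearMap.sub_apply, LinearMap.smul_apply, smul_eq_mul]
    linear_combination c * this - Γ.B (Γ.ρ g v) z * cc
  have h2 : finrank F (LinearMap.range T) ≤ 2 := by
    by_contra! h
    replace h : 3 ≤ _ := h
    have hb := (Module.finBasis F (LinearMap.range T)).linearIndependent.comp _ (Fin.castLE_injective h)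
    choose x hx using fun i : Fin 3 => ((Module.finBasis F (LinearMap.range T)) (Fin.castLE h i)).2
    obtain ⟨a, a0, ha⟩ := ex2_cw fun i j => Γ.B (x i) (Γ.ρ g (x j))
    refine a0 (funext (Fintype.linearIndependent_iff.1 hb a (Subtype.ext ?_)))
    have := sub_eq_zero.2 (hZ (∑ i, a i • x i) (by
      rw [← ha]; simp only [map_sum, map_smul, LinearMap.sum_apply, LinearMap.smul_apply, LinearMap.map_smulₛₗ, σ1,
        smul_eq_mul, RingHom.id_apply, Finset.mul_sum]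
      rw [Finset.sum_comm]
      exact Finset.sum_congr rfl fun _ _ => Finset.sum_congr rfl fun _ _ => by ring))
    rw [← T1, map_sum] at this
    simpa [hx] using this
  refine ⟨c, hc, or_iff_not_imp_left.2 fun h => ?_⟩
  obtain ⟨e, he, h0⟩ : ∃ e ∈ LinearMap.range T, Γ.B e (Γ.ρ g e) ≠ 0 := by
    by_contra! h'
    exact h ⟨⟨fun x _ => hS.Q_eq x, fun x hx y hy => NZ x hx y (hZ y (h' y hy))⟩, h2⟩
  obtain ⟨f, hf, ef⟩ : ∃ f ∈ LinearMap.range T, Γ.B e f = 1 :=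
    ⟨_, ⟨(Γ.B e (Γ.ρ g e))⁻¹ • e, rfl⟩, by simp [T1, σ1, bs, h0]⟩
  have k : ∀ x y : F, Γ.B e (x • e + y • f) = 0 → Γ.B f (x • e + y • f) = 0 → x = 0 ∧ y = 0 := fun x y => by
    simp +contextual [σ1, bs, ef, sy e f]
  have e1 : Submodule.span F (Set.range ![e, f]) = LinearMap.range T := Submodule.eq_of_le_of_finrank_le
    (Submodule.span_le.2 (by rintro _ ⟨i, rfl⟩; fin_cases i; exacts [he, hf])) (by
      rw [finrank_span_eq_card (LinearIndependent.pair_iff.2 fun x y e => k x y (by simp [e]) (by simp [e]))]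
      simpa using h2)
  refine ⟨e, f, ef, fun v h1 h2 => sub_eq_zero.1 (Γ.nondeg _ fun w => ?_), fun x y h =>
    k x y (NZ e he _ (hZ _ h)) (NZ f hf _ (hZ _ h))⟩
  have e2 : Γ.B v (T (Γ.ρ g⁻¹ w)) = 0 := by
    obtain ⟨a, ha⟩ := (Submodule.mem_span_range_iff_exists_fun F).1 (e1.ge ⟨Γ.ρ g⁻¹ w, rfl⟩)
    simp [← ha, Fin.sum_univ_two, h1, h2]
  rw [T1, map_sub, LinearMap.map_smulₛₗ, σ1, Γ.ρ_ρ_inv, ← Γ.B_ρ_left, smul_eq_mul] at e2
  rw [map_sub, map_smul, LinearMap.sub_apply, LinearMap.smul_apply, smul_eq_mul]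
  linear_combination -c * e2 - Γ.B (Γ.ρ g v) w * cc

end Cfsg.Agent.H65.Ore
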