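import Mathlib

set_option autoImplicit false

/-! Project ORE: definitions on the side of the general linear group. -/

namespace Cfsg.Agent.H65.Ore

open Polynomial Matrix

variable {F : Type*} [Field F] {κ : Type*} [Fintype κ] [DecidableEq κ]

/-- `A` is killed by `q` and has a cyclic vector. -/
def Cyc (A : Matrix κ κ F) (q : F[X]) : Prop :=
  aeval A q = 0 ∧ ∃ v : κ → F, ∀ x, ∃ a : F[X], x = aeval A a *ᵥ v

/-- The polynomial with roots `σ(μ)⁻¹`. -/
noncomputable def dag (σ : F →+* F) (r : F[X]) : F[X] := (r.map σ).reverse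

/-- The coprimality conditions of the Lang lemma. -/
def Good (σ : F →+* F) (r p : F[X]) : Prop :=
  IsCoprime r (dag σ r) ∧ IsCoprime r p ∧ IsCoprime (dag σ r) p

/-- The twisted inverse transpose. -/
def shp (σ : F →+* F) : GL κ F →* GL κ F where
  toFun A := ⟨(A⁻¹.1.map σ)ᵀ, (A.1.map σ)ᵀ,
    by rw [← transpose_mul, ← Matrix.map_mul, Units.mul_inv, Matrix.map_one _ σ.map_zero σ.map_one,
      transpose_one],
    by rw [← transpose_mul, ← Matrix.map_mul, Units.inv_mul, Matrix.map_one _ σ.map_zero σ.map_one,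
      transpose_one]⟩
  map_one' := Units.ext (by
    change ((1 : GL κ F)⁻¹.1.map σ)ᵀ = 1
    rw [inv_one, Units.val_one, Matrix.map_one _ σ.map_zero σ.map_one, transpose_one])
  map_mul' A B := Units.ext (by
    change ((A * B)⁻¹.1.map σ)ᵀ = (A⁻¹.1.map σ)ᵀ * (B⁻¹.1.map σ)ᵀ
    rw [_root_.mul_inv_rev, Units.val_mul, Matrix.map_mul, transpose_mul])

theorem shp_val (σ : F →+* F) (A : GL κ F) : (shp σ A).1 = (A⁻¹.1.map σ)ᵀ := rfl

/-- `A` is similar to `C` or to its twisted inverse transpose. -/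
def Rel (σ : F →+* F) (C A : GL κ F) : Prop := IsConj C A ∨ IsConj (shp σ C) A

/-- The block matrix `c ⊕ C`. -/
def dsumM (c : F) (C : Matrix κ κ F) : Matrix (Option κ) (Option κ) F :=
  Matrix.of fun i j => match i, j with
    | none, none => c
    | some i, some j => C i j
    | none, some _ => 0
    | some _, none => 0

omit [DecidableEq κ] in
theorem dsumM_mul (c d : F) (C D : Matrix κ κ F) : dsumM c C * dsumM d D = dsumM (c * d) (C * D) := by
  ext i j
  cases i <;> cases j <;> simp [dsumM, Matrix.mul_apply, Fintype.sum_option]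

omit [Fintype κ] in
theorem dsumM_one : dsumM (1 : F) (1 : Matrix κ κ F) = 1 := by
  ext i j
  cases i <;> cases j <;> simp [dsumM, Matrix.one_apply]

omit [DecidableEq κ] in
theorem dsumM_mulVec (c : F) (C : Matrix κ κ F) (u : Option κ → F) :
    dsumM c C *ᵥ u = fun i => i.elim (c * u none) fun i => (C *ᵥ fun j => u (some j)) i := by
  ext i
  cases i <;> simp [dsumM, Matrix.mulVec, dotProduct, Fintype.sum_option]

/-- The block matrix `c ⊕ C` as an invertible matrix. -/
def dsum : Fˣ × GL κ F →* GL (Option κ) F where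
  toFun p := ⟨dsumM p.1.1 p.2.1, dsumM p.1⁻¹.1 p.2⁻¹.1,
    by rw [dsumM_mul, Units.mul_inv, Units.mul_inv, dsumM_one],
    by rw [dsumM_mul, Units.inv_mul, Units.inv_mul, dsumM_one]⟩
  map_one' := Units.ext dsumM_one
  map_mul' p q := Units.ext (dsumM_mul _ _ _ _).symm

theorem dsum_val (c : Fˣ) (C : GL κ F) : (dsum (c, C)).1 = dsumM c.1 C.1 := rfl

theorem det_dsumM (c : F) (C : Matrix κ κ F) : (dsumM c C).det = c * C.det := by
  have : dsumM c C = (fromBlocks C 0 0 (Matrix.of fun _ _ : PUnit.{1} => c)).submatrix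
      (Equiv.optionEquivSumPUnit κ) (Equiv.optionEquivSumPUnit κ) := by
    ext i j
    cases i <;> cases j <;> simp [dsumM]
  rw [this, det_submatrix_equiv_self, det_fromBlocks_zero₂₁, mul_comm, det_unique]
  rfl

theorem aeval_dsumM (c : F) (C : Matrix κ κ F) (r : F[X]) :
    aeval (dsumM c C) r = dsumM (r.eval c) (aeval C r) := by
  induction r using Polynomial.induction_on with
  | C a =>
    ext i j
    cases i <;> cases j <;> simp [dsumM, Matrix.algebraMap_matrix_apply]
  | add p q hp hq =>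
    rw [map_add, map_add, hp, hq, eval_add]
    ext i j
    cases i <;> cases j <;> simp [dsumM]
  | monomial n a h =>
    rw [pow_succ, ← mul_assoc, map_mul, h, aeval_X, dsumM_mul, map_mul (aeval C) _ X, aeval_X,
      eval_mul (q := X), eval_X]

theorem dag_mul (σ : F →+* F) (r s : F[X]) : dag σ (r * s) = dag σ r * dag σ s := by
  rw [dag, Polynomial.map_mul, reverse_mul_of_domain]; rfl

/-- A product `x y⁻¹` of two conjugates of `D` is a commutator in `N`. -/
theorem comm_of {G : Type*} [Group G] (N : Subgroup G) [hN : N.Normal] {D g x y : G} (hD : D ∈ N)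
    (hc : ∀ k, ∃ c, c * D = D * c ∧ k * c ∈ N) (hg : g = x * y⁻¹) (hx : IsConj D x) (hy : IsConj D y) :
    ∃ a ∈ N, ∃ b ∈ N, g = a * b * a⁻¹ * b⁻¹ := by
  obtain ⟨t, rfl⟩ := isConj_iff.1 hx
  obtain ⟨s, rfl⟩ := isConj_iff.1 hy
  obtain ⟨c, h1, h2⟩ := hc (t⁻¹ * s)
  refine ⟨t * D * t⁻¹, hN.conj_mem _ hD t, t * (t⁻¹ * s * c) * t⁻¹, hN.conj_mem _ h2 t, ?_⟩
  have h3 : c * D⁻¹ * c⁻¹ = D⁻¹ := by
    have : D = c * D * c⁻¹ := by rw [h1]; group
    conv_rhs => rw [this]
    group
  rw [hg]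
  calc _ = t * D * t⁻¹ * (s * D⁻¹ * s⁻¹) := by group
    _ = t * D * t⁻¹ * (s * (c * D⁻¹ * c⁻¹) * s⁻¹) := by rw [h3]
    _ = _ := by group

end Cfsg.Agent.H65.Ore
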