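import Cfsg.Agent.H65.OreGL

set_option autoImplicit false

/-! Project ORE: a space with a form, its isometry group, hyperbolic frames. -/

namespace Cfsg.Agent.H65.Ore

open Polynomial Matrix Module

/-- A symplectic, unitary or orthogonal space with its full isometry group. -/
structure Geo (F V G : Type*) [Field F] [AddCommGroup V] [Module F V] [Group G] where
  σ : F →+* F
  ε : F
  τ : F →+ F
  B : V →ₗ[F] V →ₛₗ[σ] F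
  Q : V → F
  ρ : G →* Module.End F V
  σσ : ∀ c, σ (σ c) = c
  εε : ε * ε = 1
  symm : ∀ x y, B y x = ε * σ (B x y)
  nondeg : ∀ x, (∀ y, B x y = 0) → x = 0
  Q_add : ∀ x y, Q (x + y) = Q x + Q y + τ (B x y)
  Q_smul : ∀ (c : F) x, Q (c • x) = c * σ c * Q x
  B_self : ∀ x, Q x = 0 → B x x = 0
  sing : ∀ u a, Q a = 0 → B u a ≠ 0 → ∃ t : F, Q (u + t • a) = 0
  inj : Function.Injective ρ
  ρB : ∀ g x y, B (ρ g x) (ρ g y) = B x y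
  ρQ : ∀ g x, Q (ρ g x) = Q x
  full : ∀ T : Module.End F V, (∀ x y, B (T x) (T y) = B x y) → (∀ x, Q (T x) = Q x) → ∃ g, ρ g = T

variable {F V G : Type*} [Field F] [AddCommGroup V] [Module F V] [Group G]

namespace Geo

variable (Γ : Geo F V G)

theorem σε : Γ.σ Γ.ε = Γ.ε := by
  rcases mul_self_eq_one_iff.1 Γ.εε with h | h <;> rw [h] <;> simp

theorem ε_ne : Γ.ε ≠ 0 := fun h => by simpa [h] using Γ.εε

theorem σ_eq_zero {c : F} : Γ.σ c = 0 ↔ c = 0 := map_eq_zero _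

theorem B_comm {x y : V} : Γ.B x y = 0 ↔ Γ.B y x = 0 := by
  rw [Γ.symm x y, mul_eq_zero, Γ.σ_eq_zero, or_iff_right Γ.ε_ne]

theorem nondeg' (x : V) (h : ∀ y, Γ.B y x = 0) : x = 0 := Γ.nondeg x fun y => Γ.B_comm.1 (h y)

theorem Q_zero : Γ.Q 0 = 0 := by simpa using Γ.Q_smul 0 0

theorem Q_neg (x : V) : Γ.Q (-x) = Γ.Q x := by simpa using Γ.Q_smul (-1) x

theorem Q_add_of {x y : V} (h : Γ.B x y = 0) : Γ.Q (x + y) = Γ.Q x + Γ.Q y := by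
  rw [Γ.Q_add, h, map_zero, add_zero]

theorem ρ_mul (g h : G) (x : V) : Γ.ρ (g * h) x = Γ.ρ g (Γ.ρ h x) := by rw [map_mul]; rfl

theorem ρ_one (x : V) : Γ.ρ 1 x = x := by rw [map_one]; rfl

@[simp] theorem ρ_inv_ρ (g : G) (x : V) : Γ.ρ g⁻¹ (Γ.ρ g x) = x := by rw [← ρ_mul, inv_mul_cancel, ρ_one]

@[simp] theorem ρ_ρ_inv (g : G) (x : V) : Γ.ρ g (Γ.ρ g⁻¹ x) = x := by rw [← ρ_mul, mul_inv_cancel, ρ_one]

theorem ρ_inj (g : G) : Function.Injective (Γ.ρ g) := fun x y h => by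
  rw [← Γ.ρ_inv_ρ g x, h, ρ_inv_ρ]

theorem B_ρ_left (g : G) (x y : V) : Γ.B (Γ.ρ g x) y = Γ.B x (Γ.ρ g⁻¹ y) := by
  rw [← Γ.ρB g x, ρ_ρ_inv]

theorem ext_ρ {g h : G} (H : ∀ x, Γ.ρ g x = Γ.ρ h x) : g = h := Γ.inj (LinearMap.ext H)

include Γ in
theorem finite [Finite V] : Finite G :=
  Finite.of_injective (fun g => (Γ.ρ g : V → V)) fun _ _ h => Γ.ext_ρ fun x => congrFun h x

/-- The orthogonal complement. -/
def perp (H : Submodule F V) : Submodule F V where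
  carrier := {v | ∀ h ∈ H, Γ.B v h = 0}
  add_mem' ha hb h hh := by rw [map_add, LinearMap.add_apply, ha h hh, hb h hh, add_zero]
  zero_mem' h _ := by simp
  smul_mem' c v hv h hh := by rw [map_smul, LinearMap.smul_apply, hv h hh, smul_zero]

theorem mem_perp {H : Submodule F V} {v : V} : v ∈ Γ.perp H ↔ ∀ h ∈ H, Γ.B v h = 0 := Iff.rfl

/-- Totally singular subspaces. -/
def TS (H : Submodule F V) : Prop := (∀ h ∈ H, Γ.Q h = 0) ∧ H ≤ Γ.perp H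

theorem ts_span {ι : Type*} {e : ι → V} (h1 : ∀ i, Γ.Q (e i) = 0) (h2 : ∀ i j, Γ.B (e i) (e j) = 0) :
    Γ.TS (Submodule.span F (Set.range e)) := by
  have k : ∀ x ∈ Submodule.span F (Set.range e), ∀ y ∈ Submodule.span F (Set.range e), Γ.B x y = 0 := by
    intro x hx y hy
    induction hx using Submodule.span_induction with
    | mem x hx =>
      obtain ⟨i, rfl⟩ := hx
      induction hy using Submodule.span_induction with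
      | mem y hy => obtain ⟨j, rfl⟩ := hy; exact h2 i j
      | zero => simp
      | add y z _ _ a b => rw [map_add, a, b, add_zero]
      | smul c y _ a => rw [LinearMap.map_smulₛₗ, a, smul_zero]
    | zero => simp
    | add x z _ _ a b => rw [map_add, LinearMap.add_apply, a, b, add_zero]
    | smul c x _ a => rw [map_smul, LinearMap.smul_apply, a, smul_zero]
  refine ⟨fun x hx => ?_, fun x hx y hy => k x hx y hy⟩
  induction hx using Submodule.span_induction with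
  | mem x hx => obtain ⟨i, rfl⟩ := hx; exact h1 i
  | zero => exact Γ.Q_zero
  | add x z hx hz a b => rw [Γ.Q_add_of (k x hx z hz), a, b, add_zero]
  | smul c x _ a => rw [Γ.Q_smul, a, mul_zero]

/-- The unipotent radical of the stabiliser of `H`. -/
def R (H : Submodule F V) : Subgroup G where
  carrier := {g | (∀ h ∈ H, Γ.ρ g h = h) ∧ ∀ m ∈ Γ.perp H, Γ.ρ g m - m ∈ H}
  mul_mem' {a b} ha hb := ⟨fun h hh => by rw [ρ_mul, hb.1 h hh, ha.1 h hh], fun m hm => by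
    have : Γ.ρ (a * b) m - m = (Γ.ρ a m - m) + (Γ.ρ b m - m) := by
      rw [ρ_mul, ← ha.1 _ (hb.2 m hm), map_sub]; abel
    rw [this]; exact H.add_mem (ha.2 m hm) (hb.2 m hm)⟩
  one_mem' := ⟨fun h _ => Γ.ρ_one h, fun m _ => by simp⟩
  inv_mem' {a} ha := by
    have k : ∀ h ∈ H, Γ.ρ a⁻¹ h = h := fun h hh => by conv_lhs => rw [← ha.1 h hh, ρ_inv_ρ]
    refine ⟨k, fun m hm => ?_⟩
    have : Γ.ρ a⁻¹ m - m = -(Γ.ρ a m - m) := by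
      rw [← k _ (ha.2 m hm), map_sub, ρ_inv_ρ]; abel
    rw [this]; exact H.neg_mem (ha.2 m hm)

theorem mem_R {H : Submodule F V} {g : G} :
    g ∈ Γ.R H ↔ (∀ h ∈ H, Γ.ρ g h = h) ∧ ∀ m ∈ Γ.perp H, Γ.ρ g m - m ∈ H := Iff.rfl

/-- The unitary type over a field with `q ^ 2` elements. -/
structure IsU (q : ℕ) : Prop where
  card : Nat.card F = q ^ 2
  σ_eq : ∀ c, Γ.σ c = c ^ q
  ε_eq : Γ.ε = 1
  τ_eq : ∀ c, Γ.τ c = c + Γ.σ c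
  Q_eq : ∀ x, Γ.Q x = Γ.B x x

/-- The symplectic type. -/
structure IsSp : Prop where
  σ_eq : Γ.σ = RingHom.id F
  ε_eq : Γ.ε = -1
  τ_eq : ∀ c, Γ.τ c = 0
  Q_eq : ∀ x, Γ.Q x = 0

end Geo

/-- A hyperbolic frame. -/
structure Fr (Γ : Geo F V G) (ι : Type*) [DecidableEq ι] where
  e : ι → V
  f : ι → V
  Qe : ∀ i, Γ.Q (e i) = 0
  Qf : ∀ i, Γ.Q (f i) = 0
  ee : ∀ i j, Γ.B (e i) (e j) = 0
  ff : ∀ i j, Γ.B (f i) (f j) = 0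
  ef : ∀ i j, Γ.B (e i) (f j) = if i = j then 1 else 0

namespace Fr

variable {Γ : Geo F V G} {ι : Type*} [DecidableEq ι] (Φ : Fr Γ ι)

theorem fe (i j : ι) : Γ.B (Φ.f i) (Φ.e j) = if i = j then Γ.ε else 0 := by
  rw [Γ.symm, Φ.ef]; by_cases h : i = j <;> simp [h, eq_comm]

/-- Exchange of the two halves. -/
def swap : Fr Γ ι where
  e := Φ.f
  f i := Γ.ε • Φ.e i
  Qe := Φ.Qf
  Qf i := by rw [Γ.Q_smul, Φ.Qe, mul_zero]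
  ee := Φ.ff
  ff i j := by simp [Φ.ee]
  ef i j := by rw [LinearMap.map_smulₛₗ, Φ.fe, Γ.σε]; split_ifs <;> simp [Γ.εε]

/-- The image under an isometry. -/
def map (k : G) : Fr Γ ι where
  e i := Γ.ρ k (Φ.e i)
  f i := Γ.ρ k (Φ.f i)
  Qe i := by rw [Γ.ρQ, Φ.Qe]
  Qf i := by rw [Γ.ρQ, Φ.Qf]
  ee i j := by rw [Γ.ρB, Φ.ee]
  ff i j := by rw [Γ.ρB, Φ.ff]
  ef i j := by rw [Γ.ρB, Φ.ef]

/-- A subframe. -/
def sub {κ : Type*} [DecidableEq κ] (j : κ → ι) (hj : Function.Injective j) : Fr Γ κ where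
  e i := Φ.e (j i)
  f i := Φ.f (j i)
  Qe _ := Φ.Qe _
  Qf _ := Φ.Qf _
  ee _ _ := Φ.ee _ _
  ff _ _ := Φ.ff _ _
  ef a b := by rw [Φ.ef]; simp [hj.eq_iff]

/-- The matrix of the Levi component of `g`. -/
def lm (g : G) : Matrix ι ι F := Matrix.of fun i j => Γ.B (Γ.ρ g (Φ.e j)) (Φ.f i)

/-- Coordinates along the first half. -/
def π : V →ₗ[F] (ι → F) := LinearMap.pi fun i => Γ.B.flip (Φ.f i)

theorem π_apply (v : V) (i : ι) : Φ.π v i = Γ.B v (Φ.f i) := rfl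

/-- The orthogonal complement of the frame. -/
def M : Submodule F V := LinearMap.ker Φ.π ⊓ LinearMap.ker Φ.swap.π

theorem mem_M {v : V} : v ∈ Φ.M ↔ (∀ i, Γ.B v (Φ.f i) = 0) ∧ ∀ i, Γ.B v (Φ.e i) = 0 := by
  simp only [M, Submodule.mem_inf, LinearMap.mem_ker, funext_iff, π_apply, swap, Pi.zero_apply,
    LinearMap.map_smulₛₗ, smul_eq_mul, mul_eq_zero, Γ.σ_eq_zero, Γ.ε_ne, false_or]

theorem swap_M : Φ.swap.M = Φ.M := by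
  ext v
  simp only [mem_M, swap, LinearMap.map_smulₛₗ, smul_eq_mul, mul_eq_zero, Γ.σ_eq_zero, Γ.ε_ne, false_or, and_comm]

/-- The isometries fixing the frame. -/
def Mid : Subgroup G where
  carrier := {g | (∀ i, Γ.ρ g (Φ.e i) = Φ.e i) ∧ ∀ i, Γ.ρ g (Φ.f i) = Φ.f i}
  mul_mem' {a b} ha hb := ⟨fun i => by rw [Γ.ρ_mul, hb.1, ha.1], fun i => by rw [Γ.ρ_mul, hb.2, ha.2]⟩
  one_mem' := ⟨fun _ => Γ.ρ_one _, fun _ => Γ.ρ_one _⟩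
  inv_mem' {a} ha := ⟨fun i => by conv_lhs => rw [← ha.1 i, Γ.ρ_inv_ρ],
    fun i => by conv_lhs => rw [← ha.2 i, Γ.ρ_inv_ρ]⟩

theorem mem_Mid {g : G} : g ∈ Φ.Mid ↔ (∀ i, Γ.ρ g (Φ.e i) = Φ.e i) ∧ ∀ i, Γ.ρ g (Φ.f i) = Φ.f i := Iff.rfl

theorem swap_Mid : Φ.swap.Mid = Φ.Mid := by
  ext g
  simp only [mem_Mid, swap, map_smul, (smul_right_injective V Γ.ε_ne).eq_iff, and_comm]

theorem mid_M {g : G} (hg : g ∈ Φ.Mid) {m : V} (hm : m ∈ Φ.M) : Γ.ρ g m ∈ Φ.M := by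
  rw [mem_M] at hm ⊢
  exact ⟨fun i => by rw [← hg.2 i, Γ.ρB, hm.1], fun i => by rw [← hg.1 i, Γ.ρB, hm.2]⟩

/-- The span of the first half. -/
def W : Submodule F V := Submodule.span F (Set.range Φ.e)

theorem ts_W : Γ.TS Φ.W := Γ.ts_span Φ.Qe Φ.ee

theorem e_mem (i : ι) : Φ.e i ∈ Φ.W := Submodule.subset_span ⟨i, rfl⟩

theorem mem_perp_W {v : V} : v ∈ Γ.perp Φ.W ↔ ∀ i, Γ.B v (Φ.e i) = 0 := by
  refine ⟨fun h i => h _ (Φ.e_mem i), fun h x hx => ?_⟩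
  induction hx using Submodule.span_induction with
  | mem y hy => obtain ⟨j, rfl⟩ := hy; exact h j
  | zero => simp
  | add y z _ _ a b => rw [map_add, a, b, add_zero]
  | smul c y _ a => rw [LinearMap.map_smulₛₗ, a, smul_zero]

theorem mem_perp_W' {v : V} : v ∈ Γ.perp Φ.swap.W ↔ Φ.π v = 0 := by
  rw [mem_perp_W, funext_iff]; rfl

theorem swap_swap_W : Φ.swap.swap.W = Φ.W := by
  refine le_antisymm (Submodule.span_le.2 ?_) (Submodule.span_le.2 ?_)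
  · rintro _ ⟨i, rfl⟩; exact Φ.W.smul_mem _ (Φ.e_mem i)
  · rintro _ ⟨i, rfl⟩
    have : Φ.e i = Γ.ε • Φ.swap.swap.e i := by
      change _ = Γ.ε • Γ.ε • Φ.e i
      rw [smul_smul, Γ.εε, one_smul]
    rw [SetLike.mem_coe, this]; exact Submodule.smul_mem _ _ (Φ.swap.swap.e_mem i)

variable [Fintype ι]

/-- Linear combinations of the first half. -/
def E : (ι → F) →ₗ[F] V := Fintype.linearCombination F Φ.e

theorem E_apply (u : ι → F) : Φ.E u = ∑ i, u i • Φ.e i := rfl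

theorem E_single (i : ι) : Φ.E (Pi.single i 1) = Φ.e i := by
  simp [E, Fintype.linearCombination_apply_single]

theorem mem_W {v : V} : v ∈ Φ.W ↔ ∃ u, Φ.E u = v := by
  rw [W, ← Fintype.range_linearCombination]; rfl

theorem E_mem (u : ι → F) : Φ.E u ∈ Φ.W := Φ.mem_W.2 ⟨u, rfl⟩

@[simp] theorem π_E (u : ι → F) : Φ.π (Φ.E u) = u := by
  ext i
  simp [π_apply, E_apply, Φ.ef]

@[simp] theorem π_E' (u : ι → F) : Φ.π (Φ.swap.E u) = 0 :=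
  Φ.mem_perp_W'.1 (Φ.swap.ts_W.2 (Φ.swap.E_mem u))

@[simp] theorem π'_E (u : ι → F) : Φ.swap.π (Φ.E u) = 0 :=
  Φ.swap.mem_perp_W'.1 (by rw [swap_swap_W]; exact Φ.ts_W.2 (Φ.E_mem u))

theorem B_E_E' (u w : ι → F) : Γ.B (Φ.E u) (Φ.swap.E w) = u ⬝ᵥ fun i => Γ.σ (w i) := by
  have : ∀ i, Γ.B (Φ.E u) (Φ.swap.e i) = u i := fun i => congrFun (Φ.π_E u) i
  simp only [Φ.swap.E_apply, map_sum, LinearMap.map_smulₛₗ, this, smul_eq_mul, dotProduct, mul_comm]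

theorem lm_mulVec (g : G) (u : ι → F) : Φ.lm g *ᵥ u = Φ.π (Γ.ρ g (Φ.E u)) := by
  ext i
  simp [lm, mulVec, dotProduct, π_apply, E_apply, mul_comm]

/-- The projection to the complement of the frame. -/
def π₀ : Module.End F V := 1 - Φ.E ∘ₗ Φ.π - Φ.swap.E ∘ₗ Φ.swap.π

theorem π₀_apply (v : V) : Φ.π₀ v = v - Φ.E (Φ.π v) - Φ.swap.E (Φ.swap.π v) := rfl

theorem π₀_mem (v : V) : Φ.π₀ v ∈ Φ.M := by
  simp [M, π₀_apply]

omit [Fintype ι] in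
theorem π_of_M {m : V} (hm : m ∈ Φ.M) : Φ.π m = 0 := hm.1

omit [Fintype ι] in
theorem π'_of_M {m : V} (hm : m ∈ Φ.M) : Φ.swap.π m = 0 := hm.2

theorem π₀_of_M {m : V} (hm : m ∈ Φ.M) : Φ.π₀ m = m := by
  simp [π₀_apply, Φ.π_of_M hm, Φ.π'_of_M hm]

@[simp] theorem π₀_E (u : ι → F) : Φ.π₀ (Φ.E u) = 0 := by simp [π₀_apply]

@[simp] theorem π₀_E' (u : ι → F) : Φ.π₀ (Φ.swap.E u) = 0 := by simp [π₀_apply]

theorem decomp (v : V) : v = Φ.E (Φ.π v) + Φ.swap.E (Φ.swap.π v) + Φ.π₀ v := by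
  rw [π₀_apply]; abel

omit [Fintype ι] in
theorem M_le : Φ.M ≤ Γ.perp Φ.W := fun _ hm => Φ.mem_perp_W.2 (Φ.mem_M.1 hm).2

omit [Fintype ι] in
theorem M_le' : Φ.M ≤ Γ.perp Φ.swap.W := fun _ hm => Φ.mem_perp_W'.2 hm.1

theorem B_M_E {m : V} (hm : m ∈ Φ.M) (u : ι → F) : Γ.B m (Φ.E u) = 0 := Φ.M_le hm _ (Φ.E_mem u)

theorem B_M_E' {m : V} (hm : m ∈ Φ.M) (u : ι → F) : Γ.B m (Φ.swap.E u) = 0 := Φ.M_le' hm _ (Φ.swap.E_mem u)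

theorem B_E_E (u w : ι → F) : Γ.B (Φ.E u) (Φ.E w) = 0 := Φ.ts_W.2 (Φ.E_mem u) _ (Φ.E_mem w)

theorem B_sum (u u' w w' : ι → F) {m m' : V} (hm : m ∈ Φ.M) (hm' : m' ∈ Φ.M) :
    Γ.B (Φ.E u + Φ.swap.E w + m) (Φ.E u' + Φ.swap.E w' + m') =
      (u ⬝ᵥ fun i => Γ.σ (w' i)) + Γ.ε * Γ.σ (u' ⬝ᵥ fun i => Γ.σ (w i)) + Γ.B m m' := by
  simp only [map_add, LinearMap.add_apply, Φ.B_E_E, Φ.swap.B_E_E, Φ.B_M_E hm, Φ.B_M_E' hm,
    Γ.B_comm.1 (Φ.B_M_E hm' _), Γ.B_comm.1 (Φ.B_M_E' hm' _), Γ.symm (Φ.E u') (Φ.swap.E w), B_E_E']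
  ring

theorem Q_sum (u w : ι → F) {m : V} (hm : m ∈ Φ.M) :
    Γ.Q (Φ.E u + Φ.swap.E w + m) = Γ.τ (u ⬝ᵥ fun i => Γ.σ (w i)) + Γ.Q m := by
  rw [Γ.Q_add_of, Γ.Q_add, Φ.ts_W.1 _ (Φ.E_mem u), Φ.swap.ts_W.1 _ (Φ.swap.E_mem w), B_E_E', zero_add, zero_add]
  rw [map_add, LinearMap.add_apply, Γ.B_comm.1 (Φ.B_M_E hm _), Γ.B_comm.1 (Φ.B_M_E' hm _), add_zero]

theorem ext {g h : G} (h1 : ∀ i, Γ.ρ g (Φ.e i) = Γ.ρ h (Φ.e i)) (h2 : ∀ i, Γ.ρ g (Φ.f i) = Γ.ρ h (Φ.f i))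
    (h3 : ∀ m ∈ Φ.M, Γ.ρ g m = Γ.ρ h m) : g = h := by
  refine Γ.ext_ρ fun v => ?_
  rw [Φ.decomp v]
  have h2' : ∀ i, Γ.ρ g (Φ.swap.e i) = Γ.ρ h (Φ.swap.e i) := h2
  simp only [map_add, E_apply, map_sum, map_smul, h1, h2', h3 _ (Φ.π₀_mem v)]

/-- An isometry from two frames and an isometry of the complements. -/
theorem exists_iso (Ψ : Fr Γ ι) (μ : Module.End F V) (h0 : ∀ m ∈ Φ.M, μ m ∈ Ψ.M)
    (h1 : ∀ m ∈ Φ.M, ∀ m' ∈ Φ.M, Γ.B (μ m) (μ m') = Γ.B m m') (h2 : ∀ m ∈ Φ.M, Γ.Q (μ m) = Γ.Q m) :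
    ∃ z : G, (∀ u, Γ.ρ z (Φ.E u) = Ψ.E u) ∧ (∀ u, Γ.ρ z (Φ.swap.E u) = Ψ.swap.E u) ∧
      ∀ m ∈ Φ.M, Γ.ρ z m = μ m := by
  obtain ⟨z, hz⟩ := Γ.full (Ψ.E ∘ₗ Φ.π + Ψ.swap.E ∘ₗ Φ.swap.π + μ ∘ₗ Φ.π₀) (fun x y => by
    conv_rhs => rw [Φ.decomp x, Φ.decomp y, Φ.B_sum _ _ _ _ (Φ.π₀_mem x) (Φ.π₀_mem y)]
    simp only [LinearMap.add_apply, LinearMap.comp_apply]
    rw [Ψ.B_sum _ _ _ _ (h0 _ (Φ.π₀_mem x)) (h0 _ (Φ.π₀_mem y)), h1 _ (Φ.π₀_mem x) _ (Φ.π₀_mem y)]) fun x => by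
    conv_rhs => rw [Φ.decomp x, Φ.Q_sum _ _ (Φ.π₀_mem x)]
    simp only [LinearMap.add_apply, LinearMap.comp_apply]
    rw [Ψ.Q_sum _ _ (h0 _ (Φ.π₀_mem x)), h2 _ (Φ.π₀_mem x)]
  refine ⟨z, fun u => by simp [hz], fun u => by simp [hz], fun m hm => ?_⟩
  simp [hz, Φ.π_of_M hm, Φ.π'_of_M hm, Φ.π₀_of_M hm]

end Fr

end Cfsg.Agent.H65.Ore
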