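import Cfsg.Agent.H65.OreGL

set_option autoImplicit false

/-! Project ORE: existence of good polynomials. -/

namespace Cfsg.Agent.H65.Ore

open Polynomial

variable {F : Type*} [Field F]

namespace GoodAux

open Module

section ext

variable {K : Type*} [Field K] [Algebra F K]

theorem root_dag {σ : F →+* F} {τ : K →+* K}
    (h : ∀ a, τ (algebraMap F K a) = algebraMap F K (σ a)) {x : K} (hx : x ≠ 0) (r : F[X]) :
    aeval (τ x)⁻¹ (dag σ r) = 0 ↔ aeval x r = 0 := by
  have := invertibleOfNonzero ((map_ne_zero τ).2 hx)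
  rw [dag, aeval_def, ← invOf_eq_inv, eval₂_reverse_eq_zero_iff, eval₂_map,
    ← show τ.comp (algebraMap F K) = (algebraMap F K).comp σ from RingHom.ext h,
    ← hom_eval₂, map_eq_zero, aeval_def]

theorem cop [FiniteDimensional F K] {x : K} {p : F[X]} (h : aeval x p ≠ 0) :
    IsCoprime (minpoly F x) p :=
  (minpoly.irreducible (IsIntegral.of_finite F x)).coprime_iff_not_dvd.2 (mt minpoly.dvd_iff.1 h)

variable [Fintype F] [Finite K]

theorem deg {x : K} (h : ∀ i, 0 < i → i < finrank F K → x ^ Fintype.card F ^ i ≠ x) :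
    (minpoly F x).natDegree = finrank F K := by
  have hx := IsIntegral.of_finite F x
  refine (minpoly.natDegree_le x).eq_or_lt.resolve_right fun hlt =>
    h _ (minpoly.natDegree_pos hx) hlt ?_
  simpa [sub_eq_zero] using minpoly.dvd_iff.1
    ((minpoly.irreducible hx).natDegree_dvd_iff_dvd_X_pow_card_pow_sub_X.1 dvd_rfl)

theorem roots {x y : K} (h : aeval y (minpoly F x) = 0) :
    ∃ i < finrank F K, y = x ^ Fintype.card F ^ i := by
  obtain ⟨g, rfl⟩ := minpoly.exists_algEquiv_of_root' (Algebra.IsAlgebraic.isAlgebraic x) h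
  obtain ⟨i, rfl⟩ := (FiniteField.bijective_frobeniusAlgEquivOfAlgebraic_pow F K).2 g
  exact ⟨i, i.2, by rw [AlgEquiv.coe_pow, FiniteField.coe_frobeniusAlgEquivOfAlgebraic_iterate]⟩

omit [Fintype F] in
theorem nrm {x : K} (h : (minpoly F x).natDegree = finrank F K) :
    (-1) ^ finrank F K * (minpoly F x).coeff 0 = Algebra.norm F x := by
  have hx := IsIntegral.of_finite F x
  have h1 : Algebra.adjoin F {x} = ⊤ := by
    rw [← IntermediateField.adjoin_simple_toSubalgebra_of_isAlgebraic hx.isAlgebraic,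
      (Field.primitive_element_iff_minpoly_natDegree_eq F x).2 h, IntermediateField.top_toSubalgebra]
  rw [← h]
  exact (Algebra.PowerBasis.norm_gen_eq_coeff_zero_minpoly (PowerBasis.ofAdjoinEqTop hx h1)).symm

theorem cop_dag {σ : F →+* F} {τ : K →+* K}
    (h : ∀ a, τ (algebraMap F K a) = algebraMap F K (σ a)) {x : K} (hx : x ≠ 0)
    (h1 : ∀ i, 0 < i → i < finrank F K → x ^ Fintype.card F ^ i ≠ x) {p : F[X]}
    (hp : aeval (τ x)⁻¹ p ≠ 0) : IsCoprime (dag σ (minpoly F x)) p := by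
  have h2 : (minpoly F (τ x)⁻¹).natDegree = finrank F K := deg fun i a b e => h1 i a b
    (τ.injective (by rwa [inv_pow, inv_inj, ← map_pow] at e))
  refine (cop hp).of_isCoprime_of_dvd_left (associated_of_dvd_of_natDegree_le
    (minpoly.dvd_iff.2 ((root_dag h hx _).2 (minpoly.aeval F x))) ?_ ?_).symm.dvd
  · rw [dag, Ne, reverse_eq_zero, Polynomial.map_eq_zero]
    exact minpoly.ne_zero (IsIntegral.of_finite F x)
  · exact (reverse_natDegree_le _).trans (by rw [natDegree_map, h2, deg h1])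

theorem cop_self {σ : F →+* F} {τ : K →+* K} {s : ℕ} (hτ : ∀ a, τ a = a ^ s)
    (hσ : ∀ a, σ a = a ^ s) {x : K} (hx : x ≠ 0)
    (h1 : ∀ i, 0 < i → i < finrank F K → x ^ Fintype.card F ^ i ≠ x)
    (h2 : ∀ i < finrank F K, x ^ (Fintype.card F ^ i + s) ≠ 1) :
    IsCoprime (minpoly F x) (dag σ (minpoly F x)) :=
  (cop_dag (τ := τ) (fun a => by rw [hτ, hσ, map_pow]) hx h1 fun e => by
    obtain ⟨i, a, b⟩ := roots e
    exact h2 i a (by rw [pow_add, ← b, hτ, inv_mul_cancel₀ (pow_ne_zero _ hx)])).symm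

omit [Finite K] in
theorem exists_tau {s : ℕ} (hs : s ∣ Fintype.card F) : ∃ τ : K →+* K, ∀ x, τ x = x ^ s := by
  obtain ⟨p, hp⟩ := CharP.exists F
  obtain ⟨n, h1, h2⟩ := FiniteField.card F p
  obtain ⟨k, -, rfl⟩ := (Nat.dvd_prime_pow h1).1 (h2 ▸ hs)
  have := charP_of_injective_algebraMap (algebraMap F K).injective p
  have := ExpChar.prime (R := K) h1
  exact ⟨iterateFrobenius K p k, fun _ => rfl⟩

end ext

theorem gen (K : Type*) [Field K] [Finite K] : ∃ z : K, z ≠ 0 ∧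
    (∀ n, 0 < n → z ^ n = 1 → Nat.card K ≤ n + 1) ∧ ∀ x ≠ 0, ∃ k : ℕ, z ^ k = x := by
  obtain ⟨z, hz⟩ := IsCyclic.exists_generator (α := Kˣ)
  refine ⟨z, z.ne_zero, fun n hn e => ?_, fun x hx => ?_⟩
  · have := orderOf_le_of_pow_eq_one hn (Units.ext e : z ^ n = 1)
    rw [orderOf_eq_card_of_forall_mem_zpowers hz, Nat.card_units] at this
    omega
  · obtain ⟨k, hk⟩ := (mem_powers_iff_mem_zpowers.2 (hz (Units.mk0 x hx)))
    exact ⟨k, congrArg Units.val hk⟩

theorem setup [Fintype F] {d : ℕ} (h2 : 2 ≤ d) : ∃ (K : Type) (_ : Field K) (_ : Algebra F K)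
    (_ : Finite K) (z : K) (m e : ℕ), finrank F K = d ∧ z ≠ 0 ∧ Fintype.card F ≤ m ∧
    (Fintype.card F ^ 2 ≤ m ∨ d = 2 ∧ m = Fintype.card F) ∧ (∀ i < d, Fintype.card F ^ i ≤ m) ∧
    (∀ n, 0 < n → z ^ n = 1 → Fintype.card F * m ≤ n + 1) ∧
    (∀ a : F, a ≠ 0 → ∃ k : ℕ, Algebra.norm F z ^ k = a) ∧
    algebraMap F K (Algebra.norm F z) = z ^ e ∧
    e * (Fintype.card F - 1) + 1 = Fintype.card F * m := by
  obtain ⟨p, hp⟩ := CharP.exists F
  have : Fact p.Prime := ⟨CharP.char_is_prime F p⟩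
  have : NeZero d := ⟨by omega⟩
  have h1 : 1 < Fintype.card F := Fintype.one_lt_card
  have : Finite (FiniteField.Extension F p d) := Module.finite_of_finite F
  obtain ⟨z, z0, z1, z2⟩ := gen (FiniteField.Extension F p d)
  have hc := FiniteField.natCard_extension F p d
  rw [Nat.card_eq_fintype_card (α := F)] at hc
  have e1 : Fintype.card F * Fintype.card F ^ (d - 1) = Fintype.card F ^ d := by
    rw [← pow_succ', Nat.sub_add_cancel (by omega)]
  refine ⟨_, inferInstance, inferInstance, this, z, Fintype.card F ^ (d - 1), _,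
    FiniteField.finrank_extension F p d, z0, Nat.le_self_pow (by omega) _, ?_,
    fun i hi => Nat.pow_le_pow_right h1.le (by omega), fun n a b => ?_, fun a ha => ?_,
    FiniteField.algebraMap_norm_eq_pow, ?_⟩
  · exact h2.eq_or_lt.elim (fun e => .inr ⟨e.symm, by rw [← e, pow_one]⟩)
      fun e => .inl (Nat.pow_le_pow_right h1.le (by omega))
  · rw [e1, ← hc]; exact z1 n a b
  · obtain ⟨x, rfl⟩ := FiniteField.norm_surjective F (FiniteField.Extension F p d) a
    obtain ⟨k, rfl⟩ := z2 x fun e => ha (by rw [e, Algebra.norm_zero])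
    exact ⟨k, (map_pow _ _ _).symm⟩
  · rw [e1, hc, Nat.card_eq_fintype_card, Nat.div_mul_cancel (Nat.sub_one_dvd_pow_sub_one _ _),
      Nat.sub_add_cancel (Nat.one_le_pow _ _ h1.le)]

theorem lin {a : F} {p : F[X]} (h : p.eval a ≠ 0) : IsCoprime (X - C a) p :=
  (irreducible_X_sub_C a).coprime_iff_not_dvd.2 (mt dvd_iff_isRoot.1 h)

theorem root_dag' (σ : F →+* F) {x : F} (hx : x ≠ 0) (r : F[X]) :
    (dag σ r).eval (σ x)⁻¹ = 0 ↔ r.eval x = 0 := by
  simpa only [coe_aeval_eq_eval] using root_dag (K := F) (τ := σ) (fun _ => rfl) hx r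

theorem dag_lin (σ : F →+* F) (b : F) : dag σ (X - C b) = 1 - C (σ b) * X := by
  rw [dag, Polynomial.map_sub, map_X, map_C, reverse, natDegree_X_sub_C, sub_eq_add_neg, ← C_neg,
    reflect_add, reflect_C, ← pow_one X, reflect_monomial]
  simp [sub_eq_add_neg]

theorem lin_dag {σ : F →+* F} {a b : F} (h : a * σ b ≠ 1) :
    IsCoprime (X - C a) (dag σ (X - C b)) :=
  lin (by
    rw [dag_lin, eval_sub, eval_one, eval_mul, eval_C, eval_X, mul_comm]
    exact sub_ne_zero.2 h.symm)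

end GoodAux

open GoodAux

theorem good_mul {σ : F →+* F} {q : F[X]} (hq : Irreducible q) (h2 : 2 ≤ q.natDegree)
    (h : IsCoprime q (dag σ q)) {c : F} (hc0 : c ≠ 0) (hc : c * σ c ≠ 1) (hσ : ∀ x, σ (σ x) = x) :
    IsCoprime ((X - C c) * q) (dag σ ((X - C c) * q)) := by
  rw [dag_mul]
  refine ((lin_dag hc).mul_right (lin fun e => ?_)).mul_left
    ((hq.coprime_iff_not_dvd.2 fun e => ?_).mul_right h)
  · refine hq.not_isRoot_of_natDegree_ne_one (by omega) (x := σ c⁻¹)
      ((root_dag' σ ((map_ne_zero σ).2 (inv_ne_zero hc0)) q).1 ?_)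
    rwa [hσ, inv_inv]
  · have h0 : dag σ (X - C c) ≠ 0 := by
      rw [dag, Ne, reverse_eq_zero, Polynomial.map_eq_zero]; exact X_sub_C_ne_zero c
    have h1 : (dag σ (X - C c)).natDegree ≤ 1 :=
      (reverse_natDegree_le _).trans (by rw [natDegree_map, natDegree_X_sub_C])
    have := natDegree_le_of_dvd e h0
    omega

theorem good_one {σ : F →+* F} {r : F[X]} (h : IsCoprime r (dag σ r)) {c : F} (hc : c * σ c = 1)
    (hσ : ∀ x, σ (σ x) = x) : Good σ r (X - C c) := by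
  have _ := hσ
  have h1 := root_dag' σ (left_ne_zero_of_mul_eq_one hc) r
  rw [← eq_inv_of_mul_eq_one_left hc] at h1
  have h2 : r.eval c ≠ 0 := fun e => not_isUnit_X_sub_C c
    (h.isUnit_of_dvd' (dvd_iff_isRoot.2 e) (dvd_iff_isRoot.2 (h1.2 e)))
  exact ⟨h, (lin h2).symm, (lin (mt h1.1 h2)).symm⟩

theorem good_rec {r : F[X]} (h : IsCoprime r (dag (RingHom.id F) r)) {t : F}
    (ht : ∀ x : F, x ^ 2 - t * x + 1 = 0 → x ^ 2 = 1) :
    Good (RingHom.id F) r (X ^ 2 - C t * X + 1) := by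
  by_cases hr : ∃ x : F, x ^ 2 - t * x + 1 = 0
  · obtain ⟨x, hx⟩ := hr
    have h1 := ht x hx
    obtain ⟨-, a, b⟩ := good_one h (c := x) (by rw [← h1, sq]; rfl) fun _ => rfl
    have : (X ^ 2 - C t * X + 1 : F[X]) = (X - C x) * (X - C x) := by
      have e : t = 2 * x := by linear_combination (-x) * hx + (x - t) * h1
      have := congrArg C h1
      rw [e]
      simp only [map_mul, map_pow, map_one, map_ofNat] at this ⊢
      linear_combination -this
    rw [this]
    exact ⟨h, a.mul_right a, b.mul_right b⟩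
  have hd : (X ^ 2 - C t * X + 1 : F[X]).natDegree = 2 := by compute_degree!
  have hi : Irreducible (X ^ 2 - C t * X + 1 : F[X]) :=
    irreducible_of_degree_le_three_of_not_isRoot (by rw [hd]; decide) fun x hx =>
      hr ⟨x, by simpa using hx⟩
  obtain ⟨a, ha⟩ := IsAlgClosed.exists_aeval_eq_zero (AlgebraicClosure F) _
    (degree_pos_of_irreducible hi).ne'
  have ha' := ha
  simp only [map_add, map_sub, map_mul, map_pow, aeval_X, aeval_C, map_one] at ha'
  have a0 : a ≠ 0 := fun e => by simp [e] at ha'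
  have hb : aeval a⁻¹ (X ^ 2 - C t * X + 1 : F[X]) = 0 := by
    simp only [map_add, map_sub, map_mul, map_pow, aeval_X, aeval_C, map_one]
    field_simp
    linear_combination ha'
  have h1 : _ ∣ dag (RingHom.id F) r ↔ _ ∣ r := (hi.dvd_iff_aeval_eq_zero hb).symm.trans
    ((root_dag (σ := RingHom.id F) (τ := RingHom.id (AlgebraicClosure F))
      (fun _ => rfl) a0 r).trans (hi.dvd_iff_aeval_eq_zero ha))
  have h2 : ¬ _ ∣ r := fun e => hi.not_isUnit (h.isUnit_of_dvd' e (h1.2 e))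
  exact ⟨h, (hi.coprime_iff_not_dvd.2 h2).symm, (hi.coprime_iff_not_dvd.2 (mt h1.1 h2)).symm⟩

theorem good_id [Fintype F] {d : ℕ} (h2 : 2 ≤ d) (h3 : Fintype.card F = 2 → 3 ≤ d) :
    ∃ q : F[X], q.Monic ∧ q.natDegree = d ∧ Irreducible q ∧ IsCoprime q (dag (RingHom.id F) q) ∧
      ((2 : F) ≠ 0 → IsSquare ((-1) ^ (d + 1) * q.coeff 0)) := by
  obtain ⟨K, _, _, _, z, m, e, rfl, z0, m1, m2, m3, z1, z2, -⟩ := setup (F := F) h2
  have q1 : 1 < Fintype.card F := Fintype.one_lt_card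
  have key : ∀ k, 0 < k → k * (m + 1) + 1 < Fintype.card F * m →
      ((2 : F) ≠ 0 → IsSquare (-Algebra.norm F z ^ k)) → ∃ q : F[X], q.Monic ∧
      q.natDegree = Module.finrank F K ∧ Irreducible q ∧ IsCoprime q (dag (RingHom.id F) q) ∧
      ((2 : F) ≠ 0 → IsSquare ((-1) ^ (Module.finrank F K + 1) * q.coeff 0)) := fun k k0 k1 k2 => by
    have hx := IsIntegral.of_finite F (z ^ k)
    have a : ∀ n, 0 < n → n ≤ m + 1 → (z ^ k) ^ n ≠ 1 := fun n n0 n1 c =>
      (z1 _ (Nat.mul_pos k0 n0) (by rw [pow_mul, c])).not_gt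
        ((Nat.succ_le_succ (Nat.mul_le_mul_left k n1)).trans_lt k1)
    have h1 : ∀ i, 0 < i → i < Module.finrank F K → (z ^ k) ^ Fintype.card F ^ i ≠ z ^ k :=
      fun i i0 i1 c => by
        have := Nat.one_lt_pow i0.ne' q1
        have := m3 i i1
        exact a (Fintype.card F ^ i - 1) (by omega) (by omega) (by
          rw [pow_sub₀ _ (pow_ne_zero _ z0) (by omega), c, pow_one, mul_inv_cancel₀ (pow_ne_zero _ z0)])
    refine ⟨_, minpoly.monic hx, deg h1, minpoly.irreducible hx,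
      cop_self (τ := RingHom.id K) (s := 1) (by simp) (by simp) (pow_ne_zero _ z0) h1
        fun i i1 => a _ (Nat.succ_pos _) (Nat.succ_le_succ (m3 i i1)), fun c => ?_⟩
    rw [pow_succ', mul_assoc, nrm (deg h1), neg_one_mul, map_pow]
    exact k2 c
  by_cases hs : (2 : F) ≠ 0 ∧ IsSquare (-1 : F)
  · have h4 := FiniteField.odd_card_of_char_ne_two (F := F) fun c => hs.1 (by
      simpa using (ringChar.spec F 2).2 (by rw [c]))
    have h5 := FiniteField.isSquare_neg_one_iff.1 hs.2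
    have h6 : 5 ≤ Fintype.card F := by omega
    refine key 2 two_pos (by nlinarith) fun _ => ?_
    rw [← neg_one_mul]
    exact hs.2.mul (IsSquare.sq _)
  refine key 1 one_pos ?_ fun c => ?_
  · rcases (show 2 ≤ _ from q1).eq_or_lt with c | c
    · have := h3 c.symm
      rw [← c] at m2 ⊢
      omega
    · nlinarith
  · obtain ⟨k, hk⟩ := z2 (-1) (neg_ne_zero.2 one_ne_zero)
    rw [← neg_one_mul, ← hk, ← pow_add]
    refine Even.isSquare_pow (Nat.even_add_one.2 fun c' => hs ⟨c, hk ▸ c'.isSquare_pow _⟩) _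

theorem good_U [Fintype F] {q₀ : ℕ} (hF : Fintype.card F = q₀ ^ 2) (h3 : 3 ≤ q₀) {σ : F →+* F}
    (hσ : ∀ x, σ x = x ^ q₀) {d : ℕ} (h1 : 1 ≤ d) :
    ∃ (q : F[X]) (c : F), q.Monic ∧ q.natDegree = d ∧ c * ((-1) ^ d * q.coeff 0) = 1 ∧ q.eval c ≠ 0 ∧
      IsCoprime ((X - C c) * q) (dag σ ((X - C c) * q)) := by
  have q9 : 3 * q₀ ≤ Fintype.card F := by rw [hF, sq]; exact Nat.mul_le_mul_right _ h3
  rcases h1.eq_or_lt with rfl | h2
  · obtain ⟨z, z0, z1, -⟩ := gen F
    rw [Nat.card_eq_fintype_card] at z1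
    have a : ∀ n, 0 < n → n ≤ q₀ + 1 → z ^ n ≠ 1 := fun n n0 n1 c => by
      have := z1 n n0 c
      omega
    have b1 : z * σ z ≠ 1 := by rw [hσ, ← pow_succ']; exact a _ (by omega) le_rfl
    have b2 : z⁻¹ * σ z ≠ 1 := fun c => a (q₀ - 1) (by omega) (by omega) (by
      rw [pow_sub₀ _ z0 (by omega), pow_one, ← hσ, mul_comm, c])
    refine ⟨X - C z, z⁻¹, monic_X_sub_C z, natDegree_X_sub_C z, by simp [z0], fun c => ?_, ?_⟩
    · refine a 2 two_pos (by omega) ?_
      rw [eval_sub, eval_X, eval_C, sub_eq_zero] at c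
      rw [sq]
      nth_rw 1 [← c]
      exact inv_mul_cancel₀ z0
    rw [dag_mul]
    refine ((lin_dag ?_).mul_right (lin_dag b2)).mul_left ((lin_dag ?_).mul_right (lin_dag b1))
    · rwa [map_inv₀, ← mul_inv, Ne, inv_eq_one]
    · rwa [map_inv₀, Ne, ← inv_eq_one, mul_inv, inv_inv]
  obtain ⟨K, _, _, _, z, m, e, rfl, z0, m1, -, m3, z1, -, z3, z4⟩ := setup (F := F) h2
  obtain ⟨τ, hτ⟩ := exists_tau (F := F) (K := K) (s := q₀) (by rw [hF]; exact dvd_pow_self _ two_ne_zero)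
  have hx := IsIntegral.of_finite F z
  have a : ∀ n, 0 < n → n ≤ m + q₀ → z ^ n ≠ 1 := fun n n0 n1 c => by
    have := z1 n n0 c
    nlinarith
  have b : ∀ i, 0 < i → i < Module.finrank F K → z ^ Fintype.card F ^ i ≠ z := fun i i0 i1 c => by
    have := Nat.one_lt_pow i0.ne' (Fintype.one_lt_card (α := F))
    have := m3 i i1
    exact a (Fintype.card F ^ i - 1) (by omega) (by omega) (by
      rw [pow_sub₀ _ z0 (by omega), c, pow_one, mul_inv_cancel₀ z0])
  have n0 : Algebra.norm F z ≠ 0 := Algebra.norm_ne_zero_iff.2 z0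
  refine ⟨minpoly F z, (Algebra.norm F z)⁻¹, minpoly.monic hx, deg b,
    by rw [nrm (deg b), inv_mul_cancel₀ n0],
    (minpoly.irreducible hx).not_isRoot_of_natDegree_ne_one (by rw [deg b]; omega),
    good_mul (minpoly.irreducible hx) (by rw [deg b]; omega) (cop_self hτ hσ z0 b fun i i1 =>
      a _ (by omega) (Nat.add_le_add_right (m3 i i1) _)) (inv_ne_zero n0) (fun c => ?_)
      fun x => by rw [hσ, hσ, ← pow_mul, ← sq, ← hF, FiniteField.pow_card]⟩
  rw [hσ, ← pow_succ', inv_pow, inv_eq_one] at c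
  have e0 : 0 < e := Nat.pos_of_ne_zero fun c => by
    rw [c] at z4
    nlinarith
  have := z1 (e * (q₀ + 1)) (by positivity) (by rw [pow_mul, ← z3, ← map_pow, c, map_one])
  have := Nat.le_of_mul_le_mul_left (Nat.le_of_succ_le_succ (z4.le.trans this)) e0
  omega

theorem good_U2 [Fintype F] (hF : Fintype.card F = 4) {σ : F →+* F} (hσ : ∀ x, σ x = x ^ 2) {d : ℕ}
    (h2 : 2 ≤ d) : ∃ (q : F[X]) (ν : F), q.Monic ∧ q.natDegree = d ∧ Irreducible q ∧ ν ≠ 0 ∧
      (-1) ^ d * q.coeff 0 = ν ∧ Good σ q ((X ^ 5 - C (ν ^ 2)) * (X ^ 5 - 1) * (X - C ν)) := by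
  obtain ⟨K, _, _, _, z, m, e, rfl, z0, m1, m2, m3, z1, -, z3, z4⟩ := setup (F := F) h2
  obtain ⟨τ, hτ⟩ := exists_tau (F := F) (K := K) (s := 2) (by rw [hF]; decide)
  have hx := IsIntegral.of_finite F z
  have n0 : Algebra.norm F z ≠ 0 := Algebra.norm_ne_zero_iff.2 z0
  have n3 : (z ^ e) ^ 3 = 1 := by
    have := FiniteField.pow_card_sub_one_eq_one _ n0
    rw [hF] at this
    rw [← z3, ← map_pow, this, map_one]
  have b : ∀ i, 0 < i → i < Module.finrank F K → z ^ Fintype.card F ^ i ≠ z := fun i i0 i1 c => by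
    have := Nat.one_lt_pow i0.ne' (Fintype.one_lt_card (α := F))
    have := m3 i i1
    have := z1 (Fintype.card F ^ i - 1) (by omega) (by
      rw [pow_sub₀ _ z0 (by omega), c, pow_one, mul_inv_cancel₀ z0])
    rw [hF] at *
    omega
  have a : ∀ n, 0 < n → n ≤ 14 → z ^ n ≠ 1 := fun n n0 n1 c => by
    have := z1 n n0 c
    rw [hF] at *
    omega
  have a' : z ^ 30 = 1 → e = 5 := fun c => by
    have := z1 30 (by decide) c
    rw [hF] at *
    omega
  refine ⟨minpoly F z, _, minpoly.monic hx, deg b, minpoly.irreducible hx, n0, nrm (deg b),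
    cop_self hτ hσ z0 b fun i i1 c => ?_, cop ?_,
    cop_dag (τ := τ) (fun a => by rw [hτ, hσ, map_pow]) z0 b ?_⟩
  · have := z1 _ (by omega) c
    have := m3 i i1
    rw [hF] at *
    omega
  · simp only [map_mul, map_sub, map_pow, aeval_X, aeval_C, map_one, z3, mul_ne_zero_iff,
      sub_ne_zero]
    refine ⟨⟨fun c => ?_, a 5 (by decide) (by decide)⟩, fun c => a 3 (by decide) (by decide) ?_⟩
    · obtain rfl := a' (by
        rw [show 30 = 5 * 6 from rfl, pow_mul, c, ← pow_mul, show 2 * 6 = 3 * 4 from rfl, pow_mul,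
          n3, one_pow])
      exact a 5 (by decide) (by decide) (mul_left_cancel₀ (pow_ne_zero 5 z0)
        (by rw [mul_one, ← sq, ← c]))
    · rw [c, n3]
  · simp only [map_mul, map_sub, map_pow, aeval_X, aeval_C, map_one, z3, mul_ne_zero_iff,
      sub_ne_zero, hτ, inv_pow, ← pow_mul z 2]
    refine ⟨⟨fun c => ?_, fun c => a 10 (by decide) (by decide) (inv_eq_one.1 c)⟩,
      fun c => a 6 (by decide) (by decide) ?_⟩
    · obtain rfl := a' (by
        rw [show 30 = 2 * 5 * 3 from rfl, pow_mul, ← inv_eq_one, ← inv_pow, c, ← pow_mul,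
          mul_comm, pow_mul, n3, one_pow])
      have := mul_inv_cancel₀ (pow_ne_zero (2 * 5) z0)
      rw [c] at this
      exact a 5 (by decide) (by decide) (by linear_combination this - z ^ 5 * n3)
    · rw [show 6 = 2 * 3 from rfl, pow_mul, ← inv_eq_one, ← inv_pow, c, n3]

end Cfsg.Agent.H65.Ore
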