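import Cfsg.Agent.H65.OreLev

set_option autoImplicit false

/-! Project ORE: fixed point free action on unipotent radicals, the factorisation lemma. -/

namespace Cfsg.Agent.H65.Ore

open Polynomial Matrix Module

variable {F V G : Type*} [Field F] [AddCommGroup V] [Module F V] [Group G]

theorem aeval_semiconj {U U' : Type*} [AddCommGroup U] [Module F U] [AddCommGroup U'] [Module F U']
    (T : U →ₗ[F] U') {A : End F U} {D : End F U'} (h : ∀ u, T (A u) = D (T u)) (p : F[X]) (u : U) :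
    T (aeval A p u) = aeval D p (T u) := by
  induction p using Polynomial.induction_on generalizing u with
  | C a => simp
  | add p q hp hq => simp [hp, hq]
  | monomial n a ih =>
    rw [pow_succ, ← mul_assoc, map_mul (aeval A) _ X, map_mul (aeval D) _ X, aeval_X, aeval_X, End.mul_apply,
      End.mul_apply, ih, h]

theorem aeval_mulVecLin {ι : Type*} [Fintype ι] [DecidableEq ι] (A : Matrix ι ι F) (p : F[X]) (u : ι → F) :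
    aeval A.mulVecLin p u = aeval A p *ᵥ u := by
  have := aeval_algHom_apply (Matrix.toLinAlgEquiv' : Matrix ι ι F ≃ₐ[F] _) A p
  exact (congrArg (fun T : End F (ι → F) => T u) this).trans (by simp)

theorem eq_zero_of_coprime {D : End F V} {p q : F[X]} (h : IsCoprime p q) {v : V} (hp : aeval D p v = 0)
    (hq : aeval D q v = 0) : v = 0 := by
  obtain ⟨a, b, e⟩ := h
  have := congrArg (fun r => aeval D r v) e
  simpa [hp, hq] using this.symm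

theorem lang [Finite G] {K : Subgroup G} {D : G} (h1 : ∀ v ∈ K, D * v * D⁻¹ ∈ K)
    (h2 : ∀ v ∈ K, v * D = D * v → v = 1) {u : G} (hu : u ∈ K) : IsConj D (u * D) := by
  let φ : K → K := fun y => ⟨y * (D * y⁻¹ * D⁻¹), K.mul_mem y.2 (h1 _ (K.inv_mem y.2))⟩
  have hφ : Function.Injective φ := fun y z e => by
    have e' : (y : G) * (D * y⁻¹ * D⁻¹) = z * (D * z⁻¹ * D⁻¹) := congrArg Subtype.val e
    have := h2 ((z : G)⁻¹ * y) (K.mul_mem (K.inv_mem z.2) y.2) (by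
      calc _ = (z : G)⁻¹ * (y * (D * y⁻¹ * D⁻¹)) * D * y := by simp; group
        _ = _ := by rw [e']; simp; group)
    exact Subtype.ext (inv_mul_eq_one.1 this).symm
  obtain ⟨y, hy⟩ := Finite.surjective_of_injective hφ ⟨u, hu⟩
  refine isConj_iff.2 ⟨y, ?_⟩
  rw [← show (y : G) * (D * y⁻¹ * D⁻¹) = u from congrArg Subtype.val hy]; simp; group

namespace Geo

variable (Γ : Geo F V G)

theorem B_dag (D : G) (r : F[X]) (v h : V) : Γ.B (aeval (Γ.ρ D) (dag Γ.σ r) v) h =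
    Γ.B (Γ.ρ (D ^ r.natDegree) v) (aeval (Γ.ρ D) r h) := by
  have k : ∀ N, ∀ s : F[X], s.natDegree ≤ N → Γ.B (aeval (Γ.ρ D) (reflect N (s.map Γ.σ)) v) h =
      Γ.B (Γ.ρ (D ^ N) v) (aeval (Γ.ρ D) s h) := fun N s hs => by
    rw [s.as_sum_range' (N + 1) (by omega)]
    simp only [Polynomial.map_sum, map_sum, LinearMap.sum_apply]
    have : ∀ t : Finset ℕ, ∀ c : ℕ → F[X], reflect N (∑ i ∈ t, c i) = ∑ i ∈ t, reflect N (c i) := fun t c => by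
      induction t using Finset.induction_on with
      | empty => simp
      | insert i t hi ih => rw [Finset.sum_insert hi, Finset.sum_insert hi, reflect_add, ih]
    rw [this]
    simp only [map_sum, LinearMap.sum_apply]
    refine Finset.sum_congr rfl fun i hi => ?_
    have hi' : i ≤ N := by have := Finset.mem_range.1 hi; omega
    rw [Polynomial.map_monomial, ← C_mul_X_pow_eq_monomial, ← C_mul_X_pow_eq_monomial, reflect_C_mul_X_pow,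
      revAt_le hi']
    simp only [map_mul, aeval_C, map_pow, aeval_X, End.mul_apply, algebraMap_end_apply, map_smul,
      LinearMap.smul_apply, LinearMap.map_smulₛₗ]
    rw [← map_pow, ← map_pow, ← map_pow, ← Γ.ρB (D ^ i), ← Γ.ρ_mul, ← pow_add, Nat.add_sub_cancel' hi']
  rw [dag, reverse, natDegree_map, k _ r le_rfl]

theorem R_conj {H : Submodule F V} {k u : G} (hk : ∀ h, Γ.ρ k h ∈ H ↔ h ∈ H) (hu : u ∈ Γ.R H) :
    k * u * k⁻¹ ∈ Γ.R H := by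
  refine ⟨fun h hh => ?_, fun m hm => ?_⟩
  · rw [ρ_mul, ρ_mul, hu.1 _ ((hk _).1 (by rwa [ρ_ρ_inv])), ρ_ρ_inv]
  · have : Γ.ρ k⁻¹ m ∈ Γ.perp H := fun h hh => by rw [B_ρ_left, inv_inv]; exact hm _ ((hk h).2 hh)
    have := (hk _).2 (hu.2 _ this)
    rwa [map_sub, ρ_ρ_inv, ← ρ_mul, ← ρ_mul] at this

theorem R_sub_perp {H : Submodule F V} {u : G} (hu : u ∈ Γ.R H) (v : V) : Γ.ρ u v - v ∈ Γ.perp H := fun h hh => by
  rw [map_sub, LinearMap.sub_apply, ← Γ.ρB u v h, hu.1 h hh, sub_self]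

theorem det_R [FiniteDimensional F V] {H : Submodule F V} {u : G} (hu : u ∈ Γ.R H) :
    LinearMap.det (Γ.ρ u) = 1 := by
  have h3 : IsNilpotent (Γ.ρ u - 1) := ⟨3, LinearMap.ext fun v => by
    have := hu.1 _ (hu.2 _ (Γ.R_sub_perp hu v))
    rw [pow_three]
    simp only [End.mul_apply, LinearMap.sub_apply, End.one_apply, this, sub_self, LinearMap.zero_apply]⟩
  have := (1 - Γ.ρ u).eval_charpoly 1
  rw [IsNilpotent.charpoly_eq_X_pow_finrank (by simpa using h3.neg)] at this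
  simpa using this.symm

end Geo

namespace Fr

variable {Γ : Geo F V G} {ι : Type*} [DecidableEq ι] [Fintype ι] (Φ : Fr Γ ι)

theorem mem_W_of {v : V} (h : v ∈ Γ.perp Φ.W) (h0 : Φ.π₀ v = 0) : v ∈ Φ.W := by
  have := Φ.π₀_sub_W h
  rw [h0, sub_zero] at this
  exact this ▸ Φ.E_mem _

theorem lev_W (A : GL ι F) {a : G} (ha : a ∈ Φ.Mid) (h : V) : Γ.ρ (Φ.lev A * a) h ∈ Φ.W ↔ h ∈ Φ.W := by
  have k : ∀ (A : GL ι F) (a : G), a ∈ Φ.Mid → ∀ h ∈ Φ.W, Γ.ρ (Φ.lev A * a) h ∈ Φ.W := fun A a ha h hh => by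
    obtain ⟨w, rfl⟩ := Φ.mem_W.1 hh
    rw [Γ.ρ_mul, mid_E _ ha, lev_E]; exact Φ.E_mem _
  refine ⟨fun hh => ?_, k A a ha h⟩
  have := k A⁻¹ a⁻¹ (Φ.Mid.inv_mem ha) _ hh
  rwa [Φ.lev_comm _ (Φ.Mid.inv_mem ha), map_inv, ← _root_.mul_inv_rev, Γ.ρ_inv_ρ] at this

theorem lev_swap (A : GL ι F) : Φ.lev A = Φ.swap.lev (shp Γ.σ A) := by rw [swap_lev, shp_shp]

theorem aeval_E (A : GL ι F) {a : G} (ha : a ∈ Φ.Mid) (p : F[X]) (u : ι → F) :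
    aeval (Γ.ρ (Φ.lev A * a)) p (Φ.E u) = Φ.E (aeval A.1 p *ᵥ u) := by
  rw [← aeval_mulVecLin, aeval_semiconj Φ.E (D := Γ.ρ (Φ.lev A * a))]
  intro u; rw [Γ.ρ_mul, mid_E _ ha, lev_E]; rfl

include Φ in
theorem aeval_shp {A : GL ι F} {r : F[X]} (h : aeval A.1 r = 0) : aeval (shp Γ.σ A).1 (dag Γ.σ r) = 0 := by
  refine Matrix.ext_of_mulVec_single fun j => ?_
  rw [zero_mulVec, ← Φ.swap.π_E (_ *ᵥ _), ← Φ.swap.aeval_E _ Φ.swap.Mid.one_mem, ← lev_swap]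
  refine Φ.swap.mem_perp_W'.1 ?_
  rw [swap_swap_W]
  intro x hx
  obtain ⟨w, rfl⟩ := Φ.mem_W.1 hx
  rw [Γ.B_dag, Φ.aeval_E _ Φ.Mid.one_mem, h, zero_mulVec, map_zero, map_zero]

theorem fpf_half [Finite G] {A : GL ι F} {a : G} (ha : a ∈ Φ.Mid) {r r' p : F[X]} (h1 : aeval A.1 r = 0)
    (h2 : aeval (shp Γ.σ A).1 r' = 0) (h3 : ∀ m ∈ Φ.M, aeval (Γ.ρ a) p m = 0) (h4 : IsCoprime r p) {u₀ : ι → F}
    (h5 : ∀ u, aeval A.1 r' *ᵥ u = 0 → ∃ c : F, u = c • u₀) (h6 : u₀ = 0 ∨ ∀ c, Γ.τ c = 0 → c = 0)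
    {u : G} (hu : u ∈ Γ.R Φ.W) : IsConj (Φ.lev A * a) (u * (Φ.lev A * a)) := by
  refine lang (fun v hv => Γ.R_conj (Φ.lev_W A ha) hv) (fun v hv e => ?_) hu
  set D := Φ.lev A * a with hD
  have c1 : ∀ (s : F[X]) x, Γ.ρ v (aeval (Γ.ρ D) s x) - aeval (Γ.ρ D) s x = aeval (Γ.ρ D) s (Γ.ρ v x - x) :=
    fun s x => by rw [map_sub, aeval_semiconj (Γ.ρ v) (D := Γ.ρ D) fun x => by rw [← Γ.ρ_mul, e, Γ.ρ_mul]]
  have c2 : ∀ h ∈ Φ.W, aeval (Γ.ρ D) r h = 0 := fun h hh => by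
    obtain ⟨w, rfl⟩ := Φ.mem_W.1 hh
    rw [hD, Φ.aeval_E A ha, h1, zero_mulVec, map_zero]
  have c0 : ∀ (s : F[X]) x, Φ.swap.π (aeval (Γ.ρ D) s x) = aeval (shp Γ.σ A).1 s *ᵥ Φ.swap.π x := fun s x => by
    rw [← aeval_mulVecLin]
    refine aeval_semiconj Φ.swap.π (fun x => ?_) s x
    rw [hD, lev_swap, Φ.swap.π_lev _ (Φ.swap_Mid ▸ ha)]; rfl
  have pW : ∀ {x}, x ∈ Γ.perp Φ.W ↔ Φ.swap.π x = 0 := fun {x} => by rw [← Φ.swap.mem_perp_W', swap_swap_W]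
  have c3 : ∀ m ∈ Γ.perp Φ.W, Γ.ρ v m = m := fun m hm => by
    refine sub_eq_zero.1 (eq_zero_of_coprime h4 (c2 _ (hv.2 m hm)) ?_)
    rw [← c1, hv.1, sub_self]
    refine Φ.mem_W_of (pW.2 (by rw [c0, pW.1 hm, mulVec_zero])) ?_
    rw [aeval_semiconj Φ.π₀ (D := Γ.ρ a) (Φ.π₀_lev A ha), h3 _ (Φ.π₀_mem m)]
  have c4 : ∀ x, ∃ c : F, Γ.ρ v x - x = c • Φ.E u₀ := fun x => by
    have hx : Γ.ρ v x - x ∈ Φ.W := by
      refine Φ.mem_W_of (Γ.R_sub_perp hv x) (Γ.nondeg _ fun y => ?_)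
      rw [Φ.decomp y, map_add, map_add, Φ.B_M_E (Φ.π₀_mem _), Φ.B_M_E' (Φ.π₀_mem _), zero_add, zero_add,
        ← Φ.π₀_of_M (Φ.π₀_mem y), Φ.B_π₀ (Γ.R_sub_perp hv x) (Φ.M_le (Φ.π₀_mem y)), map_sub, LinearMap.sub_apply,
        ← Γ.ρB v x, c3 _ (Φ.M_le (Φ.π₀_mem y)), sub_self]
    obtain ⟨w, hw⟩ := Φ.mem_W.1 hx
    obtain ⟨c, hc⟩ := h5 w (by
      rw [← Φ.π_E (_ *ᵥ _), ← Φ.aeval_E A ha, hw, ← c1, c3 _ (pW.2 (by rw [c0, h2, zero_mulVec])), sub_self,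
        map_zero])
    exact ⟨c, by rw [← hw, hc, map_smul]⟩
  refine Γ.ext_ρ fun x => ?_
  rw [Γ.ρ_one, ← sub_eq_zero]
  rcases h6 with h6 | h6
  · obtain ⟨c, hc⟩ := c4 x
    rw [hc, h6, map_zero, smul_zero]
  have c5 : ∀ x, Γ.B x (Γ.ρ v x - x) = 0 := fun x => h6 _ (by
    obtain ⟨c, hc⟩ := c4 x
    have := Γ.Q_add x (Γ.ρ v x - x)
    rw [add_sub_cancel, Γ.ρQ, hc, Φ.ts_W.1 _ (Φ.W.smul_mem c (Φ.E_mem _)), add_zero] at this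
    rw [hc]; simpa using this)
  refine Γ.nondeg' _ fun y => ?_
  by_contra hy
  obtain ⟨c, hc⟩ := c4 x
  obtain ⟨d, hd⟩ := c4 y
  have hd0 : d = 0 := by
    have := c5 y
    rw [hd, LinearMap.map_smulₛₗ, smul_eq_mul, mul_eq_zero, Γ.σ_eq_zero] at this
    refine this.resolve_right fun h0 => hy ?_
    rw [hc, LinearMap.map_smulₛₗ, h0, smul_zero]
  have := c5 (x + y)
  rw [map_add (Γ.ρ v), add_sub_add_comm, hd, hd0, zero_smul, add_zero, map_add, LinearMap.add_apply, c5 x,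
    zero_add] at this
  exact hy this

/-- `D` absorbs both unipotent radicals. -/
def FPF (D : G) : Prop := (∀ u ∈ Γ.R Φ.W, IsConj D (u * D)) ∧ ∀ v ∈ Γ.R Φ.swap.W, IsConj D (v * D)

theorem fpf_of [Finite G] {A : GL ι F} {a : G} (ha : a ∈ Φ.Mid) {r r' p : F[X]} (h1 : aeval A.1 r = 0)
    (h2 : aeval (shp Γ.σ A).1 r' = 0) (h3 : ∀ m ∈ Φ.M, aeval (Γ.ρ a) p m = 0) (h4 : IsCoprime r p)
    (h5 : IsCoprime r' p) (h6 : IsCoprime r r') : Φ.FPF (Φ.lev A * a) := by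
  have k : ∀ (B : Matrix ι ι F) (s s' : F[X]), aeval B s = 0 → IsCoprime s s' → ∀ u, aeval B s' *ᵥ u = 0 →
      ∃ c : F, u = c • (0 : ι → F) := fun B s s' e h u hu =>
    ⟨0, (eq_zero_of_coprime (D := B.mulVecLin) h (by rw [aeval_mulVecLin, e, zero_mulVec])
      (by rw [aeval_mulVecLin, hu])).trans (smul_zero _).symm⟩
  refine ⟨fun u hu => Φ.fpf_half ha h1 h2 h3 h4 (k _ _ _ h1 h6) (Or.inl rfl) hu, fun u hu => ?_⟩
  rw [lev_swap]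
  exact Φ.swap.fpf_half (Φ.swap_Mid ▸ ha) h2 (by rwa [shp_shp]) (Φ.swap_M ▸ h3) h5 (k _ _ _ h2 h6.symm)
    (Or.inl rfl) hu

theorem FPF.conj {A B : GL ι F} (h : IsConj A B) {a : G} (ha : a ∈ Φ.Mid) (hA : Φ.FPF (Φ.lev A * a)) :
    Φ.FPF (Φ.lev B * a) := by
  obtain ⟨P, rfl⟩ := isConj_iff.1 h
  have e : Φ.lev (P * A * P⁻¹) * a = Φ.lev P * (Φ.lev A * a) * (Φ.lev P)⁻¹ := by
    rw [map_mul, map_mul, mul_assoc, Φ.lev_comm _ ha, map_inv]; group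
  have k : ∀ H : Submodule F V, (∀ h, Γ.ρ (Φ.lev P⁻¹ * 1) h ∈ H ↔ h ∈ H) →
      (∀ u ∈ Γ.R H, IsConj (Φ.lev A * a) (u * (Φ.lev A * a))) → ∀ u ∈ Γ.R H,
        IsConj (Φ.lev (P * A * P⁻¹) * a) (u * (Φ.lev (P * A * P⁻¹) * a)) := fun H h1 h2 u hu => by
    have := h2 _ (Γ.R_conj h1 hu)
    rw [e]
    refine ((isConj_iff.2 ⟨_, rfl⟩ : IsConj _ _).symm.trans this).trans (isConj_iff.2 ⟨Φ.lev P, ?_⟩)
    rw [map_inv]; group
  exact ⟨k _ (Φ.lev_W _ Φ.Mid.one_mem) hA.1, k _ (fun h => by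
    rw [lev_swap]; exact Φ.swap.lev_W _ Φ.swap.Mid.one_mem h) hA.2⟩

theorem fpf_rel [Finite G] {D A : GL ι F} (h : Rel Γ.σ D A) {a : G} (ha : a ∈ Φ.Mid) {r p : F[X]}
    (h1 : aeval D.1 r = 0) (h3 : ∀ m ∈ Φ.M, aeval (Γ.ρ a) p m = 0) (hg : Good Γ.σ r p) :
    Φ.FPF (Φ.lev A * a) := by
  rcases h with h | h
  · exact FPF.conj Φ h ha (Φ.fpf_of ha h1 (Φ.aeval_shp h1) h3 hg.2.1 hg.2.2 hg.1)
  · exact FPF.conj Φ h ha (Φ.fpf_of ha (Φ.aeval_shp h1) (by rwa [shp_shp]) h3 hg.2.2 hg.2.1 hg.1.symm)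

theorem fact {g v s u a b : G} {l A B : GL ι F} (hv : v ∈ Γ.R Φ.swap.W) (hu : u ∈ Γ.R Φ.W)
    (e : g = v * Φ.lev l * s * u) (hs : s ∈ Φ.Mid) (h1 : l * B = A) (h2 : s * b = a)
    (hA : Φ.FPF (Φ.lev A * a)) (hB : Φ.FPF (Φ.lev B * b)) :
    ∃ x y, g = x * y⁻¹ ∧ IsConj (Φ.lev A * a) x ∧ IsConj (Φ.lev B * b) y := by
  refine ⟨_, _, ?_, hA.2 v hv, hB.1 _ ((Γ.R _).inv_mem hu)⟩
  rw [e, ← h1, ← h2, map_mul]
  calc _ = v * (Φ.lev l * (s * Φ.lev B) * b) * (u⁻¹ * (Φ.lev B * b))⁻¹ := by group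
    _ = _ := by rw [← Φ.lev_comm B hs]; group

/-- The main factorisation: `g` is a product `x y⁻¹` of two conjugates of `lev D * a`. -/
theorem main1 [Finite G] {g v s u a k : G} {l D A B : GL ι F} (hv : v ∈ Γ.R Φ.swap.W) (hu : u ∈ Γ.R Φ.W)
    (e : g = v * Φ.lev l * s * u) (ha : a ∈ Φ.Mid) (hk : k ∈ Φ.Mid) (h1 : l * B = A) (h2 : s * (k * a * k⁻¹) = a)
    (hA : Rel Γ.σ D A) (hB : Rel Γ.σ D B) {r p : F[X]} (hr : aeval D.1 r = 0)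
    (hp : ∀ m ∈ Φ.M, aeval (Γ.ρ a) p m = 0) (hg : Good Γ.σ r p) :
    ∃ x y, g = x * y⁻¹ ∧ IsConj (Φ.lev D * a) x ∧ IsConj (Φ.lev D * a) y := by
  have hb := Φ.Mid.mul_mem (Φ.Mid.mul_mem hk ha) (Φ.Mid.inv_mem hk)
  have hs : s ∈ Φ.Mid := by
    rw [eq_mul_inv_of_mul_eq h2]; exact Φ.Mid.mul_mem ha (Φ.Mid.inv_mem hb)
  obtain ⟨x, y, e1, hx, hy⟩ := Φ.fact hv hu e hs h1 h2 (Φ.fpf_rel hA ha hr hp hg) (Φ.fpf_rel hB hb hr (fun m hm => by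
    rw [← Γ.ρ_ρ_inv k m, ← aeval_semiconj (Γ.ρ k) (A := Γ.ρ a) (fun x => by
      rw [Γ.ρ_mul, Γ.ρ_mul, Γ.ρ_inv_ρ]), hp _ (Φ.mid_M (Φ.Mid.inv_mem hk) hm), map_zero]) hg)
  exact ⟨x, y, e1, (Φ.isConj_rel hA ha).trans hx,
    ((Φ.isConj_rel hB ha).trans (Φ.isConj_lev (IsConj.refl B) ha hk rfl)).trans hy⟩

theorem main2 {g v u a : G} {l D A B : GL ι F} (hv : v ∈ Γ.R Φ.swap.W) (hu : u ∈ Γ.R Φ.W)
    (e : g = v * Φ.lev l * 1 * u) (ha : a ∈ Φ.Mid) (h1 : l * B = A) (hA : IsConj D A) (hB : IsConj D B)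
    (hD : Φ.FPF (Φ.lev D * a)) : ∃ x y, g = x * y⁻¹ ∧ IsConj (Φ.lev D * a) x ∧ IsConj (Φ.lev D * a) y := by
  obtain ⟨x, y, e1, hx, hy⟩ := Φ.fact hv hu e Φ.Mid.one_mem h1 (one_mul a) (FPF.conj Φ hA ha hD)
    (FPF.conj Φ hB ha hD)
  exact ⟨x, y, e1, (Φ.isConj_rel (Or.inl hA) ha).trans hx, (Φ.isConj_rel (Or.inl hB) ha).trans hy⟩

omit [Fintype ι] in
theorem FPF.mem_comm {D : G} (h : Φ.FPF D) {u : G} (hu : u ∈ Γ.R Φ.W ∨ u ∈ Γ.R Φ.swap.W) : u ∈ commutator G := by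
  obtain ⟨y, hy⟩ := isConj_iff.1 (hu.elim (h.1 u) (h.2 u))
  rw [← mul_inv_eq_iff_eq_mul.2 hy]
  exact Subgroup.commutator_mem_commutator (Subgroup.mem_top y) (Subgroup.mem_top D)

end Fr

end Cfsg.Agent.H65.Ore
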