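import Cfsg.Agent.H65.OreGeo

set_option autoImplicit false

/-! Project ORE: the Levi subgroup of a frame and the Gauss decomposition. -/

namespace Cfsg.Agent.H65.Ore

open Polynomial Matrix Module

variable {F V G : Type*} [Field F] [AddCommGroup V] [Module F V] [Group G]

namespace Fr

variable {Γ : Geo F V G} {ι : Type*} [DecidableEq ι] [Fintype ι] (Φ : Fr Γ ι)

theorem dot_shp (A : GL ι F) (u w : ι → F) :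
    (A.1 *ᵥ u ⬝ᵥ fun i => Γ.σ (((shp Γ.σ A).1 *ᵥ w) i)) = u ⬝ᵥ fun i => Γ.σ (w i) := by
  have : (fun i => Γ.σ (((shp Γ.σ A).1 *ᵥ w) i)) = (fun i => Γ.σ (w i)) ᵥ* A⁻¹.1 := by
    ext i
    simp [shp_val, mulVec, vecMul, dotProduct, Γ.σσ, mul_comm, -coe_units_inv]
  rw [this, dotProduct_comm, dotProduct_mulVec, vecMul_vecMul, Units.inv_mul, vecMul_one, dotProduct_comm]

theorem shp_shp (A : GL ι F) : shp Γ.σ (shp Γ.σ A) = A := by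
  refine Units.ext ?_
  rw [shp_val, ← map_inv, shp_val, inv_inv]
  ext i j
  simp [Γ.σσ]

/-- Change of basis in a frame. -/
def reb (A : GL ι F) : Fr Γ ι where
  e j := Φ.E (A.1 *ᵥ Pi.single j 1)
  f j := Φ.swap.E ((shp Γ.σ A).1 *ᵥ Pi.single j 1)
  Qe _ := Φ.ts_W.1 _ (Φ.E_mem _)
  Qf _ := Φ.swap.ts_W.1 _ (Φ.swap.E_mem _)
  ee _ _ := Φ.B_E_E _ _
  ff _ _ := Φ.swap.B_E_E _ _
  ef i j := by
    rw [B_E_E', dot_shp, single_dotProduct, one_mul]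
    by_cases h : i = j <;> simp [h]

theorem E_eq {Ψ : Fr Γ ι} {T : (ι → F) →ₗ[F] V} (h : ∀ j, Ψ.e j = T (Pi.single j 1)) (u : ι → F) : Ψ.E u = T u := by
  conv_rhs => rw [← Finset.univ_sum_single u, map_sum]
  rw [E_apply]
  refine Finset.sum_congr rfl fun j _ => ?_
  rw [h, ← map_smul, ← Pi.single_smul, smul_eq_mul, mul_one]

theorem reb_E (A : GL ι F) (u : ι → F) : (Φ.reb A).E u = Φ.E (A.1 *ᵥ u) :=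
  E_eq (T := Φ.E ∘ₗ A.1.mulVecLin) (fun _ => rfl) u

theorem reb_E' (A : GL ι F) (u : ι → F) : (Φ.reb A).swap.E u = Φ.swap.E ((shp Γ.σ A).1 *ᵥ u) :=
  E_eq (T := Φ.swap.E ∘ₗ (shp Γ.σ A).1.mulVecLin) (fun _ => rfl) u

theorem exists_lev (A : GL ι F) : ∃ z : G, (∀ u, Γ.ρ z (Φ.E u) = Φ.E (A.1 *ᵥ u)) ∧
    (∀ u, Γ.ρ z (Φ.swap.E u) = Φ.swap.E ((shp Γ.σ A).1 *ᵥ u)) ∧ ∀ m ∈ Φ.M, Γ.ρ z m = m := by
  obtain ⟨z, h1, h2, h3⟩ := Φ.exists_iso (Φ.reb A) 1 (fun m hm => (Φ.reb A).mem_M.2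
    ⟨fun _ => Φ.B_M_E' hm _, fun _ => Φ.B_M_E hm _⟩) (fun _ _ _ _ => rfl) fun _ _ => rfl
  exact ⟨z, fun u => by rw [h1, reb_E], fun u => by rw [h2, reb_E'], h3⟩

theorem ext' {g h : G} (h1 : ∀ u, Γ.ρ g (Φ.E u) = Γ.ρ h (Φ.E u))
    (h2 : ∀ u, Γ.ρ g (Φ.swap.E u) = Γ.ρ h (Φ.swap.E u)) (h3 : ∀ m ∈ Φ.M, Γ.ρ g m = Γ.ρ h m) : g = h :=
  Φ.ext (fun i => by rw [← Φ.E_single, h1]) (fun i => by
    have := h2 (Pi.single i 1); rwa [Φ.swap.E_single] at this) h3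

/-- The Levi subgroup. -/
noncomputable def lev : GL ι F →* G :=
  MonoidHom.mk' (fun A => (Φ.exists_lev A).choose) fun A B => by
    obtain ⟨a1, a2, a3⟩ := (Φ.exists_lev A).choose_spec
    obtain ⟨b1, b2, b3⟩ := (Φ.exists_lev B).choose_spec
    obtain ⟨c1, c2, c3⟩ := (Φ.exists_lev (A * B)).choose_spec
    refine Φ.ext' (fun u => ?_) (fun u => ?_) fun m hm => ?_
    · rw [Γ.ρ_mul, c1, b1, a1, mulVec_mulVec, Units.val_mul]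
    · rw [Γ.ρ_mul, c2, b2, a2, mulVec_mulVec, map_mul, Units.val_mul]
    · rw [Γ.ρ_mul, c3 m hm, b3 m hm, a3 m hm]

theorem lev_E (A : GL ι F) (u : ι → F) : Γ.ρ (Φ.lev A) (Φ.E u) = Φ.E (A.1 *ᵥ u) :=
  (Φ.exists_lev A).choose_spec.1 u

theorem lev_E' (A : GL ι F) (u : ι → F) : Γ.ρ (Φ.lev A) (Φ.swap.E u) = Φ.swap.E ((shp Γ.σ A).1 *ᵥ u) :=
  (Φ.exists_lev A).choose_spec.2.1 u

theorem lev_M (A : GL ι F) {m : V} (hm : m ∈ Φ.M) : Γ.ρ (Φ.lev A) m = m :=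
  (Φ.exists_lev A).choose_spec.2.2 m hm

theorem mid_E {a : G} (ha : a ∈ Φ.Mid) (u : ι → F) : Γ.ρ a (Φ.E u) = Φ.E u := by
  simp only [E_apply, map_sum, map_smul, ha.1]

theorem mid_E' {a : G} (ha : a ∈ Φ.Mid) (u : ι → F) : Γ.ρ a (Φ.swap.E u) = Φ.swap.E u :=
  Φ.swap.mid_E (Φ.swap_Mid ▸ ha) u

theorem lev_comm (A : GL ι F) {a : G} (ha : a ∈ Φ.Mid) : Φ.lev A * a = a * Φ.lev A :=
  Φ.ext' (fun u => by rw [Γ.ρ_mul, Γ.ρ_mul, mid_E _ ha, lev_E, mid_E _ ha])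
    (fun u => by rw [Γ.ρ_mul, Γ.ρ_mul, mid_E' _ ha, lev_E', mid_E' _ ha])
    fun m hm => by rw [Γ.ρ_mul, Γ.ρ_mul, lev_M _ _ hm, lev_M _ _ (Φ.mid_M ha hm)]

theorem swap_swap_E (u : ι → F) : Φ.swap.swap.E u = Γ.ε • Φ.E u :=
  E_eq (T := Γ.ε • Φ.E) (fun j => by rw [LinearMap.smul_apply, E_single]; rfl) u

theorem swap_lev (A : GL ι F) : Φ.swap.lev A = Φ.lev (shp Γ.σ A) :=
  Φ.ext' (fun u => by
      apply smul_right_injective V Γ.ε_ne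
      simp only [← map_smul (Γ.ρ _), ← swap_swap_E]
      rw [lev_E', swap_swap_E, swap_swap_E, map_smul, lev_E])
    (fun u => by rw [lev_E, lev_E', shp_shp])
    fun m hm => by rw [lev_M _ _ hm, lev_M _ _ (Φ.swap_M ▸ hm)]

theorem π_lev (A : GL ι F) {a : G} (ha : a ∈ Φ.Mid) (v : V) : Φ.π (Γ.ρ (Φ.lev A * a) v) = A.1 *ᵥ Φ.π v := by
  conv_lhs => rw [Φ.decomp v]
  simp only [Γ.ρ_mul, map_add, mid_E _ ha, mid_E' _ ha, lev_E, lev_E', lev_M _ _ (Φ.mid_M ha (Φ.π₀_mem v)),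
    π_E, π_E', Φ.π_of_M (Φ.mid_M ha (Φ.π₀_mem v)), add_zero]

theorem π₀_lev (A : GL ι F) {a : G} (ha : a ∈ Φ.Mid) (v : V) :
    Φ.π₀ (Γ.ρ (Φ.lev A * a) v) = Γ.ρ a (Φ.π₀ v) := by
  conv_lhs => rw [Φ.decomp v]
  simp only [Γ.ρ_mul, map_add, mid_E _ ha, mid_E' _ ha, lev_E, lev_E', lev_M _ _ (Φ.mid_M ha (Φ.π₀_mem v)),
    π₀_E, π₀_E', Φ.π₀_of_M (Φ.mid_M ha (Φ.π₀_mem v)), zero_add]

/-- The exchange of the two halves as an isometry. -/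
theorem isConj_shp (A : GL ι F) {a : G} (ha : a ∈ Φ.Mid) :
    IsConj (Φ.lev A * a) (Φ.lev (shp Γ.σ A) * a) := by
  obtain ⟨z, h1, h2, h3⟩ := Φ.exists_iso Φ.swap 1 (fun m hm => Φ.swap_M ▸ hm) (fun _ _ _ _ => rfl) fun _ _ => rfl
  refine isConj_iff.2 ⟨z, mul_inv_eq_iff_eq_mul.2 (Φ.ext' (fun u => ?_) (fun u => ?_) fun m hm => ?_)⟩
  · simp only [Γ.ρ_mul, mid_E _ ha, lev_E, h1, mid_E' _ ha, lev_E', shp_shp]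
  · simp only [Γ.ρ_mul, mid_E' _ ha, lev_E', h2, swap_swap_E, map_smul, mid_E _ ha, lev_E]
  · simp only [Γ.ρ_mul, h3 _ hm, lev_M _ _ (Φ.mid_M ha hm), h3 _ (Φ.mid_M ha hm), End.one_apply]

theorem isConj_lev {A B : GL ι F} (h : IsConj A B) {a b k : G} (ha : a ∈ Φ.Mid) (hk : k ∈ Φ.Mid)
    (hb : b = k * a * k⁻¹) : IsConj (Φ.lev A * a) (Φ.lev B * b) := by
  obtain ⟨P, rfl⟩ := isConj_iff.1 h
  refine isConj_iff.2 ⟨Φ.lev P * k, ?_⟩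
  have h1 := Φ.lev_comm A hk
  have h2 := Φ.lev_comm P⁻¹ (Φ.Mid.mul_mem (Φ.Mid.mul_mem hk ha) (Φ.Mid.inv_mem hk))
  rw [hb, map_mul, map_mul, mul_assoc _ (Φ.lev P⁻¹), h2, map_inv]
  calc _ = Φ.lev P * (k * Φ.lev A) * a * k⁻¹ * (Φ.lev P)⁻¹ := by group
    _ = _ := by rw [← h1]; group

theorem isConj_rel {D A : GL ι F} (h : Rel Γ.σ D A) {a : G} (ha : a ∈ Φ.Mid) :
    IsConj (Φ.lev D * a) (Φ.lev A * a) := by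
  rcases h with h | h
  · exact Φ.isConj_lev h ha Φ.Mid.one_mem (by simp)
  · exact (Φ.isConj_shp D ha).trans (Φ.isConj_lev h ha Φ.Mid.one_mem (by simp))

theorem π₀_sub_W {m : V} (hm : m ∈ Γ.perp Φ.W) : m - Φ.π₀ m = Φ.E (Φ.π m) := by
  have : Φ.swap.π m = 0 := Φ.swap.mem_perp_W'.1 (Φ.swap_swap_W ▸ hm)
  rw [π₀_apply, this]; simp

theorem π₀_sub_W' {m : V} (hm : m ∈ Γ.perp Φ.swap.W) : m - Φ.π₀ m = Φ.swap.E (Φ.swap.π m) := by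
  rw [π₀_apply, Φ.mem_perp_W'.1 hm]; simp

theorem B_π₀ {m m' : V} (hm : m ∈ Γ.perp Φ.W) (hm' : m' ∈ Γ.perp Φ.W) : Γ.B (Φ.π₀ m) (Φ.π₀ m') = Γ.B m m' := by
  conv_rhs => rw [← sub_add_cancel m (Φ.π₀ m), π₀_sub_W _ hm, map_add, LinearMap.add_apply,
    Γ.B_comm.1 (hm' _ (Φ.E_mem _)), ← sub_add_cancel m' (Φ.π₀ m'), π₀_sub_W _ hm', map_add,
    Φ.B_M_E (Φ.π₀_mem m), zero_add, zero_add]

theorem Q_π₀ {m : V} (hm : m ∈ Γ.perp Φ.W) : Γ.Q (Φ.π₀ m) = Γ.Q m := by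
  conv_rhs => rw [← sub_add_cancel m (Φ.π₀ m), π₀_sub_W _ hm,
    Γ.Q_add_of (Γ.B_comm.1 (Φ.B_M_E (Φ.π₀_mem m) _)), Φ.ts_W.1 _ (Φ.E_mem _), zero_add]

theorem swap_π₀ : Φ.swap.π₀ = Φ.π₀ := by
  ext v
  have h : Φ.swap.swap.π v = Γ.ε • Φ.π v := by
    ext i
    change Γ.B v (Γ.ε • Φ.f i) = _
    rw [LinearMap.map_smulₛₗ, Γ.σε]; rfl
  rw [π₀_apply, π₀_apply, swap_swap_E, h, map_smul, smul_smul, Γ.εε, one_smul]; abel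

theorem R_perp {H : Submodule F V} (hH : Γ.TS H) {u : G} (hu : u ∈ Γ.R H) {m : V} (hm : m ∈ Γ.perp H) :
    Γ.ρ u m ∈ Γ.perp H := by
  rw [← sub_add_cancel (Γ.ρ u m) m]; exact add_mem (hH.2 (hu.2 m hm)) hm

omit [Fintype ι] in
theorem π_R' {v : G} (hv : v ∈ Γ.R Φ.swap.W) (x : V) : Φ.π (Γ.ρ v x) = Φ.π x := by
  ext i
  rw [π_apply, π_apply, ← Γ.ρB v x]
  exact congrArg _ (hv.1 _ (Φ.swap.e_mem i)).symm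

theorem π₀_R {u : G} (hu : u ∈ Γ.R Φ.W) {m : V} (hm : m ∈ Γ.perp Φ.W) : Φ.π₀ (Γ.ρ u m) = Φ.π₀ m := by
  obtain ⟨w, hw⟩ := Φ.mem_W.1 (hu.2 m hm)
  rw [← sub_eq_zero, ← map_sub, ← hw, π₀_E]

/-- An isometry fixing the first half. -/
theorem gauss_W {g : G} (hg : ∀ u, Γ.ρ g (Φ.E u) = Φ.E u) : ∃ s ∈ Φ.Mid, ∃ u ∈ Γ.R Φ.W, g = s * u := by
  have k : ∀ m ∈ Γ.perp Φ.W, Γ.ρ g m ∈ Γ.perp Φ.W := fun m hm => Φ.mem_perp_W.2 fun i => by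
    rw [← Φ.E_single, ← hg, Γ.ρB]; exact hm _ (Φ.E_mem _)
  obtain ⟨s, h1, h2, h3⟩ := Φ.exists_iso Φ (Φ.π₀ * Γ.ρ g) (fun m _ => Φ.π₀_mem _)
    (fun m hm m' hm' => by
      rw [End.mul_apply, End.mul_apply, Φ.B_π₀ (k m (Φ.M_le hm)) (k m' (Φ.M_le hm')), Γ.ρB])
    fun m hm => by rw [End.mul_apply, Φ.Q_π₀ (k m (Φ.M_le hm)), Γ.ρQ]
  have hs : s ∈ Φ.Mid := ⟨fun i => by rw [← Φ.E_single, h1], fun i => by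
    have := h2 (Pi.single i 1); rwa [Φ.swap.E_single] at this⟩
  refine ⟨s, hs, s⁻¹ * g, ⟨fun h hh => ?_, fun m hm => ?_⟩, by group⟩
  · obtain ⟨w, rfl⟩ := Φ.mem_W.1 hh
    rw [Γ.ρ_mul, hg, Φ.mid_E (Φ.Mid.inv_mem hs)]
  · have e1 : Γ.ρ g m = Γ.ρ s (Φ.π₀ m) + Φ.E (Φ.π (Γ.ρ g m)) := by
      have e0 : Φ.π₀ m = m - Φ.E (Φ.π m) := by rw [← Φ.π₀_sub_W hm]; abel
      rw [h3 _ (Φ.π₀_mem m), End.mul_apply, ← Φ.π₀_sub_W (k m hm), e0, map_sub, map_sub, hg, π₀_E]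
      abel
    rw [Γ.ρ_mul, e1, map_add, Γ.ρ_inv_ρ, Φ.mid_E (Φ.Mid.inv_mem hs), add_sub_right_comm, ← neg_sub m,
      Φ.π₀_sub_W hm]
    exact add_mem (neg_mem (Φ.E_mem _)) (Φ.E_mem _)

/-- Gauss decomposition. -/
theorem gauss (g : G) (l : GL ι F) (hl : Φ.lm g = l.1) : ∃ v ∈ Γ.R Φ.swap.W, ∃ s ∈ Φ.Mid, ∃ u ∈ Γ.R Φ.W,
    g = v * Φ.lev l * s * u := by
  have k : ∀ u, Φ.π (Γ.ρ g (Φ.E (l⁻¹.1 *ᵥ u))) = u := fun u => by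
    rw [← lm_mulVec, hl, mulVec_mulVec, Units.mul_inv, one_mulVec]
  let Ψ : Fr Γ ι :=
    { e := fun j => Γ.ρ g (Φ.E (l⁻¹.1 *ᵥ Pi.single j 1))
      f := Φ.f
      Qe := fun _ => by rw [Γ.ρQ]; exact Φ.ts_W.1 _ (Φ.E_mem _)
      Qf := Φ.Qf
      ee := fun _ _ => by rw [Γ.ρB, B_E_E]
      ff := Φ.ff
      ef := fun i j => by rw [← π_apply, k, Pi.single_apply]; simp [eq_comm] }
  have hW : Ψ.swap.W = Φ.swap.W := rfl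
  have k2 : ∀ m ∈ Φ.M, m ∈ Γ.perp Ψ.swap.W := fun m hm => hW ▸ Φ.M_le' hm
  obtain ⟨v, h1, h2, h3⟩ := Φ.exists_iso Ψ Ψ.swap.π₀ (fun m _ => Ψ.swap_M ▸ Ψ.swap.π₀_mem _)
    (fun m hm m' hm' => Ψ.swap.B_π₀ (k2 m hm) (k2 m' hm')) fun m hm => Ψ.swap.Q_π₀ (k2 m hm)
  have h1' : ∀ u, Γ.ρ v (Φ.E u) = Γ.ρ g (Φ.E (l⁻¹.1 *ᵥ u)) := fun u => by
    rw [h1]; exact E_eq (T := Γ.ρ g ∘ₗ Φ.E ∘ₗ l⁻¹.1.mulVecLin) (fun _ => rfl) u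
  have h2' : ∀ u, Γ.ρ v (Φ.swap.E u) = Φ.swap.E u := h2
  obtain ⟨s, hs, u, hu, e⟩ := Φ.gauss_W (g := (v * Φ.lev l)⁻¹ * g) fun u => by
    apply Γ.ρ_inj (v * Φ.lev l)
    rw [Γ.ρ_mul _ g, Γ.ρ_ρ_inv, Γ.ρ_mul, lev_E, h1', mulVec_mulVec, Units.inv_mul, one_mulVec]
  refine ⟨v, ⟨fun h hh => ?_, fun m hm => ?_⟩, s, hs, u, hu, by rw [mul_assoc _ s, ← e]; group⟩
  · obtain ⟨w, rfl⟩ := Φ.swap.mem_W.1 hh
    exact h2' w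
  · have e1 := sub_eq_iff_eq_add.1 (Φ.π₀_sub_W' hm)
    rw [e1, map_add, h2', add_sub_add_left_eq_sub, h3 _ (Φ.π₀_mem m), ← neg_sub,
      Ψ.swap.π₀_sub_W (k2 _ (Φ.π₀_mem m))]
    exact neg_mem (hW ▸ Ψ.swap.E_mem _)

/-- The middle component of a Gauss decomposition. -/
theorem gauss_mid {g v s u : G} {l : GL ι F} (hv : v ∈ Γ.R Φ.swap.W) (hs : s ∈ Φ.Mid) (hu : u ∈ Γ.R Φ.W)
    (e : g = v * Φ.lev l * s * u) {m : V} (hm : m ∈ Γ.perp Φ.W) (hm' : Γ.ρ g m ∈ Γ.perp Φ.swap.W) :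
    Γ.ρ s (Φ.π₀ m) = Φ.π₀ (Γ.ρ g m) := by
  have e1 : Γ.ρ v⁻¹ (Γ.ρ g m) = Γ.ρ (Φ.lev l * s) (Γ.ρ u m) := by
    rw [e, ← Γ.ρ_mul, ← Γ.ρ_mul]; congr 2; group
  rw [← Φ.π₀_R hu hm, ← Φ.π₀_lev l hs, ← e1, ← swap_π₀, Φ.swap.π₀_R ((Γ.R _).inv_mem hv) hm']

theorem exists_perp {g : G} (hl : IsUnit (Φ.lm g)) (m : V) : ∃ w, Γ.ρ g (m + Φ.E w) ∈ Γ.perp Φ.swap.W := by
  obtain ⟨l, hl⟩ := hl
  refine ⟨-(l⁻¹.1 *ᵥ Φ.π (Γ.ρ g m)), Φ.mem_perp_W'.2 ?_⟩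
  rw [map_add, map_add, ← lm_mulVec, ← hl, mulVec_neg, mulVec_mulVec, Units.mul_inv, one_mulVec, add_neg_cancel]

theorem mid_eq {s t : G} (hs : s ∈ Φ.Mid) (ht : t ∈ Φ.Mid) (h : ∀ m ∈ Φ.M, Γ.ρ s m = Γ.ρ t m) : s = t :=
  Φ.ext (fun i => by rw [hs.1, ht.1]) (fun i => by rw [hs.2, ht.2]) h

omit [Fintype ι] in
theorem map_lm (k g : G) : (Φ.map k).lm g = Φ.lm (k⁻¹ * g * k) := by
  ext i j
  simp only [lm, map, of_apply, Γ.ρ_mul]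
  rw [← Γ.ρB k⁻¹, Γ.ρ_inv_ρ]

theorem reb_lm (P : GL ι F) (g : G) : (Φ.reb P).lm g = P⁻¹.1 * Φ.lm g * P.1 := by
  ext i j
  have h := Φ.π_lev P⁻¹ Φ.Mid.one_mem (Γ.ρ g (Φ.E (P.1 *ᵥ Pi.single j 1)))
  rw [mul_one, ← lm_mulVec, mulVec_mulVec, mulVec_mulVec, mulVec_single_one (_ * _)] at h
  have h2 := congrFun h i
  rw [π_apply, map_inv, Γ.B_ρ_left, inv_inv, ← show Φ.swap.E (Pi.single i 1) = Φ.f i from Φ.swap.E_single i,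
    lev_E'] at h2
  exact h2

end Fr

end Cfsg.Agent.H65.Ore
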