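import Cfsg.Agent.H65.OreAdj
import Cfsg.Agent.H65.OreEx2
import Cfsg.Agent.H65.OreCyc
import Cfsg.Agent.H65.OreGood
import Cfsg.Agent.H28.MaxSing
import Cfsg.Agent.H30.Ore7

set_option autoImplicit false

/-! Project ORE: orthogonal groups, normalising the Levi component. -/

namespace Cfsg.Agent.H65.Ore

open Polynomial Matrix Module QuadraticMap Cfsg Cfsg.Agent.H28

variable {F : Type*} [Field F] {n : Type} [Fintype n] [DecidableEq n] {Q : QuadraticForm F (n → F)}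

/-- The orthogonal geometry. -/
def geoO (hQ : (polarBilin Q).Nondegenerate) : Geo F (n → F) (O Q) where
  σ := RingHom.id F
  ε := 1
  τ := AddMonoidHom.id F
  B := polarBilin Q
  Q := Q
  ρ := rho Q
  σσ _ := rfl
  εε := one_mul _
  symm x y := by simp [polar_comm]
  nondeg _ h := eq_zero_of_polar hQ h
  Q_add := H28.Q_add Q
  Q_smul c x := by rw [H28.Q_smul, pow_two]; rfl
  B_self x h := by simp [h]
  sing u a h h' := ⟨-Q u / polar Q u a, by
    have : polar Q u a ≠ 0 := h'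
    rw [H28.Q_add, H28.Q_smul, h, B_smul_right]; field_simp; ring⟩
  inj _ _ h := O_ext fun v => by rw [h]
  ρB := B_rho
  ρQ := Q_rho
  full T h1 h2 := by
    have : Function.Injective T := (injective_iff_map_eq_zero T).2 fun x hx =>
      eq_zero_of_polar hQ fun y => by rw [← polarBilin_apply_apply, ← h1, hx]; simp
    exact ⟨ofEquiv (LinearEquiv.ofInjectiveEndo T this) h2, LinearMap.ext fun v => rho_ofEquiv _ _ v⟩

variable {hQ : (polarBilin Q).Nondegenerate} {ι κ : Type*} [Fintype ι] [DecidableEq ι] [Fintype κ] [DecidableEq κ]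

theorem geoO_B (x y : n → F) : (geoO hQ).B x y = polar Q x y := rfl

theorem geoO_ρ : (geoO hQ).ρ = rho Q := rfl

omit [Fintype ι] in
theorem refl_mid (Φ : Fr (geoO hQ) ι) {m : n → F} (hm : m ∈ Φ.M) : refl Q m ∈ Φ.Mid :=
  ⟨fun i => rho_refl_of_orth ((Φ.mem_M.1 hm).2 i), fun i => rho_refl_of_orth ((Φ.mem_M.1 hm).1 i)⟩

theorem span_two {V : Type*} [AddCommGroup V] [Module F V] [FiniteDimensional F V] {M : Submodule F V}
    (h : finrank F M ≤ 2) {a b : V} (ha : a ∈ M) (hb : b ∈ M) (h0 : a ≠ 0) (h1 : ∀ c : F, c • a ≠ b) {x : V}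
    (hx : x ∈ M) : ∃ s t : F, s • a + t • b = x := by
  have li : LinearIndependent F ![a, b] := (LinearIndependent.pair_iff' h0).2 h1
  have := finrank_span_eq_card li
  rw [Matrix.range_cons_cons_empty, Fintype.card_fin] at this
  have e : Submodule.span F {a, b} = M := Submodule.eq_of_le_of_finrank_le
    (Submodule.span_le.2 (by rintro _ (rfl | rfl); exacts [ha, hb])) (by omega)
  exact Submodule.mem_span_pair.1 (e ▸ hx)

theorem exists_ns (Φ : Fr (geoO hQ) ι) (h : Φ.M ≠ ⊥) : ∃ m ∈ Φ.M, Q m ≠ 0 :=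
  NondegOn.exists_nonsingular (fun _ hx h => Φ.nondeg_M hx h) h

theorem mid_refl (hok : EichOK Q) (Φ : Fr (geoO hQ) ι) (hM : finrank F Φ.M ≤ 2) {k : O Q} (hk : k ∈ Φ.Mid)
    (hd : dickson hQ hok k = -1) : ∃ m ∈ Φ.M, Q m ≠ 0 ∧ k = refl Q m := by
  have h0 : Φ.M ≠ ⊥ := fun h0 => by
    rw [Φ.mid_eq hk Φ.Mid.one_mem (by simp [h0]), map_one] at hd
    exact absurd hd (by decide)
  obtain ⟨m, hm, hm0⟩ := exists_ns Φ h0
  have hm1 : m ≠ 0 := by rintro rfl; simp at hm0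
  have K : ∀ x ∈ Φ.M, polar Q m x = 0 → x ≠ 0 → Q x ≠ 0 := fun x hx h1 h2 h3 => h2 (Φ.nondeg_M hx fun y hy => by
    obtain ⟨s, t, rfl⟩ := span_two hM hm hx hm1 (fun c hc => by
      rw [← hc, H28.Q_smul, mul_eq_zero, or_iff_left hm0, pow_eq_zero_iff two_ne_zero] at h3
      exact h2 (by rw [← hc, h3, zero_smul])) hy
    simp [geoO_B, polar_comm _ x m, h1, h3])
  have S2 : ∀ k ∈ Φ.Mid, rho Q k m = m → k = 1 ∨ ∃ m ∈ Φ.M, Q m ≠ 0 ∧ k = refl Q m := fun k hk e => by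
    refine or_iff_not_imp_left.2 fun h1 => ?_
    obtain ⟨x, hx, hx1⟩ : ∃ x ∈ Φ.M, rho Q k x ≠ x := by
      by_contra! h; exact h1 (Φ.mid_eq hk Φ.Mid.one_mem fun x hx => (h x hx).trans (rho_one x).symm)
    have hw : rho Q k x - x ∈ Φ.M := sub_mem (Φ.mid_M hk hx) hx
    have ho : polar Q m (rho Q k x - x) = 0 := by rw [polar_comm, polar_fix_res e]
    have hq := K _ hw ho (sub_ne_zero.2 hx1)
    refine ⟨_, hw, hq, ?_⟩
    rw [← refl_inv, eq_comm, inv_eq_iff_mul_eq_one]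
    refine Φ.mid_eq (Φ.Mid.mul_mem (refl_mid Φ hw) hk) Φ.Mid.one_mem fun y hy => ?_
    obtain ⟨s, t, rfl⟩ := span_two hM hm hx hm1 (fun c hc => hx1 (by rw [← hc, map_smul, e])) hy
    rw [geoO_ρ, rho_mul, rho_one, map_add, map_smul, map_smul, map_add, map_smul, map_smul, e,
      rho_refl_sub (Q_rho k x) hq, rho_refl_of_orth (by rw [polar_comm, ho])]
  by_cases e : rho Q k m = m
  · refine (S2 k hk e).resolve_left ?_
    rintro rfl
    rw [map_one] at hd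
    exact absurd hd (by decide)
  have hw : rho Q k m - m ∈ Φ.M := sub_mem (Φ.mid_M hk hm) hm
  have hq : Q (rho Q k m - m) ≠ 0 := fun h => K _ hw (by
    have := H28.Q_add Q m (rho Q k m - m)
    rw [add_sub_cancel, Q_rho, h] at this
    simpa using this) (sub_ne_zero.2 e) h
  rcases S2 _ (Φ.Mid.mul_mem (refl_mid Φ hw) hk) (by rw [rho_mul, rho_refl_sub (Q_rho k m) hq]) with h | ⟨x, -, hx, h⟩
  · exact ⟨_, hw, hq, by rw [← refl_inv, eq_comm, inv_eq_iff_mul_eq_one, h]⟩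
  · have := congrArg (dickson hQ hok) h
    rw [map_mul, hd, dickson_refl _ _ hq, dickson_refl _ _ hx] at this
    exact absurd this (by decide)

variable [Fintype F]

theorem finO : Finite (O Q) := inferInstance

theorem hom_sl {A : Type*} [CommGroup A] (h3 : 3 ≤ Fintype.card ι) (χ : GL ι F →* A) {l : GL ι F}
    (hl : l.1.det = 1) : χ l = 1 := by
  have e := Fintype.equivFin ι
  have := (H30.Ore.comm_all (Fintype.card ι) (by omega) (l.1.submatrix e.symm e.symm) (by simpa using hl)).reindex e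
  simp only [submatrix_submatrix, Equiv.symm_comp_self, submatrix_id_id] at this
  obtain ⟨a, b, h⟩ := H30.Ore.Comm.commutator ⟨l.1, hl⟩ this
  have h2 : l = SpecialLinearGroup.toGL (⟨l.1, hl⟩ : SpecialLinearGroup ι F) := Units.ext rfl
  rw [h2, h]
  simp

theorem lev_ds (hok : EichOK Q) (Φ : Fr (geoO hQ) (Option κ)) (h2 : 2 ≤ Fintype.card κ) (A : GL (Option κ) F) :
    dickson hQ hok (Φ.lev A) = 1 ∧ spinor hQ hok (Φ.lev A) = sqSign A.1.det := by
  set t : Fˣ := Matrix.GeneralLinearGroup.det A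
  have h3 : 3 ≤ Fintype.card (Option κ) := by simp; omega
  have hd : (A * (dsum (t, 1))⁻¹).1.det = 1 := by
    rw [← map_inv, Units.val_mul, det_mul, Prod.inv_mk, dsum_val, det_dsumM]
    simp [t, ((isUnit_iff_isUnit_det _).1 A.isUnit).ne_zero]
  have e1 : Φ.lev (dsum (t, 1)) = hypScale Q (Φ.e none) (Φ.f none) t := by
    have ef : polar Q (Φ.e none) (Φ.f none) = 1 := (Φ.ef none none).trans (by simp)
    have k := rho_hypScale (Φ.Qe none) (Φ.Qf none) ef t.ne_zero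
    have ee : ∀ i j, polar Q (Φ.e i) (Φ.e j) = 0 := Φ.ee
    have ff : ∀ i j, polar Q (Φ.f i) (Φ.f j) = 0 := Φ.ff
    have ef' : ∀ i j, polar Q (Φ.e i) (Φ.f j) = if i = j then 1 else 0 := Φ.ef
    refine Φ.ext (fun i => ?_) (fun i => ?_) fun m hm => ?_
    · rw [← Φ.E_single, Fr.lev_E, Φ.E_single, geoO_ρ, k, dsum_val, dsumM_mulVec, Φ.E_opt, polar_comm, ee, ef']
      cases i with
      | none => simp [sub_smul, ← Pi.zero_def]
      | some j =>
        simp [Pi.single_apply]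
        exact (congrArg _ (_root_.funext fun i => by simp [Pi.single_apply])).trans (Φ.tl.E_single j)
    · rw [← show Φ.swap.E (Pi.single i 1) = Φ.f i from Φ.swap.E_single i, Fr.lev_E', Φ.swap.E_single, geoO_ρ, k,
        Fr.shp_dsum, dsum_val, dsumM_mulVec, Φ.E'_opt]
      change _ = Φ.f i + (_ * polar Q _ (Φ.f i)) • _ + (_ * polar Q _ (Φ.f i)) • _
      rw [ff, ef']
      cases i with
      | none => simp [sub_smul, ← Pi.zero_def]; rfl
      | some j =>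
        simp [Pi.single_apply]
        exact (congrArg _ (_root_.funext fun i => by simp [Pi.single_apply])).trans (Φ.tl.swap.E_single j)
    · rw [Φ.lev_M _ hm, geoO_ρ, k, polar_comm, polar_comm _ _ m, show polar Q m _ = 0 from (Φ.mem_M.1 hm).1 none,
        show polar Q m _ = 0 from (Φ.mem_M.1 hm).2 none]
      simp
  have H := isLift_hypScale (Φ.Qe none) (Φ.Qf none) ((Φ.ef none none).trans (by simp)) t.ne_zero
  have e2 : Φ.lev A = Φ.lev (A * (dsum (t, 1))⁻¹) * hypScale Q (Φ.e none) (Φ.f none) t := by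
    rw [← e1, ← map_mul, inv_mul_cancel_right]
  rw [e2, map_mul (dickson hQ hok), map_mul (spinor hQ hok), dickson_of_isLift hQ hok H, spinor_of_isLift hQ hok H]
  exact ⟨by rw [show dickson hQ hok _ = 1 from hom_sl h3 ((dickson hQ hok).comp Φ.lev) hd]; rfl,
    by rw [show spinor hQ hok _ = 1 from hom_sl h3 ((spinor hQ hok).comp Φ.lev) hd, one_mul]; rfl⟩

omit [Fintype F] in
theorem coeff_ne {q : F[X]} (hq : Irreducible q) (h2 : 2 ≤ q.natDegree) (c : F) : q.eval c ≠ 0 := fun h => by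
  have := degree_eq_one_of_irreducible_of_root hq h
  rw [natDegree_eq_of_degree_eq_some (n := 1) this] at h2
  omega

theorem R_omega (Φ : Fr (geoO hQ) ι) (h3 : 3 ≤ Fintype.card ι) {u : O Q}
    (hu : u ∈ (geoO hQ).R Φ.W ∨ u ∈ (geoO hQ).R Φ.swap.W) : u ∈ Omega F ⇑Q := by
  obtain ⟨q, h1, h2, h4, h5, -⟩ := good_id (F := F) (d := Fintype.card ι) (by omega) fun _ => h3
  obtain ⟨D, hD⟩ := exists_cyc (κ := ι) h1 h2 (by rw [coeff_zero_eq_eval_zero]; exact coeff_ne h4 (by omega) 0)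
  exact (Φ.fpf_rel (Or.inl (IsConj.refl D)) Φ.Mid.one_mem hD.1 (p := X - C 1) (fun m _ => by simp)
    (good_one h5 (by simp) fun _ => rfl)).mem_comm Φ hu

theorem o_adj (hok : EichOK Q) (Φ : Fr (geoO hQ) (Option κ)) (h2 : 2 ≤ Fintype.card κ) (hM : finrank F Φ.M ≤ 2)
    {g : O Q} (hg : g ∈ Omega F ⇑Q) (hl : IsUnit (Φ.lm g)) {u : Option κ → F}
    (hu : Φ.lm g *ᵥ u = Pi.single none 1) (hb : polar Q (rho Q g (Φ.E u)) (Φ.e none) ≠ 0) :
    ∃ (Ψ : Fr (geoO hQ) (Option κ)) (l : GL (Option κ) F) (d : F), d ≠ 0 ∧ l.1 *ᵥ u = d • Pi.single none 1 ∧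
      l.1.det = 1 ∧ Ψ.lm g = l.1 ∧ ∃ v ∈ (geoO hQ).R Ψ.swap.W, ∃ w ∈ (geoO hQ).R Ψ.W, g = v * Ψ.lev l * 1 * w := by
  have h3 : 3 ≤ Fintype.card (Option κ) := by simp; omega
  obtain ⟨l, hl1⟩ := id hl
  obtain ⟨v, hv, s, hs, w, hw, e⟩ := Φ.gauss g l hl1.symm
  set y := rho Q g (Φ.E u) with hy
  set μ := Φ.π₀ y with hμ
  have hμM : μ ∈ Φ.M := Φ.π₀_mem y
  have πy : Φ.π y = Pi.single none 1 := by rw [← hu, Fr.lm_mulVec]; rfl
  have π'e : ∀ x, Φ.swap.π x none = polar Q x (Φ.e none) := fun x => congrArg (polar Q x) (one_smul _ _)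
  have Qy : polar Q y (Φ.e none) = -Q μ := by
    have : (geoO hQ).Q y = 0 := (Q_rho _ _).trans (Φ.ts_W.1 _ (Φ.E_mem u))
    rw [Φ.decomp y, Φ.Q_sum _ _ hμM, πy, single_dotProduct, one_mul, π'e] at this
    exact eq_neg_of_add_eq_zero_left this
  have Q0 : Q μ ≠ 0 := by rwa [Qy, neg_ne_zero] at hb
  have hδ : l.1.det ≠ 0 := ((isUnit_iff_isUnit_det _).1 l.isUnit).ne_zero
  have hls : Φ.lev l * s ∈ Omega F ⇑Q := by
    have : Φ.lev l * s = v⁻¹ * g * w⁻¹ := by rw [e]; group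
    rw [this]
    exact mul_mem (mul_mem (inv_mem (R_omega Φ h3 (Or.inr hv))) hg) (inv_mem (R_omega Φ h3 (Or.inl hw)))
  rw [mem_omega_iff hQ hok, map_mul, map_mul, (lev_ds hok Φ h2 l).1, (lev_ds hok Φ h2 l).2, one_mul] at hls
  obtain ⟨m₁, hm₁, q₁, e₁⟩ := mid_refl hok Φ hM (Φ.Mid.mul_mem (refl_mid Φ hμM) hs)
    (by rw [map_mul, hls.1, dickson_refl _ _ Q0, mul_one])
  have es : s = refl Q μ * refl Q m₁ := by rw [← e₁, ← mul_assoc, refl_mul_self, one_mul]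
  obtain ⟨z, hz⟩ : IsSquare (l.1.det * (Q μ * Q m₁)) := by
    rw [← sqSign_eq_one, sqSign_mul hδ (mul_ne_zero Q0 q₁), sqSign_mul Q0 q₁, ← spinor_refl hQ hok Q0,
      ← spinor_refl hQ hok q₁, ← map_mul, ← es, hls.2]
  have hz0 : z ≠ 0 := by rintro rfl; simp [hδ, Q0, q₁] at hz
  obtain ⟨m₀, hm₀, q₀, es⟩ : ∃ m₀ ∈ Φ.M, Q m₀ = Q μ / l.1.det ∧ s = refl Q μ * refl Q m₀ :=
    ⟨(z / (l.1.det * Q m₁)) • m₁, Φ.M.smul_mem _ hm₁, by
      rw [H28.Q_smul, div_pow, pow_two z, ← hz]; field_simp, by rw [refl_smul (by simp [hz0, hδ, q₁]), es]⟩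
  have q₀' : Q m₀ ≠ 0 := by rw [q₀]; exact div_ne_zero Q0 hδ
  obtain ⟨ν, hν⟩ : ∃ ν, ν = (Q μ)⁻¹ • (m₀ - μ) := ⟨_, rfl⟩
  have hn : ν ∈ Φ.M := hν ▸ Φ.M.smul_mem _ (sub_mem hm₀ hμM)
  have Qν : Q ν = (Q μ)⁻¹ ^ 2 * (Q m₀ + Q μ - polar Q m₀ μ) := by rw [hν, H28.Q_smul, H28.Q_sub]
  have hs' : (geoO hQ).Q (Φ.f none + ν + (-Q ν) • Φ.e none) = 0 := by
    have h1 := Φ.Q_sum (Pi.single none (-Q ν)) (Pi.single none 1) hn
    rw [show (Pi.single none (-Q ν) : Option κ → F) = (-Q ν) • Pi.single none 1 by rw [← Pi.single_smul]; simp,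
      map_smul, Φ.E_single, Φ.swap.E_single] at h1
    rw [add_right_comm, add_comm (Φ.f none)]
    refine h1.trans ?_
    simp [geoO]
  have BM : ∀ x, ∀ m ∈ Φ.M, polar Q x m = polar Q (Φ.π₀ x) m := fun x m hm => by
    conv_lhs => rw [Φ.decomp x]
    rw [polar_add_left, polar_add_left, polar_comm, show polar Q m _ = 0 from Φ.B_M_E hm _, polar_comm,
      show polar Q m _ = 0 from Φ.B_M_E' hm _, zero_add, zero_add]
  have Bf : ∀ x, polar Q x (Φ.f none + ν + (-Q ν) • Φ.e none) =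
      Φ.π x none + polar Q (Φ.π₀ x) ν - Q ν * polar Q x (Φ.e none) := fun x => by
    rw [polar_add_right, polar_add_right, B_smul_right, BM x ν hn, neg_mul, ← sub_eq_add_neg]; rfl
  have e3 : polar Q y (Φ.f none + ν + (-Q ν) • Φ.e none) = l.1.det⁻¹ := by
    rw [Bf, πy, Qy, Qν, ← hμ, hν, B_smul_right, polar_sub_right, H28.B_self, q₀, polar_comm _ μ m₀]
    simp only [Pi.single_eq_same]
    field_simp
    ring
  obtain ⟨e1, e2⟩ := Φ.adj_lm hn hs' hl hu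
  rw [geoO_B, geoO_ρ, e3] at e1 e2
  rw [← hl1, inv_mul_cancel₀ hδ] at e1
  set Ψ := Φ.adj hn hs'
  obtain ⟨l', hl'⟩ := (isUnit_iff_isUnit_det _).2 (e1 ▸ isUnit_one)
  obtain ⟨v', hv', s', hs'', w', hw', e'⟩ := Ψ.gauss g l' hl'.symm
  refine ⟨Ψ, l', _, inv_ne_zero hδ, hl' ▸ e2, hl' ▸ e1, hl'.symm, v', hv', w', hw', ?_⟩
  rw [e', Ψ.mid_eq hs'' Ψ.Mid.one_mem fun m hm => ?_]
  obtain ⟨a, ha⟩ := Ψ.exists_perp ⟨l', hl'⟩ m
  have hx : m + Ψ.E a ∈ (geoO hQ).perp Ψ.W := add_mem (Ψ.M_le hm) (Ψ.ts_W.2 (Ψ.E_mem a))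
  have k := Ψ.gauss_mid hv' hs'' hw' e' hx ha
  have k0 : Ψ.π₀ (m + Ψ.E a) = m := by rw [map_add, Fr.π₀_E, add_zero, Ψ.π₀_of_M hm]
  rw [k0] at k
  rw [k, Geo.ρ_one, ← k0, ← sub_eq_zero, ← map_sub, k0]
  generalize m + Ψ.E a = x at hx ha
  change x ∈ (geoO hQ).perp Φ.W at hx
  obtain ⟨c, hc⟩ := Φ.exists_perp hl x
  have hx' : x + Φ.E c ∈ (geoO hQ).perp Φ.W := add_mem hx (Φ.ts_W.2 (Φ.E_mem c))
  have k1 := Φ.gauss_mid hv hs hw e hx' hc
  rw [map_add Φ.π₀, Fr.π₀_E, add_zero] at k1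
  simp only [geoO_ρ] at k1 hc ha ⊢
  set y₁ := rho Q g (x + Φ.E c) with hy₁
  set α := Φ.π (rho Q g x) none
  have ha' := Ψ.mem_perp_W'.1 ha
  have hα : Φ.π (rho Q g x) = α • Pi.single none 1 := by
    ext i
    cases i with
    | none => simp [α]
    | some j => exact (congrFun ha' (some j)).trans (by simp)
  have hc' : c = -α • u := by
    have := Φ.mem_perp_W'.1 hc
    rw [hy₁, map_add, map_add, hα, ← geoO_ρ (hQ := hQ), ← Fr.lm_mulVec, ← hu, ← mulVec_smul, ← mulVec_add, ← hl1] at this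
    have := congrArg (l⁻¹.1 *ᵥ ·) this
    simp only [mulVec_mulVec, Units.inv_mul, one_mulVec, mulVec_zero] at this
    rw [neg_smul, eq_neg_of_add_eq_zero_right this]
  have gx : rho Q g x = y₁ + α • y := by rw [hy₁, hc', map_add, map_smul, map_smul, neg_smul, neg_add_cancel_right]
  have d1 : y₁ = Φ.swap.E (Φ.swap.π y₁) + rho Q s (Φ.π₀ x) := by rw [k1, ← Φ.π₀_sub_W' hc, sub_add_cancel]
  have d2 : y = Φ.e none + Φ.swap.E (Φ.swap.π y) + μ := by rw [← Φ.E_single, ← πy, ← Φ.decomp]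
  have d3 : x = Φ.E (Φ.π x) + Φ.π₀ x := by rw [← Φ.π₀_sub_W hx, sub_add_cancel]
  have g1 : polar Q y₁ (Φ.e none) + polar Q (rho Q s (Φ.π₀ x)) μ = 0 := by
    have : polar Q y₁ y = 0 := (B_rho g _ _).trans (hx' _ (Φ.E_mem u))
    rw [d2, polar_add_right, polar_add_right, show polar Q y₁ _ = 0 from hc _ (Φ.swap.E_mem _), add_zero,
      BM _ _ hμM, ← k1] at this
    exact this
  have g2 : polar Q (rho Q s (Φ.π₀ x)) ν - Q ν * polar Q y₁ (Φ.e none) + α * l.1.det⁻¹ = 0 := by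
    have : polar Q (rho Q g x) (Φ.f none + ν + (-Q ν) • Φ.e none) = 0 := congrFun ha' none
    rw [gx, polar_add_left, B_smul_left, e3, Bf, Φ.mem_perp_W'.1 hc, ← k1] at this
    simpa using this
  have E' : ∀ c, Φ.swap.E c = Ψ.swap.E c - c none • (ν + (-Q ν) • Φ.e none) := fun c => by
    rw [Φ.E'_opt, Ψ.E'_opt]
    change _ = c none • (Φ.f none + ν + (-Q ν) • Φ.e none) + Φ.tl.swap.E _ - _
    module
  have Z : rho Q s (Φ.π₀ x) - Φ.π₀ x + α • μ - (polar Q y₁ (Φ.e none) - α * Q μ) • ν = 0 := by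
    rw [eq_neg_of_add_eq_zero_left g1] at g2 ⊢
    rw [Qν] at g2
    have hd : l.1.det⁻¹ = Q m₀ / Q μ := by rw [q₀]; field_simp
    simp only [es, rho_mul, rho_refl, hν, polar_sub_left, polar_sub_right, B_smul_left, B_smul_right, H28.B_self,
      polar_comm _ μ m₀, polar_comm _ (Φ.π₀ x), hd] at g2 ⊢
    match_scalars
    · ring
    · field_simp at g2 ⊢
      apply mul_left_cancel₀ q₀'
      linear_combination g2
    · field_simp
      ring
  have π₀e : Ψ.π₀ (Φ.e none) = 0 := by rw [← Φ.E_single]; exact Ψ.π₀_E _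
  have : rho Q g x - x = (rho Q s (Φ.π₀ x) - Φ.π₀ x + α • μ - (polar Q y₁ (Φ.e none) - α * Q μ) • ν) +
      Ψ.swap.E (Φ.swap.π y₁ + α • Φ.swap.π y) - Ψ.E (Φ.π x) +
      (α + (polar Q y₁ (Φ.e none) - α * Q μ) * Q ν) • Φ.e none := by
    rw [E', π'e] at d1 d2
    rw [Qy] at d2
    rw [map_add, map_smul Ψ.swap.E, show Ψ.E = Φ.E from rfl]
    linear_combination (norm := module) gx + d1 + α • d2 - d3
  rw [this, Z, zero_add, map_add, map_sub, Fr.π₀_E, Fr.π₀_E', map_smul, π₀e]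
  simp

end Cfsg.Agent.H65.Ore
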