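import Cfsg.Agent.H65.OreGL
import Cfsg.Agent.H30.Ore5

set_option autoImplicit false
set_option linter.unusedSectionVars false

namespace Cfsg.Agent.H65.Ore

open Polynomial Matrix

variable {F : Type*} [Field F] [Fintype F] {κ : Type*} [Fintype κ] [DecidableEq κ]

namespace OA

open Cfsg.Agent.H30.Ore (M3)

theorem red {n : ℕ} (hκ : Fintype.card κ = n) (σ : F →+* F) :
    ∃ Ψ : GL (Fin n) F ≃* GL κ F, (∀ D A, Rel σ D A → Rel σ (Ψ D) (Ψ A)) ∧
      (∀ D (r : F[X]), aeval D.1 r = 0 → aeval (Ψ D).1 r = 0) ∧ (∀ D r, Cyc D.1 r → Cyc (Ψ D).1 r) ∧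
      (∀ D, (Ψ D).1.det = D.1.det) ∧ ∀ D, Ψ (-D) = -Ψ D := by
  let e : Fin n ≃ κ := (Fintype.equivFinOfCardEq hκ).symm
  let φ := Matrix.reindexAlgEquiv F F e
  let Ψ : GL (Fin n) F ≃* GL κ F := Units.mapEquiv φ.toMulEquiv
  have k : ∀ (D : GL (Fin n) F) (r : F[X]), aeval (Ψ D).1 r = φ (aeval D.1 r) := fun D r =>
    aeval_algHom_apply φ D.1 r
  refine ⟨Ψ, fun D A h => ?_, fun D r h => by rw [k, h, map_zero], fun D r ⟨h, v, hv⟩ =>
    ⟨by rw [k, h, map_zero], v ∘ e.symm, fun x => ?_⟩, fun D => det_reindex_self e _,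
    fun D => Units.ext rfl⟩
  · have : shp σ (Ψ D) = Ψ (shp σ D) := Units.ext rfl
    exact h.imp Ψ.toMonoidHom.map_isConj fun h => this ▸ Ψ.toMonoidHom.map_isConj h
  · obtain ⟨a, ha⟩ := hv (x ∘ e)
    refine ⟨a, ?_⟩
    rw [k]
    change x = (aeval D.1 a).submatrix e.symm e.symm *ᵥ _
    rw [submatrix_mulVec_equiv]
    simp only [Equiv.symm_symm, Function.comp_assoc, Equiv.symm_comp_self, Function.comp_id]
    rw [← ha]
    ext i; simp

theorem isConj_of {A D : GL κ F} (P : Matrix κ κ F) (hP : P.det ≠ 0) (h : A.1 * P = P * D.1) :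
    IsConj D A :=
  isConj_iff.2 ⟨GeneralLinearGroup.mkOfDetNeZero P hP, by
    rw [mul_inv_eq_iff_eq_mul]; exact Units.ext h.symm⟩

theorem rel_conj {σ : F →+* F} {D A : GL κ F} (h : Rel σ D A) (P : GL κ F) : Rel σ D (P * A * P⁻¹) :=
  h.imp (·.trans (isConj_iff.2 ⟨P, rfl⟩)) (·.trans (isConj_iff.2 ⟨P, rfl⟩))

theorem conj_comp {A D : GL (Fin 2) F} (hA : ∀ c : F, A.1 ≠ c • 1)
    (hD : D.1 = !![0, -A.1.det; 1, A.1.trace]) : IsConj D A := by
  rw [det_fin_two, trace_fin_two] at hD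
  by_cases h1 : A.1 1 0 = 0
  · by_cases h2 : A.1 0 1 = 0
    · refine isConj_of !![1, A.1 0 0; 1, A.1 1 1] (by
        rw [det_fin_two_of, one_mul, mul_one, sub_ne_zero]
        intro e
        refine hA (A.1 0 0) ?_
        ext i j
        fin_cases i <;> fin_cases j <;> simp [h1, h2, e]) ?_
      rw [hD]
      ext i j
      fin_cases i <;> fin_cases j <;> simp [Matrix.mul_apply, Fin.sum_univ_two, h1, h2] <;> ring
    · refine isConj_of !![0, A.1 0 1; 1, A.1 1 1] (by simpa [det_fin_two_of] using h2) ?_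
      rw [hD]
      ext i j
      fin_cases i <;> fin_cases j <;> simp [Matrix.mul_apply, Fin.sum_univ_two] <;> ring
  · refine isConj_of !![1, A.1 0 0; 0, A.1 1 0] (by simpa [det_fin_two_of] using h1) ?_
    rw [hD]
    ext i j
    fin_cases i <;> fin_cases j <;> simp [Matrix.mul_apply, Fin.sum_univ_two] <;> ring

theorem conj2 {A B : GL (Fin 2) F} (hA : ∀ c : F, A.1 ≠ c • 1) (hB : ∀ c : F, B.1 ≠ c • 1)
    (h1 : A.1.det = B.1.det) (h2 : A.1.trace = B.1.trace) : IsConj A B := by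
  let D : GL (Fin 2) F := GeneralLinearGroup.mkOfDetNeZero !![0, -A.1.det; 1, A.1.trace]
    (by simpa [det_fin_two_of] using A.det_ne_zero)
  exact (conj_comp (D := D) hA rfl).symm.trans (conj_comp hB (by rw [← h1, ← h2]; rfl))

theorem dag2 (σ : F →+* F) (b c : F) :
    dag σ (X ^ 2 + C b * X + C c) = C (σ c) * X ^ 2 + C (σ b) * X + 1 := by
  have e : (X ^ 2 + C b * X + C c : F[X]).map σ = C 1 * X ^ 2 + C (σ b) * X ^ 1 + C (σ c) * X ^ 0 := by
    simp
  have d : ((X ^ 2 + C b * X + C c : F[X]).map σ).natDegree = 2 := by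
    rw [e, pow_one, pow_zero, mul_one]; exact natDegree_quadratic one_ne_zero
  rw [dag, reverse, d, e]
  simp only [reflect_add, reflect_C_mul_X_pow]
  simp [revAt_le]
  ring

theorem dag3 : dag (RingHom.id F) (X ^ 3 + X + 1) = X ^ 3 + X ^ 2 + 1 := by
  have e : (X ^ 3 + X + 1 : F[X]).map (RingHom.id F) = C 1 * X ^ 3 + C 1 * X ^ 1 + C 1 * X ^ 0 := by
    simp
  have d : ((X ^ 3 + X + 1 : F[X]).map (RingHom.id F)).natDegree = 3 := by
    rw [Polynomial.map_id]; compute_degree!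
  rw [dag, reverse, d, e]
  simp only [reflect_add, reflect_C_mul_X_pow]
  simp [revAt_le]
  ring

theorem shp_eq (σ : F →+* F) {D : GL κ F} {E : Matrix κ κ F} (h : E * D.1 = 1) :
    (shp σ D).1 = (E.map σ)ᵀ := by
  rw [shp_val, Units.inv_eq_of_mul_eq_one_left h]

theorem pow_cases3 (hF : Fintype.card F = 3) (x : F) : x = 0 ∨ x = 1 ∨ x = -1 := by
  have := FiniteField.pow_card x
  rw [hF] at this
  have k : x * ((x - 1) * (x + 1)) = 0 := by linear_combination this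
  simpa only [mul_eq_zero, sub_eq_zero, add_eq_zero_iff_eq_neg] using k

/-- test that `A` is similar to the companion matrix or to its inverse transpose -/
def ok (A : M3) : Bool :=
  (M3.det 1 ⟨1, A.a, (A.mul A).a, 0, A.d, (A.mul A).d, 0, A.g, (A.mul A).g⟩ == 1 &&
    M3.eqv 2 (A.mul ⟨1, A.a, (A.mul A).a, 0, A.d, (A.mul A).d, 0, A.g, (A.mul A).g⟩)
      (M3.mul ⟨1, A.a, (A.mul A).a, 0, A.d, (A.mul A).d, 0, A.g, (A.mul A).g⟩
        ⟨0, 0, 1, 1, 0, 1, 0, 1, 0⟩)) ||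
  (M3.det 1 ⟨(A.mul A).a, 1, A.a, (A.mul A).d, 0, A.d, (A.mul A).g, 0, A.g⟩ == 1 &&
    M3.eqv 2 (A.mul ⟨(A.mul A).a, 1, A.a, (A.mul A).d, 0, A.d, (A.mul A).g, 0, A.g⟩)
      (M3.mul ⟨(A.mul A).a, 1, A.a, (A.mul A).d, 0, A.d, (A.mul A).g, 0, A.g⟩
        ⟨1, 0, 1, 1, 0, 0, 0, 1, 0⟩))

/-- the candidates for the second factor -/
def cands : List M3 :=
  [⟨0, 0, 1, 0, 1, 1, 1, 1, 0⟩, ⟨0, 0, 1, 1, 0, 0, 0, 1, 1⟩, ⟨0, 1, 0, 0, 0, 1, 1, 1, 0⟩,
    ⟨0, 1, 1, 1, 1, 1, 1, 0, 1⟩, ⟨0, 0, 1, 0, 1, 1, 1, 1, 1⟩, ⟨0, 1, 0, 1, 0, 1, 0, 1, 1⟩,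
    ⟨0, 1, 0, 1, 1, 1, 0, 1, 1⟩, ⟨0, 1, 1, 1, 1, 0, 1, 1, 1⟩, ⟨0, 0, 1, 1, 0, 0, 1, 1, 0⟩]

theorem all32 : M3.all 2 (fun l => l.det 1 != 1 ||
    cands.any fun B => B.det 1 == 1 && ok B && ok (l.mul B)) = true := by decide +kernel

theorem toMat_eqv [CharP F 2] {x y : M3} (h : M3.eqv 2 x y = true) : M3.toMat F x = M3.toMat F y := by
  have k : ∀ {a b : ℕ}, a % 2 = b % 2 → (a : F) = b := fun h => CharP.natCast_eq_natCast' F 2 h
  simp only [M3.eqv, Bool.and_eq_true, beq_iff_eq] at h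
  obtain ⟨⟨⟨⟨⟨⟨⟨⟨h1, h2⟩, h3⟩, h4⟩, h5⟩, h6⟩, h7⟩, h8⟩, h9⟩ := h
  simp only [M3.toMat, k h1, k h2, k h3, k h4, k h5, k h6, k h7, k h8, k h9]

theorem det_toMat [CharP F 2] (x : M3) : (M3.toMat F x).det = (M3.det 1 x : ℕ) := by
  rw [M3.det, ← CharP.cast_eq_mod F 2]
  simp [M3.toMat, det_fin_three, CharTwo.sub_eq_add]
  ring

theorem of_all (hF : Fintype.card F = 2) {P : M3 → Bool} (h : M3.all 2 P = true)
    (g : Matrix (Fin 3) (Fin 3) F) : ∃ x, g = M3.toMat F x ∧ P x = true := by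
  have : ∀ x : F, ∃ n : ℕ, n < 2 ∧ (n : F) = x := fun x => by
    have := FiniteField.pow_card x
    rw [hF] at this
    rcases mul_eq_zero.1 (show x * (x - 1) = 0 by linear_combination this) with e | e
    exacts [⟨0, by omega, by simp [e]⟩, ⟨1, by omega, by simp [sub_eq_zero.1 e]⟩]
  choose f h1 h2 using this
  simp only [M3.all, List.all_eq_true, List.mem_range] at h
  refine ⟨⟨f (g 0 0), f (g 0 1), f (g 0 2), f (g 1 0), f (g 1 1), f (g 1 2),
    f (g 2 0), f (g 2 1), f (g 2 2)⟩, ?_, h _ (h1 _) _ (h1 _) _ (h1 _) _ (h1 _) _ (h1 _) _ (h1 _) _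
    (h1 _) _ (h1 _) _ (h1 _)⟩
  ext i j
  fin_cases i <;> fin_cases j <;> simp [M3.toMat, h2]

theorem rel_of_ok [CharP F 2] {D A : GL (Fin 3) F} (hD : D.1 = M3.toMat F ⟨0, 0, 1, 1, 0, 1, 0, 1, 0⟩)
    {x : M3} (hA : A.1 = M3.toMat F x) (h : ok x = true) : Rel (RingHom.id F) D A := by
  have e : (shp (RingHom.id F) D).1 = M3.toMat F ⟨1, 0, 1, 1, 0, 0, 0, 1, 0⟩ := by
    rw [shp_eq _ (E := M3.toMat F ⟨1, 1, 0, 0, 0, 1, 1, 0, 0⟩) (by
      rw [hD, ← M3.toMat_mul, toMat_eqv (y := ⟨1, 0, 0, 0, 1, 0, 0, 0, 1⟩) (by decide)]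
      ext i j
      fin_cases i <;> fin_cases j <;> simp [M3.toMat])]
    ext i j
    fin_cases i <;> fin_cases j <;> simp [M3.toMat]
  simp only [ok, Bool.or_eq_true, Bool.and_eq_true, beq_iff_eq] at h
  refine h.imp (fun ⟨h1, h2⟩ => isConj_of _ (by rw [det_toMat, h1]; simp) ?_)
    fun ⟨h1, h2⟩ => isConj_of _ (by rw [det_toMat, h1]; simp) ?_
  · rw [hA, hD, ← M3.toMat_mul, ← M3.toMat_mul, toMat_eqv h2]
  · rw [hA, e, ← M3.toMat_mul, ← M3.toMat_mul, toMat_eqv h2]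

end OA

open OA Cfsg.Agent.H30.Ore

theorem oa32 (hF : Fintype.card F = 2) (hκ : Fintype.card κ = 3) :
    ∃ (D : GL κ F) (r : F[X]), aeval D.1 r = 0 ∧ IsCoprime r (dag (RingHom.id F) r) ∧
      ∀ l : GL κ F, ∃ A B, Rel (RingHom.id F) D A ∧ Rel (RingHom.id F) D B ∧ l * B = A := by
  haveI : CharP F 2 := charP_of_card_eq_prime hF
  obtain ⟨Ψ, p1, p2, -, -, -⟩ := red hκ (RingHom.id F)
  let D : GL (Fin 3) F := GeneralLinearGroup.mkOfDetNeZero (M3.toMat F ⟨0, 0, 1, 1, 0, 1, 0, 1, 0⟩)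
    (by rw [det_toMat]; simp [M3.det])
  have h2 : (2 : F[X]) = 0 := CharTwo.two_eq_zero
  refine ⟨Ψ D, X ^ 3 + X + 1, p2 _ _ ?_, ⟨X, X + 1, ?_⟩, fun l => ?_⟩
  · simp only [map_add, map_pow, aeval_X, map_one]
    change M3.toMat F _ ^ 3 + M3.toMat F _ + 1 = 0
    ext i j
    fin_cases i <;> fin_cases j <;> simp [M3.toMat, pow_succ, CharTwo.add_self_eq_zero]
  · rw [dag3]
    linear_combination (X ^ 4 + X ^ 3 + X ^ 2 + X) * h2
  · obtain ⟨l, rfl⟩ := Ψ.surjective l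
    obtain ⟨x, hx, h⟩ := of_all hF OA.all32 l.1
    have hd : x.det 1 = 1 := by
      have h1 := l.det_ne_zero
      have h2 := M3.det_lt 1 x
      rw [hx, det_toMat] at h1
      have : x.det 1 ≠ 0 := fun e => h1 (by rw [e, Nat.cast_zero])
      omega
    simp only [hd, bne_self_eq_false, Bool.false_or, List.any_eq_true, Bool.and_eq_true,
      beq_iff_eq] at h
    obtain ⟨B, -, ⟨b1, b2⟩, b3⟩ := h
    let B' : GL (Fin 3) F := GeneralLinearGroup.mkOfDetNeZero (M3.toMat F B)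
      (by rw [det_toMat, b1]; simp)
    exact ⟨Ψ (l * B'), Ψ B', p1 _ _ (rel_of_ok rfl (by rw [M3.toMat_mul, ← hx]; rfl) b3),
      p1 _ _ (rel_of_ok rfl rfl b2), (map_mul Ψ _ _).symm⟩

theorem oa23 (hF : Fintype.card F = 3) (hκ : Fintype.card κ = 2) :
    ∃ (D : GL κ F) (r : F[X]), aeval D.1 r = 0 ∧ IsCoprime r (dag (RingHom.id F) r) ∧
      Rel (RingHom.id F) D (-D) ∧ ∀ l : GL κ F, l.1.det = 1 →
        ∃ A B, Rel (RingHom.id F) D A ∧ Rel (RingHom.id F) D B ∧ l * B = A := by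
  haveI : Fact (Nat.Prime 3) := ⟨Nat.prime_three⟩
  haveI : CharP F 3 := charP_of_card_eq_prime hF
  have h3 : (3 : F) = 0 := CharP.ofNat_eq_zero F 3
  have h3' : (3 : F[X]) = 0 := CharP.ofNat_eq_zero _ 3
  have n2 : (1 : F) ≠ -1 := fun e => one_ne_zero (α := F) (by linear_combination h3 - e)
  obtain ⟨Ψ, p1, p2, -, p4, p5⟩ := red hκ (RingHom.id F)
  let D : GL (Fin 2) F := GeneralLinearGroup.mkOfDetNeZero !![0, 1; 1, -1] (by simp)
  have hD : D.1 = !![0, 1; 1, -1] := rfl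
  have hs : (shp (RingHom.id F) D).1 = !![1, 1; 1, 0] := by
    rw [shp_eq _ (E := !![1, 1; 1, 0]) (by
      rw [hD]; ext i j; fin_cases i <;> fin_cases j <;> simp)]
    ext i j; fin_cases i <;> fin_cases j <;> simp
  have ns : ∀ A : GL (Fin 2) F, A.1.det = -1 → ∀ c : F, A.1 ≠ c • 1 := fun A h c e => by
    rw [e, det_smul, det_one, mul_one, Fintype.card_fin] at h
    rcases pow_cases3 hF c with rfl | rfl | rfl
    · simp at h
    · exact n2 (by simpa using h)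
    · exact n2 (by simpa using h)
  have rel : ∀ A : GL (Fin 2) F, A.1.det = -1 → A.1.trace ≠ 0 → Rel (RingHom.id F) D A := by
    intro A h1 h2
    rcases pow_cases3 hF A.1.trace with e | e | e
    · exact absurd e h2
    · exact Or.inr (conj2 (ns _ (by simp [hs])) (ns _ h1) (by simp [hs, h1]) (by simp [hs, e]))
    · exact Or.inl (conj2 (ns _ (by simp [hD])) (ns _ h1) (by simp [hD, h1]) (by simp [hD, e]))
  refine ⟨Ψ D, X ^ 2 + C 1 * X + C (-1), p2 _ _ ?_, ⟨-(X + 2), -(X + 1), ?_⟩,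
    p5 D ▸ p1 _ _ (rel _ (by simp [hD, det_neg]) (by simp [hD])), fun l hl => ?_⟩
  · simp only [map_add, map_pow, aeval_X, map_one, one_mul, map_neg, hD]
    ext i j
    fin_cases i <;> fin_cases j <;> simp [sq]
  · rw [dag2]
    simp only [map_neg, map_one]
    linear_combination (-X ^ 2 - X) * h3'
  · obtain ⟨l, rfl⟩ := Ψ.surjective l
    rw [p4] at hl
    obtain ⟨B, b1, b2, b3⟩ : ∃ B : Matrix (Fin 2) (Fin 2) F,
        B.det = -1 ∧ B.trace ≠ 0 ∧ (l.1 * B).trace ≠ 0 := by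
      by_contra hh
      push Not at hh
      have k1 := hh !![0, 1; 1, 1] (by simp) (by simp)
      have k2 := hh !![0, 1; 1, -1] (by simp) (by simp)
      have k3 := hh !![1, 1; 1, 0] (by simp) (by simp)
      have k4 := hh !![1, 1; -1, 1] (by simp; linear_combination h3)
        (by simp; exact fun e => n2 (by linear_combination e))
      simp [trace_fin_two, Matrix.mul_apply, Fin.sum_univ_two] at k1 k2 k3 k4
      rw [det_fin_two] at hl
      have e1 : l.1 1 1 = 0 := by linear_combination k2 - k1 + l.1 1 1 * h3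
      have e2 : l.1 0 1 = 0 := by linear_combination k4 - k3 + l.1 0 1 * h3 - e1
      simp [e1, e2] at hl
    let B' : GL (Fin 2) F := GeneralLinearGroup.mkOfDetNeZero B (by simp [b1])
    exact ⟨Ψ (l * B'), Ψ B', p1 _ _ (rel _ (by
      change (l.1 * B).det = _
      rw [det_mul, hl, b1, one_mul]) b3), p1 _ _ (rel _ b1 b2), (map_mul Ψ _ _).symm⟩

theorem oa24 (hF : Fintype.card F = 4) {σ : F →+* F} (hσ : ∀ x, σ x = x ^ 2) (hκ : Fintype.card κ = 2) :
    ∃ (D : GL κ F) (r : F[X]), r.Monic ∧ r.natDegree = 2 ∧ Irreducible r ∧ Cyc D.1 r ∧ D.1.det = 1 ∧ D ^ 5 = 1 ∧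
      IsCoprime r (dag σ r) ∧ ∀ l : GL κ F, l.1.det = 1 → ∃ A B, Rel σ D A ∧ Rel σ D B ∧ l * B = A := by
  haveI : CharP F 2 := charP_of_card_eq_prime_pow (f := 2) hF
  have h2 : (2 : F) = 0 := CharTwo.two_eq_zero
  have h2' : (2 : F[X]) = 0 := CharTwo.two_eq_zero
  have cs : ∀ x : F, x = 0 ∨ x = 1 ∨ x ^ 2 + x + 1 = 0 := fun x => by
    have := FiniteField.pow_card x
    rw [hF] at this
    have k : x * ((x - 1) * (x ^ 2 + x + 1)) = 0 := by linear_combination this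
    simpa only [mul_eq_zero, sub_eq_zero] using k
  obtain ⟨w, hw⟩ : ∃ w : F, w ^ 2 + w + 1 = 0 := by
    classical
    by_contra hh
    have : (Finset.univ : Finset F) ⊆ {0, 1} := fun x _ => by
      simpa using (cs x).imp_right fun h => h.resolve_right fun e => hh ⟨x, e⟩
    have k := (Finset.card_le_card this).trans Finset.card_le_two
    rw [Finset.card_univ] at k
    omega
  have w0 : w ≠ 0 := by rintro rfl; simp at hw
  obtain ⟨Ψ, p1, -, p3, p4, -⟩ := red hκ σ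
  let D : GL (Fin 2) F := GeneralLinearGroup.mkOfDetNeZero !![0, 1; 1, w] (by simp)
  have hD : D.1 = !![0, 1; 1, w] := rfl
  have hs : (shp σ D).1 = !![w ^ 2, 1; 1, 0] := by
    rw [shp_eq _ (E := !![w, 1; 1, 0]) (by
      rw [hD]; ext i j; fin_cases i <;> fin_cases j <;> simp [CharTwo.add_self_eq_zero])]
    ext i j; fin_cases i <;> fin_cases j <;> simp [hσ w]
  have ns : ∀ A : GL (Fin 2) F, A.1.trace ≠ 0 → ∀ c : F, A.1 ≠ c • 1 := fun A h c e =>
    h (by simp [e, h2])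
  have rel : ∀ A : GL (Fin 2) F, A.1.det = 1 → A.1.trace ^ 2 + A.1.trace + 1 = 0 → Rel σ D A := by
    intro A h1 h3
    have t0 : A.1.trace ≠ 0 := fun e => by simp [e] at h3
    rcases mul_eq_zero.1 (show (A.1.trace - w) * (A.1.trace - w ^ 2) = 0 by
      linear_combination h3 - (A.1.trace - w + 1) * hw) with e | e
    · exact Or.inl (conj2 (ns _ (by simp [hD, w0])) (ns _ t0) (by simp [hD, h1, CharTwo.neg_eq])
        (by simp [hD, sub_eq_zero.1 e]))
    · exact Or.inr (conj2 (ns _ (by simp [hs, w0])) (ns _ t0) (by simp [hs, h1, CharTwo.neg_eq])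
        (by simp [hs, sub_eq_zero.1 e]))
  have nd : (X ^ 2 + C w * X + C 1 : F[X]).natDegree = 2 := by compute_degree!
  have mo : (X ^ 2 + C w * X + C 1 : F[X]).Monic := by monicity!
  refine ⟨Ψ D, X ^ 2 + C w * X + C 1, mo, nd, ?_, p3 _ _ ⟨?_, ![1, 0], fun x =>
    ⟨C (x 0) + C (x 1) * X, ?_⟩⟩, by simp [p4, hD, CharTwo.neg_eq], ?_,
    ⟨X + C w + 1, X + C w, ?_⟩, fun l hl => ?_⟩
  · refine irreducible_of_degree_le_three_of_not_isRoot (by rw [nd]; decide) fun x hx => ?_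
    simp only [IsRoot, eval_add, eval_pow, eval_X, eval_mul, eval_C] at hx
    rcases cs x with rfl | rfl | e
    · simp at hx
    · exact w0 (by linear_combination hx - h2)
    · have k : x * (w - 1) = 0 := by linear_combination hx - e
      rcases mul_eq_zero.1 k with rfl | k
      · simp at e
      · exact one_ne_zero (α := F) (by linear_combination hw - (w + 2) * k - h2)
  · simp only [map_add, map_pow, map_mul, aeval_X, aeval_C, map_one, hD, Algebra.algebraMap_eq_smul_one]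
    ext i j
    fin_cases i <;> fin_cases j <;> simp [sq, CharTwo.add_self_eq_zero]
    linear_combination (w * w + 1) * h2
  · simp only [map_add, map_mul, aeval_X, aeval_C, hD, Algebra.algebraMap_eq_smul_one]
    ext i
    fin_cases i <;> simp [mulVec, dotProduct, Fin.sum_univ_two]
  · rw [← map_pow, ← map_one Ψ]
    congr 1
    apply Units.ext
    rw [Units.val_pow_eq_pow_val, hD]
    ext i j
    fin_cases i <;> fin_cases j <;> simp [pow_succ]
    · linear_combination (w - 1) * hw + w * h2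
    · linear_combination (w ^ 2 - w + 1) * hw + w ^ 2 * h2
    · linear_combination (w ^ 2 - w + 1) * hw + w ^ 2 * h2
    · linear_combination (w ^ 3 - w ^ 2 + 1) * hw + (2 * w ^ 3 + w - 1) * h2
  · have hw' : (C w : F[X]) ^ 2 + C w + 1 = 0 := by simpa using congrArg C hw
    rw [dag2, hσ w]
    simp only [map_one, map_pow]
    linear_combination (X * (X + C w)) * hw' + (X ^ 3 + C w * X ^ 2 + X + C w) * h2'
  · obtain ⟨l, rfl⟩ := Ψ.surjective l
    rw [p4] at hl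
    by_cases hc : ∀ c : F, l.1 ≠ c • 1
    · let E : GL (Fin 2) F := GeneralLinearGroup.mkOfDetNeZero !![0, -l.1.det; 1, l.1.trace]
        (by simp [hl])
      have hE : E.1 = !![0, 1; 1, l.1.trace] := by
        change !![0, -l.1.det; 1, l.1.trace] = _
        rw [hl, CharTwo.neg_eq]
      obtain ⟨P, hP⟩ := isConj_iff.1 (conj_comp (D := E) hc rfl)
      obtain ⟨B, b1, b2, b3⟩ : ∃ B : Matrix (Fin 2) (Fin 2) F, B.det = 1 ∧
          B.trace ^ 2 + B.trace + 1 = 0 ∧ (E.1 * B).trace ^ 2 + (E.1 * B).trace + 1 = 0 := by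
        rw [hE]
        rcases cs l.1.trace with e | e | e
        · refine ⟨!![1, 1; w, 1 + w], by simp, ?_, ?_⟩ <;> simp [e]
          · linear_combination hw + (2 * w + 3) * h2
          · linear_combination hw + (w + 1) * h2
        · refine ⟨!![0, 1; 1, w], by simp [CharTwo.neg_eq], ?_, ?_⟩ <;> simp [e]
          · exact hw
          · linear_combination hw + (2 * w + 3) * h2
        · generalize l.1.trace = t at e
          refine ⟨!![0, 1; 1, t], by simp [CharTwo.neg_eq], ?_, ?_⟩ <;> simp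
          · exact e
          · linear_combination (t ^ 2 - t + 1) * e + (2 * t ^ 2 + 3) * h2
      let B' : GL (Fin 2) F := GeneralLinearGroup.mkOfDetNeZero B (by simp [b1])
      refine ⟨Ψ (P * (E * B') * P⁻¹), Ψ (P * B' * P⁻¹), p1 _ _ (rel_conj (rel _ ?_ b3) P),
        p1 _ _ (rel_conj (rel _ b1 b2) P), by rw [← map_mul, ← hP, _root_.conj_mul]⟩
      change (E.1 * B).det = _
      rw [det_mul, b1, hE]
      simp [CharTwo.neg_eq]
    · push Not at hc
      obtain ⟨c, hc⟩ := hc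
      have c1 : c = 1 := by
        rw [hc, det_smul, det_one, mul_one, Fintype.card_fin] at hl
        exact sub_eq_zero.1 (pow_eq_zero_iff (two_ne_zero).symm.symm |>.1
          (show (c - 1) ^ 2 = 0 by linear_combination hl + (1 - c) * h2))
      obtain rfl : l = 1 := Units.ext (by rw [hc, c1, one_smul]; rfl)
      exact ⟨Ψ D, Ψ D, Or.inl (IsConj.refl _), Or.inl (IsConj.refl _), by simp⟩

end Cfsg.Agent.H65.Ore
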