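import Cfsg.Agent.H65.OreO1
import Cfsg.Agent.H65.OreEx
import Cfsg.Agent.H65.OreBN
import Cfsg.Agent.H65.OreOA
import Cfsg.Agent.H65.OreCenO

set_option autoImplicit false

/-! Project ORE: every element of `Ω` is a commutator. -/

namespace Cfsg.Agent.H65.Ore

open Polynomial Matrix Module QuadraticMap Cfsg Cfsg.Agent.H28

variable {F : Type*} [Field F] [Fintype F] {n : Type} [Fintype n] [DecidableEq n] {Q : QuadraticForm F (n → F)}
  {hQ : (polarBilin Q).Nondegenerate} {ι κ : Type*} [Fintype ι] [DecidableEq ι] [Fintype κ] [DecidableEq κ]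

include hQ in
theorem cen_refl (hok : EichOK Q) {D : O Q} (h : ∀ t : F, t ≠ 0 → ∃ (v : n → F) (c : F), Q v ≠ 0 ∧
    sqSign (Q v) = sqSign t ∧ c ≠ 0 ∧ rho Q D v = c • v) (k : O Q) : ∃ c, c * D = D * c ∧ k * c ∈ Omega F ⇑Q := by
  have h' : ∀ t : F, t ≠ 0 → ∃ r : O Q, r * D = D * r ∧ H28.dickson hQ hok r = -1 ∧ spinor hQ hok r = sqSign t :=
    fun t ht => by
      obtain ⟨v, c, h1, h2, h3, h4⟩ := h t ht
      refine ⟨_, ?_, dickson_refl _ _ h1, h2 ▸ spinor_refl _ _ h1⟩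
      rw [eq_comm, ← mul_inv_eq_iff_eq_mul, refl_conj, h4, refl_smul h3]
  obtain ⟨⟨ε, t⟩, H⟩ := exists_isLift hQ hok k
  obtain ⟨r, h1, h2, h3⟩ := h' t H.1
  obtain ⟨r', h1', h2', h3'⟩ := h' 1 one_ne_zero
  have e := spinor_of_isLift hQ hok H
  rcases Int.units_eq_one_or (H28.dickson hQ hok k) with h0 | h0
  · refine ⟨r * r', by rw [mul_assoc, h1', ← mul_assoc, h1, mul_assoc], (mem_omega_iff hQ hok _).2 ?_⟩
    simp [h0, h2, h2', h3, h3', e, sqSign_one]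
  · refine ⟨r, h1, (mem_omega_iff hQ hok _).2 ?_⟩
    simp [h0, h2, h3, e]

omit [Fintype F] in
theorem lev_none (Φ : Fr (geoO hQ) (Option κ)) {c : Fˣ} (hc : c.1 * c.1 = 1) (D : GL κ F) {a : O Q}
    (ha : a ∈ Φ.Mid) (t : F) : Q (Φ.e none + t • Φ.f none) = t ∧
      rho Q (Φ.lev (dsum (c, D)) * a) (Φ.e none + t • Φ.f none) = c.1 • (Φ.e none + t • Φ.f none) := by
  have ef : polar Q (Φ.e none) (Φ.f none) = 1 := (Φ.ef none none).trans (by simp)
  refine ⟨by rw [H28.Q_add, H28.Q_smul, B_smul_right, ef, show Q _ = 0 from Φ.Qe none,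
    show Q _ = 0 from Φ.Qf none]; ring, ?_⟩
  have k : ∀ (d : F) (C : Matrix κ κ F), dsumM d C *ᵥ Pi.single none 1 = d • Pi.single none 1 := fun d C => by
    rw [dsumM_mulVec]
    ext i
    cases i <;> simp [← Pi.zero_def]
  rw [← geoO_ρ (hQ := hQ), Geo.ρ_mul, map_add, map_smul, ha.1, ha.2, map_add, map_smul, smul_add, smul_comm c.1,
    ← Φ.E_single, ← show Φ.swap.E (Pi.single none 1) = Φ.f none from Φ.swap.E_single none, Fr.lev_E, Fr.lev_E',
    Fr.shp_dsum, dsum_val, dsum_val, k, k, map_smul, map_smul]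
  simp [geoO, inv_eq_of_mul_eq_one_right hc]

/-- The case of an eigenvalue `±1`. -/
theorem o_pm (hok : EichOK Q) (Φ : Fr (geoO hQ) (Option κ)) (h2 : 2 ≤ Fintype.card κ)
    (h3 : Fintype.card F = 2 → 3 ≤ Fintype.card κ) {g v w a : O Q} {l : GL (Option κ) F}
    (hv : v ∈ (geoO hQ).R Φ.swap.W) (hw : w ∈ (geoO hQ).R Φ.W) (e : g = v * Φ.lev l * 1 * w)
    (hl : l = 1 ∨ ∀ c : F, l.1 ≠ c • 1) (hd : l.1.det = 1) (ha : a ∈ Φ.Mid) (ha' : a ∈ Omega F ⇑Q) {p : F[X]}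
    (hp : ∀ m ∈ Φ.M, aeval (rho Q a) p m = 0) (hp1 : p.eval (-1) ≠ 0)
    (hp2 : ∀ q, IsCoprime q (dag (RingHom.id F) q) → Good (RingHom.id F) q p) :
    ∃ a ∈ Omega F ⇑Q, ∃ b ∈ Omega F ⇑Q, g = a * b * a⁻¹ * b⁻¹ := by
  have := finO (Q := Q)
  obtain ⟨q, q1, q2, q3, q4, q5⟩ := good_id (F := F) h2 h3
  obtain ⟨D, hD⟩ := exists_cyc (κ := κ) q1 q2 (by rw [coeff_zero_eq_eval_zero]; exact coeff_ne q3 (by omega) 0)
  obtain ⟨A, B, hA, hB, eAB⟩ : ∃ A B : GL (Option κ) F, IsConj (dsum (-1, D)) A ∧ IsConj (dsum (-1, D)) B ∧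
      l * B = A := by
    rcases hl with rfl | hl
    · exact ⟨_, _, IsConj.refl _, IsConj.refl _, one_mul _⟩
    · exact cs1 l hd hl q1 q2 hD (-1) (coeff_ne q3 (by omega) _)
  obtain ⟨x, y, e1, hx, hy⟩ := Φ.main2 hv hw e ha eAB hA hB (Φ.fpf_O (fun _ h => h) (c := -1) (by simp) ha hD.1 hp
    (hp2 q q4) (good_one q4 (by simp) fun _ => rfl) (by
      rw [(irreducible_X_sub_C _).coprime_iff_not_dvd, dvd_iff_isRoot]; exact hp1))
  refine comm_of _ (mul_mem ((mem_omega_iff hQ hok _).2 ⟨(lev_ds hok Φ h2 _).1, ?_⟩) ha') (cen_refl (hQ := hQ) hok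
    fun t ht => ⟨_, _, by rwa [(lev_none Φ (c := -1) (by simp) D ha t).1], by
      rw [(lev_none Φ (c := -1) (by simp) D ha t).1], Units.ne_zero _, (lev_none Φ (by simp) D ha t).2⟩) e1 hx hy
  rw [(lev_ds hok Φ h2 _).2, sqSign_eq_one, dsum_val, det_dsumM, hD.det q1 q2]
  by_cases h : (2 : F) = 0
  · exact FiniteField.isSquare_of_char_two (by
      rw [ringChar.eq_iff, CharP.charP_iff_prime_eq_zero Nat.prime_two]; exact_mod_cast h) _
  · convert q5 h using 1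
    rw [pow_succ]; simp

theorem o_mid (hok : EichOK Q) (h2 : (2 : F) = 0) (Φ : Fr (geoO hQ) (Option κ)) (hκ : 2 ≤ Fintype.card κ)
    (hM : Φ.M ≠ ⊥) {g x y : O Q} {D : GL (Option κ) F} (e : g = x * y⁻¹) (hx : IsConj (Φ.lev D * 1) x)
    (hy : IsConj (Φ.lev D * 1) y) : ∃ a ∈ Omega F ⇑Q, ∃ b ∈ Omega F ⇑Q, g = a * b * a⁻¹ * b⁻¹ := by
  have sq : ∀ c : F, sqSign c = 1 := fun c => sqSign_eq_one.2 (FiniteField.isSquare_of_char_two (by
    rw [ringChar.eq_iff, CharP.charP_iff_prime_eq_zero Nat.prime_two]; exact_mod_cast h2) _)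
  obtain ⟨m, hm, hm0⟩ := exists_ns Φ hM
  rw [mul_one] at hx hy
  exact comm_of _ ((mem_omega_iff hQ hok _).2 ⟨(lev_ds hok Φ hκ _).1, by rw [(lev_ds hok Φ hκ _).2, sq]⟩)
    (cen_refl (hQ := hQ) hok fun t _ => ⟨m, 1, hm0, by rw [sq, sq], one_ne_zero, (Φ.lev_M D hm).trans
      (one_smul _ _).symm⟩) e hx hy

theorem o_main (hok : EichOK Q) (Φ₀ : Fr (geoO hQ) (Option κ)) (h2 : 2 ≤ Fintype.card κ) (hM : finrank F Φ₀.M ≤ 2)
    (hM0 : 1 ≤ finrank F Φ₀.M) {g : O Q} (hg : g ∈ Omega F ⇑Q) :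
    ∃ a ∈ Omega F ⇑Q, ∃ b ∈ Omega F ⇑Q, g = a * b * a⁻¹ * b⁻¹ := by
  have := finO (Q := Q)
  have d0 := finrank_M Φ₀
  by_cases hc : ∃ c : F, rho Q g = c • 1
  · obtain ⟨c, hc⟩ := hc
    refine cen_O hQ ?_ hg hc
    simp only [Fintype.card_option, finrank_fintype_fun_eq_card] at d0
    omega
  push Not at hc
  have : Nonempty κ := Fintype.card_pos_iff.1 (by omega)
  obtain ⟨Φ₁, u, u1, u2, u3, u4⟩ := exists_F0 Φ₀ g hc (Or.inr (by omega))
  have d1 := finrank_M Φ₁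
  obtain ⟨Φ, l, d, hd0, hu, hd, hl, v, hv, w, hw, e⟩ := o_adj hok Φ₁ h2 (by omega) hg u1 u3 u4
  have d2 := finrank_M Φ
  have hns := Fr.ns_of hd0 u2 hu
  have hM1 : Φ.M ≠ ⊥ := fun h => by rw [h, finrank_bot] at d2; omega
  have p1 : ∀ m ∈ Φ.M, aeval (rho Q 1) (X - C 1 : F[X]) m = 0 := fun m _ => by simp
  by_cases t2 : (2 : F) = 0
  swap
  · have : Fintype.card F ≠ 2 := fun h => t2 (by exact_mod_cast h ▸ FiniteField.cast_card_eq_zero F)
    exact o_pm hok Φ h2 (fun h => absurd h this) hv hw e (Or.inr hns) hd Φ.Mid.one_mem (one_mem _) p1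
      (by simpa [sub_eq_zero, neg_eq_iff_add_eq_zero, one_add_one_eq_two] using t2)
      fun q hq => good_one hq (by simp) fun _ => rfl
  by_cases hF : ∃ c : F, c ≠ 0 ∧ c ≠ 1
  · obtain ⟨c, c0, c1⟩ := hF
    have : Fintype.card F ≠ 2 := fun h => by
      have := FiniteField.pow_card_sub_one_eq_one c c0
      rw [h] at this; exact c1 (by simpa using this)
    obtain ⟨q, q1, q2, q3, q4, -⟩ := good_id (F := F) h2 fun h => absurd h this
    obtain ⟨D, hD⟩ := exists_cyc (κ := κ) q1 q2 (by rw [coeff_zero_eq_eval_zero]; exact coeff_ne q3 (by omega) 0)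
    obtain ⟨A, B, hA, hB, eAB⟩ := cs1 l hd hns q1 q2 hD (Units.mk0 c c0) (coeff_ne q3 (by omega) _)
    obtain ⟨x, y, e1, hx, hy⟩ := Φ.main1 hv hw e Φ.Mid.one_mem Φ.Mid.one_mem eAB (by simp) (Or.inl hA) (Or.inl hB)
      (r := (X - C c) * q) (by
        rw [dsum_val, aeval_dsumM, map_mul, hD.1]
        ext i j
        cases i <;> cases j <;> simp [dsumM]) p1
      (good_one (good_mul q3 (by omega) q4 c0 (fun h => c1 (by
        have h' : c * c = 1 := h
        have : (c - 1) ^ 2 = 0 := by linear_combination h' + (1 - c) * t2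
        exact sub_eq_zero.1 (pow_eq_zero_iff two_ne_zero |>.1 this))) fun _ => rfl) (by simp) fun _ => rfl)
    exact o_mid hok t2 Φ h2 hM1 e1 hx hy
  push Not at hF
  have F2 : Fintype.card F = 2 := by
    classical
    rw [← Finset.card_univ, show (Finset.univ : Finset F) = {0, 1} from Finset.ext fun c => by
      by_cases h : c = 0 <;> simp [h, hF c], Finset.card_pair zero_ne_one]
  by_cases hs : ∃ m ∈ Φ.M, m ≠ 0 ∧ Q m = 0
  · obtain ⟨m, hm, m0, m1⟩ := hs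
    obtain ⟨z, hz, hz1⟩ : ∃ z ∈ Φ.M, polar Q m z ≠ 0 := by
      by_contra! h; exact m0 (Φ.nondeg_M hm h)
    have hz' : z - Q z • m ∈ Φ.M := sub_mem hz (Φ.M.smul_mem _ hm)
    have b1 : polar Q m (z - Q z • m) = 1 := by simp [m1, hF _ hz1]
    have b2 : Q (z - Q z • m) = 0 := by rw [H28.Q_sub, H28.Q_smul, B_smul_right, m1, polar_comm, hF _ hz1]; ring
    generalize z - Q z • m = f at hz' b1 b2
    have o1 := Φ.mem_M.1 hm
    have o2 := Φ.mem_M.1 hz'
    let Ψ : Fr (geoO hQ) (Option (Option κ)) :=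
      { e := fun i => i.elim m Φ.e
        f := fun i => i.elim f Φ.f
        Qe := fun i => by cases i; exacts [m1, Φ.Qe _]
        Qf := fun i => by cases i; exacts [b2, Φ.Qf _]
        ee := fun i j => by
          cases i <;> cases j
          exacts [(geoO hQ).B_self _ m1, o1.2 _, (geoO hQ).B_comm.1 (o1.2 _), Φ.ee _ _]
        ff := fun i j => by
          cases i <;> cases j
          exacts [(geoO hQ).B_self _ b2, o2.1 _, (geoO hQ).B_comm.1 (o2.1 _), Φ.ff _ _]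
        ef := fun i j => by
          cases i <;> cases j
          exacts [b1.trans (by simp), (o1.1 _).trans (by simp), ((geoO hQ).B_comm.1 (o2.2 _)).trans (by simp),
            (Φ.ef _ _).trans (by simp)] }
    obtain ⟨L, hL⟩ : IsUnit (Ψ.lm g) := by
      rw [← mulVec_injective_iff_isUnit, ← coe_mulVecLin, injective_iff_map_eq_zero]
      intro a ha
      rw [mulVecLin_apply, Fr.lm_mulVec, Ψ.E_opt] at ha
      change Ψ.π (rho Q g (a none • m + Φ.E _)) = 0 at ha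
      have k1 : Φ.π (rho Q g (a none • m + Φ.E fun j => a (some j))) = 0 := _root_.funext fun i => congrFun ha (some i)
      have k2 := Φ.gauss_mid hv Φ.Mid.one_mem hw e (add_mem (Φ.M_le (Φ.M.smul_mem (a none) hm))
        (Φ.ts_W.2 (Φ.E_mem fun j => a (some j)))) (Φ.mem_perp_W'.2 k1)
      rw [Geo.ρ_one, map_add, Fr.π₀_E, add_zero, Φ.π₀_of_M (Φ.M.smul_mem _ hm)] at k2
      have k3 : polar Q (rho Q g (a none • m + Φ.E fun j => a (some j))) f = 0 := congrFun ha none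
      have k4 : a none = 0 := by
        have := Φ.swap.B_π₀ (Φ.mem_perp_W'.2 k1) (Φ.M_le' hz')
        rw [Φ.swap_π₀, Φ.π₀_of_M hz', geoO_B, geoO_B, k3, ← geoO_ρ (hQ := hQ), ← k2, B_smul_left, b1] at this
        simpa using this
      rw [k4, zero_smul, zero_add, ← geoO_ρ (hQ := hQ), ← Fr.lm_mulVec, hl] at k1
      have k5 := congrArg (l⁻¹.1 *ᵥ ·) k1
      simp only [mulVec_mulVec, Units.inv_mul, one_mulVec, mulVec_zero] at k5
      ext i
      cases i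
      exacts [k4, congrFun k5 _]
    obtain ⟨v', hv', s, hs, w', hw', e'⟩ := Ψ.gauss g L hL.symm
    have d3 := finrank_M Ψ
    have hM2 : Ψ.M = ⊥ := Submodule.finrank_eq_zero.1 (by simp only [Fintype.card_option] at d0 d3; omega)
    rw [Ψ.mid_eq hs Ψ.Mid.one_mem (by simp [hM2])] at e'
    refine o_pm hok Ψ (by simp; omega) (fun _ => by simp; omega) hv' hw' e' ?_
      (hF _ ((isUnit_iff_isUnit_det _).1 L.isUnit).ne_zero) Ψ.Mid.one_mem (one_mem _) (p := 1) (by simp [hM2])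
      (by simp) fun q hq => ⟨hq, isCoprime_one_right, isCoprime_one_right⟩
    refine or_iff_not_imp_left.2 fun h c hc => h (Units.ext ?_)
    by_cases c0 : c = 0
    · exact absurd (by rw [hc, c0, zero_smul]) L.ne_zero
    · rw [hc, hF c c0, one_smul]; rfl
  push Not at hs
  by_cases h3 : Fintype.card κ = 2
  · obtain ⟨D, r, r1, r2, r3⟩ := oa32 (κ := Option κ) F2 (by simp [h3])
    obtain ⟨A, B, hA, hB, eAB⟩ := r3 l
    obtain ⟨x, y, e1, hx, hy⟩ := Φ.main1 hv hw e Φ.Mid.one_mem Φ.Mid.one_mem eAB (by simp) hA hB r1 p1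
      (good_one r2 (by simp) fun _ => rfl)
    exact o_mid hok t2 Φ h2 hM1 e1 hx hy
  obtain ⟨m, hm, m0⟩ := (Submodule.ne_bot_iff _).1 hM1
  obtain ⟨z, hz, hz1⟩ : ∃ z ∈ Φ.M, polar Q m z ≠ 0 := by
    by_contra! h; exact m0 (Φ.nondeg_M hm h)
  have z0 : z ≠ 0 := by rintro rfl; simp at hz1
  have qm := hF _ (hs m hm m0)
  have qz := hF _ (hs z hz z0)
  refine o_pm hok Φ h2 (fun _ => by omega) hv hw e (Or.inr hns) hd (Φ.Mid.mul_mem (refl_mid Φ hm) (refl_mid Φ hz))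
    ((mem_omega_iff hQ hok _).2 (by simp [dickson_refl, spinor_refl, qm, qz, sqSign_one]))
    (p := X ^ 2 - C (-1) * X + 1) (fun x hx => ?_) (by simpa using one_ne_zero)
    fun q hq => good_rec hq fun x hx => ?_
  · obtain ⟨s, t, rfl⟩ := span_two (by omega) hm hz m0 (fun c hc => hz1 (by
      rw [← hc, B_smul_right, H28.B_self, t2]; ring)) hx
    simp only [map_add, map_sub, map_mul, pow_two, aeval_X, aeval_C, map_one, LinearMap.add_apply,
      LinearMap.sub_apply, End.mul_apply, algebraMap_end_apply, End.one_apply, map_smul, rho_refl, qm, qz,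
      H28.B_self, hF _ hz1, polar_comm _ z m, polar_sub_right, B_smul_right]
    match_scalars <;> ring
  · by_cases x0 : x = 0
    · simp [x0] at hx
    · rw [hF x x0, one_pow]

theorem o_row {Q' : (n → F) → F} (e : ⇑Q = Q') (h5 : 5 ≤ Fintype.card n) {m : ℕ} (Φ : Fr (geoO hQ) (Fin m)) {k : ℕ}
    (hk : k + 3 ≤ m) (h1 : 2 * (k + 3) + 1 ≤ Fintype.card n) (h2 : Fintype.card n ≤ 2 * (k + 3) + 2)
    (g : Omega F Q') : ∃ a b : Omega F Q', g = a * b * a⁻¹ * b⁻¹ := by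
  subst e
  let Ψ := Φ.sub (Fin.castLE hk ∘ (finSuccEquiv (k + 2)).symm)
    ((Fin.castLE_injective hk).comp (finSuccEquiv (k + 2)).symm.injective)
  have d := finrank_M Ψ
  simp only [Fintype.card_option, finrank_fintype_fun_eq_card, Fintype.card_fin] at d
  obtain ⟨a, ha, b, hb, h⟩ := o_main (Or.inr (Or.inl h5)) Ψ (by simp) (by omega) (by omega) g.2
  exact ⟨⟨a, ha⟩, ⟨b, hb⟩, Subtype.ext h⟩

end Cfsg.Agent.H65.Ore
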