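import Cfsg.Agent.H65.OreO2
import Cfsg.Agent.H28.StdForms

set_option autoImplicit false

namespace Cfsg.Agent.H65.Ore

open QuadraticMap Cfsg Cfsg.Agent.H28

variable {F : Type*} [Field F] {n : Type} [Fintype n] [DecidableEq n] {Q : QuadraticForm F (n → F)}

/-- A frame of coordinate vectors. -/
def frO (hQ : (polarBilin Q).Nondegenerate) {m : ℕ} (j : Fin m ⊕ Fin m → n) (hj : Function.Injective j)
    (h0 : ∀ k, Q (Pi.single (j k) 1) = 0) (h1 : ∀ i x, polar Q (Pi.single (j (.inl i)) 1) x = x (j (.inr i)))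
    (h2 : ∀ i x, polar Q (Pi.single (j (.inr i)) 1) x = x (j (.inl i))) : Fr (geoO hQ) (Fin m) where
  e i := Pi.single (j (.inl i)) 1
  f i := Pi.single (j (.inr i)) 1
  Qe _ := h0 _
  Qf _ := h0 _
  ee i k := (h1 i _).trans (by simp [Pi.single_apply, hj.eq_iff])
  ff i k := (h2 i _).trans (by simp [Pi.single_apply, hj.eq_iff])
  ef i k := (h1 i _).trans (by simp [Pi.single_apply, hj.eq_iff])

end Cfsg.Agent.H65.Ore
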