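import Cfsg.Agent.H65.OreCyc
import Cfsg.Agent.H29.F4

set_option autoImplicit false

/-! Project ORE: every nonscalar element of `SL₃(4)` is a quotient of two elements of order seven. -/

namespace Cfsg.Agent.H65.Ore

open Polynomial Matrix H29

namespace A34

/-- a matrix killed by an irreducible polynomial of full degree is cyclic -/
theorem cyc_of_irred {F : Type*} [Field F] {κ : Type*} [Fintype κ] [DecidableEq κ] {A : Matrix κ κ F} {q : F[X]}
    (hi : Irreducible q) (hd : q.natDegree = Fintype.card κ) (hA : aeval A q = 0) : Cyc A q := by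
  have : Fact (Irreducible q) := ⟨hi⟩
  obtain ⟨i⟩ : Nonempty κ := Fintype.card_pos_iff.1 (hd ▸ hi.natDegree_pos)
  let v : κ → F := Pi.single i 1
  let f : F[X] →ₗ[F] (κ → F) :=
    { toFun := fun a => aeval A a *ᵥ v
      map_add' := fun a b => by rw [map_add, add_mulVec]
      map_smul' := fun c a => by rw [map_smul, smul_mulVec]; rfl }
  have hk : ∀ a, f a = 0 → q ∣ a := fun a ha => by
    by_contra hn
    obtain ⟨x, y, e⟩ := hi.coprime_iff_not_dvd.2 hn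
    have := congrArg (fun p => aeval A p *ᵥ v) e
    simp only [map_add, map_mul, hA, mul_zero, zero_add, map_one, one_mulVec, ← mulVec_mulVec] at this
    rw [show aeval A a *ᵥ v = 0 from ha, mulVec_zero] at this
    simpa [v] using congrFun this i
  have hinj : Function.Injective (f.domRestrict (degreeLT F q.natDegree)) := by
    rw [injective_iff_map_eq_zero]
    intro a ha
    exact Subtype.ext (eq_zero_of_dvd_of_degree_lt (hk _ ha)
      ((mem_degreeLT.1 a.2).trans_le (degree_eq_natDegree hi.ne_zero).ge))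
  have hs := (LinearMap.injective_iff_surjective_of_finrank_eq_finrank (by
    rw [(degreeLTEquiv F _).finrank_eq, Module.finrank_fin_fun, Module.finrank_fintype_fun_eq_card, hd])).1 hinj
  exact ⟨hA, v, fun x => let ⟨a, ha⟩ := hs x; ⟨a, ha.symm⟩⟩

theorem normal {F : Type*} [Field F] {l : Matrix (Fin 3) (Fin 3) F} (hl : ∀ c : F, l ≠ c • 1) :
    ∃ (P : GL (Fin 3) F) (x y t y' s y'' : F), l = P.1 * !![0, x, y; 1, t, y'; 0, s, y''] * P⁻¹.1 := by
  obtain ⟨v, w, h⟩ : ∃ v w : Fin 3 → F, (Matrix.of ![v, l *ᵥ v, w]).det ≠ 0 := by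
    by_contra hn
    push Not at hn
    have a1 := hn ![1, 0, 0] ![0, 1, 0]
    have a2 := hn ![1, 0, 0] ![0, 0, 1]
    have a3 := hn ![0, 1, 0] ![1, 0, 0]
    have a4 := hn ![0, 1, 0] ![0, 0, 1]
    have a5 := hn ![0, 0, 1] ![1, 0, 0]
    have a6 := hn ![0, 0, 1] ![0, 1, 0]
    have a7 := hn ![1, 1, 0] ![0, 0, 1]
    have a8 := hn ![1, 0, 1] ![0, 1, 0]
    simp [det_fin_three, mulVec, dotProduct, Fin.sum_univ_three] at a1 a2 a3 a4 a5 a6 a7 a8
    refine hl (l 0 0) ?_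
    ext i j
    fin_cases i <;> fin_cases j <;> simp [a1, a2, a3, a4, a5, a6]
    · linear_combination a7 - a2 + a4
    · linear_combination -a8 - a1 + a5 * 0 + a6
  let P := GeneralLinearGroup.mkOfDetNeZero (Matrix.of ![v, l *ᵥ v, w])ᵀ (by rwa [det_transpose])
  let M := P⁻¹.1 * l * P.1
  have hc : M *ᵥ Pi.single 0 1 = Pi.single 1 1 := by
    have e0 : P.1 *ᵥ Pi.single 0 1 = v := by ext i; simp [P]
    have e1 : P.1 *ᵥ Pi.single 1 1 = l *ᵥ v := by ext i; simp [P]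
    rw [← mulVec_mulVec, e0, ← mulVec_mulVec, ← e1, mulVec_mulVec, Units.inv_mul, one_mulVec]
  refine ⟨P, M 0 1, M 0 2, M 1 1, M 1 2, M 2 1, M 2 2, ?_⟩
  have e : M = !![0, M 0 1, M 0 2; 1, M 1 1, M 1 2; 0, M 2 1, M 2 2] := by
    have h0 := congrFun hc 0
    have h1 := congrFun hc 1
    have h2 := congrFun hc 2
    simp only [mulVec_single_one, col_apply, Pi.single_apply] at h0 h1 h2
    ext i j
    fin_cases i <;> fin_cases j <;> simp_all
  rw [← e]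
  simp only [M, ← Matrix.mul_assoc, Units.mul_inv, Matrix.one_mul]
  rw [Matrix.mul_assoc, Units.mul_inv, Matrix.mul_one]

/-- nine entries -/
structure M9 where
  (a b c d e f g h k : F4)

def M9.mat (x : M9) : Matrix (Fin 3) (Fin 3) F4 := !![x.a, x.b, x.c; x.d, x.e, x.f; x.g, x.h, x.k]

def M9.mul (x y : M9) : M9 :=
  ⟨x.a * y.a + x.b * y.d + x.c * y.g, x.a * y.b + x.b * y.e + x.c * y.h, x.a * y.c + x.b * y.f + x.c * y.k,
   x.d * y.a + x.e * y.d + x.f * y.g, x.d * y.b + x.e * y.e + x.f * y.h, x.d * y.c + x.e * y.f + x.f * y.k,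
   x.g * y.a + x.h * y.d + x.k * y.g, x.g * y.b + x.h * y.e + x.k * y.h, x.g * y.c + x.h * y.f + x.k * y.k⟩

def M9.tr (x : M9) : F4 := x.a + x.e + x.k
def M9.e2 (x : M9) : F4 := x.a * x.e + x.b * x.d + (x.a * x.k + x.c * x.g) + (x.e * x.k + x.f * x.h)
def M9.dt (x : M9) : F4 :=
  x.a * (x.e * x.k + x.f * x.h) + x.b * (x.d * x.k + x.f * x.g) + x.c * (x.d * x.h + x.e * x.g)

def M9.ok (x : M9) : Prop := x.tr + x.e2 = 1 ∧ (x.tr = 0 ∨ x.tr = 1) ∧ x.dt = 1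

instance (x : M9) : Decidable x.ok := inferInstanceAs (Decidable (_ ∧ _))

theorem mat_mul (x y : M9) : (x.mul y).mat = x.mat * y.mat := by
  simp [M9.mat, M9.mul, add_assoc]

theorem two0 : (2 : F4) = 0 := by decide

theorem ch (x : M9) : x.mat ^ 3 + x.tr • x.mat ^ 2 + x.e2 • x.mat + x.dt • 1 = 0 := by
  ext i j
  fin_cases i <;> fin_cases j <;>
    simp [M9.mat, M9.tr, M9.e2, M9.dt, pow_succ] <;> ring_nf <;> simp [two0, show (4 : F4) = 0 by decide]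

/-- killed by `X³ + X + 1` or by `X³ + X² + 1` -/
def Kl {R : Type*} [Ring R] (A : R) : Prop := A ^ 3 + A + 1 = 0 ∨ A ^ 3 + A ^ 2 + 1 = 0

theorem Kl.map {R S : Type*} [Ring R] [Ring S] (f : R →+* S) {A : R} (h : Kl A) : Kl (f A) :=
  h.imp (fun e => by simpa using congrArg f e) fun e => by simpa using congrArg f e

theorem kl_of_ok {x : M9} (h : x.ok) : Kl x.mat := by
  have := ch x
  obtain ⟨h1, h2 | h2, h3⟩ := h <;> rw [h2] at h1
  · exact .inl (by simpa [h2, h3, show x.e2 = 1 by simpa using h1] using this)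
  · exact .inr (by simpa [h2, h3, show x.e2 = 0 by simpa using h1] using this)

open F4 in
def Bs : List M9 := [⟨o, i, v, v, w, i, o, w, v⟩, ⟨v, v, o, o, i, w, w, i, v⟩, ⟨o, i, w, o, i, v, i, v, i⟩,
  ⟨v, o, v, v, o, w, o, w, v⟩, ⟨o, w, w, o, i, w, i, i, o⟩, ⟨v, i, i, i, o, w, i, w, v⟩, ⟨o, v, i, o, o, w, i, v, i⟩,
  ⟨o, v, v, i, v, v, i, i, v⟩, ⟨v, v, w, o, v, i, i, i, o⟩, ⟨v, w, o, i, v, i, i, i, o⟩, ⟨v, i, o, o, o, w, w, w, v⟩,
  ⟨i, i, i, w, o, i, i, v, i⟩, ⟨o, w, v, w, i, i, i, o, o⟩, ⟨w, i, w, w, w, o, v, v, i⟩, ⟨w, o, v, i, i, v, o, i, w⟩,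
  ⟨w, v, i, v, v, i, i, w, i⟩, ⟨o, i, o, v, o, w, v, i, o⟩, ⟨o, v, o, i, v, v, w, o, v⟩, ⟨i, w, v, w, w, o, v, i, v⟩,
  ⟨v, i, o, i, v, v, o, i, i⟩, ⟨o, w, o, i, i, v, v, v, i⟩, ⟨w, w, v, v, o, o, i, w, w⟩, ⟨o, o, v, w, o, i, w, i, i⟩,
  ⟨v, v, w, w, i, o, w, i, v⟩, ⟨i, o, v, w, i, w, i, i, i⟩, ⟨o, w, w, w, o, i, o, v, i⟩, ⟨v, v, i, i, v, o, o, i, o⟩,
  ⟨o, i, o, v, v, i, v, o, v⟩]

theorem chk : (∀ B ∈ Bs, B.ok) ∧ ∀ x y s y'' : F4, x * y'' + y * s = 1 → ∀ t y' : F4,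
    ∃ B ∈ Bs, (M9.mul ⟨0, x, y, 1, t, y', 0, s, y''⟩ B).ok := by decide +kernel

theorem core {l : Matrix (Fin 3) (Fin 3) F4} (hd : l.det = 1) (hl : ∀ c : F4, l ≠ c • 1) :
    ∃ B, Kl B ∧ Kl (l * B) := by
  obtain ⟨P, x, y, t, y', s, y'', rfl⟩ := normal hl
  rw [det_units_conj, det_fin_three] at hd
  obtain ⟨B, hB, h⟩ := chk.2 x y s y'' (by
    simp only [of_apply, cons_val', cons_val_zero, cons_val_one, cons_val_fin_one, cons_val] at hd
    linear_combination hd + x * y'' * two0) t y'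
  let f := (MulSemiringAction.toRingHom (ConjAct (GL (Fin 3) F4)) (Matrix (Fin 3) (Fin 3) F4) (ConjAct.toConjAct P))
  refine ⟨f B.mat, (kl_of_ok (chk.1 B hB)).map f, ?_⟩
  convert (kl_of_ok h).map f
  rw [mat_mul, map_mul]
  rfl

def D0 : Matrix (Fin 3) (Fin 3) F4 := !![0, 0, 1; 1, 0, 1; 0, 1, 0]
def D1 : Matrix (Fin 3) (Fin 3) F4 := !![1, 1, 0; 0, 0, 1; 1, 0, 0]

theorem facts : D0 * D1 = 1 ∧ D1 * D0 = 1 ∧ D0 ^ 3 + D0 + 1 = 0 ∧ D1ᵀ ^ 3 + D1ᵀ ^ 2 + 1 = 0 ∧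
    (∀ i j, D1 i j ^ 2 = D1 i j) ∧ D0.det = 1 := by
  refine ⟨by decide +kernel, by decide +kernel, by decide +kernel, by decide +kernel, fun i j => ?_,
    by decide +kernel⟩
  fin_cases i <;> fin_cases j <;> rfl

theorem exists_tr {K F : Type*} [Field K] [Field F] {κ : Type*} [Fintype κ] [DecidableEq κ] {n : ℕ} (ι : K ≃+* F)
    (e : κ ≃ Fin n) : ∃ Φ : Matrix (Fin n) (Fin n) K ≃+* Matrix κ κ F,
      (∀ M i j, Φ M i j = ι (M (e i) (e j))) ∧ ∀ M, (Φ M).det = ι M.det :=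
  ⟨ι.mapMatrix.trans (reindexAlgEquiv F F e.symm).toRingEquiv, fun _ _ _ => rfl,
    fun M => (det_reindex_self _ _).trans (ι.map_det M).symm⟩

end A34

open A34

variable {F : Type*} [Field F] [Fintype F] {κ : Type*} [Fintype κ] [DecidableEq κ]

theorem oa34 (hF : Fintype.card F = 4) {σ : F →+* F} (hσ : ∀ x, σ x = x ^ 2) (hκ : Fintype.card κ = 3) :
    ∃ (D : GL κ F) (r : F[X]), r.Monic ∧ r.natDegree = 3 ∧ Irreducible r ∧ Cyc D.1 r ∧ D.1.det = 1 ∧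
      IsCoprime r (dag σ r) ∧ ∀ l : GL κ F, l.1.det = 1 → (∀ c : F, l.1 ≠ c • 1) →
        ∃ A B, Rel σ D A ∧ Rel σ D B ∧ l * B = A := by
  obtain ⟨ι⟩ : Nonempty (F4 ≃+* F) := ⟨(equivF4 hF).symm⟩
  obtain ⟨ε⟩ : Nonempty (κ ≃ Fin 3) := ⟨Fintype.equivFinOfCardEq hκ⟩
  obtain ⟨Φ, hΦ', hΦ⟩ := exists_tr ι ε
  have h2 : (2 : F) = 0 := by rw [← map_ofNat ι 2, two0, map_zero]
  have d1 : (X ^ 3 + X + 1 : F[X]).natDegree = 3 := by compute_degree!
  have d2 : (X ^ 3 + X ^ 2 + 1 : F[X]).natDegree = 3 := by compute_degree!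
  have m1 : (X ^ 3 + X + 1 : F[X]).Monic := by monicity!
  have m2 : (X ^ 3 + X ^ 2 + 1 : F[X]).Monic := by monicity!
  have irr : ∀ q : F[X], q.natDegree = 3 → (∀ x : F4, ¬ q.IsRoot (ι x)) → Irreducible q := fun q hq h =>
    irreducible_of_degree_le_three_of_not_isRoot (by simp [hq]) fun x => by
      obtain ⟨y, rfl⟩ := ι.surjective x
      exact h y
  have i1 := irr _ d1 fun x h => (by decide : ∀ x : F4, x ^ 3 + x + 1 ≠ 0) x (ι.injective (by simpa using h))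
  have i2 := irr _ d2 fun x h => (by decide : ∀ x : F4, x ^ 3 + x ^ 2 + 1 ≠ 0) x (ι.injective (by simpa using h))
  have c1 : ∀ {A : Matrix κ κ F}, A ^ 3 + A + 1 = 0 → Cyc A (X ^ 3 + X + 1) := fun h =>
    cyc_of_irred i1 (d1.trans hκ.symm) (by simpa using h)
  have c2 : ∀ {A : Matrix κ κ F}, A ^ 3 + A ^ 2 + 1 = 0 → Cyc A (X ^ 3 + X ^ 2 + 1) := fun h =>
    cyc_of_irred i2 (d2.trans hκ.symm) (by simpa using h)
  obtain ⟨f1, f2, f3, f4, f5, f6⟩ := facts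
  let D : GL κ F := ⟨Φ D0, Φ D1, by rw [← map_mul, f1, map_one], by rw [← map_mul, f2, map_one]⟩
  have cD : Cyc D.1 (X ^ 3 + X + 1) := c1 (by
    have := congrArg Φ f3
    rwa [map_add, map_add, map_pow, map_one, map_zero] at this)
  have cD' : Cyc (shp σ D).1 (X ^ 3 + X ^ 2 + 1) := c2 (by
    have e : (shp σ D).1 = Φ D1ᵀ := by
      ext i j
      show σ (Φ D1 j i) = _
      rw [hΦ', hΦ', hσ, ← map_pow, f5, transpose_apply]
    have := congrArg Φ f4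
    rwa [map_add, map_add, map_pow, map_pow, map_one, map_zero, ← e] at this)
  have rel : ∀ A : GL κ F, Kl A.1 → Rel σ D A := fun A h =>
    h.imp (fun e => cD.isConj m1 (d1.trans hκ.symm) (c1 e)) fun e => cD'.isConj m2 (d2.trans hκ.symm) (c2 e)
  have hdag : dag σ (X ^ 3 + X + 1) = X ^ 3 + X ^ 2 + 1 := by
    have e : (X ^ 3 + X + 1 : F[X]).map σ = X ^ 3 + X ^ 1 + X ^ 0 := by simp
    rw [dag, e, reverse, show (X ^ 3 + X ^ 1 + X ^ 0 : F[X]).natDegree = 3 by simpa using d1, reflect_add,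
      reflect_add, reflect_monomial, reflect_monomial, reflect_monomial, revAt_le (by norm_num),
      revAt_le (by norm_num), revAt_le (by norm_num)]
    ring
  refine ⟨D, _, m1, d1, i1, cD, (hΦ D0).trans (by rw [f6, map_one]), ?_, fun l hd hl => ?_⟩
  · rw [hdag]
    refine ⟨X, X + 1, ?_⟩
    have : (2 : F[X]) = 0 := by rw [← map_ofNat C 2, h2, map_zero]
    linear_combination (X ^ 4 + X ^ 3 + X ^ 2 + X) * this
  · obtain ⟨l0, e⟩ := Φ.surjective l.1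
    obtain ⟨B, hB, hA⟩ := core (l := l0) (ι.injective (by rw [← hΦ, e, hd, map_one])) fun c hc => hl (ι c) (by
      rw [← e, hc]
      ext i j
      simp [hΦ', one_apply, apply_ite ι])
    have hB' : Kl (Φ B) := hB.map Φ.toRingHom
    have hu : IsUnit (Φ B) := by
      rcases hB' with h | h
      · exact IsUnit.of_mul_eq_one (-(Φ B ^ 2 + 1))
          (calc _ = 1 - (Φ B ^ 3 + Φ B + 1) := by noncomm_ring
            _ = 1 := by rw [h, sub_zero])
      · exact IsUnit.of_mul_eq_one (-(Φ B ^ 2 + Φ B))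
          (calc _ = 1 - (Φ B ^ 3 + Φ B ^ 2 + 1) := by noncomm_ring
            _ = 1 := by rw [h, sub_zero])
    refine ⟨_, hu.unit, rel _ ?_, rel _ hB', rfl⟩
    have := hA.map Φ.toRingHom
    rwa [map_mul, show Φ.toRingHom l0 = l.1 from e] at this

end Cfsg.Agent.H65.Ore
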