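import Cfsg.Agent.H66.OreSp0

set_option autoImplicit false

/-! Project ORE: symplectic groups over fields with at least four elements. -/

namespace Cfsg.Agent.H65.Ore

open Polynomial Matrix Module Sp0

variable {F V G : Type*} [Field F] [AddCommGroup V] [Module F V] [Group G] [FiniteDimensional F V]
  {Γ : Geo F V G}

theorem sp_big [Finite F] (hS : Γ.IsSp) (hF : ∃ c : F, c ≠ 0 ∧ c ≠ 1 ∧ c ≠ -1) {m : ℕ} (Φ₀ : Fr Γ (Fin m))
    (hM : finrank F V = 2 * m) (h2 : 2 ≤ m) (g : G) (hg : ∀ c : F, Γ.ρ g ≠ c • 1) :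
    ∃ a b : G, g = a * b * a⁻¹ * b⁻¹ := by
  obtain ⟨c, c0, c1, c2⟩ := hF
  obtain ⟨d, rfl⟩ : ∃ d, m = d + 1 := ⟨m - 1, by omega⟩
  have : Nonempty (Fin d) := ⟨⟨0, by omega⟩⟩
  obtain ⟨Φ, l, hl, l1, l2⟩ := sp_adj hS (Φ₀.sub _ (finSuccEquiv d).symm.injective) g hg
  have hM' : finrank F V = 2 * Fintype.card (Option (Fin d)) := by simpa using hM
  have cc : c * RingHom.id F c ≠ 1 := fun e => (mul_self_eq_one_iff.1 e).elim c1 c2
  rcases (show 1 ≤ d by omega).eq_or_lt with rfl | h3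
  · obtain ⟨A, B, hA, hB, e⟩ := cs2 (by simp) ⟨c, c0, c1⟩ l l1 l2 c0
    refine fin0 Φ hM' hl e (.inl (IsConj.refl A)) (.inl (hA.isConj ((monic_X_sub_C c).pow 2)
      (by simp) hB)) hA.1 ?_
    rw [hS.σ_eq, sq, dag_mul]
    have := GoodAux.lin_dag cc
    exact (this.mul_right this).mul_left (this.mul_right this)
  have := Fintype.ofFinite F
  obtain ⟨q, q1, q2, q3, q4, -⟩ := good_id (F := F) h3 fun e => by
    classical
    have := Finset.card_le_univ ({0, 1, c} : Finset F)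
    rw [Finset.card_eq_three.2 ⟨_, _, _, zero_ne_one, c0.symm, c1.symm, rfl⟩] at this
    omega
  have q5 : q.natDegree = Fintype.card (Fin d) := by simpa using q2
  obtain ⟨D, hD⟩ := exists_cyc q1 q5 (coeff_ne q3 (by omega))
  obtain ⟨A, B, hA, hB, e⟩ := cs1 l l1 l2 q1 q5 hD (Units.mk0 c c0)
    (q3.not_isRoot_of_natDegree_ne_one (by omega))
  exact fin0 Φ hM' hl e (.inl hA) (.inl hB) (aeval_dsum _ hD.1)
    (hS.σ_eq ▸ good_mul q3 (by omega) q4 c0 cc fun _ => rfl)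

end Cfsg.Agent.H65.Ore
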