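import Cfsg.Agent.H66.OreSp1

set_option autoImplicit false

/-! Project ORE: symplectic groups over the fields with two and three elements. -/

namespace Cfsg.Agent.H65.Ore

open Polynomial Matrix Module MatrixGroups Sp0 Sp1

variable {F V G : Type*} [Field F] [AddCommGroup V] [Module F V] [Group G] [FiniteDimensional F V]
  {Γ : Geo F V G}

namespace SpS

variable {ι κ : Type*} [Fintype ι] [DecidableEq ι] [Fintype κ] [DecidableEq κ]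

omit [FiniteDimensional F V] in
theorem fix_of_perp (hS : Γ.IsSp) {g : G} {c : F} (hc : c * c = 1) {w : V}
    (hw : w ∈ Γ.perp (LinearMap.range (Γ.ρ g - c • 1))) : Γ.ρ g w = c • w := by
  refine sub_eq_zero.1 (Γ.nondeg _ fun y => ?_)
  have := hw _ ⟨Γ.ρ g⁻¹ y, rfl⟩
  rw [LinearMap.sub_apply, Γ.ρ_ρ_inv, LinearMap.smul_apply, End.one_apply, map_sub, B_smul hS] at this
  rw [map_sub, LinearMap.sub_apply, Γ.B_ρ_left, map_smul, LinearMap.smul_apply, smul_eq_mul]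
  linear_combination (-c) * this - Γ.B w (Γ.ρ g⁻¹ y) * hc

omit [DecidableEq ι] in
theorem good [Fintype F] (h2 : 2 ≤ Fintype.card ι) (h3 : Fintype.card F = 2 → 3 ≤ Fintype.card ι) :
    ∃ q : F[X], q.Monic ∧ q.natDegree = Fintype.card ι ∧ q.coeff 0 ≠ 0 ∧
      IsCoprime q (dag (RingHom.id F) q) :=
  have ⟨q, q1, q2, q3, q4, _⟩ := good_id h2 h3
  ⟨q, q1, q2, coeff_ne q3 (q2 ▸ h2), q4⟩

theorem b1a [Fintype F] (hS : Γ.IsSp) (Φ₀ : Fr Γ ι) (hM : finrank F V = 2 * Fintype.card ι)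
    (h2 : 2 ≤ Fintype.card ι) (h3 : Fintype.card F = 2 → 3 ≤ Fintype.card ι) {g : G}
    (h : Γ.TS (LinearMap.range (Γ.ρ g - (1 : F) • 1)))
    (h' : finrank F (LinearMap.range (Γ.ρ g - (1 : F) • 1)) ≤ 2) :
    ∃ a b : G, g = a * b * a⁻¹ * b⁻¹ := by
  obtain ⟨Φ, -, hN⟩ := exists_F1 Φ₀ g h (h'.trans h2) (.inl ⟨1, one_ne_zero, hS.τ_eq 1⟩)
  obtain ⟨q, q1, q2, q3, q4⟩ := good h2 h3
  obtain ⟨D, hD⟩ := exists_cyc q1 q2 q3
  refine fin0 Φ hM (l := 1) (Matrix.ext fun i j => ?_) (one_mul D) (.inl (IsConj.refl D))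
    (.inl (IsConj.refl D)) hD.1 (hS.σ_eq ▸ q4)
  rw [Fr.lm, of_apply, fix_of_perp hS (one_mul 1) fun x hx => Φ.ts_W.2 (Φ.e_mem j) x (hN hx),
    one_smul, Φ.ef, Units.val_one, one_apply]
  simp only [eq_comm]

theorem b1b [Fintype F] (hS : Γ.IsSp) (hF : ∀ c : F, c ≠ 0 → c = 1 ∨ c = -1) (h3 : (3 : F) = 0)
    (hc : Fintype.card F = 3) (Φ₀ : Fr Γ (Fin 2 ⊕ κ))
    (hM : finrank F V = 2 * Fintype.card (Fin 2 ⊕ κ)) {g : G}
    (h : Γ.TS (LinearMap.range (Γ.ρ g - (-1 : F) • 1)))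
    (h' : finrank F (LinearMap.range (Γ.ρ g - (-1 : F) • 1)) ≤ 2) :
    ∃ a b : G, g = a * b * a⁻¹ * b⁻¹ := by
  obtain ⟨Ψ₀, -, hN⟩ := exists_F1 (Φ₀.sub _ Sum.inl_injective) 1 h (by simpa using h')
    (.inl ⟨1, one_ne_zero, hS.τ_eq 1⟩)
  obtain ⟨Φ, he, -⟩ := exists_frame_ext Φ₀ Ψ₀ _ Sum.inl_injective
  rw [show Ψ₀.W = (Φ.sub _ Sum.inl_injective).W from
    congrArg (fun e => Submodule.span F (Set.range e)) (funext he).symm] at hN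
  obtain ⟨D, r, r1, r2, r3, -⟩ := oa23 (κ := Fin 2) hc (by simp)
  obtain ⟨n, k, n1, n2⟩ := sl2_neg h3
  have : Finite V := Module.finite_of_finite F
  have := Γ.finite
  obtain ⟨z, hz⟩ := Γ.full (-1) (fun x y => by simp) fun x => by simp [hS.Q_eq]
  have hb : ∀ s : SL(2, F), blk hS Φ (Sum.elim 1 fun _ => s) ∈ (Φ.sub _ Sum.inl_injective).Mid :=
    fun s => blk_mid hS Φ _ fun _ => rfl
  have hp : ∀ (s : SL(2, F)) (p : F[X]), aeval s.1 p = 0 → ∀ m ∈ (Φ.sub _ Sum.inl_injective).M,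
      aeval (Γ.ρ (blk hS Φ (Sum.elim 1 fun _ => s))) p m = 0 := fun s p h =>
    aeval_blk hS Φ hM _ fun i => i.rec (fun i => .inl ⟨i, rfl⟩) fun _ => .inr h
  generalize hΨ : Φ.sub _ Sum.inl_injective = Ψ at hN hb hp
  have hu : z * g ∈ Γ.R Ψ.W := by
    refine ⟨fun w hw => ?_, fun m _ => hN ⟨-m, ?_⟩⟩
    · rw [Γ.ρ_mul, fix_of_perp hS (by simp) fun x hx => Ψ.ts_W.2 hw x (hN hx), hz]
      simp
    · rw [Γ.ρ_mul, hz]
      simp [sub_eq_add_neg, add_comm]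
  rw [← hS.σ_eq] at r3
  have h1 := (Ψ.fpf_rel (.inl (IsConj.refl D)) (hb n) r1 (hp n _ (aeval_sl2 n))
    (hS.σ_eq ▸ good_sl2 hF r2 _)).1 _ ((Γ.R _).inv_mem hu)
  have h2 := (Ψ.isConj_rel r3 (hb n)).trans (Ψ.isConj_lev (IsConj.refl _) (hb n) (hb k) rfl)
  refine comm_top ?_ h2 h1
  have e1 : blk hS Φ (Sum.elim 1 fun _ => k) * blk hS Φ (Sum.elim 1 fun _ => n) *
      (blk hS Φ (Sum.elim 1 fun _ => k))⁻¹ =
      blk hS Φ (Sum.elim 1 fun _ => -1) * blk hS Φ (Sum.elim 1 fun _ => n) := by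
    rw [← map_inv, ← map_mul, ← map_mul, ← map_mul]
    refine congrArg _ (funext fun i => i.rec (fun _ => by simp) fun _ => ?_)
    change k * n * k⁻¹ = -1 * n
    conv_rhs => rw [← n1]
    simp
  have e2 : z = Ψ.lev (-1) * blk hS Φ (Sum.elim 1 fun _ => -1) := by
    refine Ψ.ext' (fun u => ?_) (fun u => ?_) fun m hm => ?_
    · rw [hz, Γ.ρ_mul, Ψ.mid_E (hb _), Ψ.lev_E]
      simp [neg_mulVec]
    · rw [hz, Γ.ρ_mul, Ψ.mid_E' (hb _), Ψ.lev_E', shp_val]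
      simp [neg_mulVec, Matrix.map_neg, Matrix.map_one]
    · have := hp (-1) (X + 1) (by simp) m hm
      rw [map_add, aeval_X, map_one, LinearMap.add_apply, End.one_apply, add_eq_zero_iff_eq_neg]
        at this
      rw [hz, Γ.ρ_mul, this, map_neg, Ψ.lev_M _ hm]
      rfl
  have e3 : z * z = 1 := Γ.inj (by rw [map_mul, hz, map_one]; simp)
  rw [e1, ← neg_one_mul D, map_mul Ψ.lev, mul_assoc (Ψ.lev _), ← mul_assoc (Ψ.lev D),
    Ψ.lev_comm D (hb _), mul_assoc _ (Ψ.lev D), ← mul_assoc (Ψ.lev _), ← e2,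
    _root_.mul_inv_rev, inv_inv, mul_assoc, mul_inv_cancel_left, ← mul_assoc, e3, one_mul]

theorem b2 [Finite F] (hS : Γ.IsSp) (hF : ∀ c : F, c ≠ 0 → c = 1 ∨ c = -1) (Φ₀ : Fr Γ (Option κ))
    (hM : finrank F V = 2 * Fintype.card (Option κ)) {g : G} {c : F} (hc : c = 1 ∨ c = -1)
    {e f : V} (h1 : Γ.B e f = 1) (h2 : ∀ v, Γ.B v e = 0 → Γ.B v f = 0 → Γ.ρ g v = c • v)
    (h3 : ∀ x y : F, Γ.B (x • e + y • f) (Γ.ρ g (x • e + y • f)) = 0 → x = 0 ∧ y = 0) :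
    ∃ a b : G, g = a * b * a⁻¹ * b⁻¹ := by
  obtain ⟨Φ, he, hf⟩ := exists_frame_ext Φ₀ (κ := Unit) ⟨fun _ => e, fun _ => f,
    fun _ => hS.Q_eq _, fun _ => hS.Q_eq _, fun _ _ => Γ.B_self _ (hS.Q_eq _),
    fun _ _ => Γ.B_self _ (hS.Q_eq _), fun _ _ => h1⟩ (fun _ => none) fun _ _ _ => rfl
  obtain rfl : Φ.e none = e := he ()
  obtain rfl : Φ.f none = f := hf ()
  have g1 : ∀ i, Γ.ρ g (Φ.e (some i)) = c • Φ.e (some i) := fun i =>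
    h2 _ (Φ.ee _ _) (by simp [Φ.ef])
  have g2 : ∀ i, Γ.ρ g (Φ.f (some i)) = c • Φ.f (some i) := fun i =>
    h2 _ (by simp [Φ.fe]) (Φ.ff _ _)
  have c0 : c ≠ 0 := by rcases hc with rfl | rfl <;> simp
  have k : ∀ v ∈ Φ.tl.M, Γ.ρ g v ∈ Φ.tl.M := fun v hv => Φ.tl.mem_M.2
    ⟨fun i => mul_left_cancel₀ c0 (by
      rw [← B_smul hS, mul_zero]; exact g2 i ▸ (Γ.ρB g _ _).trans ((Φ.tl.mem_M.1 hv).1 i)),
    fun i => mul_left_cancel₀ c0 (by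
      rw [← B_smul hS, mul_zero]; exact g1 i ▸ (Γ.ρB g _ _).trans ((Φ.tl.mem_M.1 hv).2 i))⟩
  obtain ⟨s, s1, s2⟩ := exists_sl2 hS Φ hM (k _ Φ.e_mem_tl) (k _ Φ.f_mem_tl)
  have tr : s.1.trace = 3 := by
    by_contra hne
    obtain ⟨t, ht⟩ := tr3 hF hne
    have form : ∀ x y : F, s 1 0 * x ^ 2 + (s 1 1 - s 0 0) * x * y - s 0 1 * y ^ 2 = 0 →
        x = 0 ∧ y = 0 := fun x y h => h3 x y (by
      simp only [s1, s2, map_add, LinearMap.add_apply, map_smul, LinearMap.smul_apply, B_smul hS,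
        Φ.ee, Φ.ff, Φ.ef, Φ.fe, hS.ε_eq, smul_eq_mul, if_true]
      linear_combination h)
    rw [trace_fin_two] at ht
    have := (form (t - s 1 1) (s 1 0) (by linear_combination s 1 0 * (ht + det2 s))).2
    exact one_ne_zero (form 1 0 (by rw [this]; ring)).1
  obtain ⟨c', c1, c2⟩ : ∃ c' : SL(2, F), (c' = 1 ∨ c' = -1) ∧ c'.1 = c • 1 := by
    rcases hc with rfl | rfl
    exacts [⟨1, .inl rfl, by simp⟩, ⟨-1, .inr rfl, by simp⟩]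
  have e := eq_blk hS Φ hM (g := g) (s := fun i => i.elim s fun _ => c')
    (fun i => i.rec s1 fun i => by simp [g1, c2]) fun i => i.rec s2 fun i => by simp [g2, c2]
  choose a k h using fun i : Option κ => sl2 hF (s := i.elim s fun _ => c')
    (i.rec (.inr (.inr tr)) fun _ => c1.imp_right .inl)
  refine ⟨blk hS Φ a, blk hS Φ k, ?_⟩
  rw [e, ← map_inv, ← map_inv, ← map_mul, ← map_mul, ← map_mul]
  refine congrArg _ (funext fun i => ?_)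
  rw [eq_mul_inv_of_mul_eq (h i)]
  simp [mul_assoc]

theorem a2 [Finite F] (hS : Γ.IsSp) (hF : ∀ c : F, c ≠ 0 → c = 1 ∨ c = -1) (Φ : Fr Γ (Option κ))
    (hM : finrank F V = 2 * Fintype.card (Option κ)) {g : G} {l : GL (Option κ) F}
    (hl : Φ.lm g = l.1) {z₁ z : Option κ → F} (hz : Γ.ρ g (Φ.E z₁) = Φ.E z) (z0 : z none = 0)
    (z1 : z₁ none = 1) {A B : GL κ F} (hAB : Φ.tl.lm g * B.1 = A.1) (hB : IsConj A B) {q : F[X]}
    (hq : aeval A.1 q = 0) (hc : IsCoprime q (dag (RingHom.id F) q)) :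
    ∃ a b : G, g = a * b * a⁻¹ * b⁻¹ := by
  have hl0 : Φ.tl.lm g = (A * B⁻¹).1 := by rw [Units.val_mul, ← hAB, Units.mul_inv_cancel_right]
  have tW : ∀ w, Φ.tl.E w = Φ.E fun i => i.elim 0 w := fun w => by rw [Φ.E_opt]; simp
  have pW : ∀ u, Φ.E u ∈ Γ.perp Φ.tl.W := fun u => Φ.tl.mem_perp_W.2 fun i =>
    Φ.ts_W.2 (Φ.E_mem u) _ (Φ.e_mem _)
  have p0 : ∀ u, Φ.tl.π₀ (Φ.E u) = u none • Φ.e none := fun u => by
    rw [Φ.E_opt, map_add, Fr.π₀_E, add_zero, map_smul, Φ.tl.π₀_of_M Φ.e_mem_tl]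
  obtain ⟨w, hw⟩ := Φ.tl.exists_perp (hl0 ▸ (A * B⁻¹).isUnit) (Φ.e none)
  obtain ⟨u, hu, u1⟩ : ∃ u, Φ.e none + Φ.tl.E w = Φ.E u ∧ u none = 1 :=
    ⟨fun i => i.elim 1 w, by rw [Φ.E_opt]; simp, rfl⟩
  rw [hu] at hw
  obtain ⟨α, γ, h1⟩ := span2 Φ hM (Φ.tl.π₀_mem (Γ.ρ g (Φ.E u)))
  obtain ⟨w', κ', w1, w2, w3⟩ : ∃ (w' : V) (κ' : F), w' ∈ Γ.perp Φ.tl.swap.W ∧
      Φ.tl.π₀ w' = κ' • Φ.f none ∧ ∀ u, Γ.B (Γ.ρ g (Φ.E u)) w' = u none := by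
    refine ⟨Φ.swap.E ((shp Γ.σ l).1 *ᵥ Pi.single none 1), _, Φ.tl.swap.mem_perp_W.2 fun i =>
      Φ.swap.ts_W.2 (Φ.swap.E_mem _) _ (Φ.swap.e_mem _), by
        rw [Φ.E'_opt, map_add, Fr.π₀_E', add_zero, map_smul, Φ.tl.π₀_of_M Φ.f_mem_tl],
      fun u => ?_⟩
    rw [Φ.decomp (Γ.ρ g _), M_zero Φ hM (Φ.π₀_mem _), add_zero, map_add, LinearMap.add_apply,
      Φ.swap.B_E_E, add_zero, Φ.B_E_E', ← Φ.lm_mulVec, hl, Fr.dot_shp]
    simp [σ_apply hS]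
  have k1 : ∀ u, Γ.B (Φ.E u) (Γ.ρ g⁻¹ w') = u none := fun u => by rw [← Γ.B_ρ_left, w3]
  have k2 : Γ.ρ g⁻¹ w' ∈ Γ.perp Φ.tl.W := Φ.tl.mem_perp_W.2 fun i => Γ.B_comm.1 (by
    rw [show Φ.tl.e i = _ from (Φ.E_single (some i)).symm, k1]; simp)
  obtain ⟨d₀, c₀, h2⟩ := span2 Φ hM (Φ.tl.π₀_mem (Γ.ρ g⁻¹ w'))
  obtain rfl : c₀ = 1 := by
    have := Φ.tl.B_π₀ (pW u) k2
    simpa [p0, h2, k1, u1, B_smul hS, Φ.ee, Φ.ef] using this
  obtain ⟨d, hd⟩ : ∃ d, γ = 0 ∧ d = 0 ∨ α + (κ' - d * γ) = 3 := by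
    by_cases h : γ = 0
    · exact ⟨0, .inl ⟨h, rfl⟩⟩
    · exact ⟨(α + κ' - 3) / γ, .inr (by field_simp; ring)⟩
  obtain ⟨T, hT⟩ := Γ.full (1 + (d₀ - d) • (Γ.B.flip (Φ.E z)).smulRight (Φ.E z)) (fun x y => by
    simp only [LinearMap.add_apply, End.one_apply, LinearMap.smul_apply, LinearMap.smulRight_apply,
      LinearMap.flip_apply, map_add, map_smul, B_smul hS, Φ.B_E_E, smul_eq_mul,
      B_skew hS y (Φ.E z)]
    ring) fun _ => by rw [hS.Q_eq, hS.Q_eq]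
  have T1 : ∀ v, Γ.ρ T v = v + (d₀ - d) • Γ.B v (Φ.E z) • Φ.E z := fun v => by rw [hT]; rfl
  have gE : ∀ u, Γ.ρ (T⁻¹ * g * T) (Φ.E u) = Γ.ρ g (Φ.E u) := fun u => by
    rw [Γ.ρ_mul, Γ.ρ_mul, T1, Φ.B_E_E, zero_smul, smul_zero, add_zero]
    refine Γ.ρ_inj T ?_
    rw [Γ.ρ_ρ_inv, T1, ← hz, Γ.ρB, Φ.B_E_E, zero_smul, smul_zero, add_zero]
  have gk : Γ.ρ (T⁻¹ * g * T) (Γ.ρ g⁻¹ w' - (d₀ - d) • Φ.E z₁) = w' := by
    rw [Γ.ρ_mul, Γ.ρ_mul, T1, map_sub Γ.B, LinearMap.sub_apply, B_skew hS, k1, map_smul,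
      LinearMap.smul_apply, Φ.B_E_E, z0, smul_zero, neg_zero, sub_zero, zero_smul, smul_zero,
      add_zero]
    refine Γ.ρ_inj T ?_
    rw [Γ.ρ_ρ_inv, T1, B_skew hS, ← hz, w3, z1, map_sub, Γ.ρ_ρ_inv, map_smul]
    module
  obtain ⟨v, hv, s, hs, u', hu', e⟩ := Φ.tl.gauss (T⁻¹ * g * T) (A * B⁻¹) (by
    rw [← hl0]
    ext i j
    exact congrArg (Γ.B · _) (by
      rw [show Φ.tl.e j = _ from (Φ.E_single (some j)).symm, gE]))
  have s1 := Φ.tl.gauss_mid hv hs hu' e (pW u) (by rwa [gE])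
  have s2 := Φ.tl.gauss_mid hv hs hu' e (sub_mem k2 (Submodule.smul_mem _ (d₀ - d) (pW z₁)))
    (by rwa [gk])
  obtain ⟨sb, b1, b2⟩ := exists_sl2 hS Φ hM (Φ.tl.mid_M hs Φ.e_mem_tl) (Φ.tl.mid_M hs Φ.f_mem_tl)
  rw [p0, u1, one_smul, gE, h1, b1] at s1
  rw [gk, w2, map_sub, map_smul, p0, h2, z1] at s2
  obtain ⟨a1, a2⟩ := coef Φ s1
  obtain ⟨a3, a4⟩ := coef Φ (i := none) (a := d * α + sb 0 1) (b := d * γ + sb 1 1) (c := 0)
    (d := κ') (by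
      rw [zero_smul, zero_add, ← s2]
      simp only [map_sub, map_add, map_smul, b1, b2, a1, a2]
      module)
  obtain ⟨a, k, hak⟩ := sl2 hF (s := sb) (by
    rcases hd with ⟨rfl, rfl⟩ | hd
    · have := det2 sb
      rw [zero_mul, zero_add] at a3
      rw [a3, zero_mul, sub_zero] at this
      rcases hF _ (left_ne_zero_of_mul_eq_one this) with h | h <;> rw [h] at this
      · refine .inl (Subtype.ext (Matrix.ext fun i j => ?_))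
        have h' : sb 1 1 = 1 := by linear_combination this
        fin_cases i <;> fin_cases j <;> simp [h, a2, a3, h']
      · refine .inr (.inl (Subtype.ext (Matrix.ext fun i j => ?_)))
        have h' : sb 1 1 = -1 := by linear_combination -this
        fin_cases i <;> fin_cases j <;> simp [h, a2, a3, h']
    · refine .inr (.inr ?_)
      rw [trace_fin_two]
      linear_combination hd + a1 + a4)
  have es := eq_blk hS Φ hM (g := s) (s := fun i => i.elim sb 1)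
    (fun i => i.rec b1 fun i => (hs.1 i).trans (by simp [Fr.sub]))
    fun i => i.rec b2 fun i => (hs.2 i).trans (by simp [Fr.sub])
  have : Finite V := Module.finite_of_finite F
  have := Γ.finite
  obtain ⟨x, y, e, hx, hy⟩ := Φ.tl.main1 hv hu' e
    (blk_mid hS Φ _ (s := fun i => i.elim a 1) fun _ => rfl)
    (blk_mid hS Φ _ (s := fun i => i.elim k 1) fun _ => rfl) (inv_mul_cancel_right A B) (by
      rw [es, ← map_inv, ← map_mul, ← map_mul, ← map_mul]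
      exact congrArg _ (funext fun i => i.rec hak fun _ => by simp))
    (.inl (IsConj.refl A)) (.inl hB) hq
    (aeval_blk hS Φ hM _ fun i => i.rec (.inr (aeval_sl2 a)) fun i => .inl ⟨i, rfl⟩)
    (hS.σ_eq ▸ good_sl2 hF hc _)
  refine comm_top (x := T * x * T⁻¹) (y := T * y * T⁻¹) ?_ (hx.trans (isConj_iff.2 ⟨T, rfl⟩))
    (hy.trans (isConj_iff.2 ⟨T, rfl⟩))
  rw [show g = T * (T⁻¹ * g * T) * T⁻¹ by group, e]
  group

theorem a1 [Fintype F] (hS : Γ.IsSp) (hF : ∀ c : F, c ≠ 0 → c = 1 ∨ c = -1) (Φ₀ : Fr Γ (Option κ))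
    (hM : finrank F V = 2 * Fintype.card (Option κ)) (h2 : 2 ≤ Fintype.card κ)
    (h3 : Fintype.card F = 2 → 3 ≤ Fintype.card κ) {g : G} {x : V} (h0 : Γ.B x (Γ.ρ g x) = 0)
    (hx : ∀ c : F, Γ.ρ g x ≠ c • x) : ∃ a b : G, g = a * b * a⁻¹ * b⁻¹ := by
  obtain ⟨Φ, ⟨l, hl⟩, hX⟩ := exists_F1 Φ₀ g (Γ.ts_span (e := ![x, Γ.ρ g x]) (fun _ => hS.Q_eq _)
    fun i j => by
      fin_cases i <;> fin_cases j <;> simp [Γ.B_self _ (hS.Q_eq _), h0, Γ.B_comm.1 h0])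
    ((finrank_range_le_card _).trans (by simp; omega)) (.inl ⟨1, one_ne_zero, hS.τ_eq 1⟩)
  obtain ⟨z₁, rfl⟩ := Φ.mem_W.1 (hX (Submodule.subset_span ⟨0, rfl⟩))
  obtain ⟨z, hz⟩ := Φ.mem_W.1 (hX (Submodule.subset_span ⟨1, rfl⟩))
  change Φ.E z = Γ.ρ g (Φ.E z₁) at hz
  have lz : l.1 *ᵥ z₁ = z := by rw [hl, Φ.lm_mulVec, ← hz, Φ.π_E]
  obtain ⟨f, f1, f2⟩ := Submodule.exists_dual_map_eq_bot_of_notMem (x := z₁)
    (p := Submodule.span F {z}) (fun h => by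
      obtain ⟨c, hc⟩ := Submodule.mem_span_singleton.1 h
      rcases eq_or_ne c 0 with rfl | c0
      · exact hx 0 (by rw [← hc]; simp)
      · exact hx c⁻¹ (by rw [← hz, ← hc, map_smul, inv_smul_smul₀ c0])) inferInstance
  obtain ⟨φ, φ1, φ2⟩ : ∃ φ : Option κ → F, φ ⬝ᵥ z = 0 ∧ φ ⬝ᵥ z₁ = 1 := by
    have k : ∀ v, (fun i => (f z₁)⁻¹ * f (Pi.single i 1)) ⬝ᵥ v = (f z₁)⁻¹ * f v := fun v => by
      rw [f.pi_apply_eq_sum_univ v, Finset.mul_sum]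
      refine Finset.sum_congr rfl fun i _ => ?_
      rw [smul_eq_mul, mul_assoc, mul_comm (v i)]
      congr 3
      ext j
      simp [Pi.single_apply, eq_comm]
    exact ⟨_, by rw [k, show f z = 0 from (Submodule.mem_bot F).1 (f2 ▸ Submodule.mem_map_of_mem
      (Submodule.mem_span_singleton_self z)), mul_zero], by rw [k, inv_mul_cancel₀ f1]⟩
  obtain ⟨q, q1, q2, q3, q4⟩ := good h2 h3
  obtain ⟨P, A, B, hP, hA, hB, e⟩ := bnB l φ ⟨l⁻¹.1 *ᵥ z₁ - (φ ⬝ᵥ l⁻¹.1 *ᵥ z₁) • z₁, by simp [φ2], by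
    rw [mulVec_sub, mulVec_smul, lz, mulVec_mulVec, Units.mul_inv, one_mulVec, dotProduct_sub,
      dotProduct_smul, φ1, φ2, smul_zero, sub_zero]
    exact one_ne_zero⟩ q1 q2 q3
  have hE : ∀ u, (Φ.reb P).E (P⁻¹.1 *ᵥ u) = Φ.E u := fun u => by
    rw [Φ.reb_E, mulVec_mulVec, Units.mul_inv, one_mulVec]
  have hφ : ∀ u, (P⁻¹.1 *ᵥ u) none = φ ⬝ᵥ u := fun u => by
    rw [← single_one_dotProduct none (P⁻¹.1 *ᵥ u), ← hP, ← dotProduct_mulVec, mulVec_mulVec, Units.mul_inv, one_mulVec]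
  have hl' : (Φ.reb P).lm g = (P⁻¹ * l * P).1 := by rw [Φ.reb_lm, ← hl]; rfl
  exact a2 hS hF (Φ.reb P) hM hl' (z₁ := P⁻¹.1 *ᵥ z₁) (z := P⁻¹.1 *ᵥ z) (by rw [hE, hE, hz])
    (by rw [hφ, φ1]) (by rw [hφ, φ2]) (by rw [Fr.tl_lm, hl', e]) (hA.isConj q1 q2 hB) hA.1 q4

end SpS

open SpS

theorem sp_small_main [Finite F] (hS : Γ.IsSp) (hF : ∀ c : F, c ≠ 0 → c = 1 ∨ c = -1) {m : ℕ} (Φ₀ : Fr Γ (Fin m))
    (hM : finrank F V = 2 * m) (h2 : 2 ≤ m) (h3 : m = 2 → (2 : F) ≠ 0) (g : G) :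
    ∃ a b : G, g = a * b * a⁻¹ * b⁻¹ := by
  have := Fintype.ofFinite F
  obtain ⟨d, rfl⟩ : ∃ d, m = d + 1 + 1 := ⟨m - 2, by omega⟩
  have Φ₁ := Φ₀.sub _ (finSuccEquiv (d + 1)).symm.injective
  have hM0 : finrank F V = 2 * Fintype.card (Fin (d + 1 + 1)) := by simpa using hM
  have hM1 : finrank F V = 2 * Fintype.card (Option (Fin (d + 1))) := by simpa using hM
  have h4 : Fintype.card F = 2 → 1 ≤ d := fun h => Nat.pos_of_ne_zero fun e =>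
    (card23 hF).elim (fun c => h3 (by omega) c.1) fun c => by omega
  rcases sp_small hS hF g with ⟨x, x1, x2⟩ | ⟨c, hc, ⟨h, h'⟩ | ⟨e, f, e1, e2, e3⟩⟩
  · by_cases h5 : Fintype.card F = 2 ∧ d = 1
    · obtain ⟨Φ, ⟨l, hl⟩, -⟩ := exists_F1 Φ₀ g (X := ⊥) ⟨fun _ _ => hS.Q_eq _, bot_le⟩ (by simp)
        (.inl ⟨1, one_ne_zero, hS.τ_eq 1⟩)
      obtain ⟨D, r, r1, r2, r3⟩ := oa32 (κ := Fin (d + 1 + 1)) h5.1 (by simp [h5.2])
      rw [← hS.σ_eq] at r2 r3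
      obtain ⟨A, B, hA, hB, e⟩ := r3 l
      exact fin0 Φ hM0 hl.symm e hA hB r1 r2
    rcases Nat.eq_zero_or_pos d with rfl | d0
    · obtain ⟨Φ, l, hl, l1, -⟩ := sp_adj hS Φ₁ g fun c e => x2 c (by rw [e]; rfl)
      obtain ⟨D, r, r1, r2, -, r3⟩ := oa23 (F := F) (κ := Option (Fin (0 + 1)))
        ((card23 hF).elim (fun c => absurd (h4 c.2) (by omega)) And.right) (by simp)
      rw [← hS.σ_eq] at r2 r3
      obtain ⟨A, B, hA, hB, e⟩ := r3 l l1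
      exact fin0 Φ hM1 hl e hA hB r1 r2
    · exact a1 hS hF Φ₁ hM1 (by simp; omega) (fun h => by simp; omega) x1 x2
  · have k := fun (e : c = 1) => b1a hS Φ₀ hM0 (by simp) (fun h => by have := h4 h; simp; omega)
      (e ▸ h) (e ▸ h')
    rcases hc with hc | rfl
    · exact k hc
    rcases card23 hF with c | c
    · exact k (by linear_combination -c.1)
    · exact b1b hS hF c.1 c.2 (Φ₀.sub _ (finSumFinEquiv.trans (finCongr (by omega)) :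
        Fin 2 ⊕ Fin d ≃ _).injective) (by simp; omega) h h'
  · exact b2 hS hF Φ₁ hM1 hc e1 e2 e3

end Cfsg.Agent.H65.Ore
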