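import Cfsg.Agent.H65.OreAdj
import Cfsg.Agent.H65.OreEx2

set_option autoImplicit false

/-! Project ORE: unitary groups, normalising the Levi component. -/

namespace Cfsg.Agent.H65.Ore

open Polynomial Matrix Module

variable {F V G : Type*} [Field F] [AddCommGroup V] [Module F V] [Group G] [FiniteDimensional F V]
  {Γ : Geo F V G} {ι κ : Type*} [Fintype ι] [DecidableEq ι] [Fintype κ] [DecidableEq κ]

theorem eq_one_of_det {U : Type*} [AddCommGroup U] [Module F U] [FiniteDimensional F U] (h : finrank F U ≤ 1)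
    {T : End F U} (hT : LinearMap.det T = 1) : T = 1 := by
  obtain ⟨v, hv⟩ := finrank_le_one_iff.1 h
  obtain ⟨c, hc⟩ := hv (T v)
  have e : T = c • (1 : End F U) := LinearMap.ext fun w => by
    obtain ⟨d, rfl⟩ := hv w
    rw [map_smul, ← hc, LinearMap.smul_apply, End.one_apply, smul_comm]
  rcases Nat.le_one_iff_eq_zero_or_eq_one.1 h with h0 | h1
  · have := finrank_zero_iff.1 h0
    exact Subsingleton.elim _ _
  · rw [e, LinearMap.det_smul, h1, map_one, pow_one, mul_one] at hT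
    rw [e, hT, one_smul]

theorem Fr.mid_eq_one (Φ : Fr Γ ι) (hM : finrank F Φ.M ≤ 1) {s : G} (hs : s ∈ Φ.Mid)
    (h : LinearMap.det (Γ.ρ s) = 1) : s = 1 := by
  have := eq_one_of_det hM ((Φ.det_mid ⟨s, hs⟩).symm.trans h)
  exact congrArg Subtype.val (Φ.mid.inj (this.trans (map_one _).symm))

/-- A scalar on a one-dimensional middle. -/
theorem Fr.exists_mid_scalar (Φ : Fr Γ ι) {c : F} (hc : c * Γ.σ c = 1) :
    ∃ a ∈ Φ.Mid, (∀ m ∈ Φ.M, Γ.ρ a m = c • m) ∧ LinearMap.det (Γ.ρ a) = c ^ finrank F Φ.M := by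
  obtain ⟨a, ha, e⟩ := Φ.exists_mid (c • 1) (fun m hm => Φ.M.smul_mem c hm) (fun m _ m' _ => by
    simp [← mul_assoc, mul_comm _ c, hc]) fun m _ => by simp [Γ.Q_smul, hc]
  refine ⟨a, ha, e, ?_⟩
  have : Φ.midρ ⟨a, ha⟩ = c • 1 := LinearMap.ext fun m => Subtype.ext (e m m.2)
  rw [Φ.det_mid ⟨a, ha⟩, this, LinearMap.det_smul, map_one, mul_one]

theorem u_adj [Finite F] {q : ℕ} (hU : Γ.IsU q) (Φ : Fr Γ (Option κ)) (hM : finrank F Φ.M ≤ 1) {g : G}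
    (hd : LinearMap.det (Γ.ρ g) = 1) (hl : IsUnit (Φ.lm g)) {u : Option κ → F}
    (hu : Φ.lm g *ᵥ u = Pi.single none 1) (hb : Γ.B (Γ.ρ g (Φ.E u)) (Φ.e none) ≠ 0) :
    ∃ (Ψ : Fr Γ (Option κ)) (l : GL (Option κ) F) (d : F), d ≠ 0 ∧ l.1 *ᵥ u = d • Pi.single none 1 ∧ l.1.det = 1 ∧
      ∃ v ∈ Γ.R Ψ.swap.W, ∃ w ∈ Γ.R Ψ.W, g = v * Ψ.lev l * 1 * w := by
  set y := Γ.ρ g (Φ.E u) with hy
  set b := Γ.B y (Φ.e none)
  set δ := (Φ.lm g).det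
  have hδ : δ ≠ 0 := ((isUnit_iff_isUnit_det _).1 hl).ne_zero
  have hb' : Γ.σ b ≠ 0 := by rwa [Ne, Γ.σ_eq_zero]
  have πy : Φ.π y = Pi.single none 1 := by rw [hy, ← Fr.lm_mulVec, hu]
  have π'y : Φ.swap.π y none = b := by
    change Γ.B y (Γ.ε • Φ.e none) = _
    rw [hU.ε_eq, one_smul]
  have sy : ∀ x z, Γ.B x z = Γ.σ (Γ.B z x) := fun x z => by rw [Γ.symm, hU.ε_eq, one_mul]
  have Qy : Γ.σ b + b + Γ.Q (Φ.π₀ y) = 0 := by
    have : Γ.Q y = 0 := by rw [hy, Γ.ρQ]; exact Φ.ts_W.1 _ (Φ.E_mem u)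
    rwa [Φ.decomp y, Φ.Q_sum _ _ (Φ.π₀_mem y), πy, single_dotProduct, one_mul, π'y, hU.τ_eq, Γ.σσ] at this
  have By : ∀ n ∈ Φ.M, Γ.B y n = Γ.B (Φ.π₀ y) n := fun n hn => by
    conv_lhs => rw [Φ.decomp y]
    simp only [map_add, LinearMap.add_apply, Γ.B_comm.1 (Φ.B_M_E hn _), Γ.B_comm.1 (Φ.B_M_E' hn _), zero_add]
  have σQ : ∀ x, Γ.σ (Γ.Q x) = Γ.Q x := fun x => by rw [hU.Q_eq, ← sy]
  obtain ⟨n', hn', e'⟩ : ∃ n' ∈ Φ.M, Γ.Q n' = b⁻¹ * (Γ.σ b)⁻¹ * Γ.Q (Φ.π₀ y) -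
      (b⁻¹ * (δ⁻¹ - 1) + (Γ.σ b)⁻¹ * ((Γ.σ δ)⁻¹ - 1)) := by
    by_cases h0 : Φ.M = ⊥
    · obtain ⟨l, hl⟩ := hl
      obtain ⟨v, hv, s, hs, w, hw, e⟩ := Φ.gauss g l hl.symm
      have := Φ.det_gauss hv hw e
      rw [hd, Φ.mid_eq hs Φ.Mid.one_mem (by simp [h0]), map_one, map_one, mul_one, hl, eq_comm,
        mul_inv_eq_one₀ (by rwa [Ne, Γ.σ_eq_zero])] at this
      have h1 : Φ.π₀ y = 0 := by simpa [h0] using Φ.π₀_mem y
      rw [h1, Γ.Q_zero, add_zero] at Qy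
      refine ⟨0, zero_mem _, ?_⟩
      rw [h1, Γ.Q_zero, ← show δ = _ from this, eq_neg_of_add_eq_zero_left Qy]; ring
    · obtain ⟨m, hm, hm0⟩ := (Submodule.ne_bot_iff _).1 h0
      have hQ : Γ.Q m ≠ 0 := fun h => hm0 (Φ.nondeg_M hm fun z hz => by
        obtain ⟨v, hv⟩ := finrank_le_one_iff.1 hM
        obtain ⟨c, hc⟩ := hv ⟨m, hm⟩
        obtain ⟨d, hd⟩ := hv ⟨z, hz⟩
        have hc' : m = c • (v : V) := congrArg Subtype.val hc.symm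
        have hc0 : c ≠ 0 := by rintro rfl; exact hm0 (by simpa using hc')
        have : z = (d * c⁻¹) • m := by
          rw [hc', smul_smul, inv_mul_cancel_right₀ hc0]; exact congrArg Subtype.val hd.symm
        rw [this, LinearMap.map_smulₛₗ, ← hU.Q_eq, h, smul_zero])
      obtain ⟨x, hx⟩ := hU.norm_surj (c := (b⁻¹ * (Γ.σ b)⁻¹ * Γ.Q (Φ.π₀ y) -
        (b⁻¹ * (δ⁻¹ - 1) + (Γ.σ b)⁻¹ * ((Γ.σ δ)⁻¹ - 1))) / Γ.Q m) (by simp [σQ, Γ.σσ]; ring)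
      exact ⟨x • m, Φ.M.smul_mem x hm, by rw [Γ.Q_smul, hx, div_mul_cancel₀ _ hQ]⟩
  have hn : n' + b⁻¹ • Φ.π₀ y ∈ Φ.M := add_mem hn' (Φ.M.smul_mem _ (Φ.π₀_mem y))
  set t := Γ.σ (b⁻¹ * (δ⁻¹ - 1 - Γ.B (Φ.π₀ y) (n' + b⁻¹ • Φ.π₀ y))) with ht
  have hs : Γ.Q (Φ.f none + (n' + b⁻¹ • Φ.π₀ y) + t • Φ.e none) = 0 := by
    have h1 := Φ.Q_sum (Pi.single none t) (Pi.single none 1) hn
    rw [show (Pi.single none t : Option κ → F) = t • Pi.single none 1 by rw [← Pi.single_smul]; simp, map_smul,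
      Φ.E_single, Φ.swap.E_single] at h1
    rw [add_right_comm, add_comm (Φ.f none)]
    refine h1.trans ?_
    rw [Γ.Q_add, Γ.Q_smul, e', hU.τ_eq, hU.τ_eq, ht, sy n']
    simp [Γ.σσ, ← hU.Q_eq, σQ]
    ring
  obtain ⟨e1, e2⟩ := Φ.adj_lm hn hs hl hu
  have e3 : Γ.B y (Φ.f none + (n' + b⁻¹ • Φ.π₀ y) + t • Φ.e none) = δ⁻¹ := by
    rw [map_add, map_add, By _ hn, ← Φ.π_apply, πy, LinearMap.map_smulₛₗ, ht, Γ.σσ, Pi.single_eq_same, smul_eq_mul]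
    change _ + _ * b = _
    field_simp
    ring
  rw [e3] at e1 e2
  rw [inv_mul_cancel₀ hδ] at e1
  obtain ⟨l, hl'⟩ := (isUnit_iff_isUnit_det _).2 (e1 ▸ isUnit_one)
  obtain ⟨v, hv, s, hs', w, hw, e⟩ := (Φ.adj hn hs).gauss g l hl'.symm
  have := (Φ.adj hn hs).det_gauss hv hw e
  rw [hd, hl', e1, map_one, inv_one, one_mul, one_mul] at this
  have hM' : finrank F (Φ.adj hn hs).M ≤ 1 := by
    have := finrank_M Φ; have := finrank_M (Φ.adj hn hs); omega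
  rw [(Φ.adj hn hs).mid_eq_one hM' hs' this.symm] at e
  exact ⟨_, l, δ⁻¹, inv_ne_zero hδ, hl' ▸ e2, hl' ▸ e1, v, hv, w, hw, e⟩

end Cfsg.Agent.H65.Ore
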