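import Cfsg.Agent.H65.OreU1
import Cfsg.Agent.H65.OreOA
import Cfsg.Agent.H65.OreOA34
import Cfsg.Agent.H66.OreSp0

set_option autoImplicit false

/-! Project ORE: unitary groups over the field with four elements. -/

namespace Cfsg.Agent.H65.Ore

open Polynomial Matrix Module

variable {F V G : Type*} [Field F] [AddCommGroup V] [Module F V] [Group G] [FiniteDimensional F V]
  {Γ : Geo F V G}

namespace U2Aux

variable {ι κ : Type*} [Fintype ι] [DecidableEq ι] [Fintype κ] [DecidableEq κ]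

omit [FiniteDimensional F V] in
theorem cube [Finite F] (hU : Γ.IsU 2) {c : F} (hc : c ≠ 0) : c ^ 3 = 1 := by
  have := Fintype.ofFinite F
  have h := FiniteField.pow_card_sub_one_eq_one c hc
  rwa [← Nat.card_eq_fintype_card, hU.card] at h

omit [FiniteDimensional F V] in
theorem nrm [Finite F] (hU : Γ.IsU 2) {c : F} (hc : c ≠ 0) : c * Γ.σ c = 1 := by
  rw [hU.σ_eq, ← pow_succ', cube hU hc]

omit [FiniteDimensional F V] in
theorem det_conj {D x : G} (h : IsConj D x) : LinearMap.det (Γ.ρ x) = LinearMap.det (Γ.ρ D) :=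
  (isConj_iff_eq.1 ((LinearMap.det.comp Γ.ρ).map_isConj h)).symm

omit [FiniteDimensional F V] in
theorem aeval_conj {D x : G} (h : IsConj D x) {p : F[X]} (hp : aeval (Γ.ρ D) p = 0) :
    aeval (Γ.ρ x) p = 0 := by
  obtain ⟨k, rfl⟩ := isConj_iff.1 h
  refine LinearMap.ext fun v => ?_
  rw [← Γ.ρ_ρ_inv k v, ← aeval_semiconj (Γ.ρ k) (A := Γ.ρ D) (fun x => by
    rw [Γ.ρ_mul, Γ.ρ_mul, Γ.ρ_inv_ρ]), hp, LinearMap.zero_apply, map_zero, LinearMap.zero_apply]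

theorem fin [Finite F] (hU : Γ.IsU 2) (Φ : Fr Γ ι) {D : GL ι F} {r : F[X]} (r1 : r.Monic)
    (r2 : r.natDegree = Fintype.card ι) (r3 : Irreducible r) (hD : Cyc D.1 r) {a : G}
    (ha : a ∈ Φ.Mid) (hd : LinearMap.det (Γ.ρ (Φ.lev D * a)) = 1) {g x y : G} (e : g = x * y⁻¹)
    (hx : IsConj (Φ.lev D * a) x) (hy : IsConj (Φ.lev D * a) y) :
    ∃ a b : G, LinearMap.det (Γ.ρ a) = 1 ∧ LinearMap.det (Γ.ρ b) = 1 ∧
      g = a * b * a⁻¹ * b⁻¹ := by
  obtain ⟨a, h1, b, h2, e⟩ := comm_of (LinearMap.det.comp Γ.ρ).ker hd (fun k => by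
    have k0 : LinearMap.det (Γ.ρ k) ≠ 0 :=
      ((Group.isUnit k).map (LinearMap.det.comp Γ.ρ)).ne_zero
    obtain ⟨T, t1, t2⟩ := hD.norm_surj r1 r3 r2 k0
    refine ⟨Φ.lev T, ?_, ?_⟩
    · rw [← mul_assoc, ← map_mul, show T * D = D * T from Units.ext t1, map_mul, mul_assoc,
        Φ.lev_comm T ha, mul_assoc]
    · change LinearMap.det (Γ.ρ (k * Φ.lev T)) = 1
      rw [map_mul, map_mul, Φ.det_lev', t2, hU.σ_eq]
      field_simp) e hx hy
  exact ⟨a, b, h1, h2, e⟩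

theorem base [Finite F] [Nonempty κ] (hU : Γ.IsU 2)
    (hκ : Fintype.card (Option κ) = 2 ∨ Fintype.card (Option κ) = 3)
    (h1 : 2 * Fintype.card (Option κ) ≤ finrank F V)
    (h2 : finrank F V ≤ 2 * Fintype.card (Option κ) + 1) {g : G}
    (hd : LinearMap.det (Γ.ρ g) = 1) (hg : g = 1 ∨ ∀ c : F, Γ.ρ g ≠ c • 1) {c : F} (hc : c ≠ 0) :
    ∃ (Φ : Fr Γ (Option κ)) (D : GL (Option κ) F) (r : F[X]) (a x y : G), r.Monic ∧
      r.natDegree = Fintype.card (Option κ) ∧ Irreducible r ∧ Cyc D.1 r ∧ D.1.det = 1 ∧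
      (Fintype.card (Option κ) = 2 → D ^ 5 = 1) ∧ a ∈ Φ.Mid ∧ (∀ m ∈ Φ.M, Γ.ρ a m = c • m) ∧
      LinearMap.det (Γ.ρ (Φ.lev D * a)) = c ^ finrank F Φ.M ∧ g = x * y⁻¹ ∧
      IsConj (Φ.lev D * a) x ∧ IsConj (Φ.lev D * a) y := by
  have := Fintype.ofFinite F
  have hF : Fintype.card F = 4 := by rw [← Nat.card_eq_fintype_card, hU.card]; rfl
  obtain ⟨D, r, r1, r2, r3, r4, r5, r6, r7, r8⟩ : ∃ (D : GL (Option κ) F) (r : F[X]), r.Monic ∧
      r.natDegree = Fintype.card (Option κ) ∧ Irreducible r ∧ Cyc D.1 r ∧ D.1.det = 1 ∧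
      (Fintype.card (Option κ) = 2 → D ^ 5 = 1) ∧ IsCoprime r (dag Γ.σ r) ∧
      ∀ l : GL (Option κ) F, l.1.det = 1 → (∀ c : F, l.1 ≠ c • 1) →
        ∃ A B, Rel Γ.σ D A ∧ Rel Γ.σ D B ∧ l * B = A := by
    rcases hκ with h | h
    · obtain ⟨D, r, r1, r2, r3, r4, r5, r6, r7, r8⟩ := oa24 hF hU.σ_eq h
      exact ⟨D, r, r1, h ▸ r2, r3, r4, r5, fun _ => r6, r7, fun l a _ => r8 l a⟩
    · obtain ⟨D, r, r1, r2, r3, r4, r5, r7, r8⟩ := oa34 hF hU.σ_eq h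
      exact ⟨D, r, r1, h ▸ r2, r3, r4, r5, fun e => by omega, r7, r8⟩
  obtain ⟨Φ₀⟩ := exists_frU (ι := Option κ) hU h1
  have dt : ∀ (Φ : Fr Γ (Option κ)) (a : G), LinearMap.det (Γ.ρ (Φ.lev D * a)) =
      LinearMap.det (Γ.ρ a) := fun Φ a => by
    rw [map_mul, map_mul, Φ.det_lev', r5, map_one, inv_one, one_mul, one_mul]
  rcases hg with rfl | hg
  · obtain ⟨a, a1, a2, a3⟩ := Φ₀.exists_mid_scalar (nrm hU hc)
    exact ⟨Φ₀, D, r, a, _, _, r1, r2, r3, r4, r5, r6, a1, a2, (dt _ a).trans a3,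
      (mul_inv_cancel _).symm, IsConj.refl _, IsConj.refl _⟩
  obtain ⟨Φ, u, hl, u1, u2, hb⟩ := exists_F0 Φ₀ g hg (.inl hU.skew)
  obtain ⟨Ψ, l, d, d0, l1, l2, v, hv, w, hw, e⟩ :=
    u_adj hU Φ (by have := finrank_M Φ; omega) hd hl u2 hb
  obtain ⟨A, B, hA, hB, e1⟩ := r8 l l2 (Fr.ns_of d0 u1 l1)
  obtain ⟨a, a1, a2, a3⟩ := Ψ.exists_mid_scalar (nrm hU hc)
  have : Finite V := Module.finite_of_finite F
  have := Γ.finite
  obtain ⟨x, y, e2, hx, hy⟩ := Ψ.main1 hv hw e a1 Ψ.Mid.one_mem e1 (by simp) hA hB r4.1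
    (p := X - C c) (fun m hm => by simp [a2 m hm]) (good_one r7 (nrm hU hc) Γ.σσ)
  exact ⟨Ψ, D, r, a, x, y, r1, r2, r3, r4, r5, r6, a1, a2, (dt _ a).trans a3, e2, hx, hy⟩

theorem u45 [Finite F] (hU : Γ.IsU 2) (hn : finrank F V = 4 ∨ finrank F V = 5) {ν : F}
    (hν : ν ≠ 0) (s : G) (hd : LinearMap.det (Γ.ρ s) = 1) : ∃ a k : G, s * (k * a * k⁻¹) = a ∧
      LinearMap.det (Γ.ρ a) = ν ∧
      aeval (Γ.ρ a) ((X ^ 5 - C (ν ^ 2)) * (X ^ 5 - 1) * (X - C ν)) = 0 := by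
  have hs : s = 1 ∨ ∀ c : F, Γ.ρ s ≠ c • 1 := or_iff_not_imp_right.2 fun h => by
    obtain ⟨c, hc⟩ := not_forall.1 h
    rw [not_not] at hc
    rw [hc, LinearMap.det_smul, map_one, mul_one] at hd
    have c0 : c ≠ 0 := fun e => by rcases hn with h | h <;> simp [e, h] at hd
    have c3 := cube hU c0
    have c1 : c = 1 := by
      rcases hn with h | h <;> rw [h] at hd
      · linear_combination hd - c * c3
      · linear_combination (1 + c ^ 3) * c3 - c * hd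
    exact Γ.inj (by rw [hc, c1, one_smul, map_one])
  have c3 := cube hU hν
  rcases hn with hn | hn
  · obtain ⟨Φ, D, r, a, x, y, -, -, -, -, -, r6, a1, a2, a3, e, hx, hy⟩ := base (κ := Fin 1) hU
      (by simp) (by simp [hn]) (by simp [hn]) hd hs one_ne_zero
    obtain rfl := Φ.mid_eq a1 Φ.Mid.one_mem fun m hm => by rw [a2 m hm, Γ.ρ_one, one_smul]
    obtain ⟨k, rfl⟩ := isConj_iff.1 (hx.symm.trans hy)
    obtain ⟨z, hz⟩ := Γ.full (ν • 1) (fun x y => by simp [← mul_assoc, mul_comm _ ν, nrm hU hν])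
      fun x => by simp [Γ.Q_smul, nrm hU hν]
    have x5 : Γ.ρ x ^ 5 = 1 := by
      have := hx.pow 5
      rw [mul_one, ← map_pow, r6 (by simp), map_one, isConj_one_right] at this
      rw [← map_pow, this, map_one]
    have e1 : Γ.ρ (z * x) = ν • Γ.ρ x := by rw [map_mul, hz, smul_mul_assoc, one_mul]
    refine ⟨z * x, k, Γ.inj ?_, ?_, ?_⟩
    · rw [map_mul, map_mul, map_mul, e1, mul_smul_comm, smul_mul_assoc, mul_smul_comm,
        ← map_mul, ← map_mul, ← map_mul, e, inv_mul_cancel_right]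
    · rw [e1, LinearMap.det_smul, det_conj hx, a3, one_pow, hn]
      linear_combination ν * c3
    · rw [map_mul, map_mul, map_sub, map_pow, aeval_X, aeval_C, e1, _root_.smul_pow, x5,
        show ν ^ 5 = ν ^ 2 by linear_combination ν ^ 2 * c3, Algebra.algebraMap_eq_smul_one,
        sub_self, zero_mul, zero_mul]
  obtain ⟨Φ, D, r, a, x, y, -, -, -, -, -, r6, a1, a2, a3, e, hx, hy⟩ := base (κ := Fin 1) hU
    (by simp) (by simp [hn]) (by simp [hn]) hd hs hν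
  obtain ⟨k, rfl⟩ := isConj_iff.1 (hx.symm.trans hy)
  have hM : finrank F Φ.M = 1 := by
    have := finrank_M Φ
    simp only [Fintype.card_option, Fintype.card_fin] at this
    omega
  refine ⟨x, k, by rw [e, inv_mul_cancel_right], by rw [det_conj hx, a3, hM, pow_one],
    aeval_conj hx (LinearMap.ext fun v => ?_)⟩
  have k5 : ∀ A : GL (Option (Fin 1)) F, A ^ 5 = 1 →
      aeval A.1 ((X ^ 5 - C (ν ^ 2)) * (X ^ 5 - 1) * (X - C ν)) = 0 := fun A h => by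
    rw [map_mul, map_mul, map_sub _ _ 1, map_pow _ X, aeval_X, ← Units.val_pow_eq_pow_val, h, map_one,
      Units.val_one, sub_self, mul_zero, zero_mul]
  rw [Φ.decomp v, map_add, map_add, Φ.aeval_E D a1, k5 D (r6 (by simp)), map_mul, End.mul_apply,
    End.mul_apply _ _ (Φ.π₀ v), ← End.mul_apply, ← map_mul, Φ.lev_swap,
    Φ.swap.aeval_E _ (Φ.swap_Mid ▸ a1), k5 _ (by rw [← map_pow, r6 (by simp), map_one]),
    ← Φ.lev_swap]
  simp [Γ.ρ_mul, a2 _ (Φ.π₀_mem v), Φ.lev_M _ (Φ.π₀_mem v), -map_mul]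

end U2Aux

open U2Aux

theorem u_two [Finite F] (hU : Γ.IsU 2) (hn : 4 ≤ finrank F V) (g : G) (hd : LinearMap.det (Γ.ρ g) = 1)
    (hg : ∀ c : F, Γ.ρ g ≠ c • 1) : ∃ a b : G, LinearMap.det (Γ.ρ a) = 1 ∧ LinearMap.det (Γ.ρ b) = 1 ∧
      g = a * b * a⁻¹ * b⁻¹ := by
  by_cases h8 : finrank F V < 8
  · obtain ⟨d, d1, d2, d3, d4⟩ : ∃ d, 1 ≤ d ∧ d ≤ 2 ∧ 2 * (d + 1) ≤ finrank F V ∧
      finrank F V ≤ 2 * (d + 1) + 1 := ⟨finrank F V / 2 - 1, by omega⟩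
    have : Nonempty (Fin d) := ⟨⟨0, d1⟩⟩
    obtain ⟨Φ, D, r, a, x, y, r1, r2, r3, r4, -, -, a1, -, a3, e, hx, hy⟩ := base (κ := Fin d) hU
      (by simp; omega) (by simpa) (by simpa) hd (.inr hg) one_ne_zero
    exact fin hU Φ r1 r2 r3 r4 a1 (a3.trans (one_pow _)) e hx hy
  obtain ⟨d, d1, d2⟩ : ∃ d, 2 ≤ d ∧ (finrank F V = 2 * d + 4 ∨ finrank F V = 2 * d + 5) :=
    ⟨finrank F V / 2 - 2, by omega⟩
  have : Nonempty (Fin d) := ⟨⟨0, by omega⟩⟩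
  have := Fintype.ofFinite F
  have hF : Fintype.card F = 4 := by rw [← Nat.card_eq_fintype_card, hU.card]; rfl
  obtain ⟨Φ₀⟩ := exists_frU (ι := Option (Fin d)) hU (by simp; omega)
  obtain ⟨Φ, u, ⟨l, hl⟩, u1, u2, -⟩ := exists_F0 Φ₀ g hg (.inl hU.skew)
  obtain ⟨j, hj⟩ : ∃ j, u (some j) ≠ 0 := by
    by_contra! h
    exact u1 (u none) (funext fun i => by cases i <;> simp [h])
  obtain ⟨q, ν, q1, q2, q3, ν0, q4, q5⟩ := good_U2 hF hU.σ_eq d1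
  have q6 : q.natDegree = Fintype.card (Fin d) := by simpa using q2
  obtain ⟨P, A, B, -, hA, hB, e⟩ := bnB l (Pi.single none (u (some j)) - Pi.single (some j) (u none))
    ⟨u, by simp [mul_comm], by rw [hl, u2]; simpa using hj⟩ q1 q6 (Sp0.coeff_ne q3 (by omega))
  have dA : A.1.det = ν := by rw [hA.det q1 q6, Fintype.card_fin, q4]
  have dB : B.1.det = ν := by rw [hB.det q1 q6, Fintype.card_fin, q4]
  obtain ⟨v, hv, s, hs, w, hw, e1⟩ := (Φ.reb P).tl.gauss g (A * B⁻¹) (by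
    rw [Fr.tl_lm, Fr.reb_lm, ← hl, Units.val_mul, ← e, Units.mul_inv_cancel_right]; rfl)
  have ds := (Φ.reb P).tl.det_gauss hv hw e1
  rw [hd, Units.val_mul, det_mul, coe_units_inv, det_nonsing_inv, Ring.inverse_eq_inv', dA, dB,
    mul_inv_cancel₀ ν0, map_one, inv_one, one_mul, one_mul,
    (Φ.reb P).tl.det_mid ⟨s, hs⟩] at ds
  obtain ⟨a, k, a1, a2, a3⟩ := u45 ((Φ.reb P).tl.mid_isU hU) (by
    have := finrank_M (Φ.reb P).tl
    rw [Fintype.card_fin] at this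
    omega) ν0 ⟨s, hs⟩ ds.symm
  have : Finite V := Module.finite_of_finite F
  have := Γ.finite
  obtain ⟨x, y, e2, hx, hy⟩ := (Φ.reb P).tl.main1 hv hw e1 a.2 k.2 (inv_mul_cancel_right A B)
    (congrArg Subtype.val a1) (.inl (IsConj.refl A)) (.inl (hA.isConj q1 q6 hB)) hA.1
    (Fr.aeval_mid _ a _ a3) q5
  refine fin hU _ q1 q6 q3 hA a.2 ?_ e2 hx hy
  rw [Fr.det_lev, dA, hU.σ_eq, show LinearMap.det ((Φ.reb P).tl.midρ a) = ν from a2]
  field_simp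

end Cfsg.Agent.H65.Ore
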