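import Cfsg.Agent.H65.OreU1
import Cfsg.Agent.H66.OreSp0

set_option autoImplicit false

/-! Project ORE: unitary groups over fields with at least nine elements. -/

namespace Cfsg.Agent.H65.Ore

open Polynomial Matrix Module Sp0

variable {F V G : Type*} [Field F] [AddCommGroup V] [Module F V] [Group G] [FiniteDimensional F V]
  {Γ : Geo F V G}

theorem Geo.det_norm (Γ : Geo F V G) (g : G) :
    LinearMap.det (Γ.ρ g) * Γ.σ (LinearMap.det (Γ.ρ g)) = 1 := by
  classical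
  let b := Module.finBasis F V
  let M : Matrix _ _ F := Matrix.of fun i j => Γ.B (b i) (b j)
  let A := LinearMap.toMatrix b b (Γ.ρ g)
  have e : ∀ j, Γ.ρ g (b j) = ∑ i, A i j • b i := fun j => by
    simp only [A, LinearMap.toMatrix_apply, b.sum_repr]
  have h1 : Aᵀ * M * A.map Γ.σ = M := by
    ext i j
    change _ = Γ.B (b i) (b j)
    rw [← Γ.ρB g, e, e]
    simp only [M, mul_apply, transpose_apply, map_apply, of_apply, map_sum, LinearMap.map_smulₛₗ,
      LinearMap.sum_apply, LinearMap.smul_apply, smul_eq_mul, RingHom.id_apply, mul_comm]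
  have h2 : M.det ≠ 0 := fun h0 => by
    obtain ⟨v, v0, hv⟩ := exists_vecMul_eq_zero_iff.2 h0
    have k : ∀ j, Γ.B (∑ i, v i • b i) (b j) = 0 := fun j => by
      simpa [M, vecMul, dotProduct, LinearMap.sum_apply] using congrFun hv j
    have := Γ.nondeg _ fun y => show Γ.B (∑ i, v i • b i) y = 0 by
      rw [← b.sum_repr y, map_sum]
      exact Finset.sum_eq_zero fun j _ => by rw [LinearMap.map_smulₛₗ, k, smul_zero]
    exact v0 (funext (Fintype.linearIndependent_iff.1 b.linearIndependent v this))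
  have h3 := congrArg det h1
  rw [det_mul, det_mul, det_transpose, ← RingHom.mapMatrix_apply, ← RingHom.map_det,
    LinearMap.det_toMatrix] at h3
  exact mul_right_cancel₀ h2 (by linear_combination h3)

theorem finU [Finite F] {q : ℕ} (hU : Γ.IsU q) {κ : Type*} [Fintype κ] [DecidableEq κ]
    (Ψ : Fr Γ (Option κ)) {g v w : G} {l A B : GL (Option κ) F} (hv : v ∈ Γ.R Ψ.swap.W) (hw : w ∈ Γ.R Ψ.W)
    (e : g = v * Ψ.lev l * 1 * w) (h1 : l * B = A) {c : Fˣ} {D : GL κ F} (hA : IsConj (dsum (c, D)) A)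
    (hB : IsConj (dsum (c, D)) B) {r : F[X]} (hr : aeval D.1 r = 0)
    (hc : IsCoprime ((X - C c.1) * r) (dag Γ.σ ((X - C c.1) * r))) {s : F} (hs : s * Γ.σ s = 1)
    (hd : c * D.1.det * (Γ.σ (c * D.1.det))⁻¹ * s ^ finrank F Ψ.M = 1) :
    ∃ a b : G, LinearMap.det (Γ.ρ a) = 1 ∧ LinearMap.det (Γ.ρ b) = 1 ∧ g = a * b * a⁻¹ * b⁻¹ := by
  have : Finite V := Module.finite_of_finite F
  have := Γ.finite
  obtain ⟨a, ha, e1, e2⟩ := Ψ.exists_mid_scalar hs
  obtain ⟨x, y, e, hx, hy⟩ := Ψ.main1 hv hw e ha Ψ.Mid.one_mem h1 (by simp) (.inl hA) (.inl hB)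
    (aeval_dsum c hr) (p := X - C s) (fun m hm => by simp [e1 m hm]) (good_one hc hs Γ.σσ)
  obtain ⟨a', ha', b', hb', e'⟩ := comm_of (LinearMap.det.comp Γ.ρ).ker (D := Ψ.lev (dsum (c, D)) * a) (by
    change LinearMap.det (Γ.ρ _) = 1
    rw [map_mul, map_mul, Ψ.det_lev', e2, dsum_val, det_dsumM, hd]) (fun k => by
      obtain ⟨t, t0, ht⟩ := hU.hilbert (c := Γ.σ (LinearMap.det (Γ.ρ k))) (by
        rw [Γ.σσ, mul_comm, Γ.det_norm])
      refine ⟨Ψ.lev (dsum (Units.mk0 t t0, 1)), ?_, ?_⟩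
      · rw [mul_assoc, ← Ψ.lev_comm _ ha, ← mul_assoc, ← mul_assoc, ← map_mul, ← map_mul, ← map_mul,
          ← map_mul, Prod.mk_mul_mk, Prod.mk_mul_mk, mul_comm c, one_mul, mul_one]
      · change LinearMap.det (Γ.ρ _) = 1
        rw [map_mul, map_mul, Ψ.det_lev', dsum_val, det_dsumM, Units.val_one, det_one, mul_one, Units.val_mk0,
          ← Γ.det_norm k, (mul_inv_eq_iff_eq_mul₀ (Γ.σ_eq_zero.not.2 t0)).2 ht]) e hx hy
  exact ⟨a', b', ha', hb', e'⟩

theorem u_big [Finite F] {q : ℕ} (hU : Γ.IsU q) (hq : 3 ≤ q) (hn : 3 ≤ finrank F V) (g : G)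
    (hd : LinearMap.det (Γ.ρ g) = 1) (hg : ∀ c : F, Γ.ρ g ≠ c • 1) :
    ∃ a b : G, LinearMap.det (Γ.ρ a) = 1 ∧ LinearMap.det (Γ.ρ b) = 1 ∧ g = a * b * a⁻¹ * b⁻¹ := by
  have := Fintype.ofFinite F
  have hF : Fintype.card F = q ^ 2 := Nat.card_eq_fintype_card.symm.trans hU.card
  rcases hn.eq_or_lt with h3 | h4
  · obtain ⟨Φ, u, hl, u2, hb⟩ := exists_F0_three hU h3.symm g hg
    have hM : ∀ Ψ : Fr Γ (Option (Fin 0)), finrank F Ψ.M = 1 := fun Ψ => by
      have := finrank_M Ψ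
      simp only [Fintype.card_option, Fintype.card_fin] at this
      omega
    obtain ⟨Ψ, l, d, -, -, l1, v, hv, w, hw, e⟩ := u_adj hU Φ (hM Φ).le hd hl u2 hb
    obtain ⟨r, c, -, -, c1, -, hc⟩ := good_U hF hq hU.σ_eq le_rfl
    have c0 := left_ne_zero_of_mul_eq_one c1
    have c0' := Γ.σ_eq_zero.not.2 c0
    have l2 : l = 1 := Units.ext (Matrix.ext fun i j => by
      have : Unique (Option (Fin 0)) := ⟨⟨none⟩, fun a => by cases a with | none => rfl | some a => exact a.elim0⟩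
      rw [det_eq_elem_of_subsingleton _ i] at l1
      rw [Subsingleton.elim j i, l1, Units.val_one, one_apply_eq])
    rw [dag_mul] at hc
    refine finU hU Ψ hv hw e (by rw [l2, one_mul]) (c := Units.mk0 c c0) (D := 1) (IsConj.refl _) (IsConj.refl _)
      (r := 1) (Subsingleton.elim _ _) (by simpa using hc.of_mul_left_left.of_mul_right_left)
      (s := Γ.σ c / c) (by rw [map_div₀, Γ.σσ]; field_simp) ?_
    rw [hM, Units.val_one, det_one, mul_one, Units.val_mk0]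
    field_simp
  obtain ⟨d, hd'⟩ : ∃ d, finrank F V / 2 = d + 1 := ⟨finrank F V / 2 - 1, by omega⟩
  have : Nonempty (Fin d) := ⟨⟨0, by omega⟩⟩
  obtain ⟨Φ₀⟩ := exists_frU (ι := Option (Fin d)) hU (by simp; omega)
  obtain ⟨Φ, u, hl, u1, u2, hb⟩ := exists_F0 Φ₀ g hg (.inl hU.skew)
  obtain ⟨Ψ, l, t, t0, l0, l1, v, hv, w, hw, e⟩ := u_adj hU Φ (by
    have := finrank_M Φ
    simp only [Fintype.card_option, Fintype.card_fin] at this
    omega) hd hl u2 hb
  obtain ⟨r, c, r1, r2, c1, r3, hc⟩ := good_U hF hq hU.σ_eq (show 1 ≤ d by omega)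
  have r5 : r.natDegree = Fintype.card (Fin d) := by simpa using r2
  obtain ⟨D, hD⟩ := exists_cyc r1 r5 (right_ne_zero_of_mul (right_ne_zero_of_mul_eq_one c1))
  obtain ⟨A, B, hA, hB, e'⟩ := cs1 l l1 (Fr.ns_of t0 u1 l0) r1 r5 hD
    (Units.mk0 c (left_ne_zero_of_mul_eq_one c1)) r3
  refine finU hU Ψ hv hw e e' hA hB hD.1 hc (s := 1) (by simp) ?_
  rw [hD.det r1 r5, Fintype.card_fin, Units.val_mk0, c1]
  simp

end Cfsg.Agent.H65.Ore
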