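import Cfsg.Agent.H65.SLa
import Cfsg.Agent.H5.Complete
set_option autoImplicit false

/-! The permutation character of `SL_n(q)` on the nonzero vectors. -/

namespace Cfsg.Agent.H65

open Module Matrix Finset

theorem isCharacter_isotypic {G A : Type*} [Group G] [CommGroup A] [Fintype A] {χ : G × A → ℂ}
    (h : IsCharacter (G × A) χ) (θ : AddChar (Additive A) ℂ) :
    IsCharacter G fun g => (Fintype.card A : ℂ)⁻¹ * ∑ a : A, θ (-Additive.ofMul a) * χ (g, a) := by
  obtain ⟨n, ρ, rfl⟩ := h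
  let T : Additive A → End ℂ (Fin n → ℂ) := fun a => ρ (1, a.toMul)
  have hT : ∀ a b, T (a + b) = T a * T b := fun a b => by simp [T, ← map_mul]
  have hU : ∀ g, ∀ v ∈ ws T θ, ρ (g, 1) v ∈ ws T θ := fun g v hv => mem_ws.2 fun a => by
    rw [← map_smul, ← mem_ws.1 hv, ← End.mul_apply, ← End.mul_apply, ← map_mul, ← map_mul]
    simp
  let U : Subrepresentation (ρ.comp (MonoidHom.inl G A)) := ⟨ws T θ, hU⟩
  convert H5.isCharacter_character U.toRepresentation using 2 with g
  have h1 : ∀ x, (ρ (g, 1) * prj T θ) x ∈ ws T θ := fun x => hU g _ ((isProj_prj hT θ).map_mem x)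
  rw [Representation.character, show U.toRepresentation g = (ρ (g, 1) * prj T θ).restrict (fun x _ => h1 x) from
    LinearMap.ext fun x => Subtype.ext (congrArg (ρ (g, 1)) ((isProj_prj hT θ).map_id x.1 x.2).symm)]
  refine Eq.trans ?_ (LinearMap.trace_restrict_eq_of_forall_mem (ws T θ) _ h1).symm
  simp only [prj, mul_smul_comm, Finset.mul_sum, map_smul, map_sum, smul_eq_mul, T, ← map_mul, Fintype.card_additive]
  exact Fintype.sum_equiv Additive.ofMul _ _ fun a => by simp [Representation.character]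

theorem sum_card_trans {G Z : Type*} [Group G] [Fintype G] [MulAction G Z] [DecidableEq Z] {S : Finset Z}
    (hS : ∀ g : G, ∀ z ∈ S, g • z ∈ S) (ht : ∀ z ∈ S, ∀ z' ∈ S, ∃ g : G, g • z = z') (hne : S.Nonempty)
    {f : Z → Z} (hf : ∀ z ∈ S, f z ∈ S) : ∑ z ∈ S, #{g : G | g • z = f z} = Fintype.card G := by
  obtain ⟨z0, h0⟩ := hne
  have key : ∀ z ∈ S, ∀ z' ∈ S, #{g : G | g • z = z'} = #{g : G | g • z0 = z0} := fun z hz z' hz' => by
    obtain ⟨h, rfl⟩ := ht z0 h0 z hz
    obtain ⟨h', rfl⟩ := ht z0 h0 z' hz'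
    refine Finset.card_equiv ((Equiv.mulRight h).trans (Equiv.mulLeft h'⁻¹)) fun g => ?_
    simp [mul_smul, inv_smul_eq_iff]
  rw [← card_univ, card_eq_sum_card_fiberwise (f := fun g : G => g • z0) (t := S) fun g _ => hS g z0 h0]
  exact sum_congr rfl fun z hz => (key z hz _ (hf z hz)).trans (key z0 h0 z hz).symm

variable {F : Type*} [Field F] [Fintype F] [DecidableEq F] {n : ℕ}

local notation "X" => Fin n → F
local notation "G" => SpecialLinearGroup (Fin n) F

/-- the number of eigenvectors -/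
def nEig (g : G) (a : Fˣ) : ℕ := #{v : X | v ≠ 0 ∧ a • g • v = v}

/-- the action of `SL × F^*` on the nonzero vectors -/
@[reducible] def actNZ : MulAction (G × Fˣ) {v : X // v ≠ 0} where
  smul g v := ⟨g.2 • g.1 • v.1, by simpa [smul_eq_zero_iff_eq] using v.2⟩
  one_smul v := Subtype.ext (show (1 : Fˣ) • (1 : G) • v.1 = v.1 by simp)
  mul_smul g h v := Subtype.ext (show (g.2 * h.2) • (g.1 * h.1) • v.1 = g.2 • g.1 • h.2 • h.1 • v.1 by
    rw [mul_smul, mul_smul, smul_comm g.1 h.2])

theorem isCharacter_nEig : IsCharacter (G × Fˣ) fun g => nEig g.1 g.2 := by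
  let := actNZ (F := F) (n := n)
  convert @H5.isCharacter_perm (G × Fˣ) _ {v : X // v ≠ 0} _ _ using 3 with g
  rw [nEig, ← Fintype.card_subtype, ← Nat.card_eq_fintype_card]
  exact Nat.card_congr ⟨fun v => ⟨⟨v.1, v.2.1⟩, Subtype.ext v.2.2⟩, fun v => ⟨v.1.1, v.1.2, congrArg Subtype.val v.2⟩,
    fun _ => rfl, fun _ => rfl⟩

theorem sum_nEig (hn : 3 ≤ n) (a : Fˣ) : ∑ g : G, nEig g a = Fintype.card G := by
  rw [← sum_card_trans (S := {v : X | v ≠ 0}) (f := fun v => a⁻¹ • v) (by simp [smul_eq_zero_iff_eq]) ?_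
    ⟨Pi.single ⟨0, by omega⟩ 1, by simp⟩ (by simp [smul_eq_zero_iff_eq])]
  · simp only [nEig, card_filter, sum_filter, eq_inv_smul_iff]
    rw [sum_comm]
    exact sum_congr rfl fun v _ => by by_cases h : v = 0 <;> simp [h]
  · simp only [mem_filter, mem_univ, true_and]
    intro u hu u' hu'
    obtain ⟨z, α, h1, -, h2⟩ := exists_not_mem_span hn u u
    obtain ⟨z', α', h1', -, h2'⟩ := exists_not_mem_span hn u' u'
    obtain ⟨g, h, -⟩ := exists_sl_pair hn (indep_of_not_mem hu (w := z) fun e => by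
      obtain ⟨c, rfl⟩ := Submodule.mem_span_singleton.1 e; simp [h1] at h2) (indep_of_not_mem hu' (w := z') fun e => by
      obtain ⟨c, rfl⟩ := Submodule.mem_span_singleton.1 e; simp [h1'] at h2')
    exact ⟨g, h⟩

theorem sum_nEig_mul (hn : 3 ≤ n) (a a' : Fˣ) :
    ∑ g : G, nEig g a * nEig g a' = Fintype.card G * (1 + if a = a' then Fintype.card Fˣ else 0) := by
  classical
  let f : X × X → X × X := fun p => (a⁻¹ • p.1, a'⁻¹ • p.2)
  have h1 : ∑ g : G, nEig g a * nEig g a' = ∑ p : X × X, if p.1 ≠ 0 ∧ p.2 ≠ 0 then #{g : G | g • p = f p} else 0 := by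
    simp only [nEig, card_filter, sum_mul_sum, f, Prod.ext_iff, eq_inv_smul_iff]
    rw [sum_congr rfl fun _ _ => (Fintype.sum_prod_type' _).symm, sum_comm]
    refine sum_congr rfl fun v _ => ?_
    by_cases h : v.1 = 0 <;> by_cases h' : v.2 = 0 <;> simp [h, h', ← ite_and, and_comm, -sum_boole]
  have h2 : ∀ (p : X × X) (x : ℕ), (if p.1 ≠ 0 ∧ p.2 ≠ 0 then x else 0) =
      (if LinearIndependent F ![p.1, p.2] then x else 0) + ∑ b : Fˣ, if p.1 ≠ 0 ∧ p.2 = b • p.1 then x else 0 := by
    rintro ⟨u, w⟩ x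
    by_cases hu : u = 0
    · simpa [hu] using fun h : LinearIndependent F ![0, w] => (h.ne_zero 0 rfl).elim
    by_cases h : LinearIndependent F ![u, w]
    · have : w ≠ 0 := h.ne_zero 1
      simp [hu, h, this, fun b : Fˣ => ((LinearIndependent.pair_iff' hu).1 h b).symm, Units.smul_def]
    obtain ⟨c, rfl⟩ : ∃ c : F, c • u = w := by simpa [LinearIndependent.pair_iff' hu] using h
    by_cases hc : c = 0
    · simpa [hc, hu, Units.smul_def, eq_comm (a := (0 : X))] using
        fun h : LinearIndependent F ![u, 0] => (h.ne_zero 1 rfl).elim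
    · rw [if_neg h, Finset.sum_eq_single (Units.mk0 c hc) (fun b _ hb => if_neg fun e => hb (Units.ext
        (smul_left_injective F hu e.2).symm)) (by simp)]
      simp [hu, hc]
  have h3 : ∀ b : Fˣ, (∑ p : X × X, if p.1 ≠ 0 ∧ p.2 = b • p.1 then #{g : G | g • p = f p} else 0) =
      if a = a' then Fintype.card G else 0 := fun b => by
    rw [Fintype.sum_prod_type]
    rw [sum_congr rfl fun v _ => Finset.sum_eq_single (b • v) (fun w _ h => if_neg fun e => h e.2) (by simp)]
    simp only [and_true]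
    split_ifs with h
    · rw [← sum_nEig hn a]
      simp only [nEig, card_filter, f, h, Prod.smul_mk, Prod.ext_iff, smul_comm _ b, smul_left_cancel_iff, and_self,
        eq_inv_smul_iff]
      rw [sum_comm]
      exact sum_congr rfl fun v _ => by by_cases h : v = 0 <;> simp [h]
    · refine sum_eq_zero fun v _ => ite_eq_right_iff.2 fun hv => card_eq_zero.2 (filter_eq_empty_iff.2 fun g _ e => h ?_)
      simp only [f, Prod.smul_mk, Prod.ext_iff, smul_comm _ b, smul_left_cancel_iff] at e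
      exact inv_injective (Units.ext (smul_left_injective F hv (e.1.symm.trans e.2)))
  rw [h1, sum_congr rfl fun p _ => h2 p _, sum_add_distrib, sum_comm, sum_congr rfl fun b _ => h3 b, ← sum_filter,
    sum_card_trans]
  · split_ifs <;> simp [mul_add, mul_comm]
  · simp only [mem_filter, mem_univ, true_and]
    intro g p hp
    rw [← show toLin' g.1 ∘ ![p.1, p.2] = ![(g • p).1, (g • p).2] from funext fun i => by fin_cases i <;> rfl]
    exact hp.map' (toLin' g.1) (LinearMap.ker_eq_bot.2 (MulAction.injective g))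
  · simp only [mem_filter, mem_univ, true_and]
    intro p hp p' hp'
    obtain ⟨g, h, h'⟩ := exists_sl_pair hn hp hp'
    exact ⟨g, Prod.ext h h'⟩
  · exact ⟨(Pi.single ⟨0, by omega⟩ 1, Pi.single ⟨1, by omega⟩ 1), by
      simpa using LinearIndependent.pair_iff.2 fun s t e =>
        ⟨by simpa [Pi.single_apply, Fin.ext_iff] using congrFun e ⟨0, by omega⟩,
          by simpa [Pi.single_apply, Fin.ext_iff] using congrFun e ⟨1, by omega⟩⟩⟩
  · simp only [mem_filter, mem_univ, true_and]
    intro p hp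
    convert hp.units_smul ![a⁻¹, a'⁻¹] using 1
    ext1 i; fin_cases i <;> rfl

/-- the `θ`-part of the permutation character -/
noncomputable def piS (n : ℕ) (θ : AddChar (Additive Fˣ) ℂ) (g : SpecialLinearGroup (Fin n) F) : ℂ :=
  (Fintype.card Fˣ : ℂ)⁻¹ * ∑ a : Fˣ, θ (-Additive.ofMul a) * nEig g a

theorem isCharacter_piS (θ : AddChar (Additive Fˣ) ℂ) : IsCharacter G (piS n θ) :=
  isCharacter_isotypic (χ := fun g => nEig g.1 g.2) isCharacter_nEig θ

theorem sum_theta (θ : AddChar (Additive Fˣ) ℂ) [Decidable (θ = 0)] :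
    ∑ a : Fˣ, θ (-Additive.ofMul a) = if θ = 0 then (Fintype.card Fˣ : ℂ) else 0 := by
  rw [← Fintype.card_additive, ← AddChar.sum_eq_ite]
  exact Fintype.sum_equiv (Additive.ofMul.trans (Equiv.neg _)) _ _ fun _ => rfl

theorem inner_piS_one (hn : 3 ≤ n) (θ : AddChar (Additive Fˣ) ℂ) [Decidable (θ = 0)] :
    classInner (piS n θ) (fun _ => 1) = if θ = 0 then 1 else 0 := by
  simp only [classInner, piS, map_one, mul_one, ← Finset.mul_sum]
  rw [sum_comm]
  simp only [← Finset.mul_sum, ← Nat.cast_sum, sum_nEig hn, ← Finset.sum_mul, sum_theta, Nat.card_eq_fintype_card]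
  split_ifs <;> simp

theorem inner_piS (hn : 3 ≤ n) (θ θ' : AddChar (Additive Fˣ) ℂ) [Decidable (θ = 0)] [Decidable (θ' = 0)]
    [Decidable (θ = θ')] : classInner (piS n θ) (piS n θ') =
      (if θ = 0 then 1 else 0) * (if θ' = 0 then 1 else 0) + if θ = θ' then 1 else 0 := by
  classical
  have h0 : (Fintype.card Fˣ : ℂ) ≠ 0 := Nat.cast_ne_zero.2 Fintype.card_ne_zero
  have h1 : (Fintype.card G : ℂ) ≠ 0 := Nat.cast_ne_zero.2 Fintype.card_ne_zero
  have h2 : ∀ g : G, piS n θ g * starRingEnd ℂ (piS n θ' g) = (Fintype.card Fˣ : ℂ)⁻¹ * (Fintype.card Fˣ : ℂ)⁻¹ *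
      ∑ a : Fˣ, ∑ a' : Fˣ, θ (-Additive.ofMul a) * (-θ') (-Additive.ofMul a') * (nEig g a * nEig g a' : ℕ) := fun g => by
    simp only [piS, map_mul, map_sum, map_inv₀, map_natCast, ← AddChar.map_neg_eq_conj, AddChar.neg_apply, Nat.cast_mul]
    rw [mul_mul_mul_comm, sum_mul_sum]
    exact congrArg _ (sum_congr rfl fun _ _ => sum_congr rfl fun _ _ => mul_mul_mul_comm _ _ _ _)
  simp only [classInner, h2, ← Finset.mul_sum]
  rw [sum_comm, sum_congr rfl fun _ _ => sum_comm]
  simp only [← Finset.mul_sum, ← Nat.cast_sum, sum_nEig_mul hn]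
  simp only [Nat.card_eq_fintype_card, Nat.cast_mul, Nat.cast_add,
    Nat.cast_ite, mul_add, mul_ite, Nat.cast_zero, mul_zero, sum_add_distrib, sum_ite_eq, mem_univ, if_true,
    ← Finset.sum_mul, ← AddChar.add_apply, ← sum_mul_sum, sum_theta, neg_eq_zero, add_neg_eq_zero]
  split_ifs <;> simp <;> field_simp

theorem sum_piS (g : G) : ∑ θ, piS n θ g = nEig g 1 := by
  classical
  simp only [piS, ← Finset.mul_sum]
  rw [sum_comm]
  simp [← Finset.sum_mul, AddChar.sum_apply_eq_ite]

theorem isIrr_piS (hn : 3 ≤ n) {θ : AddChar (Additive Fˣ) ℂ} (h : θ ≠ 0) : IsIrrCharacter G (piS n θ) := by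
  classical
  exact H5.isIrr_of_classInner_self_eq_one (isCharacter_piS θ) (by simp [inner_piS hn, h])

theorem isIrr_piS_zero (hn : 3 ≤ n) : IsIrrCharacter G (piS n 0 - fun _ => 1) := by
  classical
  refine H5.isIrr_of_classInner_self_eq_one (H5.isCharacter_sub_of_constituent (isCharacter_piS 0)
    H5.isIrrCharacter_one (by simp [inner_piS_one hn])) ?_
  rw [H5.classInner_sub_left, H5.classInner_sub_right, H5.classInner_sub_right, inner_piS hn,
    H5.classInner_comm_of_isCharacter H5.isCharacter_one (isCharacter_piS 0), inner_piS_one hn, H5.classInner_irr_self H5.isIrrCharacter_one]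
  simp

theorem piS_zero_one : piS n (0 : AddChar (Additive Fˣ) ℂ) 1 = (Fintype.card F ^ n - 1) / (Fintype.card F - 1) := by
  have : ∀ a : Fˣ, nEig (1 : G) a = if a = 1 then Fintype.card F ^ n - 1 else 0 := fun a => by
    split_ifs with h
    · simp [nEig, h, filter_ne', card_erase_of_mem]
    · exact card_eq_zero.2 (filter_eq_empty_iff.2 fun v _ e => h (Units.ext (smul_left_injective F e.1
        (by simpa [Units.smul_def] using e.2))))
  simp [piS, this, Fintype.card_units, Nat.cast_sub Fintype.card_pos, Nat.cast_sub (Nat.one_le_pow _ _ Fintype.card_pos),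
    div_eq_inv_mul]

end Cfsg.Agent.H65
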