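import Cfsg.Agent.H65.SLb
set_option autoImplicit false

/-! One-dimensional weight spaces of transvection groups of `SL_n`; projection calculus. -/

namespace Cfsg.Agent.H65

open Module Matrix Finset

theorem triv_of_conj {K V Γ : Type*} [Field K] [AddCommGroup V] [Module K V] [Group Γ] (ρ : Γ →* End K V)
    {U : Submodule K V} (hU : finrank K U = 1) {g t t' : Γ} (hg : ∀ x ∈ U, ρ g x ∈ U) (ht : ∀ x ∈ U, ρ t x ∈ U)
    (e : g * t = t * t' * g) : ∀ x ∈ U, ρ t' x = x := by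
  obtain ⟨⟨x, hx⟩, h0, h⟩ := finrank_eq_one_iff'.1 hU
  have h0 : x ≠ 0 := fun e => h0 (Subtype.ext e)
  obtain ⟨a, ha⟩ := h ⟨_, hg x hx⟩
  obtain ⟨b, hb⟩ := h ⟨_, ht x hx⟩
  have ha : a • x = ρ g x := congrArg Subtype.val ha
  have hb : b • x = ρ t x := congrArg Subtype.val hb
  have h1 : ρ t (ρ t' (ρ g x) - ρ g x) = 0 := by
    rw [map_sub, ← End.mul_apply, ← End.mul_apply, ← map_mul, ← map_mul, ← e, map_mul, End.mul_apply, ← hb, map_smul,
      ← ha, map_smul, ← hb, smul_comm, sub_self]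
  have h2 := sub_eq_zero.1 (by_contra fun h => map_ne_zero_of_rep ρ t h h1)
  have h3 : a ≠ 0 := fun e => map_ne_zero_of_rep ρ g h0 (by rw [← ha, e, zero_smul])
  rw [← ha, map_smul] at h2
  intro y hy
  obtain ⟨c, hc⟩ := h ⟨y, hy⟩
  rw [← show c • x = y from congrArg Subtype.val hc, map_smul, smul_right_injective V h3 h2]

section fin
variable {F M : Type*} [Field F] [AddCommGroup M] [Module F M] [Fintype M]

open Classical in
/-- a subspace as a finset -/
noncomputable def SW (W : Submodule F M) : Finset M := {x | x ∈ W}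

@[simp] theorem mem_SW {W : Submodule F M} {x : M} : x ∈ SW W ↔ x ∈ W := by simp [SW]

theorem card_SW [Fintype F] (W : Submodule F M) : #(SW W) = Fintype.card F ^ finrank F W := by
  classical
  rw [← Module.card_eq_pow_finrank, ← Fintype.card_coe]
  exact Fintype.card_congr (Equiv.subtypeEquivRight fun _ => mem_SW)

theorem sum_char_SW {ψ : AddChar F ℂ} (hψ : ψ ≠ 1) (W : Submodule F M) (φ : Dual F M) [Decidable (φ ∈ W.dualAnnihilator)] :
    ∑ x ∈ SW W, ψ (φ x) = if φ ∈ W.dualAnnihilator then (#(SW W) : ℂ) else 0 := by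
  classical
  split_ifs with h
  · rw [sum_congr rfl fun x hx => by rw [(Submodule.mem_dualAnnihilator φ).1 h x (mem_SW.1 hx)]]
    simp
  · rw [Finset.sum_subtype _ fun _ => mem_SW]
    exact sum_char hψ (l := φ ∘ₗ W.subtype) fun e =>
      h ((Submodule.mem_dualAnnihilator φ).2 fun x hx => LinearMap.congr_fun e ⟨x, hx⟩)

end fin

variable {F : Type*} [Field F] {n : ℕ}

local notation "X" => Fin n → F
local notation "G" => SpecialLinearGroup (Fin n) F

theorem slT_add_left {u v : X} {φ : Dual F X} (h : φ u = 0) (h' : φ v = 0) : slT (u + v) φ = slT u φ * slT v φ :=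
  sl_ext fun x => by
    rw [sl_mul, slT_mulVec h, slT_mulVec h', slT_mulVec (by simp [h, h'])]
    simp only [map_add, map_smul, h']
    module

theorem exists_ker_not_mem (φ : Dual F X) {k : ℕ} (f : Fin k → X) (h : k + 1 < n) :
    ∃ z, ∃ α : Dual F X, φ z = 0 ∧ (∀ i, α (f i) = 0) ∧ α z = 1 := by
  obtain ⟨z, h1, hz⟩ : ∃ z, φ z = 0 ∧ z ∉ Submodule.span F (Set.range f) := by
    by_contra! h
    have h1 := finrank_range_le_card (R := F) f
    have h2 := Submodule.finrank_mono (show LinearMap.ker φ ≤ _ from h)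
    have h3 := φ.finrank_range_add_finrank_ker
    have h4 := (LinearMap.range φ).finrank_le
    simp [Set.finrank] at h1 h3 h4
    omega
  obtain ⟨α, h2, h3, -⟩ := H27.exists_dual_ne_zero_two _ hz hz
  exact ⟨z, α, h1, fun i => h2 _ (Submodule.subset_span ⟨i, rfl⟩), h3⟩

section gen
variable {K V : Type*} [Field K] [AddCommGroup V] [Module K V] {ρ : SpecialLinearGroup (Fin n) F →* End K V}
  {ψ : AddChar F K}

theorem map_VS_self {g : G} {u w : X} {a : F} (ha : a ≠ 0) (hu : g.1 *ᵥ u = a • u) (hw : g.1 *ᵥ w = a • w) :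
    ∀ x ∈ VS ρ ψ u w, ρ g x ∈ VS ρ ψ u w := fun x hx => by
  have := map_VS g hx
  rwa [hu, hw, ← add_zero (a • w), ← zero_smul F u, VS_smul ha] at this

theorem slT_VS_self {u w v : X} {φ : Dual F X} (hu : φ u = 0) (hw : φ w = 0) (hv : φ v = 0) :
    ∀ x ∈ VS ρ ψ u w, ρ (slT v φ) x ∈ VS ρ ψ u w :=
  map_VS_self one_ne_zero (by simp [slT_mulVec hv, hu]) (by simp [slT_mulVec hv, hw])

theorem slT_fix (hn : 3 ≤ n) (h3 : n = 3 → ∃ a : F, a ≠ 0 ∧ a ^ 3 ≠ 1) (h4 : n = 4 → ∃ a : F, a ≠ 0 ∧ a ^ 2 ≠ 1)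
    {u w v : X} {φ : Dual F X} (hm : finrank K (VS ρ ψ u w) = 1) (hu : φ u = 0) (hw : φ w = 0) (hv : φ v = 0) :
    ∀ x ∈ VS ρ ψ u w, ρ (slT v φ) x = x := by
  have A : ∀ (z : X) (α : Dual F X), φ z = 0 → α u = 0 → α w = 0 → α v = 0 → α z = 1 →
      ∀ x ∈ VS ρ ψ u w, ρ (slT v φ) x = x := fun z α h1 h2 h3 h4 h5 =>
    triv_of_conj ρ hm (slT_VS_self h2 h3 h4) (slT_VS_self hu hw h1) (by
      rw [conj_slT _ h1 (φ' := φ) fun x => by simp [slT_mulVec h4, hv], slT_mulVec h4, h5, one_smul, slT_add_left h1 hv])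
  have B : ∀ (f : End F X) (a b b' : F), LinearMap.det f = 1 → a ≠ 0 → f u = a • u → f w = a • w → f v = b • v →
      (∀ x, φ (f x) = b' * φ x) → b' ≠ 0 → b ≠ b' → ∀ x ∈ VS ρ ψ u w, ρ (slT v φ) x = x :=
    fun f a b b' h0 h1 h2 h3 h4 h5 h6 h7 => by
      obtain ⟨g, hg⟩ := exists_sl f h0
      have h7 := sub_ne_zero.2 h7
      refine triv_of_conj ρ hm (map_VS_self h1 (hg u ▸ h2) (hg w ▸ h3))
        (slT_VS_self (v := v) (φ := (b' / (b - b')) • φ) (by simp [hu]) (by simp [hw]) (by simp [hv])) ?_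
      rw [conj_slT _ (by simp [hv]) (φ' := (b - b')⁻¹ • φ) fun x => by simp [hg, h5]; ring, hg, h4,
        slT_smul _ (by simp [hv]), ← slT_add (by simp [hv]) hv]
      congr 2
      match_scalars
      field_simp
      ring
  by_cases h0 : φ = 0
  · simp [h0, slT_zero]
  obtain ⟨z, hz⟩ := LinearMap.surjective_of_ne_zero h0 1
  obtain hn3 | hn3 := hn.eq_or_lt
  · obtain ⟨a, ha, ha'⟩ := h3 hn3.symm
    refine B (a • LinearMap.transvection φ (((a ^ 3)⁻¹ - 1) • z)) a a (a * (a ^ 3)⁻¹) (by simp [hz, ← hn3, ha]) ha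
      (by simp [LinearMap.transvection.apply, hu]) (by simp [LinearMap.transvection.apply, hw])
      (by simp [LinearMap.transvection.apply, hv]) (fun x => by simp [LinearMap.transvection.apply, hz]; ring)
      (by simp [ha]) fun e => ha' (by simpa [ha] using e)
  by_cases hs : v ∈ Submodule.span F (Set.range ![u, w])
  · obtain ⟨z, α, h1, h2, h5⟩ := exists_ker_not_mem φ ![u, w] (by omega)
    exact A z α h1 (h2 0) (h2 1) ((Submodule.span_le (p := LinearMap.ker α)).2 (Set.range_subset_iff.2 h2) hs) h5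
  obtain hn4 | hn4 := (show 4 ≤ n from hn3).eq_or_lt
  · obtain ⟨a, ha, ha'⟩ := h4 hn4.symm
    obtain ⟨α, h1, h2, -⟩ := H27.exists_dual_ne_zero_two _ hs hs
    have h5 : α u = 0 := h1 _ (Submodule.subset_span ⟨0, rfl⟩)
    have h6 : α w = 0 := h1 _ (Submodule.subset_span ⟨1, rfl⟩)
    refine B (LinearMap.transvection α ((a - 1) • v) * LinearMap.transvection φ ((a⁻¹ - 1) • z)) 1 a a⁻¹
      (by simp [hz, h2, ha]) one_ne_zero
      (by simp [LinearMap.transvection.apply, hu, h5]) (by simp [LinearMap.transvection.apply, hw, h6])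
      (by simp [LinearMap.transvection.apply, hv, h2, sub_smul])
      (fun x => by simp [LinearMap.transvection.apply, hz, hv]; ring)
      (by simp [ha]) fun e => ha' (by rw [sq]; nth_rw 2 [e]; simp [ha])
  · obtain ⟨z, α, h1, h2, h5⟩ := exists_ker_not_mem φ ![u, w, v] (by omega)
    exact A z α h1 (h2 0) (h2 1) (h2 2) h5

end gen

variable [Fintype F] {V : Type*} [AddCommGroup V] [Module ℂ V]

noncomputable instance fintypeDual : Fintype (Dual F X) := Fintype.ofFinite _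

noncomputable instance fintypeAnn (u : X) : Fintype (Ann u) := Fintype.ofFinite _

/-- the projection onto a weight space -/
noncomputable def pS (ρ : SpecialLinearGroup (Fin n) F →* End ℂ V) (ψ : AddChar F ℂ) (u w : X) : End ℂ V :=
  prj (tS ρ u) (chS ψ u w)

variable {ρ : SpecialLinearGroup (Fin n) F →* End ℂ V} {ψ : AddChar F ℂ}

theorem pS_mem (u w : X) (x : V) : pS ρ ψ u w x ∈ VS ρ ψ u w := (isProj_prj (tS_add u) _).map_mem x

theorem pS_id {u w : X} {x : V} (hx : x ∈ VS ρ ψ u w) : pS ρ ψ u w x = x := (isProj_prj (tS_add u) _).map_id x hx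

theorem pS_zero (hψ : ψ ≠ 1) {u w w' : X} {x : V} (hx : x ∈ VS ρ ψ u w') (h : w' - w ∉ Submodule.span F {u}) :
    pS ρ ψ u w x = 0 := by
  classical
  exact (prj_of_mem hx).trans (if_neg fun e => h ((chS_eq_iff hψ).1 e))

theorem trace_pS [FiniteDimensional ℂ V] (u w : X) : LinearMap.trace ℂ V (pS ρ ψ u w) = finrank ℂ (VS ρ ψ u w) :=
  (isProj_prj (tS_add u) _).trace

theorem pS_line (hψ : ψ ≠ 1) {u w : X} (h : w ∈ Submodule.span F {u}) : pS ρ ψ u w = pS ρ ψ u 0 := by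
  rw [pS, (chS_eq_iff hψ (w' := 0)).2 (by rwa [sub_zero]), pS]

theorem sum_pS (hψ : ψ ≠ 1) {u : X} {W : Submodule F X} (hu : u ∈ W) (h0 : u ≠ 0) :
    (Fintype.card F : ℂ) ^ (n - 1) • ∑ w ∈ SW W, pS ρ ψ u w =
      (#(SW W) : ℂ) • ∑ φ ∈ SW W.dualAnnihilator, ρ (slT u φ) := by
  classical
  have h1 : (Fintype.card (Ann u) : ℂ) = Fintype.card F ^ (n - 1) := by
    rw [← Nat.card_eq_fintype_card, card_Ann h0, Nat.card_eq_fintype_card, Nat.cast_pow]
  simp only [pS, prj, ← Finset.smul_sum, h1]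
  rw [smul_inv_smul₀ (by simp), sum_comm]
  have h2 : ∀ φ : Ann u, ∑ w ∈ SW W, chS ψ u w (-φ) • tS ρ u φ =
      if φ.1 ∈ W.dualAnnihilator then (#(SW W) : ℂ) • ρ (slT u φ.1) else 0 := fun φ => by
    rw [← Finset.sum_smul, show ∑ w ∈ SW W, chS ψ u w (-φ) = ∑ w ∈ SW W, ψ ((-φ.1) w) from rfl, sum_char_SW hψ]
    simp [tS]
  rw [sum_congr rfl fun φ _ => h2 φ, ← Finset.sum_subtype (SW (Ann u)) (fun _ => mem_SW)
    fun φ => if φ ∈ W.dualAnnihilator then (#(SW W) : ℂ) • ρ (slT u φ) else 0, ← sum_filter, Finset.smul_sum]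
  refine sum_congr (Finset.ext fun φ => ?_) fun _ _ => rfl
  simpa using fun h => (Submodule.mem_dualAnnihilator φ).1 h u hu

theorem sum_pS_top (hψ : ψ ≠ 1) {u : X} (h0 : u ≠ 0) : ∑ w, pS ρ ψ u w = (Fintype.card F : ℂ) • 1 := by
  classical
  obtain ⟨i, -⟩ := Function.ne_iff.1 h0
  have := sum_pS (ρ := ρ) hψ (W := ⊤) trivial h0
  rw [show SW (⊤ : Submodule F X) = univ by ext; simp,
    show SW (⊤ : Submodule F X).dualAnnihilator = {0} by ext; simp] at this
  refine smul_right_injective _ (pow_ne_zero (n - 1) (Nat.cast_ne_zero.2 (Fintype.card_ne_zero (α := F)))) (this.trans ?_)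
  simp [slT_zero, smul_smul, ← pow_succ, Nat.sub_add_cancel i.pos]

theorem ext_VS (hψ : ψ ≠ 1) {u : X} (h0 : u ≠ 0) {f g : End ℂ V} (h : ∀ w, ∀ x ∈ VS ρ ψ u w, f x = g x) : f = g := by
  refine smul_right_injective _ (Nat.cast_ne_zero.2 (Fintype.card_ne_zero (α := F)) : (Fintype.card F : ℂ) ≠ 0) ?_
  have : ∀ f : End ℂ V, (Fintype.card F : ℂ) • f = ∑ w, f * pS ρ ψ u w := fun f => by
    rw [← Finset.mul_sum, sum_pS_top hψ h0, mul_smul_comm, mul_one]
  simp only [this]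
  exact sum_congr rfl fun w _ => LinearMap.ext fun x => h w _ (pS_mem u w x)

theorem conj_pS (hψ : ψ ≠ 1) (g : G) {u : X} (h0 : u ≠ 0) (w : X) :
    ρ g * pS ρ ψ u w = pS ρ ψ (g.1 *ᵥ u) (g.1 *ᵥ w) * ρ g := by
  refine ext_VS (ρ := ρ) hψ h0 fun w' x hx => ?_
  rw [End.mul_apply, End.mul_apply]
  by_cases h : w' - w ∈ Submodule.span F {u}
  · rw [VS, (chS_eq_iff hψ).2 h] at hx
    rw [pS_id hx, pS_id (map_VS g hx)]
  · rw [pS_zero hψ hx h, pS_zero hψ (map_VS g hx) fun e => h ?_, map_zero]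
    obtain ⟨c, hc⟩ := Submodule.mem_span_singleton.1 e
    exact Submodule.mem_span_singleton.2 ⟨c, MulAction.injective g (by
      simp only [smul_sub, smul_comm g c]; exact hc)⟩

theorem sum_split (hψ : ψ ≠ 1) {u : X} (h0 : u ≠ 0) {S : Finset X} [DecidableEq X]
    (hS : SW (Submodule.span F {u}) ⊆ S) {M : Type*} [AddCommGroup M] [Module ℂ M] (f : End ℂ V → M) :
    ∑ w ∈ S, f (pS ρ ψ u w) =
      (Fintype.card F : ℂ) • f (pS ρ ψ u 0) + ∑ w ∈ S \ SW (Submodule.span F {u}), f (pS ρ ψ u w) := by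
  rw [← sum_sdiff hS, add_comm, sum_congr rfl fun w hw => by rw [pS_line hψ (mem_SW.1 hw)], sum_const, card_SW,
    finrank_span_singleton h0, pow_one, Nat.cast_smul_eq_nsmul]

/-- the sum of the projections onto the fixed spaces of the transvection groups -/
noncomputable def eS (ρ : SpecialLinearGroup (Fin n) F →* End ℂ V) (ψ : AddChar F ℂ) (S : Finset X) : End ℂ V :=
  ∑ y ∈ S, pS ρ ψ y 0

theorem conj_eS (hψ : ψ ≠ 1) (g : G) {S : Finset X} (h0 : 0 ∉ S) (hS : ∀ y ∈ S, g.1 *ᵥ y ∈ S) :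
    ρ g * eS ρ ψ S = eS ρ ψ S * ρ g := by
  classical
  rw [eS, Finset.mul_sum, Finset.sum_mul, sum_congr rfl fun y hy => conj_pS hψ g (ne_of_mem_of_not_mem hy h0) 0]
  have hi : Function.Injective fun y : X => g.1 *ᵥ y := MulAction.injective g
  conv_rhs => rw [← Finset.eq_of_subset_of_card_le (image_subset_iff.2 hS) (card_image_of_injective S hi).ge]
  rw [sum_image fun _ _ _ _ e => hi e]
  simp

end Cfsg.Agent.H65
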