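import Cfsg.Agent.H65.SLc
set_option autoImplicit false

/-! The minimal degree of a nonlinear irreducible complex representation of `SL_n(q)`. -/

namespace Cfsg.Agent.H65

open Module Matrix Finset

theorem sl_arith {q Q c d : ℤ} (hq : 2 ≤ q) (hQ : q ^ 2 ≤ Q) (h2 : q = 2 → 16 ≤ Q) (hc : 0 ≤ c) (hd : q - 1 ≤ d)
    (h : (q * Q - 1) * c * d = (c + Q - 1) * ((Q - q) * d + (q ^ 2 - 1) * (d - q + 1))) : Q - 1 ≤ (q - 1) * c := by
  obtain rfl | hd := hd.eq_or_lt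
  · have h1 : (Q + 1) * (c * (q - 1) - (Q - q - 2)) = 2 * (q + 1) :=
      mul_left_cancel₀ (show q - 1 ≠ 0 by omega) (by linear_combination h)
    have h3 := Int.le_of_dvd (by omega) ⟨_, h1.symm⟩
    obtain rfl | hq := hq.eq_or_lt
    · omega
    · nlinarith
  · have h1 : 0 ≤ (c + Q - 1) * ((q ^ 2 - 1) * (q - 1) * (d - q)) :=
      mul_nonneg (by nlinarith) (mul_nonneg (mul_nonneg (by nlinarith) (by omega)) (by omega))
    have h3 : 0 < (q * Q - 1) * d := mul_pos (by nlinarith) (by omega)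
    have : 0 ≤ (q * Q - 1) * d * ((q - 1) * c - (Q - 1)) := by linear_combination h1 - q * h
    have := (mul_nonneg_iff_of_pos_left h3).1 this
    omega

variable {F : Type*} [Field F] [Fintype F] [DecidableEq F] {n : ℕ} {V : Type*} [AddCommGroup V] [Module ℂ V]
  [FiniteDimensional ℂ V] {ρ : SpecialLinearGroup (Fin n) F →* End ℂ V} {ψ : AddChar F ℂ}

local notation "X" => Fin n → F
local notation "τ" => LinearMap.trace ℂ V
local notation "𝐪" => (Fintype.card F : ℂ)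
local notation "𝐐" => (Fintype.card F : ℂ) ^ (n - 1)
local notation "𝐋" u => SW (Submodule.span F {u})

/-- the weight spaces are lines fixed by the transvections fixing the weight -/
structure M1 (ρ : SpecialLinearGroup (Fin n) F →* End ℂ V) (ψ : AddChar F ℂ) (c : ℕ) : Prop where
  hn : 3 ≤ n
  hψ : ψ ≠ 1
  m : ∀ u w : Fin n → F, u ≠ 0 → w ∉ Submodule.span F {u} → finrank ℂ (VS ρ ψ u w) = 1
  c : ∀ u : Fin n → F, u ≠ 0 → finrank ℂ (VS ρ ψ u 0) = c
  fix : ∀ (u w v : Fin n → F) (φ : Dual F (Fin n → F)), u ≠ 0 → w ∉ Submodule.span F {u} → φ u = 0 → φ w = 0 →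
    φ v = 0 → ∀ x ∈ VS ρ ψ u w, ρ (slT v φ) x = x

omit [DecidableEq F] in
theorem card_L {u : X} (h : u ≠ 0) : (#(𝐋 u) : ℂ) = 𝐪 := by rw [card_SW, finrank_span_singleton h, pow_one]

omit [Field F] [DecidableEq F] in
theorem card_X (hn : 3 ≤ n) : (#(univ : Finset X) : ℂ) = 𝐪 * 𝐐 := by
  simp [← pow_succ', Nat.sub_add_cancel (show 1 ≤ n by omega)]

omit [Field F] [Fintype F] in
theorem sum_sdiff_const {S T : Finset X} (h : T ⊆ S) {f : X → ℂ} {a : ℂ} (hf : ∀ x ∈ S, x ∉ T → f x = a) :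
    ∑ x ∈ S \ T, f x = (#S - #T : ℂ) * a := by
  rw [sum_congr rfl fun x hx => hf x (mem_sdiff.1 hx).1 (mem_sdiff.1 hx).2, sum_const, nsmul_eq_mul,
    card_sdiff_of_subset h, Nat.cast_sub (card_le_card h)]

variable {c : ℕ}

theorem M1.tr_t (h : M1 ρ ψ c) {u u' : X} (h0 : u' ≠ 0) (hu : u ∉ Submodule.span F {u'}) {φ : Dual F X} (h1 : φ u = 0)
    (h2 : φ u' = 0) : 𝐪 * τ (ρ (slT u φ)) = 𝐪 * τ (ρ (slT u φ) * pS ρ ψ u' 0) + (#(SW (LinearMap.ker φ)) - 𝐪) := by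
  have h3 := sum_split (ρ := ρ) h.hψ h0 (subset_univ _) fun f => τ (ρ (slT u φ) * f)
  rw [← map_sum, ← Finset.mul_sum, sum_pS_top h.hψ h0, mul_smul_comm, mul_one, map_smul, smul_eq_mul, smul_eq_mul] at h3
  have h4 : (𝐋 u') ⊆ SW (LinearMap.ker φ) := fun x hx =>
    mem_SW.2 ((Submodule.span_singleton_le_iff_mem _ _).2 h2 (mem_SW.1 hx))
  rw [h3, ← sum_subset (sdiff_subset_sdiff (subset_univ (SW (LinearMap.ker φ))) subset_rfl) fun w hw hw' => ?_,
    sum_sdiff_const h4 (a := 1) fun w hw hw' => ?_, card_L h0, mul_one]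
  · rw [show ρ (slT u φ) * pS ρ ψ u' w = pS ρ ψ u' w from LinearMap.ext fun x =>
      h.fix u' w u φ h0 (mem_SW.not.1 hw') h2 (mem_SW.1 hw) h1 _ (pS_mem _ _ _), trace_pS,
      h.m _ _ h0 (mem_SW.not.1 hw'), Nat.cast_one]
  · have h5 : φ w ≠ 0 := by simp_all
    rw [show pS ρ ψ u' w = pS ρ ψ u' w * pS ρ ψ u' w from LinearMap.ext fun x => (pS_id (pS_mem _ _ _)).symm,
      ← mul_assoc, LinearMap.trace_mul_comm, show pS ρ ψ u' w * (ρ (slT u φ) * pS ρ ψ u' w) = 0 from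
        LinearMap.ext fun x => ?_, map_zero]
    have := map_VS (slT u φ) (pS_mem (ρ := ρ) (ψ := ψ) u' w x)
    rw [slT_mulVec h1, slT_mulVec h1, h2, zero_smul, add_zero] at this
    refine pS_zero h.hψ this fun e => hu ?_
    rwa [add_sub_cancel_left, Submodule.smul_mem_iff _ h5] at e

theorem M1.loc (h : M1 ρ ψ c) {W : Submodule F X} (hW : finrank F W = 2) {u u' : X} (h0 : u ≠ 0) (h0' : u' ≠ 0)
    (hu : u ∉ Submodule.span F {u'}) (h1 : u ∈ W) (h2 : u' ∈ W) :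
    𝐪 * τ (pS ρ ψ u 0 * pS ρ ψ u' 0) + ∑ w ∈ SW W \ 𝐋 u, τ (pS ρ ψ u w * pS ρ ψ u' 0) = 𝐪 * (c + 1) - 𝐐 := by
  classical
  have hn := h.hn
  have h3 : (𝐋 u) ⊆ SW W := fun x hx => mem_SW.2 ((Submodule.span_singleton_le_iff_mem _ _).2 h1 (mem_SW.1 hx))
  have h4 := sum_pS (ρ := ρ) h.hψ h1 h0
  have h5 := congrArg τ h4
  have h6 := congrArg (fun f => τ (f * pS ρ ψ u' 0)) h4
  simp only [map_smul, map_sum, smul_mul_assoc, Finset.sum_mul, smul_eq_mul] at h5 h6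
  rw [sum_split h.hψ h0 h3 fun f => τ (f * pS ρ ψ u' 0), card_SW, hW, smul_eq_mul] at h6
  rw [sum_split h.hψ h0 h3, sum_sdiff_const h3 (a := 1) fun w _ hw => by
    rw [trace_pS, h.m _ _ h0 (mem_SW.not.1 hw), Nat.cast_one], trace_pS, h.c _ h0, card_L h0, card_SW, hW,
    smul_eq_mul] at h5
  have h7 := sum_congr rfl fun φ (hφ : φ ∈ SW W.dualAnnihilator) => h.tr_t h0' hu
    ((Submodule.mem_dualAnnihilator φ).1 (mem_SW.1 hφ) _ h1) ((Submodule.mem_dualAnnihilator φ).1 (mem_SW.1 hφ) _ h2)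
  have h8 : (#(SW W.dualAnnihilator) : ℂ) * 𝐪 = 𝐐 := by
    have := Subspace.finrank_add_finrank_dualAnnihilator_eq W
    rw [finrank_fin_fun] at this
    rw [card_SW, Nat.cast_pow, ← pow_succ, show n - 1 = finrank F W.dualAnnihilator + 1 by omega]
  rw [sum_add_distrib, ← Finset.mul_sum, ← Finset.mul_sum, ← add_sum_erase _ (fun φ : Dual F X =>
    ((#(SW (LinearMap.ker φ)) : ℂ) - 𝐪)) (mem_SW.2 (zero_mem _)), sum_congr (s₁ := erase _ _) rfl (g := fun _ => 𝐐 - 𝐪)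
      fun φ hφ => by
      have := Module.Dual.finrank_ker_add_one_of_ne_zero (ne_of_mem_erase hφ)
      rw [finrank_fin_fun] at this
      rw [card_SW, show n - 1 = finrank F (LinearMap.ker φ) by omega, Nat.cast_pow],
    sum_const, nsmul_eq_mul, cast_card_erase_of_mem (mem_SW.2 (zero_mem _)),
    show SW (LinearMap.ker (0 : Dual F X)) = univ by ext; simp, card_X hn] at h7
  refine mul_left_cancel₀ (pow_ne_zero (n - 1) (Nat.cast_ne_zero.2 (Fintype.card_ne_zero (α := F)))) ?_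
  push_cast at h5 h6
  linear_combination h6 - h5 - 𝐪 * h7 - (𝐐 - 𝐪) * h8

omit [DecidableEq F] [FiniteDimensional ℂ V] [Fintype F] in
theorem trace_of_conj (g : SpecialLinearGroup (Fin n) F) {A A' : End ℂ V} (h : ρ g * A = A' * ρ g) : τ A = τ A' := by
  rw [← one_mul A, ← map_one ρ, ← inv_mul_cancel g, map_mul ρ, mul_assoc, h, LinearMap.trace_mul_comm, mul_assoc,
    ← map_mul, mul_inv_cancel, map_one, mul_one]

theorem M1.bound (h : M1 ρ ψ c) (hS : ∀ f : End ℂ V, (∀ g, f * ρ g = ρ g * f) → ∃ s : ℂ, f = s • 1)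
    (h2 : Fintype.card F = 2 → 5 ≤ n) : Fintype.card F ^ (n - 1) - 1 ≤ (Fintype.card F - 1) * c := by
  have hn := h.hn
  have hψ := h.hψ
  let u : X := Pi.single ⟨0, by omega⟩ 1
  have h0 : u ≠ 0 := by simp [u]
  obtain ⟨v, α, a1, -, a2⟩ := exists_not_mem_span hn u u
  have hv : v ∉ Submodule.span F {u} := fun e => by
    obtain ⟨c, rfl⟩ := Submodule.mem_span_singleton.1 e; simp [a1] at a2
  have hi := indep_of_not_mem h0 hv
  let P := Submodule.span F (Set.range ![u, v])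
  have hP : finrank F P = 2 := finrank_span_eq_card hi
  have uP : u ∈ P := Submodule.subset_span ⟨0, rfl⟩
  have vP : v ∈ P := Submodule.subset_span ⟨1, rfl⟩
  have LP : ∀ y ∈ P, (𝐋 y) ⊆ SW P := fun y hy x hx =>
    mem_SW.2 ((Submodule.span_singleton_le_iff_mem _ _).2 hy (mem_SW.1 hx))
  have cP : (#(SW P) : ℂ) = 𝐪 ^ 2 := by rw [card_SW, hP, Nat.cast_pow]
  have cP' : (#((SW P).erase 0) : ℂ) = 𝐪 ^ 2 - 1 := by rw [cast_card_erase_of_mem (mem_SW.2 (zero_mem _)), cP]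
  have hq : (𝐪) ≠ 0 := Nat.cast_ne_zero.2 Fintype.card_ne_zero
  have hq2 : 2 ≤ Fintype.card F := Fintype.one_lt_card
  have hq1 : (𝐪) - 1 ≠ 0 := sub_ne_zero.2 (by exact_mod_cast (by omega : Fintype.card F ≠ 1))
  have hQ2 : Fintype.card F ^ 2 ≤ Fintype.card F ^ (n - 1) := Nat.pow_le_pow_right (by omega) (by omega)
  have hQ1 : 𝐐 - 1 ≠ 0 := sub_ne_zero.2 (by exact_mod_cast (by nlinarith : 1 < Fintype.card F ^ (n - 1)).ne')
  -- the dimension
  have e1 := sum_split (ρ := ρ) hψ h0 (subset_univ _) τ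
  rw [← map_sum, sum_pS_top hψ h0, map_smul, LinearMap.trace_one, sum_sdiff_const (subset_univ _) (a := 1) fun w _ hw => by
    rw [trace_pS, h.m _ _ h0 (mem_SW.not.1 hw), Nat.cast_one], trace_pS, h.c _ h0, card_L h0, card_X hn, smul_eq_mul,
    smul_eq_mul] at e1
  -- the constant `B`
  have hB : ∀ y ∉ Submodule.span F {u}, τ (pS ρ ψ u 0 * pS ρ ψ y 0) = τ (pS ρ ψ u 0 * pS ρ ψ v 0) := fun y hy => by
    obtain ⟨g, g1, g2⟩ := exists_sl_pair hn (indep_of_not_mem h0 hy) hi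
    refine trace_of_conj (ρ := ρ) g ?_
    rw [← mul_assoc, conj_pS hψ g h0, mul_assoc, conj_pS hψ g (u := y) fun e => hy (e ▸ zero_mem _), g1, g2,
      mulVec_zero, mul_assoc]
  have hL : ∀ y ∈ Submodule.span F {u}, y ≠ 0 → ∀ x, pS ρ ψ y 0 x ∈ VS ρ ψ u 0 := fun y hy hy' x => by
    obtain ⟨a, rfl⟩ := Submodule.mem_span_singleton.1 hy
    have := VS_smul (ρ := ρ) (ψ := ψ) (left_ne_zero_of_smul hy') u 0 0
    rw [smul_zero, zero_smul, add_zero] at this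
    exact this ▸ pS_mem _ _ _
  -- Schur
  obtain ⟨s, hs⟩ := hS (eS ρ ψ (univ.erase 0)) fun g => (conj_eS hψ g (by simp) fun y hy =>
    mem_erase.2 ⟨(smul_ne_zero_iff_ne g).2 (ne_of_mem_erase hy), mem_univ _⟩).symm
  have e2 := congrArg τ hs
  rw [eS, map_sum, sum_congr rfl fun y hy => by rw [trace_pS, h.c _ (ne_of_mem_erase hy)], sum_const, nsmul_eq_mul,
    cast_card_erase_of_mem (mem_univ _), card_X hn, map_smul, LinearMap.trace_one, smul_eq_mul] at e2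
  have e3 := congrArg (fun f => τ (pS ρ ψ u 0 * f)) hs
  simp only [eS, Finset.mul_sum, map_sum, mul_smul_comm, mul_one, map_smul, trace_pS, h.c _ h0, smul_eq_mul] at e3
  rw [← sum_sdiff (erase_subset_erase 0 (subset_univ (𝐋 u))), show univ.erase 0 \ (𝐋 u).erase 0 = univ \ 𝐋 u from
    Finset.ext fun y => by by_cases e : y = 0 <;> simp [e],
    sum_sdiff_const (subset_univ _) fun y _ hy => hB y (mem_SW.not.1 hy), sum_congr rfl (g := fun _ => (c : ℂ)) fun y hy => by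
      rw [show pS ρ ψ u 0 * pS ρ ψ y 0 = pS ρ ψ y 0 from LinearMap.ext fun x =>
        pS_id (hL y (mem_SW.1 (mem_of_mem_erase hy)) (ne_of_mem_erase hy) x), trace_pS, h.c _ (ne_of_mem_erase hy)],
    sum_const, nsmul_eq_mul, cast_card_erase_of_mem (mem_SW.2 (zero_mem _)), card_L h0, card_X hn] at e3
  -- the plane
  have hE : ∀ g : SpecialLinearGroup (Fin n) F, g.1 *ᵥ u ∈ P → g.1 *ᵥ v ∈ P →
      ρ g * eS ρ ψ ((SW P).erase 0) = eS ρ ψ ((SW P).erase 0) * ρ g := fun g g1 g2 =>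
    conj_eS hψ g (by simp) fun y hy => mem_erase.2 ⟨(smul_ne_zero_iff_ne g).2 (ne_of_mem_erase hy), mem_SW.2
      ((Submodule.span_le (p := P.comap (toLin' g.1))).2 (Set.range_subset_iff.2 (Fin.forall_fin_two.2 ⟨g1, g2⟩))
        (mem_SW.1 (mem_of_mem_erase hy)))⟩
  obtain ⟨s', hs'⟩ : ∃ s' : ℂ, ∀ y ∈ P, y ≠ 0 → ∀ w ∈ P, w ∉ Submodule.span F {y} → ∀ x ∈ VS ρ ψ y w,
      eS ρ ψ ((SW P).erase 0) x = s' • x := by
    obtain ⟨⟨x, hx⟩, -, h4⟩ := finrank_eq_one_iff'.1 (h.m u v h0 hv)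
    obtain ⟨s', hs'⟩ := h4 ⟨eS ρ ψ ((SW P).erase 0) x, mem_VS.2 fun φ hφ => by
      rw [← End.mul_apply, hE _ (by simpa [slT_mulVec hφ, hφ]) (by
        rw [slT_mulVec hφ]; exact add_mem vP (P.smul_mem _ uP)), End.mul_apply, mem_VS.1 hx φ hφ, map_smul]⟩
    refine ⟨s', fun y y1 y2 w w1 w2 z hz => ?_⟩
    obtain ⟨g, g1, g2⟩ := exists_sl_pair hn hi (indep_of_not_mem y2 w2)
    have h5 := map_VS g⁻¹ hz
    rw [← g1, ← g2, sl_inv_mul, sl_inv_mul] at h5
    obtain ⟨a, ha⟩ := h4 ⟨_, h5⟩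
    rw [show z = ρ g (ρ g⁻¹ z) by rw [← End.mul_apply, ← map_mul, mul_inv_cancel, map_one, End.one_apply],
      ← End.mul_apply, ← hE g (g1 ▸ y1) (g2 ▸ w1), End.mul_apply, ← show a • x = ρ g⁻¹ z from congrArg Subtype.val ha,
      map_smul, ← show s' • x = eS ρ ψ ((SW P).erase 0) x from congrArg Subtype.val hs', smul_comm, map_smul]
  have e4 := sum_sdiff_const (LP u uP) fun y y1 y2 => h.loc hP h0 (u' := y) (fun e => y2 (e ▸ mem_SW.2 (zero_mem _)))
    (fun e => y2 (mem_SW.2 (by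
      obtain ⟨a, e⟩ := Submodule.mem_span_singleton.1 e
      rw [← e, Submodule.span_singleton_smul_eq (left_ne_zero_of_smul (e ▸ h0)).isUnit]
      exact Submodule.mem_span_singleton_self y))) uP (mem_SW.1 y1)
  rw [sum_add_distrib, ← Finset.mul_sum, sum_sdiff_const (LP u uP) fun y _ hy => hB y (mem_SW.not.1 hy), sum_comm,
    sum_sdiff_const (LP u uP) (a := s') fun w w1 w2 => by
      rw [sum_subset (s₂ := (SW P).erase 0) (fun y hy => mem_erase.2 ⟨fun e => (mem_sdiff.1 hy).2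
        (e ▸ mem_SW.2 (zero_mem _)), (mem_sdiff.1 hy).1⟩) fun y y1 y2 => by
          rw [show pS ρ ψ u w * pS ρ ψ y 0 = 0 from LinearMap.ext fun x => pS_zero hψ (hL y (by simp_all)
            (ne_of_mem_erase y1) x) (by simpa using w2), map_zero],
        ← map_sum, ← Finset.mul_sum, LinearMap.trace_mul_comm, ← eS,
        show eS ρ ψ ((SW P).erase 0) * pS ρ ψ u w = s' • pS ρ ψ u w from
        LinearMap.ext fun x => hs' u uP h0 w (mem_SW.1 w1) (mem_SW.not.1 w2) _ (pS_mem _ _ _), map_smul, trace_pS,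
        h.m _ _ h0 (mem_SW.not.1 w2), Nat.cast_one, smul_eq_mul, mul_one], cP, card_L h0] at e4
  let U : Submodule ℂ V :=
    { carrier := {x | (∀ y ∈ P, ∀ φ ∈ P.dualAnnihilator, ρ (slT y φ) x = x) ∧ eS ρ ψ ((SW P).erase 0) x = s' • x}
      add_mem' := fun ha hb => ⟨fun y hy φ hφ => by rw [map_add, ha.1 y hy φ hφ, hb.1 y hy φ hφ],
        by rw [map_add, ha.2, hb.2, smul_add]⟩
      zero_mem' := by simp
      smul_mem' := fun a x ha => ⟨fun y hy φ hφ => by rw [map_smul, ha.1 y hy φ hφ], by rw [map_smul, ha.2, smul_comm]⟩ }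
  have hU : ∀ y ∈ P, y ≠ 0 → ∀ w ∈ P, w ∉ Submodule.span F {y} → VS ρ ψ y w ≤ U := fun y y1 y2 w w1 w2 x hx =>
    ⟨fun z z1 φ hφ => h.fix y w z φ y2 w2 ((Submodule.mem_dualAnnihilator φ).1 hφ _ y1)
      ((Submodule.mem_dualAnnihilator φ).1 hφ _ w1) ((Submodule.mem_dualAnnihilator φ).1 hφ _ z1) x hx,
      hs' y y1 y2 w w1 w2 x hx⟩
  have e5 := trace_of_range (f := ∑ y ∈ (SW P).erase 0, ∑ w ∈ SW P \ 𝐋 y, pS ρ ψ y w) (U := U)
    (c := 𝐪 * (𝐪 ^ 2 - 1) - 𝐪 * s') (fun x => by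
      simp only [LinearMap.sum_apply]
      exact sum_mem fun y hy => sum_mem fun w hw => hU y (mem_SW.1 (mem_of_mem_erase hy)) (ne_of_mem_erase hy) w
        (mem_SW.1 (mem_sdiff.1 hw).1) (mem_SW.not.1 (mem_sdiff.1 hw).2) (pS_mem _ _ _)) fun x hx => by
      have h3 : ∀ y ∈ (SW P).erase 0, (∑ w ∈ SW P \ 𝐋 y, pS ρ ψ y w) x = 𝐪 • x - 𝐪 • pS ρ ψ y 0 x := fun y hy => by
        have y1 := mem_SW.1 (mem_of_mem_erase hy)
        have h4 := LinearMap.congr_fun (sum_pS (ρ := ρ) hψ y1 (ne_of_mem_erase hy)) x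
        rw [sum_split hψ (ne_of_mem_erase hy) (LP y y1) fun f => f, cP, LinearMap.smul_apply, LinearMap.smul_apply,
          LinearMap.sum_apply (SW P.dualAnnihilator), sum_congr rfl fun φ hφ => hx.1 y y1 φ (mem_SW.1 hφ), sum_const,
          card_SW, ← Nat.cast_smul_eq_nsmul ℂ, smul_smul, Nat.cast_pow, ← pow_add, show 2 + finrank F P.dualAnnihilator
            = n - 1 + 1 by have := Subspace.finrank_add_finrank_dualAnnihilator_eq P; rw [finrank_fin_fun] at this; omega,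
          pow_succ, mul_smul] at h4
        exact eq_sub_of_add_eq' (smul_right_injective V (pow_ne_zero _ hq) h4)
      rw [LinearMap.sum_apply, sum_congr rfl h3, sum_sub_distrib, ← Finset.smul_sum, ← Finset.smul_sum,
        ← LinearMap.sum_apply, ← eS, hx.2, sum_const, ← Nat.cast_smul_eq_nsmul ℂ, cP', sub_smul (𝐪 * _), mul_smul, mul_smul]
  rw [map_sum, sum_congr rfl (g := fun _ => 𝐪 ^ 2 - 𝐪) fun y hy => by
    rw [map_sum, sum_sdiff_const (LP y (mem_SW.1 (mem_of_mem_erase hy))) (a := 1) fun w _ hw => by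
      rw [trace_pS, h.m _ _ (ne_of_mem_erase hy) (mem_SW.not.1 hw), Nat.cast_one], cP, card_L (ne_of_mem_erase hy),
      mul_one], sum_const, nsmul_eq_mul, cP'] at e5
  have hd : Fintype.card F - 1 ≤ finrank ℂ U := by
    have h3 : ∀ b : Fˣ, b.1 • v ∉ Submodule.span F {u} := fun b => by rwa [Submodule.smul_mem_iff _ b.ne_zero]
    choose x x1 x2 using fun b : Fˣ =>
      (Submodule.ne_bot_iff _).1 (Submodule.one_le_finrank_iff.1 (h.m u _ h0 (h3 b)).ge)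
    rw [← Fintype.card_units, ← Nat.card_eq_fintype_card]
    refine card_le_finrank_sub (tS_comm (ρ := ρ) u) (γ := fun b : Fˣ => chS ψ u (b.1 • v)) (fun b b' e => ?_) x2 x1
      fun b => hU u uP h0 _ (P.smul_mem _ vP) (h3 b) (x1 b)
    have := (chS_eq_iff hψ).1 (DFunLike.coe_injective e)
    rw [← sub_smul] at this
    exact Units.ext (sub_eq_zero.1 (by_contra fun e => hv ((Submodule.smul_mem_iff _ e).1 this)))
  -- arithmetic
  have f1 : (finrank ℂ V : ℂ) = c + 𝐐 - 1 := mul_left_cancel₀ hq (by linear_combination e1)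
  have f4 : 𝐪 * τ (pS ρ ψ u 0 * pS ρ ψ v 0) + s' = 𝐪 * (c + 1) - 𝐐 :=
    mul_left_cancel₀ (mul_ne_zero hq hq1) (by linear_combination e4)
  have f5 : s' * finrank ℂ U = (𝐪 ^ 2 - 1) * (finrank ℂ U - 𝐪 + 1) := mul_left_cancel₀ hq (by linear_combination e5)
  have f2 : (𝐪 * 𝐐 - 1) * c = (c + 𝐐 - 1) * (s' + 𝐐 - 𝐪) := mul_left_cancel₀ hQ1 (by
    rw [f1] at e2
    linear_combination (-c) * e2 + (c + 𝐐 - 1) * e3 - (c + 𝐐 - 1) * (𝐐 - 1) * f4)
  have := sl_arith (q := Fintype.card F) (Q := Fintype.card F ^ (n - 1)) (c := c) (d := finrank ℂ U) (by omega)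
    (by exact_mod_cast hQ2) (fun e => by
      rw [e]; exact le_trans (by norm_num) (pow_le_pow_right₀ one_le_two (show 4 ≤ n - 1 by omega))) (by omega) (by omega)
    (Int.cast_injective (α := ℂ) (by push_cast; linear_combination finrank ℂ U * f2 + (c + 𝐐 - 1) * f5))
  zify [Nat.one_le_pow _ _ Fintype.card_pos, Fintype.card_pos]
  exact this

theorem sl_min (ρ : Representation ℂ (SpecialLinearGroup (Fin n) F) V) [ρ.IsIrreducible] (hk : 2 ≤ finrank ℂ V)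
    (hn : 3 ≤ n) (h3 : n = 3 → ∃ a : F, a ≠ 0 ∧ a ^ 3 ≠ 1) (h4 : n = 4 → ∃ a : F, a ≠ 0 ∧ a ^ 2 ≠ 1)
    (h2 : Fintype.card F = 2 → 5 ≤ n) :
    Fintype.card F * (Fintype.card F ^ (n - 1) - 1) ≤ (Fintype.card F - 1) * finrank ℂ V := by
  obtain ⟨ψ, hψ⟩ := exists_addChar (F := F) (K := ℂ) (Nat.cast_ne_zero.2 (CharP.ringChar_ne_zero_of_finite F))
  have key : ∀ u : X, u ≠ 0 → ∃ v, v ∉ Submodule.span F {u} := fun u _ => by
    obtain ⟨v, α, a1, -, a2⟩ := exists_not_mem_span hn u u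
    exact ⟨v, fun e => by obtain ⟨c, rfl⟩ := Submodule.mem_span_singleton.1 e; simp [a1] at a2⟩
  have le : ∀ u w u' w' : X, u ≠ 0 → w ∉ Submodule.span F {u} → u' ≠ 0 → w' ∉ Submodule.span F {u'} →
      finrank ℂ (VS ρ ψ u w) ≤ finrank ℂ (VS ρ ψ u' w') ∧ finrank ℂ (VS ρ ψ u 0) ≤ finrank ℂ (VS ρ ψ u' 0) :=
    fun u w u' w' a b c d => by
      obtain ⟨g, rfl, rfl⟩ := exists_sl_pair hn (indep_of_not_mem a b) (indep_of_not_mem c d)
      exact ⟨finrank_VS_le g u w, (finrank_VS_le g u 0).trans_eq (by rw [mulVec_zero])⟩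
  let u : X := Pi.single ⟨0, by omega⟩ 1
  have h0 : u ≠ 0 := by simp [u]
  obtain ⟨v, hv⟩ := key u h0
  have hm : ∀ u' w' : X, u' ≠ 0 → w' ∉ Submodule.span F {u'} → finrank ℂ (VS ρ ψ u' w') = finrank ℂ (VS ρ ψ u v) :=
    fun u' w' a b => (le _ _ _ _ a b h0 hv).1.antisymm (le _ _ _ _ h0 hv a b).1
  have e1 := sum_split (ρ := ρ) hψ h0 (subset_univ _) τ
  rw [← map_sum, sum_pS_top hψ h0, map_smul, LinearMap.trace_one, sum_sdiff_const (subset_univ _) fun w _ hw => by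
    rw [trace_pS, hm _ _ h0 (mem_SW.not.1 hw)], trace_pS, card_L h0, card_X hn, smul_eq_mul, smul_eq_mul] at e1
  have hQ := Nat.one_le_pow (n - 1) _ (Fintype.card_pos (α := F))
  have hq2 : 2 ≤ Fintype.card F := Fintype.one_lt_card
  have e2 : finrank ℂ V = finrank ℂ (VS ρ ψ u 0) + (Fintype.card F ^ (n - 1) - 1) * finrank ℂ (VS ρ ψ u v) :=
    Nat.cast_injective (R := ℂ) (mul_left_cancel₀ (Nat.cast_ne_zero.2 (Fintype.card_ne_zero (α := F))) (by
      push_cast [hQ]; linear_combination e1))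
  obtain h5 | h5 | h5 := lt_trichotomy (finrank ℂ (VS ρ ψ u v)) 1
  · have := finrank_le_one_of_trivial ρ ‹_› (trivial_of_slT hn h0 fun φ hφ => ext_VS (ρ := ρ) hψ h0 fun w x hx => by
      by_cases h : w ∈ Submodule.span F {u}
      · obtain ⟨c, rfl⟩ := Submodule.mem_span_singleton.1 h
        simp [mem_VS.1 hx φ hφ, hφ]
      · rw [Submodule.finrank_eq_zero.1 ((hm _ _ h0 h).trans (Nat.lt_one_iff.1 h5))] at hx
        simp [(Submodule.mem_bot _).1 hx])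
    omega
  · have := M1.bound (ρ := ρ) (ψ := ψ) (c := finrank ℂ (VS ρ ψ u 0)) ⟨hn, hψ, fun a b c d => (hm a b c d).trans h5,
      fun a b => by
        obtain ⟨w, hw⟩ := key a b
        exact (le _ _ _ _ b hw h0 hv).2.antisymm (le _ _ _ _ h0 hv b hw).2,
      fun a b c φ d e f g h => slT_fix hn h3 h4 ((hm a b d e).trans h5) f g h⟩ (H5.exists_scalar_of_comm ρ) h2
    rw [e2, h5]
    generalize Fintype.card F ^ (n - 1) - 1 = r at *
    obtain ⟨q, hq⟩ := Nat.exists_eq_add_of_le' hq2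
    rw [hq, show q + 2 - 1 = q + 1 from rfl] at this ⊢
    nlinarith
  · rw [e2]
    generalize Fintype.card F ^ (n - 1) - 1 = r
    obtain ⟨q, hq⟩ := Nat.exists_eq_add_of_le' hq2
    rw [hq, show q + 2 - 1 = q + 1 from rfl]
    have := Nat.mul_le_mul_left ((q + 1) * r) h5
    nlinarith

end Cfsg.Agent.H65
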