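import Cfsg.Agent.H65.SpLS
import Cfsg.Agent.H10.SUSimple
import Cfsg.Agent.H29.SUInv
set_option autoImplicit false

/-! Lower bounds for the degrees of complex representations of special unitary groups. -/

namespace Cfsg.Agent.H65

open Module Matrix Cfsg.Agent.H10

variable {F : Type*} [Field F] [Fintype F] {q : ℕ} [hF : Fact (Fintype.card F = q ^ 2)] {n : ℕ}

local notation "σ" => cj F q
local notation "𝐡" => hermForm n F q

/-- the natural representation -/
noncomputable def suRep (n : ℕ) (F : Type*) [Field F] (q : ℕ) : SU n F q →* End F (Fin n → F) where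
  toFun g := Matrix.toLin' (sm g)
  map_one' := by rw [sm_one, toLin'_one]; rfl
  map_mul' g g' := by rw [sm_mul, toLin'_mul]; rfl

omit [Fintype F] hF in
theorem suRep_apply (g : SU n F q) (x : Fin n → F) : suRep n F q g x = sm g *ᵥ x := rfl

theorem isom_su : Isom σ (-1) 𝐡 (suRep n F q) where
  sq := ⟨herm_add_left, herm_smul_left, fun u v => by rw [cj_herm]; simp⟩
  inj _ _ e := SU_ext fun x => LinearMap.congr_fun e x
  iso g := sm_isIsom g
  ex u y hu hy h := ⟨eichSU (b := 0) hu (herm_swap_zero h) (by simp [hy]), fun x => by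
    rw [suRep_apply, sm_eichSU, eich_mulVec]; module⟩
  inv := cj_cj
  eps := by simp
  eps2 := by simp
  rep l := ⟨fun i => σ (l (Pi.single i 1)), fun x => by
    rw [herm_eq, LinearMap.pi_apply_eq_sum_univ l x]
    refine Finset.sum_congr rfl fun i _ => ?_
    rw [cj_cj, smul_eq_mul]
    congr 2
    ext j
    simp [Pi.single_apply, eq_comm]⟩
  sub e y he h := exists_isotropic_sub he fun h' => h (herm_swap_zero h')

theorem not_mem_center_su (hn : 2 ≤ n) {g : SU n F q} {v : Fin n → F} (hv : v ≠ 0) (hvv : 𝐡 v v = 0) {c : F}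
    (hc : c ≠ 0) (hg : ∀ x, sm g *ᵥ x = x + (c * 𝐡 x v) • v) : g ∉ Subgroup.center (SU n F q) := fun h => by
  obtain ⟨a, ha⟩ := (mem_center_SU_iff hn g).1 h
  obtain ⟨y, hy⟩ := exists_herm_eq_one (q := q) hv
  have h1 := hg v
  have h2 := hg y
  rw [ha, smul_mulVec, one_mulVec] at h1 h2
  rw [hvv, mul_zero, zero_smul, add_zero] at h1
  rw [smul_left_injective F hv (h1.trans (one_smul _ _).symm), hy] at h2
  simp [hc, hv] at h2

theorem exists_char_su : ∃ ψ : AddChar F ℂ, ψ ≠ 1 ∧ ∀ x, ψ (σ x) = ψ x := by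
  obtain ⟨a, ha⟩ := exists_trace_eq_one F q
  exact exists_addChar_inv cast_ringChar_ne_zero _ cj_cj (x₀ := a) (by rw [ha]; exact one_ne_zero)

theorem su_bound (hn : 3 ≤ n) (hex : ¬ (n = 3 ∧ q = 2)) {V : Type*} [AddCommGroup V] [Module ℂ V]
    [FiniteDimensional ℂ V] (ρ : Representation ℂ (SU n F q) V) (hρ : ρ.IsIrreducible) (h2 : 2 ≤ finrank ℂ V)
    {m : ℕ} (hm : 0 < m) {ι : (Fin m → F) →ₗ[F] Fin n → F} (hι : ∀ u v, 𝐡 (ι u) (ι v) = 0)
    (hi : Function.Injective ι) {ψ : AddChar F ℂ} (hψ : ψ ≠ 1) (hσ : ∀ x, ψ (σ x) = ψ x)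
    (hΓ : Big (Levi (suRep n F q) ι)) {d : ℕ}
    (hd : ∀ b, Sq σ (-1) b → ∀ v, b v v ≠ 0 →
      ws (fun i : (Fin m → F) × (Fin m → F) => ρ (isom_su.sg hι i.1 i.2)) (fun i => ψ (b i.1 i.2)) ≠ ⊥ →
      d ≤ finrank ℂ (ws (fun i : (Fin m → F) × (Fin m → F) => ρ (isom_su.sg hι i.1 i.2)) fun i => ψ (b i.1 i.2))) :
    (q ^ (2 * m) - 1) * d ≤ (q + 1) * finrank ℂ V := by
  obtain ⟨a, ha⟩ := exists_cj_ne F q
  have := isom_su.bound hι ρ cast_ringChar_ne_zero hψ hσ hΓ (e := q + 1)
    (fun d => by simpa only [mul_cj_eq_pow] using card_norm_le (Nat.succ_ne_zero q) d) hd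
    (a := a) (v := Pi.single ⟨0, hm⟩ 1) (ne_one_of_irr ρ hρ h2 (SU_normal_le_center_or_eq_top hn hex) _
      (not_mem_center_su (by omega) (v := ι (Pi.single ⟨0, hm⟩ 1)) (c := a - σ a)
        (fun e => by simpa using hi (e.trans (map_zero ι).symm)) (hι _ _) (sub_ne_zero.2 ha.symm) fun x => by
          rw [← suRep_apply, Isom.sg_apply, map_smul, herm_smul_right]
          module))
  rwa [Nat.card_fun, Nat.card_eq_fintype_card, Nat.card_eq_fintype_card, hF.out, Fintype.card_fin,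
    ← pow_mul] at this

/-- a totally isotropic subspace -/
def isoMap (m r : ℕ) (α : F) : (Fin m → F) →ₗ[F] Fin (m + m + r) → F where
  toFun u := Fin.append (Fin.append u (α • u)) 0
  map_add' u v := by
    ext i
    refine Fin.addCases (fun i => Fin.addCases (fun i => ?_) (fun i => ?_) i) (fun i => ?_) i <;>
      simp only [Fin.append_left, Fin.append_right, Pi.add_apply, smul_add, Pi.zero_apply, add_zero]
  map_smul' c u := by
    ext i
    refine Fin.addCases (fun i => Fin.addCases (fun i => ?_) (fun i => ?_) i) (fun i => ?_) i <;>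
      simp only [Fin.append_left, Fin.append_right, Pi.smul_apply, smul_eq_mul, Pi.zero_apply, mul_zero,
        RingHom.id_apply, mul_left_comm]

omit [Fintype F] hF in
theorem isoMap_inj (m r : ℕ) (α : F) : Function.Injective (isoMap m r α) := fun u v e => funext fun i => by
  simpa [isoMap] using congrFun e (Fin.castAdd r (Fin.castAdd m i))

theorem isoMap_iso (m r : ℕ) {α : F} (hα : α * σ α = -1) (u v : Fin m → F) :
    hermForm (m + m + r) F q (isoMap m r α u) (isoMap m r α v) = 0 := by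
  simp only [herm_eq, isoMap, Fin.sum_univ_add, LinearMap.coe_mk, AddHom.coe_mk, Fin.append_left, Fin.append_right,
    Pi.zero_apply, zero_mul, Finset.sum_const_zero, add_zero, ← Finset.sum_add_distrib, Pi.smul_apply, smul_eq_mul,
    map_mul]
  exact Finset.sum_eq_zero fun i _ => by linear_combination (u i * σ (v i)) * hα

theorem exists_scal {v w : Fin n → F} (hv : v ≠ 0) (hvv : 𝐡 v v = 0) (hw : 𝐡 w w ≠ 0) (hvw : 𝐡 v w = 0) {c : F}
    (hc : c ≠ 0) : ∃ g : SU n F q, sm g *ᵥ v = c • v := by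
  obtain ⟨M, hM, h⟩ := H29.exists_isIsom_family (q := q) (u := fun _ : Unit => v) (v := fun _ => c • v)
    (linearIndependent_unique_iff.2 hv) (linearIndependent_unique_iff.2 (smul_ne_zero hc hv))
    fun _ _ => by simp [herm_smul_left, herm_smul_right, hvv]
  have hl : M.det⁻¹ * σ M.det⁻¹ = 1 := by rw [map_inv₀, ← mul_inv, hM.det_mul_cj, inv_one]
  refine ⟨mkSU (M * gm (quasiGU hw hl)) (hM.mul (gm_isIsom _))
    (by rw [det_mul, det_quasiGU, mul_inv_cancel₀ hM.det_ne_zero]), ?_⟩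
  change (M * gm (quasiGU hw hl)) *ᵥ v = _
  rw [← mulVec_mulVec, gm_quasiGU, ut_mulVec_of_orth _ hvw, h ()]

theorem heis_su {V : Type*} [AddCommGroup V] [Module ℂ V] [FiniteDimensional ℂ V]
    (ρ : Representation ℂ (SU n F q) V) {W : Type*} [AddCommGroup W] [Module F W] {ι : W →ₗ[F] Fin n → F}
    (hι : ∀ u v, 𝐡 (ι u) (ι v) = 0) {w : Fin n → F} (hw : 𝐡 w w = 1) (hιw : ∀ u, 𝐡 (ι u) w = 0)
    {ψ : AddChar F ℂ} (hψ : ψ ≠ 1) {b : W → W → F} (hb : Sq σ (-1) b) {v : W} (hv : b v v ≠ 0)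
    (h0 : ws (fun i : W × W => ρ (isom_su.sg hι i.1 i.2)) (fun i => ψ (b i.1 i.2)) ≠ ⊥) :
    q ≤ finrank ℂ (ws (fun i : W × W => ρ (isom_su.sg hι i.1 i.2)) fun i => ψ (b i.1 i.2)) := by
  classical
  obtain ⟨t, ht⟩ := exists_trace_eq_one F q
  obtain ⟨c, hc⟩ := exists_cj_ne F q
  have hwι : ∀ u, 𝐡 w (ι u) = 0 := fun u => herm_swap_zero (hιw u)
  let y : F → SU n F q := fun a => eichSU (v := ι v) (z := a • w) (b := t * (a * σ a)) (hι _ _)
    (by rw [herm_smul_left, hwι, mul_zero]) (by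
      rw [herm_smul_left, herm_smul_right, hw, map_mul, cj_norm]
      linear_combination (a * σ a) * ht)
  have hy : ∀ a x, suRep n F q (y a) x =
      x + (σ a * 𝐡 x w - t * (a * σ a) * 𝐡 x (ι v)) • ι v - (𝐡 x (ι v) * a) • w := fun a x => by
    rw [suRep_apply, sm_eichSU, eich_mulVec, herm_smul_right, smul_smul]
  have h1 : ∀ a u u', y a * isom_su.sg hι u u' = isom_su.sg hι u u' * y a := fun a u u' => by
    refine isom_su.ext fun x => ?_
    simp only [map_mul, End.mul_apply, hy, Isom.sg_apply, herm_add_left, herm_sub_left, herm_smul_left, hι, hιw, hwι]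
    module
  have h2 : ∀ a a', y a * y a' = y a' * y a * isom_su.sg hι ((a * σ a') • v) v := fun a a' => by
    refine isom_su.ext fun x => ?_
    simp only [map_mul, End.mul_apply, hy, Isom.sg_apply, herm_add_left, herm_sub_left, herm_smul_left, hι, hιw, hwι,
      hw, map_smul, herm_smul_right, cj_cj, mul_zero]
    module
  have h3 : ∀ a, σ a = a → isom_su.sg hι (a • v) v = 1 := fun a ha => by
    refine isom_su.ext fun x => ?_
    simp only [Isom.sg_apply, map_smul, herm_smul_right, ha, map_one, End.one_apply]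
    module
  have hU : ∀ a, ∀ x ∈ ws (fun i : W × W => ρ (isom_su.sg hι i.1 i.2)) (fun i => ψ (b i.1 i.2)),
      ρ (y a) x ∈ ws (fun i : W × W => ρ (isom_su.sg hι i.1 i.2)) (fun i => ψ (b i.1 i.2)) := fun a x hx =>
    mem_ws.2 fun i => by rw [← End.mul_apply, ← map_mul, ← h1, map_mul, End.mul_apply, mem_ws.1 hx i, map_smul]
  have h4 : ∀ a, σ a = a → ψ (a * b v v) = 1 := fun a ha => by
    obtain ⟨x, hx, hx0⟩ := (Submodule.ne_bot_iff _).1 h0
    have := mem_ws.1 hx (a • v, v)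
    rw [h3 a ha, map_one, End.one_apply, hb.smul] at this
    exact (smul_left_injective ℂ hx0 ((one_smul _ _).trans this)).symm
  refine (card_fixed (F := F) (q := q)).ge.trans ?_
  refine heis_bound (Y := fun a : {x : F // σ x = x} => ρ (y a)) (m := Nat.card (SU n F q)) (fun a a' => ?_)
    (Nat.cast_ne_zero.2 Nat.card_pos.ne') (fun a => by rw [← map_pow, pow_card_eq_one', map_one])
    (fun a => hU a) h0 (Z := fun a => ρ (y (c * a))) (fun a => (ρ.apply_bijective _).1) (fun a => hU _)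
    (c := fun j i => ψ (i * σ (c * j) * b v v)) (fun j j' e => Subtype.ext ?_) fun i j x hx => ?_
  · refine Commute.map (show _ = _ from ?_) ρ
    rw [h2, h3 _ (by rw [map_mul, cj_cj, a.2, a'.2]), mul_one]
  · by_contra hne
    refine hψ (AddChar.ext _ _ fun z => ?_)
    have hd : (j : F) - j' ≠ 0 := sub_ne_zero.2 hne
    have hc' : c - σ c ≠ 0 := sub_ne_zero.2 hc.symm
    obtain ⟨z', rfl⟩ : ∃ z', z = z' * b v v := ⟨z / b v v, (div_mul_cancel₀ _ hv).symm⟩
    have hc'' : σ c - c ≠ 0 := sub_ne_zero.2 hc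
    have e1 := congrFun e ⟨(σ z' - z') / (c - σ c) / (j - j'), by
      simp only [map_div₀, map_sub, cj_cj, j.2, j'.2]
      field_simp
      ring⟩
    have e2 := h4 (z' - (σ z' - z') / (c - σ c) * σ c) (by
      simp only [map_div₀, map_sub, map_mul, cj_cj]
      field_simp
      ring)
    simp only [map_mul, j.2, j'.2] at e1
    rw [← div_eq_one_iff_eq (AddChar.val_isUnit _ _).ne_zero, ← AddChar.map_sub_eq_div] at e1
    rw [AddChar.one_apply, ← one_mul (1 : ℂ)]
    nth_rewrite 1 [← e1]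
    rw [← e2, ← AddChar.map_add_eq_mul]
    congr 1
    field_simp
    ring
  · rw [← End.mul_apply, ← map_mul, h2, map_mul, map_mul, End.mul_apply, End.mul_apply,
      mem_ws.1 hx ((i * σ (c * j)) • v, v), hb.smul, map_smul, map_smul]

theorem su_even {m : ℕ} (hm : 2 ≤ m) {V : Type*} [AddCommGroup V] [Module ℂ V] [FiniteDimensional ℂ V]
    (ρ : Representation ℂ (SU (m + m + 0) F q) V) (hρ : ρ.IsIrreducible) (h2 : 2 ≤ finrank ℂ V) :
    q ^ (2 * m) - 1 ≤ (q + 1) * finrank ℂ V := by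
  obtain ⟨ψ, hψ, hσ⟩ := exists_char_su (F := F) (q := q)
  obtain ⟨α, hα⟩ := exists_norm_eq (F := F) (q := q) (t := -1) (by simp)
  simpa using su_bound (by omega) (by omega) ρ hρ h2 (m := m) (by omega) (isoMap_iso m 0 hα) (isoMap_inj m 0 α) hψ hσ
    (isom_su.big (isoMap_iso m 0 hα) (isoMap_inj m 0 α) (by simpa using hm)) (d := 1) fun _ _ _ _ => one_le_finrank

theorem su_odd {m : ℕ} (hm : 1 ≤ m) (hex : ¬ (m + m + 1 = 3 ∧ q = 2)) {V : Type*} [AddCommGroup V] [Module ℂ V]
    [FiniteDimensional ℂ V] (ρ : Representation ℂ (SU (m + m + 1) F q) V) (hρ : ρ.IsIrreducible)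
    (h2 : 2 ≤ finrank ℂ V) : (q ^ (2 * m) - 1) * q ≤ (q + 1) * finrank ℂ V := by
  obtain ⟨ψ, hψ, hσ⟩ := exists_char_su (F := F) (q := q)
  obtain ⟨α, hα⟩ := exists_norm_eq (F := F) (q := q) (t := -1) (by simp)
  let w : Fin (m + m + 1) → F := Fin.append 0 1
  have hw : hermForm _ F q w w = 1 := by
    simp only [herm_eq, w, Fin.sum_univ_add (a := m + m), Fin.append_left, Fin.append_right]
    simp
  have hιw : ∀ u, hermForm _ F q (isoMap m 1 α u) w = 0 := fun u => by
    simp only [herm_eq, w, isoMap, LinearMap.coe_mk, AddHom.coe_mk, Fin.sum_univ_add (a := m + m), Fin.append_left,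
      Fin.append_right]
    simp
  refine su_bound (by omega) hex ρ hρ h2 (m := m) (by omega) (isoMap_iso m 1 hα) (isoMap_inj m 1 α) hψ hσ ?_
    fun b hb v hv => heis_su ρ _ hw hιw hψ hb hv
  rcases hm.eq_or_lt with rfl | hm
  · refine big_of (isom_su.tv_mem (isoMap_iso 1 1 hα) (isoMap_inj 1 1 α)) fun v hv c hc => ⟨c • LinearMap.id, ?_, rfl⟩
    obtain ⟨g, hg⟩ := exists_scal (q := q) (v := isoMap 1 1 α v)
      (fun e => hv (isoMap_inj 1 1 α (e.trans (map_zero _).symm))) (isoMap_iso 1 1 hα _ _)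
      (by rw [hw]; exact one_ne_zero) (hιw v) hc
    refine ⟨g, fun u => ?_⟩
    obtain ⟨a, rfl⟩ := (finrank_eq_one_iff_of_nonzero' (K := F) v hv).1 (by simp) u
    rw [map_smul, map_smul, suRep_apply, hg]
    simp [smul_comm a c]
  · exact isom_su.big (isoMap_iso m 1 hα) (isoMap_inj m 1 α) (by rw [finrank_fin_fun]; exact hm)

end Cfsg.Agent.H65
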