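import Cfsg.Agent.H65.WeilM
import Cfsg.Agent.H5.Inner
set_option autoImplicit false

/-! The small irreducible characters of symplectic groups in odd characteristic. -/

namespace Cfsg.Agent.H65

open Module Matrix QuadraticMap Cfsg.Agent.H27

theorem char_eq_of_map {G V E : Type*} [Group G] [AddCommGroup V] [Module ℂ V] [AddCommGroup E] [Module ℂ E]
    [FiniteDimensional ℂ V] [FiniteDimensional ℂ E] (ρ : Representation ℂ G V) (σ : Representation ℂ G E)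
    [ρ.IsIrreducible] [σ.IsIrreducible] {φ : E →ₗ[ℂ] V} (h : ∀ g y, φ (σ g y) = ρ g (φ y)) (h0 : φ ≠ 0) :
    ρ.character = σ.character := by
  have h1 := (H7.eq_bot_or_eq_top_of_invariant σ (LinearMap.ker φ) fun g v hv => by
    rw [LinearMap.mem_ker, h, show φ v = 0 from hv, map_zero]).resolve_right fun e => h0 (LinearMap.ker_eq_top.1 e)
  have h2 := (H7.eq_bot_or_eq_top_of_invariant ρ (LinearMap.range φ) (by
    rintro g _ ⟨y, rfl⟩
    exact ⟨_, h g y⟩)).resolve_left fun e => h0 (LinearMap.range_eq_bot.1 e)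
  exact (Representation.char_iso (Representation.Equiv.mk
    (LinearEquiv.ofBijective φ ⟨LinearMap.ker_eq_bot.1 h1, LinearMap.range_eq_top.1 h2⟩)
    fun g => LinearMap.ext (h g))).symm

theorem char_eq_of_graph {G V E : Type*} [Group G] [AddCommGroup V] [Module ℂ V] [AddCommGroup E] [Module ℂ E]
    [FiniteDimensional ℂ V] [FiniteDimensional ℂ E] (ρ : Representation ℂ G V) (σ : Representation ℂ G E)
    [ρ.IsIrreducible] [σ.IsIrreducible] {M : Submodule ℂ (V × E)} (hM : ∀ g, ∀ y ∈ M, ρ.prod σ g y ∈ M) {m : V} {d : E}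
    (hx : (m, d) ∈ M) (hm : m ≠ 0) (h : ∀ y ∈ M, y.2 = 0 → y = 0) : ρ.character = σ.character := by
  have h2 := (H7.eq_bot_or_eq_top_of_invariant σ (LinearMap.range (LinearMap.snd ℂ V E ∘ₗ M.subtype)) (by
    rintro g _ ⟨y, rfl⟩
    exact ⟨⟨_, hM g _ y.2⟩, rfl⟩)).resolve_left fun e =>
      hm (congrArg Prod.fst (h _ hx (LinearMap.congr_fun (LinearMap.range_eq_bot.1 e) ⟨_, hx⟩)))
  let e := LinearEquiv.ofBijective (LinearMap.snd ℂ V E ∘ₗ M.subtype)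
    ⟨(injective_iff_map_eq_zero _).2 fun y hy => Subtype.ext (h _ y.2 hy), LinearMap.range_eq_top.1 h2⟩
  refine char_eq_of_map ρ σ (φ := LinearMap.fst ℂ V E ∘ₗ M.subtype ∘ₗ e.symm.toLinearMap) (fun g y => ?_)
    fun h0 => hm ?_
  · obtain ⟨y, rfl⟩ := e.surjective y
    rw [show σ g (e y) = e ⟨_, hM g _ y.2⟩ from rfl]
    simp only [LinearMap.comp_apply, LinearEquiv.coe_coe, LinearEquiv.symm_apply_apply]
    rfl
  · simpa using LinearMap.congr_fun h0 (e ⟨_, hx⟩)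

variable {F : Type*} [Field F] [Fintype F] [DecidableEq F] {n : ℕ} [h2 : Fact ((2 : F) ≠ 0)]
  {V : Type*} [AddCommGroup V] [Module ℂ V] [FiniteDimensional ℂ V]

local notation "𝐢" => lagr n F

theorem char_eq_of_wt (hn : 2 ≤ n) (ρ : Representation ℂ (symplecticGroup (Fin n) F) V) [ρ.IsIrreducible]
    {ψ₀ ψ : AddChar F ℂ} (hψ₀ : ψ₀ ≠ 1) [Fact (ψ ≠ 1)] (hR : R1 ρ ψ₀) {a : F} (ha0 : a ≠ 0)
    (ha : ∀ x, ψ (-2⁻¹ * x) = ψ₀ (a * x)) {l : Dual F (Fin n → F)} (hl : l ≠ 0) {m : V}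
    (hm : m ∈ ws (tw ρ 𝐢) (wtR ψ₀ a l)) (h0 : m ≠ 0) :
    ρ.character = (weilE ψ (one_mul 1)).character ∨ ρ.character = (weilE ψ neg_one_sq').character := by
  obtain ⟨η, hη⟩ := H7.exists_eq_smul_of_mem_center ρ negSp_mem
  obtain ⟨c, hc, hc'⟩ := weil_neg_one (ψ := ψ) (n := n)
  have h1 : η * η = 1 := by
    have : ρ (negSp n F) * ρ (negSp n F) = 1 := by rw [← map_mul, negSp_mul, map_one]
    refine smul_left_injective ℂ h0 ?_
    simpa [hη, mul_smul] using LinearMap.congr_fun this m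
  suffices ∀ (ε : ℂ) (hε : ε * ε = 1), ε = c * η → ρ.character = (weilE ψ hε).character by
    rcases mul_self_eq_one_iff.1 (show c * η * (c * η) = 1 by linear_combination η * η * hc + h1) with e | e
    · exact .inl (this _ _ e.symm)
    · exact .inr (this _ _ e.symm)
  intro ε hε e
  obtain ⟨d, hd, hd0⟩ := weilE_exists hn ha hε hl
  have : Nontrivial (Ev n F ε) := ⟨d, 0, hd0⟩
  have := weilE_irr (ψ := ψ) (n := n) hε
  have hp : ∀ γ (w : V × Ev n F ε), w ∈ ws (tw (ρ.prod (weilE ψ hε)) 𝐢) γ ↔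
      w.1 ∈ ws (tw ρ 𝐢) γ ∧ w.2 ∈ ws (tw (weilE ψ hε) 𝐢) γ := fun γ w => by
    simp only [mem_ws, ← forall_and]
    exact forall_congr' fun i => Prod.ext_iff
  suffices H : Cmp (ρ.prod (weilE ψ hε)) (weilE ψ hε) (LinearMap.snd ℂ _ _) ψ₀ a l (m, d) by
    obtain ⟨M, h1, h2, h3⟩ := H.exists_inv
    exact char_eq_of_graph ρ _ h1 h2 h0 h3
  refine ⟨fun Q w hw hw0 => ?_, hψ₀, h2.out, hn, ha0, hl, (hp _ _).2 ⟨hm, hd⟩,
      ⟨η, LinearMap.ext fun w => Prod.ext (LinearMap.congr_fun hη w.1) (Subtype.ext ?_)⟩, fun _ _ => rfl, hd0,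
      fun γ y => weilE_wt hn ha hε, fun γ y hy y' hy' => weilE_mult hn ha hε hψ₀ ha0 hy hy'⟩
  · by_cases h : w.1 = 0
    · obtain ⟨l', e⟩ := weilE_wt hn ha hε ((hp _ _).1 hw).2 fun e => hw0 (Prod.ext h e)
      have : ∀ u, Q u = a * l' u ^ 2 := fun u => eq_of_char hψ₀ fun c => congrFun e (u, c)
      intro u v
      simp only [polar, this, map_add]
      ring
    · exact hR Q _ ((hp _ _).1 hw).1 h
  · refine (coe_weilE hε _ w.2).trans ?_
    rw [hc', LinearMap.smul_apply, mem_Ev.1 w.2.2, smul_smul, show c * ε = η by rw [e, ← mul_assoc, hc, one_mul]]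
    rfl

omit [DecidableEq F] h2 in
theorem r1_or_bound (ρ : Representation ℂ (symplecticGroup (Fin n) F) V) {ψ : AddChar F ℂ} (hψ : ψ ≠ 1) :
    R1 ρ ψ ∨ (Fintype.card F ^ n - 1) * (Fintype.card F ^ n - Fintype.card F) ≤
      2 * (Fintype.card F + 1) * finrank ℂ V := by
  refine or_iff_not_imp_right.2 fun h Q w hw h0 u v => by_contra fun hΔ => h ?_
  simpa using quad_bound ρ (ι := 𝐢) lagr_iso lagr_inj hψ hw h0 hΔ

theorem char_eq_weil (hn : 2 ≤ n) (ρ : Representation ℂ (symplecticGroup (Fin n) F) V) [hρ : ρ.IsIrreducible]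
    (hV : 2 ≤ finrank ℂ V) {ψ₀ ψ ψ' : AddChar F ℂ} (hψ₀ : ψ₀ ≠ 1) [Fact (ψ ≠ 1)] [Fact (ψ' ≠ 1)] (hR : R1 ρ ψ₀)
    {δ : F} (hδ : ¬ IsSquare δ) (h1 : ∀ x, ψ (-2⁻¹ * x) = ψ₀ (1 * x)) (h1' : ∀ x, ψ' (-2⁻¹ * x) = ψ₀ (δ * x)) :
    (ρ.character = (weilE ψ (one_mul 1)).character ∨ ρ.character = (weilE ψ neg_one_sq').character) ∨
      ρ.character = (weilE ψ' (one_mul 1)).character ∨ ρ.character = (weilE ψ' neg_one_sq').character := by
  obtain ⟨γ, m, hm, h0, h⟩ := exists_ws_ne (tw_comm ρ (ι := 𝐢) lagr_iso) cast_ringChar_ne_zero (tw_pow ρ)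
    (i := (Pi.single ⟨0, by omega⟩ 1, 1)) (ne_one_of_irr ρ hρ hV (H10.sp_normal_le_center_or_eq_top
      (H10.commutator_sp_eq_top_of_two_ne_zero h2.out hn)) _ (spT_not_mem_center
        (fun e => by simpa [lagr] using congrFun e (Sum.inl ⟨0, by omega⟩)) one_ne_zero))
  obtain ⟨Q, rfl⟩ := exists_quadWt ρ (ι := 𝐢) lagr_iso hψ₀ hm h0
  obtain ⟨u, hu⟩ : ∃ u, Q u ≠ 0 := ⟨Pi.single ⟨0, by omega⟩ 1, fun e => h (by simp [e])⟩
  have key : ∀ a b : F, Q u = a * b ^ 2 → ∃ l, l ≠ 0 ∧ m ∈ ws (tw ρ 𝐢) (wtR ψ₀ a l) := fun a b e => by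
    have hb : b ≠ 0 := by
      rintro rfl
      exact hu (by simpa using e)
    have h2 := h2.out
    refine ⟨(b / (2 * Q u)) • polarBilin Q u, fun e => ?_, ?_⟩
    · simpa [hb, hu, h2] using LinearMap.congr_fun e u
    · convert hm using 2
      funext i
      have h4 : (4 : F) ≠ 0 := by rw [show (4 : F) = 2 * 2 by norm_num]; exact mul_ne_zero h2 h2
      simp only [wtR, LinearMap.smul_apply, polarBilin_apply_apply, smul_eq_mul, mul_pow, hR Q m hm h0 u i.1]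
      congr 2
      field_simp
      rw [e]
      ring
  have hδ0 : δ ≠ 0 := by
    rintro rfl
    exact hδ IsSquare.zero
  by_cases hs : IsSquare (Q u)
  · obtain ⟨b, hb⟩ := hs
    obtain ⟨l, hl, hm⟩ := key 1 b (by rw [hb]; ring)
    exact .inl (char_eq_of_wt hn ρ hψ₀ hR one_ne_zero h1 hl hm h0)
  · obtain ⟨b, hb⟩ : IsSquare (Q u * δ) := by
      rw [← quadraticChar_one_iff_isSquare (mul_ne_zero hu hδ0), map_mul, quadraticChar_neg_one_iff_not_isSquare.2 hs,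
        quadraticChar_neg_one_iff_not_isSquare.2 hδ]
      simp
    obtain ⟨l, hl, hm⟩ := key δ (b / δ) (by field_simp; linear_combination hb)
    exact .inr (char_eq_of_wt hn ρ hψ₀ hR hδ0 h1' hl hm h0)

theorem nontrivial_Ev (hn : 2 ≤ n) {ε : ℂ} (hε : ε * ε = 1) : Nontrivial (Ev n F ε) := by
  obtain ⟨ψ, hψ⟩ := exists_addChar (F := F) cast_ringChar_ne_zero
  have := Fact.mk hψ
  obtain ⟨d, -, hd0⟩ := weilE_exists (ψ := ψ) (ψ₀ := ψ) (a := -2⁻¹) hn (fun _ => rfl) hε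
    (l := LinearMap.proj ⟨0, by omega⟩) fun e => by simpa using LinearMap.congr_fun e 1
  exact ⟨d, 0, hd0⟩

theorem weilE_char_ne (hn : 2 ≤ n) {ψ₀ ψ ψ' : AddChar F ℂ} (hψ₀ : ψ₀ ≠ 1) [Fact (ψ ≠ 1)] [Fact (ψ' ≠ 1)]
    {δ : F} (hδ : ¬ IsSquare δ) (h1 : ∀ x, ψ (-2⁻¹ * x) = ψ₀ (1 * x)) (h1' : ∀ x, ψ' (-2⁻¹ * x) = ψ₀ (δ * x))
    {ε : ℂ} (hε : ε * ε = 1) : (weilE (n := n) ψ hε).character ≠ (weilE ψ' hε).character := fun e => by
  have := Fintype.ofFinite (symplecticGroup (Fin n) F)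
  have := nontrivial_Ev (F := F) hn hε
  have := weilE_irr (ψ := ψ) (n := n) hε
  have := weilE_irr (ψ := ψ') (n := n) hε
  obtain ⟨φ⟩ := H5.nonempty_equiv_of_classInner_ne_zero (weilE (n := n) ψ hε) (weilE ψ' hε) (by
    rw [e, H5.classInner_irr_self (H5.isIrrCharacter_character _)]; exact one_ne_zero)
  obtain ⟨d, hd, hd0⟩ := weilE_exists hn h1 hε (l := LinearMap.proj ⟨0, by omega⟩)
    fun e => by simpa using LinearMap.congr_fun e 1
  obtain ⟨l, hl⟩ := weilE_wt hn h1' hε (γ := wtR ψ₀ 1 (LinearMap.proj ⟨0, by omega⟩)) (f := φ.toLinearEquiv d)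
    (mem_ws.2 fun i => by
      rw [← map_smul, ← mem_ws.1 hd i]
      exact (φ.toIntertwiningMap.isIntertwining _ _ _ d).symm) (by simpa using hd0)
  have h : 1 = δ * l 1 ^ 2 := eq_of_char hψ₀ fun c => by simpa [wtR] using congrFun hl (1, c)
  refine hδ ⟨δ * l 1, ?_⟩
  linear_combination δ * h

end Cfsg.Agent.H65
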