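import Cfsg.Agent.H65.WeilR1
set_option autoImplicit false

/-! Rank one representations: the Siegel parabolic acts on weight vectors by scalars. -/

namespace Cfsg.Agent.H65

open Module Matrix QuadraticMap Cfsg.Agent.H27

section dual
variable {F W : Type*} [Field F] [AddCommGroup W] [Module F W]

theorem exists_comp_eq {l l' : Dual F W} (h : l ≠ 0) (h' : l' ≠ 0) :
    ∃ g : W →ₗ[F] W, Function.Injective g ∧ l' ∘ₗ g = l := by
  obtain ⟨w, hw, hw'⟩ : ∃ w, l w ≠ 0 ∧ l' w ≠ 0 := by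
    obtain ⟨u, hu⟩ := DFunLike.ne_iff.1 h
    obtain ⟨v, hv⟩ := DFunLike.ne_iff.1 h'
    by_contra! h0
    have h1 : l v = 0 := by_contra fun e => hv (h0 v e)
    exact hv (by simpa [h0 u hu] using h0 (u + v) (by simpa [h1] using hu))
  obtain ⟨w, hw, hw'⟩ : ∃ w, l w ≠ 0 ∧ l' w = 1 := ⟨(l' w)⁻¹ • w, by simp [hw, hw'], by simp [hw']⟩
  refine ⟨LinearMap.id + (l - l').smulRight w, (injective_iff_map_eq_zero _).2 fun u hu => ?_,
    LinearMap.ext fun u => by simp [hw']⟩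
  have h1 : l u = 0 := by simpa [hw'] using congrArg l' hu
  have h2 : l' u = 0 := by simpa [hw, h1] using congrArg l hu
  simpa [h1, h2] using hu

/-- independent functionals -/
def Ind2 (l l' : Dual F W) : Prop := (∃ v, l v = 0 ∧ l' v = 1) ∧ ∃ v, l' v = 0 ∧ l v = 1

theorem Ind2.symm {l l' : Dual F W} (h : Ind2 l l') : Ind2 l' l := ⟨h.2, h.1⟩

theorem Ind2.ne {l l' : Dual F W} (h : Ind2 l l') : l ≠ 0 := by
  rintro rfl
  simpa using h.2

theorem exists_zero_one {l l' : Dual F W} (h0 : l ≠ 0) (h : ∀ c : F, l' ≠ c • l) : ∃ v, l v = 0 ∧ l' v = 1 := by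
  obtain ⟨u, hu⟩ := LinearMap.surjective_of_ne_zero h0 1
  obtain ⟨w, hw⟩ := DFunLike.ne_iff.1 (h (l' u))
  refine ⟨(l' w - l' u * l w)⁻¹ • (w - l w • u), by simp [hu], ?_⟩
  rw [map_smul, map_sub, map_smul, smul_eq_mul, smul_eq_mul, mul_comm (l w)]
  exact inv_mul_cancel₀ (sub_ne_zero.2 hw)

theorem ind2_of {l l' : Dual F W} (h0 : l ≠ 0) (h : ∀ c : F, l' ≠ c • l) : Ind2 l l' :=
  ⟨exists_zero_one h0 h, exists_zero_one (by simpa using h 0) fun c e => by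
    have hc : c ≠ 0 := by
      rintro rfl
      exact h0 (by simpa using e)
    exact h c⁻¹ (by rw [e, smul_smul, inv_mul_cancel₀ hc, one_smul])⟩

theorem Ind2.add {l l' : Dual F W} (h : Ind2 l l') : Ind2 (l + l') l := by
  obtain ⟨⟨v, h1, h2⟩, w, h3, h4⟩ := h
  exact ⟨⟨w - v, by simp [*], by simp [*]⟩, v, h1, by simp [*]⟩

theorem exists_ind2 [FiniteDimensional F W] (h2 : 2 ≤ finrank F W) {l l' : Dual F W} (h : l ≠ 0) (h' : l' ≠ 0) :
    ∃ m, Ind2 m l ∧ Ind2 m l' := by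
  by_cases h1 : ∃ c : F, l' = c • l
  · obtain ⟨c, rfl⟩ := h1
    obtain ⟨m, hm⟩ : ∃ m, ∀ a : F, m ≠ a • l := by
      by_contra! h
      have := finrank_le_one l fun w => (h w).imp fun _ e => e.symm
      rw [Subspace.dual_finrank_eq] at this
      omega
    exact ⟨m, (ind2_of h hm).symm, (ind2_of h' fun a => by rw [smul_smul]; exact hm _).symm⟩
  · push Not at h1
    exact ⟨l + l', (ind2_of h h1).add, add_comm l l' ▸ (ind2_of h h1).symm.add⟩

end dual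

variable {F : Type*} [Field F] {n : ℕ}

local notation "𝐟" => sympForm n F
local notation "X" => Fin n ⊕ Fin n → F
local notation "𝐢" => lagr n F

theorem fs_add (f g : X) : fs (f + g) = fs f + fs g := LinearMap.ext fun _ => sympForm_add_right _ _ _

theorem fs_smul (c : F) (f : X) : fs (c • f) = c • fs f := LinearMap.ext fun _ => sympForm_smul_right _ _ _

theorem fs_lagr (u : Fin n → F) : fs (𝐢 u) = 0 := LinearMap.ext fun _ => lagr_iso _ _

theorem sympForm_lagr (f : X) (u : Fin n → F) : 𝐟 f (𝐢 u) = -fs f u := sympForm_neg_comm _ _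

theorem exists_fs (l : Dual F (Fin n → F)) : ∃ f : X, fs f = l := by
  obtain ⟨l, rfl⟩ := LinearMap.dualMap_surjective_of_injective (lagr_inj (n := n) (F := F)) l
  obtain ⟨y, hy⟩ := isom_sp.rep l
  exact ⟨y, LinearMap.ext fun u => hy _⟩

theorem exists_adj (hn : 2 ≤ n) {f : X} (h : fs f ≠ 0) : ∃ f', 𝐟 f f' = 0 ∧ Ind2 (fs f) (fs f') := by
  obtain ⟨m, hm, -⟩ := exists_ind2 (by simpa using hn) h h
  obtain ⟨g, rfl⟩ := exists_fs m
  obtain ⟨w, hw⟩ := LinearMap.surjective_of_ne_zero h (𝐟 f g)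
  exact ⟨g + 𝐢 w, by rw [sympForm_add_right, sympForm_lagr, hw, add_neg_cancel],
    by rw [fs_add, fs_lagr, add_zero]; exact hm.symm⟩

theorem exists_adj2 {f f' : X} (h : Ind2 (fs f) (fs f')) :
    ∃ g, (𝐟 g f = 0 ∧ Ind2 (fs g) (fs f)) ∧ 𝐟 g f' = 0 ∧ Ind2 (fs g) (fs f') := by
  obtain ⟨⟨v, h1, h2⟩, w, h3, h4⟩ := id h
  refine ⟨f + f' + 𝐢 (-𝐟 f' f • w - 𝐟 f f' • v), ⟨?_, ?_⟩, ?_, ?_⟩
  · rw [sympForm_add_left, ← fs_apply]
    simp [sympForm_add_left, sympForm_self, h1, h4]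
  · rw [fs_add, fs_lagr, add_zero, fs_add]; exact h.add
  · rw [sympForm_add_left, ← fs_apply]
    simp [sympForm_add_left, sympForm_self, h2, h3]
  · rw [fs_add, fs_lagr, add_zero, fs_add, add_comm]; exact h.symm.add

/-- `p` induces `h` on the Lagrangian subspace -/
def Lv (p : symplecticGroup (Fin n) F) (h : (Fin n → F) →ₗ[F] (Fin n → F)) : Prop := ∀ u, p.1 *ᵥ 𝐢 u = 𝐢 (h u)

theorem Lv.mul {p p' : symplecticGroup (Fin n) F} {h h' : (Fin n → F) →ₗ[F] (Fin n → F)} (H : Lv p h)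
    (H' : Lv p' h') : Lv (p * p') (h ∘ₗ h') := fun u => by rw [sp_mul_mulVec, H', H]; rfl

theorem Lv.inj {p : symplecticGroup (Fin n) F} {h : (Fin n → F) →ₗ[F] (Fin n → F)} (H : Lv p h) :
    Function.Injective h := fun u v e => lagr_inj (by
  rw [← sp_inv_mulVec_mulVec p (𝐢 u), H, e, ← H, sp_inv_mulVec_mulVec])

theorem Lv.comp_ne {p : symplecticGroup (Fin n) F} {h : (Fin n → F) →ₗ[F] (Fin n → F)} (H : Lv p h)
    {l : Dual F (Fin n → F)} (hl : l ≠ 0) : l ∘ₗ h ≠ 0 := fun e => hl (LinearMap.ext fun u => by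
  obtain ⟨v, rfl⟩ := LinearMap.surjective_of_injective H.inj u
  exact LinearMap.congr_fun e v)

variable [Fintype F]

/-- the Siegel parabolic subgroup -/
def SPar (n : ℕ) (F : Type*) [Field F] [Fintype F] : Subgroup (symplecticGroup (Fin n) F) :=
  subF (fun p => ∃ h, Lv p h) ⟨LinearMap.id, fun _ => sp_one_mulVec _⟩ fun _ _ ⟨_, h⟩ ⟨_, h'⟩ => ⟨_, h.mul h'⟩

theorem spT_mem_SPar (u : Fin n → F) (c : F) : spT (𝐢 u) c ∈ SPar n F :=
  ⟨LinearMap.id, fun v => by simp [spT_mulVec, lagr_iso]⟩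

theorem spE_mem_SPar {f : X} {v : Fin n → F} (h : 𝐟 f (𝐢 v) = 0) : spE f (𝐢 v) ∈ SPar n F :=
  ⟨LinearMap.id + (fs f).smulRight v, fun u => by simp [spE_mulVec h, lagr_iso, fs_apply]⟩

theorem exists_SPar (h2 : (2 : F) ≠ 0) {f g : X} (hf : fs f ≠ 0) (hg : fs g ≠ 0) : ∃ p ∈ SPar n F, p.1 *ᵥ f = g := by
  obtain ⟨h, hi, e⟩ := exists_comp_eq hf hg
  obtain ⟨x, hx⟩ := exists_levi (ι := 𝐢) lagr_iso lagr_inj hi
  have h1 : fs (x.1 *ᵥ f) = fs g := LinearMap.ext fun u => by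
    obtain ⟨v, rfl⟩ := LinearMap.surjective_of_injective hi u
    rw [fs_apply, ← hx, sp_sympForm, ← fs_apply, ← e]; rfl
  obtain ⟨w, hw⟩ := exists_of_fs (f := g + (-1 : F) • x.1 *ᵥ f) (by rw [fs_add, fs_smul, h1]; module)
  obtain ⟨v, hv⟩ := LinearMap.surjective_of_ne_zero hg (-1)
  refine ⟨spE (𝐢 (w + (fs g w / 2) • v)) (𝐢 v) * x, mul_mem (spE_mem_SPar (lagr_iso _ _)) ⟨h, hx⟩, ?_⟩
  rw [sp_mul_mulVec, spE_mulVec (lagr_iso _ _), sympForm_lagr, sympForm_lagr, h1, hv, map_add, map_smul, map_add,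
    map_smul, hv, ← hw]
  match_scalars
  · ring
  · ring
  · linear_combination (fs g w) * mul_inv_cancel₀ h2

variable {V : Type*} [AddCommGroup V] [Module ℂ V] [FiniteDimensional ℂ V]
  {ρ : symplecticGroup (Fin n) F →* End ℂ V} {ψ : AddChar F ℂ} {a : F} {l : Dual F (Fin n → F)} {x : V}

omit [Fintype F] [FiniteDimensional ℂ V] in
theorem Lv.mem_ws {p : symplecticGroup (Fin n) F} {h : (Fin n → F) →ₗ[F] (Fin n → F)} (H : Lv p h)
    (hx : x ∈ ws (tw ρ 𝐢) (wtR ψ a l)) : ρ p⁻¹ x ∈ ws (tw ρ 𝐢) (wtR ψ a (l ∘ₗ h)) := ws_conj ρ hx H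

omit [FiniteDimensional ℂ V] in
theorem exists_ws_of_SPar {p : symplecticGroup (Fin n) F} (hp : p ∈ SPar n F) :
    ∃ h, Lv p⁻¹ h ∧ ∀ l x, x ∈ ws (tw ρ 𝐢) (wtR ψ a l) → ρ p x ∈ ws (tw ρ 𝐢) (wtR ψ a (l ∘ₗ h)) := by
  obtain ⟨h, H⟩ := inv_mem hp
  exact ⟨h, H, fun l x hx => by simpa using H.mem_ws hx⟩

variable (hR : R1 ρ ψ) (hψ : ψ ≠ 1) (h2 : (2 : F) ≠ 0) (hn : 2 ≤ n) (ha : a ≠ 0)
  (hx : x ∈ ws (tw ρ (lagr n F)) (wtR ψ a l))
include hR hψ h2 hn ha hx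

theorem R1.key0 {v : Fin n → F} (hv : l v = 1) {g : symplecticGroup (Fin n) F} (hg : g.1 *ᵥ 𝐢 v = 𝐢 v)
    (hgx : ρ g x ∈ ws (tw ρ 𝐢) (wtR ψ a l)) : ρ g x ∈ Submodule.span ℂ {x} := by
  have hv0 : 𝐢 v ≠ 0 := fun e => by simp [lagr_inj (e.trans (map_zero _).symm)] at hv
  have h0 : ∀ c, ρ (spT (𝐢 v) c) x = ψ (c * a) • x := fun c => by simpa [wtR, hv, tw] using mem_ws.1 hx (v, c)
  have h1 := mem_of_fix (𝐢 v) (stabS ρ (Submodule.span ℂ {y | ∃ f, 𝐟 f (𝐢 v) = 0 ∧ y = ρ (spE f (𝐢 v)) x}))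
    (fun w c hw => mem_stabS_span ?_) hg x
    (Submodule.subset_span ⟨0, sympForm_zero_left _, by rw [spE_zero, map_one, End.one_apply]⟩)
  · refine mem_of_span_ws (tw_comm ρ (ι := 𝐢) lagr_iso) ?_ ?_ h1 hgx
    · rintro _ ⟨f, hf, rfl⟩
      exact ⟨_, spE_mem_ws hx hf⟩
    · rintro _ ⟨f, hf, rfl⟩ h
      by_cases hx0 : x = 0
      · simp [hx0]
      rcases wt_inj hψ ha (ws_unique (spE_mem_ws hx hf) h (map_ne_zero_of_rep ρ _ hx0)) with e | e
      · obtain ⟨u, rfl⟩ := exists_of_fs (f := f) (by simpa [hv] using e)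
        rw [spE_apply_of_ws (Q := fun u => a * l u ^ 2) hx]
        exact Submodule.smul_mem _ _ (Submodule.mem_span_singleton_self x)
      · have := LinearMap.congr_fun e v
        rw [sympForm_lagr, neg_eq_zero] at hf
        simp only [LinearMap.sub_apply, LinearMap.smul_apply, hf, hv, smul_zero, sub_zero, LinearMap.neg_apply] at this
        exact absurd (by linear_combination this) h2
  · rintro _ ⟨f, hf, rfl⟩
    have h3 : ∀ c, ρ (spT (𝐢 v) c) (ρ (spE f (𝐢 v)) x) = ψ (c * a) • ρ (spE f (𝐢 v)) x := fun c => by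
      rw [← End.mul_apply, ← map_mul, spE_comm hf, map_mul, End.mul_apply, h0, map_smul]
    by_cases hi : LinearIndependent F ![𝐢 v, w]
    · rw [hR.univ hψ h2 hn hw (LinearIndependent.pair_symm_iff.1 hi) ha h3]
      refine Submodule.sum_mem _ fun μ _ => Submodule.smul_mem _ _ ?_
      have hμ : 𝐟 (μ • w) (𝐢 v) = 0 := by rw [sympForm_smul_left, hw, mul_zero]
      rw [← End.mul_apply, ← map_mul, spE_mul hμ hf, map_mul, End.mul_apply, h0, map_smul]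
      exact Submodule.smul_mem _ _ (Submodule.subset_span ⟨_, by rw [sympForm_add_left, hμ, hf, add_zero], rfl⟩)
    · rw [LinearIndependent.pair_iff' hv0] at hi
      push Not at hi
      obtain ⟨b, rfl⟩ := hi
      rw [spT_smul, h3]
      exact Submodule.smul_mem _ _ (Submodule.subset_span ⟨f, hf, rfl⟩)

theorem R1.key1 (hl : l ≠ 0) {η : ℂ} (hη : ρ (negSp n F) = η • 1) {p : symplecticGroup (Fin n) F} (hp : p ∈ SPar n F)
    (hpx : ρ p x ∈ ws (tw ρ 𝐢) (wtR ψ a l)) : ρ p x ∈ Submodule.span ℂ {x} := by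
  by_cases hx0 : x = 0
  · simp [hx0]
  let K := stabS ρ (Submodule.span ℂ {x})
  have hA : ∀ p h v, Lv p h → l ∘ₗ h = l → h v = v → l v = 1 → p ∈ K := fun p h v H e1 e2 hv => by
    refine inv_mem_iff.1 (mem_stabS_span ?_)
    rintro _ rfl
    refine hR.key0 hψ h2 hn ha hx hv ?_ (by simpa [e1] using H.mem_ws hx)
    nth_rewrite 1 [← e2, ← H]
    rw [sp_inv_mulVec_mulVec]
  have hB : ∀ p h, Lv p h → l ∘ₗ h = l → p ∈ K := fun p h H e => by
    obtain ⟨v, hv⟩ := LinearMap.surjective_of_ne_zero hl 1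
    have hv' : l (h v) = 1 := (LinearMap.congr_fun e v).trans hv
    obtain ⟨m, hm, hm'⟩ : ∃ m, l m = 1 ∧ (2 : F) • m = v + h v := ⟨(2⁻¹ : F) • (v + h v), by
      rw [map_smul, map_add, hv, hv', smul_eq_mul]; field_simp; ring, by rw [smul_smul, mul_inv_cancel₀ h2, one_smul]⟩
    let r : (Fin n → F) →ₗ[F] (Fin n → F) := l.smulRight ((2 : F) • m) - LinearMap.id
    have hr : l ∘ₗ r = l := LinearMap.ext fun u => by simp [r, hm]; ring
    obtain ⟨y, hy⟩ := exists_levi (ι := 𝐢) lagr_iso lagr_inj (g := r) ((injective_iff_map_eq_zero _).2 fun u hu => by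
      have : l u = 0 := by rw [← hr, LinearMap.comp_apply, hu, map_zero]
      simpa [r, this] using hu)
    refine (mul_mem_cancel_left (hA y r m hy hr (by simp [r, hm, two_smul]) hm)).1
      (hA _ _ v (Lv.mul hy H) (by rw [← LinearMap.comp_assoc, hr, e]) (by simp [r, hv', hm']) hv)
  obtain ⟨h, H, h1⟩ := exists_ws_of_SPar (ρ := ρ) (ψ := ψ) (a := a) hp
  refine inv_mem_iff (H := K).1 ?_ x (Submodule.mem_span_singleton_self x)
  rcases wt_inj hψ ha (ws_unique (h1 l x hx) hpx (map_ne_zero_of_rep ρ _ hx0)) with e | e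
  · exact hB _ h H e
  · refine (mul_mem_cancel_left (show negSp n F ∈ K from fun y hy => by
      rw [hη]; exact Submodule.smul_mem _ _ hy)).1 (hB _ (-h) (fun u => ?_) (by rw [LinearMap.comp_neg, e, neg_neg]))
    rw [sp_mul_mulVec, H, negSp_mulVec, LinearMap.neg_apply, map_neg]

end Cfsg.Agent.H65
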