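import Cfsg.Agent.H65.WeilK
set_option autoImplicit false

/-! Rank one representations are Weil representations. -/

namespace Cfsg.Agent.H65

open Module Matrix QuadraticMap Cfsg.Agent.H27

variable {F : Type*} [Field F] [Fintype F] {n : ℕ}

local notation "𝐟" => sympForm n F
local notation "X" => Fin n ⊕ Fin n → F
local notation "𝐢" => lagr n F

variable {V E : Type*} [AddCommGroup V] [Module ℂ V] [AddCommGroup E] [Module ℂ E]

/-- the setting of the comparison -/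
structure Cmp (ρ : symplecticGroup (Fin n) F →* End ℂ V) (σ : symplecticGroup (Fin n) F →* End ℂ E)
    (π : V →ₗ[ℂ] E) (ψ : AddChar F ℂ) (a : F) (l : Dual F (Fin n → F)) (x : V) : Prop where
  hR : R1 ρ ψ
  hψ : ψ ≠ 1
  h2 : (2 : F) ≠ 0
  hn : 2 ≤ n
  ha : a ≠ 0
  hl : l ≠ 0
  hx : x ∈ ws (tw ρ (lagr n F)) (wtR ψ a l)
  hη : ∃ η : ℂ, ρ (negSp n F) = η • 1
  comm : ∀ g y, π (ρ g y) = σ g (π y)
  ne : π x ≠ 0
  wts : ∀ γ, ∀ y ∈ ws (tw σ (lagr n F)) γ, y ≠ 0 → ∃ l, γ = wtR ψ a l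
  mult : ∀ γ, ∀ y ∈ ws (tw σ (lagr n F)) γ, ∀ y' ∈ ws (tw σ (lagr n F)) γ, y ≠ 0 → ∃ c : ℂ, y' = c • y

/-- the span of the orbit under the parabolic subgroup -/
def spS (ρ : symplecticGroup (Fin n) F →* End ℂ V) (x : V) : Submodule ℂ V :=
  Submodule.span ℂ {y | ∃ p ∈ SPar n F, y = ρ p x}

/-- the Gauss sum -/
noncomputable def gau (ψ : AddChar F ℂ) (a : F) : ℂ := four ψ (fun β => ψ (1 / (4 * a) * β ^ 2)) 0

/-- the candidates for the weight zero vector -/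
noncomputable def spZ (ρ : symplecticGroup (Fin n) F →* End ℂ V) (σ : symplecticGroup (Fin n) F →* End ℂ E) (π : V →ₗ[ℂ] E)
    (ψ : AddChar F ℂ) (a : F) (x : V) (f : X) : Submodule ℂ V :=
  (ws (tw σ 𝐢) (wtR ψ a 0)).comap π ⊓ (spS ρ x).comap (ρ (spT f 1) - gau ψ a • 1)

theorem spS_inv {ρ : symplecticGroup (Fin n) F →* End ℂ V} {x : V} {p : symplecticGroup (Fin n) F}
    (hp : p ∈ SPar n F) {y : V} (hy : y ∈ spS ρ x) : ρ p y ∈ spS ρ x := by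
  refine mem_stabS_span (ρ := ρ) (g := p) ?_ y hy
  rintro _ ⟨p', hp', rfl⟩
  exact Submodule.subset_span ⟨p * p', mul_mem hp hp', by rw [map_mul, End.mul_apply]⟩

theorem mem_spS {ρ : symplecticGroup (Fin n) F →* End ℂ V} {x : V} {p : symplecticGroup (Fin n) F}
    (hp : p ∈ SPar n F) : ρ p x ∈ spS ρ x := Submodule.subset_span ⟨p, hp, rfl⟩

namespace Cmp
variable {ρ : symplecticGroup (Fin n) F →* End ℂ V} {σ : symplecticGroup (Fin n) F →* End ℂ E} {π : V →ₗ[ℂ] E}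
  {ψ : AddChar F ℂ} {a : F} {l : Dual F (Fin n → F)} {x : V} (H : Cmp ρ σ π ψ a l x)
include H

omit [Fintype F] in
theorem map_ws {γ : (Fin n → F) × F → ℂ} {y : V} (hy : y ∈ ws (tw ρ 𝐢) γ) : π y ∈ ws (tw σ 𝐢) γ :=
  mem_ws.2 fun i => by rw [tw, ← H.comm, ← map_smul, ← mem_ws.1 hy i, tw]

theorem gen_ws {p : symplecticGroup (Fin n) F} (hp : p ∈ SPar n F) :
    ∃ l', l' ≠ 0 ∧ ρ p x ∈ ws (tw ρ 𝐢) (wtR ψ a l') := by
  obtain ⟨h, h1, h2⟩ := exists_ws_of_SPar (ρ := ρ) (ψ := ψ) (a := a) hp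
  exact ⟨_, h1.comp_ne H.hl, h2 l x H.hx⟩

theorem exists_gen {l' : Dual F (Fin n → F)} (h : l' ≠ 0) : ∃ p ∈ SPar n F, ρ p x ∈ ws (tw ρ 𝐢) (wtR ψ a l') := by
  obtain ⟨g, hg, rfl⟩ := exists_comp_eq h H.hl
  obtain ⟨p, hp⟩ := exists_levi (ι := 𝐢) lagr_iso lagr_inj hg
  exact ⟨p⁻¹, inv_mem ⟨g, hp⟩, Lv.mem_ws hp H.hx⟩

omit [Fintype F] in
theorem gen_ne (p : symplecticGroup (Fin n) F) : π (ρ p x) ≠ 0 := by
  rw [H.comm]; exact map_ne_zero_of_rep σ p H.ne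

theorem eq_zero_of_wt0 {y : V} (hy : y ∈ spS ρ x) (h : π y ∈ ws (tw σ 𝐢) (wtR ψ a 0)) : π y = 0 := by
  refine mem_of_span_ws (tw_comm σ (ι := 𝐢) lagr_iso) (S := π '' {y | ∃ p ∈ SPar n F, y = ρ p x}) (R := ⊥) ?_ ?_
    (by rw [Submodule.span_image]; exact Submodule.mem_map_of_mem hy) h
  · rintro _ ⟨_, ⟨p, hp, rfl⟩, rfl⟩
    obtain ⟨l', -, h⟩ := H.gen_ws hp
    exact ⟨_, H.map_ws h⟩
  · rintro _ ⟨_, ⟨p, hp, rfl⟩, rfl⟩ h'
    obtain ⟨l', h0, h⟩ := H.gen_ws hp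
    exact absurd (by simpa using wt_inj H.hψ H.ha (ws_unique (H.map_ws h) h' (H.gen_ne p))) h0

variable [FiniteDimensional ℂ V]

theorem eq_zero_of_mem {y : V} (hy : y ∈ spS ρ x) (h : π y = 0) : y = 0 := by
  refine ws_ind (tw_comm ρ (ι := 𝐢) lagr_iso) cast_ringChar_ne_zero (tw_pow ρ) (U := spS ρ x ⊓ LinearMap.ker π)
    (P := ⊥) (fun i y hy => ⟨spS_inv (spT_mem_SPar _ _) hy.1, ?_⟩) (fun γ w hw hw' h0 => ?_) ⟨hy, h⟩
  · rw [SetLike.mem_coe, LinearMap.mem_ker, tw, H.comm, show π y = 0 from hy.2, map_zero]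
  have h1 : ∀ s ∈ {y | ∃ p ∈ SPar n F, y = ρ p x}, ∃ γ, s ∈ ws (tw ρ 𝐢) γ := by
    rintro _ ⟨p, hp, rfl⟩
    obtain ⟨l', -, h⟩ := H.gen_ws hp
    exact ⟨_, h⟩
  by_cases h2 : ∃ p ∈ SPar n F, ρ p x ∈ ws (tw ρ 𝐢) γ
  · obtain ⟨p, hp, h2⟩ := h2
    obtain ⟨c, rfl⟩ : ∃ c : ℂ, c • ρ p x = w := by
      refine Submodule.mem_span_singleton.1 (mem_of_span_ws (tw_comm ρ (ι := 𝐢) lagr_iso) h1 ?_ hw'.1 hw)
      rintro _ ⟨p', hp', rfl⟩ h3
      have hx0 : x ≠ 0 := fun e => H.ne (by rw [e, map_zero])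
      obtain ⟨l', -, h4⟩ := H.gen_ws hp
      obtain rfl := ws_unique h2 h4 (map_ne_zero_of_rep ρ p hx0)
      obtain ⟨h, hh⟩ := id hp
      have h5 := Lv.mem_ws hh h2
      rw [← End.mul_apply, ← map_mul, inv_mul_cancel, map_one, End.one_apply] at h5
      have h6 := Lv.mem_ws hh h3
      rw [ws_unique h5 H.hx hx0, ← End.mul_apply, ← map_mul] at h6
      obtain ⟨η, hη⟩ := H.hη
      obtain ⟨c, hc⟩ := Submodule.mem_span_singleton.1
        (H.hR.key1 H.hψ H.h2 H.hn H.ha H.hx H.hl hη (mul_mem (inv_mem hp) hp') h6)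
      refine Submodule.mem_span_singleton.2 ⟨c, ?_⟩
      rw [← map_smul, hc, ← End.mul_apply, ← map_mul, mul_inv_cancel_left]
    have : c • π (ρ p x) = 0 := (map_smul π _ _).symm.trans hw'.2
    simp [(smul_eq_zero.1 this).resolve_right (H.gen_ne p)] at h0
  · refine mem_of_span_ws (tw_comm ρ (ι := 𝐢) lagr_iso) h1 ?_ hw'.1 hw
    rintro _ ⟨p, hp, rfl⟩ h3
    exact absurd ⟨p, hp, h3⟩ h2

theorem univ' {f : X} (hf : fs f ≠ 0) {l' : Dual F (Fin n → F)} {y : V} (hy : y ∈ ws (tw ρ 𝐢) (wtR ψ a l'))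
    {v : Fin n → F} (h0 : fs f v = 0) (h1 : l' v = 1) (c : F) :
    ρ (spT f c) y = ∑ μ, four ψ (fun β => ψ (c / (4 * a) * β ^ 2)) μ • ρ (spE (μ • f) (𝐢 v)) y :=
  H.hR.univ H.hψ H.h2 H.hn (by rw [sympForm_lagr, h0, neg_zero]) (indep_of_fs hf (by rintro rfl; simp at h1)) H.ha
    (fun c => by simpa [wtR, h1, tw] using mem_ws.1 hy (v, c)) c

theorem step1 {f : X} (hf : fs f ≠ 0) {l' : Dual F (Fin n → F)} {y : V} (hy : y ∈ ws (tw ρ 𝐢) (wtR ψ a l'))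
    (hS : y ∈ spS ρ x) {v : Fin n → F} (h0 : fs f v = 0) (h1 : l' v ≠ 0) (c : F) : ρ (spT f c) y ∈ spS ρ x := by
  rw [H.univ' hf hy (v := (l' v)⁻¹ • v) (by simp [h0]) (by simp [h1])]
  exact Submodule.sum_mem _ fun μ _ => Submodule.smul_mem _ _ (spS_inv (spE_mem_SPar (by
    simp [fs_smul, sympForm_smul_right, sympForm_lagr, h0])) hS)

omit [Fintype F] [FiniteDimensional ℂ V] H in
theorem ne_zero_of_ind {m l' : Dual F (Fin n → F)} (hl' : l' ≠ 0) (h : ∀ v, m v = 0 → l' v = 0)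
    {v : Fin n → F} (hv : m v = 1) : l' v ≠ 0 := fun e => hl' (LinearMap.ext fun u => by
  simpa [e] using h (u - m u • v) (by simp [hv]))

theorem step2 {f f' : X} (hff : 𝐟 f f' = 0) (hi : Ind2 (fs f) (fs f')) {l' : Dual F (Fin n → F)} (hl' : l' ≠ 0)
    (h : ∀ v, fs f v = 0 → l' v = 0) {y : V} (hy : y ∈ ws (tw ρ 𝐢) (wtR ψ a l')) (hS : y ∈ spS ρ x) (c : F) :
    ρ (spT f' 1) (ρ (spT f c) y) - gau ψ a • ρ (spT f c) y ∈ spS ρ x := by
  classical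
  obtain ⟨⟨v, h1, h2⟩, w, h3, h4⟩ := id hi
  have h5 := ne_zero_of_ind hl' h h4
  rw [← End.mul_apply, ← map_mul, ← (spT_comm hff c 1).eq, map_mul, End.mul_apply, ← map_smul, ← map_sub,
    H.univ' hi.symm.ne hy (v := (l' w)⁻¹ • w) (by simp [h3]) (by simp [h5]),
    ← Finset.add_sum_erase _ _ (Finset.mem_univ 0), zero_smul, spE_zero, map_one, End.one_apply, gau,
    add_sub_cancel_left, map_sum]
  refine Submodule.sum_mem _ fun μ hμ => ?_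
  have h6 : 𝐟 (μ • f') (𝐢 ((l' w)⁻¹ • w)) = 0 := by simp [fs_smul, sympForm_smul_right, sympForm_lagr, h3]
  rw [map_smul]
  exact Submodule.smul_mem _ _ (H.step1 hi.ne (spE_mem_ws hy h6) (spS_inv (spE_mem_SPar h6) hS) h1
    (by simp [h v h1, h5, fs_smul, h2, Finset.ne_of_mem_erase hμ]) c)

theorem eq_zero_of_spZ {f : X} {z : V} (hz : z ∈ spZ ρ σ π ψ a x f) (h : π z = 0) : z = 0 := by
  by_contra h0
  have h1 : ρ (spT f 1) z = gau ψ a • z := sub_eq_zero.1 (H.eq_zero_of_mem hz.2 (by simp [H.comm, h]))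
  have h2 : ∀ k : ℕ, ρ (spT f 1 ^ k) z = gau ψ a ^ k • z := fun k => by
    induction k with
    | zero => simp
    | succ k ih => rw [pow_succ, map_mul, End.mul_apply, h1, map_smul, ih, smul_smul, pow_succ']
  have h3 := h2 (ringChar F)
  rw [spT_pow_char, map_one, End.one_apply] at h3
  have h4 : (4 : F) ≠ 0 := by rw [show (4 : F) = 2 * 2 by norm_num]; exact mul_ne_zero H.h2 H.h2
  exact four_pow_ne H.hψ (mul_ne_zero H.h2 (one_div_ne_zero (mul_ne_zero h4 H.ha)))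
    (CharP.ringChar_ne_zero_of_finite F) (smul_left_injective ℂ h0 (h3.symm.trans (one_smul _ _).symm))

theorem spZ_le {f : X} {z : V} (hz : z ∈ spZ ρ σ π ψ a x f) (h0 : z ≠ 0) :
    spZ ρ σ π ψ a x f ≤ Submodule.span ℂ {z} := fun z' hz' => by
  obtain ⟨c, hc⟩ := H.mult _ _ hz.1 _ hz'.1 fun e => h0 (H.eq_zero_of_spZ hz e)
  exact Submodule.mem_span_singleton.2 ⟨c, (sub_eq_zero.1 (H.eq_zero_of_spZ
    (sub_mem hz' (Submodule.smul_mem _ c hz)) (by rw [map_sub, map_smul, hc, sub_self]))).symm⟩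

variable [FiniteDimensional ℂ E]

theorem step3 {f f' : X} (hff : 𝐟 f f' = 0) (hi : Ind2 (fs f) (fs f')) (c : F) {y : V} (hy : y ∈ spS ρ x) :
    ρ (spT f c) y ∈ spS ρ x ⊔ spZ ρ σ π ψ a x f' := by
  refine (Submodule.span_le (p := (spS ρ x ⊔ spZ ρ σ π ψ a x f').comap (ρ (spT f c)))).2 ?_ hy
  rintro _ ⟨p, hp, rfl⟩
  obtain ⟨l', hl', h1⟩ := H.gen_ws hp
  by_cases h : ∃ v, fs f v = 0 ∧ l' v ≠ 0
  · obtain ⟨v, h2, h3⟩ := h
    exact Submodule.mem_sup_left (H.step1 hi.ne h1 (mem_spS hp) h2 h3 c)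
  push Not at h
  have h2 := H.step2 hff hi hl' h h1 (mem_spS hp) c
  have h3 := ws_ind (tw_comm σ (ι := 𝐢) lagr_iso) cast_ringChar_ne_zero (tw_pow σ)
    (U := ws (fun i : LinearMap.ker (fs f) × F => tw σ 𝐢 (i.1, i.2)) fun _ => 1)
    (P := (spS ρ x ⊓ (spS ρ x).comap (ρ (spT f' 1))).map π ⊔ ws (tw σ 𝐢) (wtR ψ a 0))
    (fun i y hy => mem_ws.2 fun j => by
      rw [← End.mul_apply, (tw_comm σ (ι := 𝐢) lagr_iso _ _).eq, End.mul_apply, mem_ws.1 hy j, map_smul])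
    (fun γ w hw hw' h0 => ?_) (x := π (ρ (spT f c) (ρ p x))) (mem_ws.2 fun j => ?_)
  · obtain ⟨_, ⟨r, hr, rfl⟩, z, hz, e⟩ := Submodule.mem_sup.1 h3
    refine Submodule.mem_sup.2 ⟨r, hr.1, ρ (spT f c) (ρ p x) - r, ⟨?_, ?_⟩, add_sub_cancel _ _⟩
    · rwa [SetLike.mem_coe, Submodule.mem_comap, map_sub, ← e, add_sub_cancel_left]
    · rw [SetLike.mem_coe, Submodule.mem_comap, map_sub]
      exact sub_mem h2 (sub_mem hr.2 (Submodule.smul_mem _ _ hr.1))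
  · obtain ⟨m, rfl⟩ := H.wts γ w hw h0
    by_cases hm : m = 0
    · exact Submodule.mem_sup_right (hm ▸ hw)
    obtain ⟨p', hp', h4⟩ := H.exists_gen hm
    obtain ⟨d, rfl⟩ := H.mult _ _ (H.map_ws h4) _ hw (H.gen_ne p')
    obtain ⟨v, h5, h6⟩ := hi.2
    refine Submodule.mem_sup_left (Submodule.smul_mem _ _ (Submodule.mem_map_of_mem ⟨mem_spS hp',
      H.step1 hi.symm.ne h4 (mem_spS hp') h5 (ne_zero_of_ind hm (fun u hu => ?_) h6) 1⟩))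
    have : a * m u ^ 2 = 0 := eq_of_char H.hψ fun c => by
      simpa [wtR] using smul_left_injective ℂ h0 ((mem_ws.1 hw (u, c)).symm.trans (mem_ws.1 hw' (⟨u, hu⟩, c)))
    simpa [H.ha] using this
  · have := mem_ws.1 h1 (j.1, j.2)
    simp only [tw, wtR, h j.1 j.1.2] at this
    rw [tw, ← H.comm, ← End.mul_apply, ← map_mul, (spT_comm (u := 𝐢 j.1) (v := f) j.1.2 _ _).eq, map_mul,
      End.mul_apply, this]
    simp

theorem exists_inv : ∃ M : Submodule ℂ V, (∀ g, ∀ y ∈ M, ρ g y ∈ M) ∧ x ∈ M ∧ ∀ y ∈ M, π y = 0 → y = 0 := by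
  have hx : x ∈ spS ρ x := by simpa using mem_spS (ρ := ρ) (x := x) (one_mem _)
  by_cases h0 : ∀ f c, ∀ y ∈ spS ρ x, ρ (spT f c) y ∈ spS ρ x
  · refine ⟨spS ρ x, fun g => ?_, hx, fun y => H.eq_zero_of_mem⟩
    exact (sp_eq_top_of_spT_mem (stabS ρ (spS ρ x)) h0 ▸ Subgroup.mem_top g : g ∈ stabS ρ (spS ρ x))
  push Not at h0
  obtain ⟨f₀, c₀, y₀, hy₀, h0⟩ := h0
  have hf₀ : fs f₀ ≠ 0 := fun e => by
    obtain ⟨u, rfl⟩ := exists_of_fs e
    exact h0 (spS_inv (spT_mem_SPar _ _) hy₀)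
  have h1 : ∀ f, fs f ≠ 0 → ∃ y ∈ spS ρ x, ∀ f', 𝐟 f f' = 0 → Ind2 (fs f) (fs f') →
      spZ ρ σ π ψ a x f' ≤ spS ρ x ⊔ Submodule.span ℂ {ρ (spT f c₀) y} := fun f hf => by
    obtain ⟨p, hp, rfl⟩ := exists_SPar H.h2 hf₀ hf
    refine ⟨ρ p y₀, spS_inv hp hy₀, fun f' h1 h2 => ?_⟩
    obtain ⟨s, hs, z, hz, e⟩ := Submodule.mem_sup.1 (H.step3 h1 h2 c₀ (spS_inv hp hy₀))
    refine (H.spZ_le hz ?_).trans ((Submodule.span_singleton_le_iff_mem _ _).2 ?_)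
    · rintro rfl
      rw [add_zero, ← conj_spT, ← End.mul_apply, ← map_mul, inv_mul_cancel_right, map_mul, End.mul_apply] at e
      have := spS_inv (inv_mem hp) hs
      rw [e, ← End.mul_apply, ← map_mul, inv_mul_cancel, map_one, End.one_apply] at this
      exact h0 this
    · rw [eq_sub_of_add_eq' e]
      exact sub_mem (Submodule.mem_sup_right (Submodule.mem_span_singleton_self _)) (Submodule.mem_sup_left hs)
  have h2 : ∀ f f', Ind2 (fs f) (fs f') → spZ ρ σ π ψ a x f ≤ spS ρ x ⊔ spZ ρ σ π ψ a x f' := fun f f' h => by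
    obtain ⟨g, h2, h3⟩ := exists_adj2 h
    obtain ⟨y, hy, h4⟩ := h1 g h2.2.ne
    exact (h4 f h2.1 h2.2).trans (sup_le le_sup_left
      ((Submodule.span_singleton_le_iff_mem _ _).2 (H.step3 h3.1 h3.2 c₀ hy)))
  have h3 : ∀ f', fs f' ≠ 0 → Submodule.span ℂ {w | ∃ f c, ∃ y ∈ spS ρ x, w = ρ (spT f c) y} ≤
      spS ρ x ⊔ spZ ρ σ π ψ a x f' := fun f' hf' => by
    refine Submodule.span_le.2 ?_
    rintro _ ⟨f, c, y, hy, rfl⟩
    by_cases hf : fs f = 0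
    · obtain ⟨u, rfl⟩ := exists_of_fs hf
      exact Submodule.mem_sup_left (spS_inv (spT_mem_SPar _ _) hy)
    obtain ⟨g, h4, h5⟩ := exists_adj H.hn hf
    obtain ⟨m, h6, h7⟩ := exists_ind2 (by simpa using H.hn) h5.symm.ne hf'
    obtain ⟨g', rfl⟩ := exists_fs m
    exact (sup_le le_sup_left ((h2 _ _ h6.symm).trans (sup_le le_sup_left (h2 _ _ h7)))) (H.step3 h4 h5 c hy)
  refine ⟨Submodule.span ℂ {w | ∃ f c, ∃ y ∈ spS ρ x, w = ρ (spT f c) y}, fun g => ?_,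
    Submodule.subset_span ⟨0, 0, x, hx, by rw [spT_zero, map_one, End.one_apply]⟩, fun y hy h => ?_⟩
  · refine (sp_eq_top_of_spT_mem (stabS ρ _) (fun f c => ?_) ▸ Subgroup.mem_top g : g ∈ stabS ρ _)
    by_cases hf : fs f = 0
    · obtain ⟨u, rfl⟩ := exists_of_fs hf
      refine mem_stabS_span ?_
      rintro _ ⟨f, c', y, hy, rfl⟩
      refine Submodule.subset_span ⟨(spT (𝐢 u) c).1 *ᵥ f, c', _, spS_inv (spT_mem_SPar u c) hy, ?_⟩
      rw [← End.mul_apply, ← End.mul_apply, ← map_mul, ← map_mul, ← conj_spT, inv_mul_cancel_right]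
    obtain ⟨g, h4, h5⟩ := exists_adj H.hn hf
    obtain ⟨y, hy, h6⟩ := h1 f hf
    intro w hw
    obtain ⟨s, hs, z, hz, rfl⟩ := Submodule.mem_sup.1
      (((h3 g h5.symm.ne).trans (sup_le le_sup_left (h6 g h4 h5))) hw)
    obtain ⟨d, rfl⟩ := Submodule.mem_span_singleton.1 hz
    rw [map_add, map_smul, ← End.mul_apply, ← map_mul, spT_mul]
    exact add_mem (Submodule.subset_span ⟨f, c, s, hs, rfl⟩)
      (Submodule.smul_mem _ _ (Submodule.subset_span ⟨f, _, y, hy, rfl⟩))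
  · obtain ⟨s, hs, z, hz, rfl⟩ := Submodule.mem_sup.1 (h3 f₀ hf₀ hy)
    rw [map_add] at h
    have h4 : π s = 0 := H.eq_zero_of_wt0 hs (by rw [eq_neg_of_add_eq_zero_left h]; exact neg_mem hz.1)
    rw [H.eq_zero_of_mem hs h4, H.eq_zero_of_spZ hz (by simpa [h4] using h), add_zero]

end Cmp

end Cfsg.Agent.H65
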